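import Cfsg.Agent.ChevGrp.Bridge
import Cfsg.Agent.ChevGrp.Parabolic
import Cfsg.Agent.ChevGrp.Longest
import Cfsg.Agent.ChevGrp.Thms

/-!
Centralizers of root elements centralized by `U` (highest roots) in Chevalley groups.
-/

set_option autoImplicit false

namespace Cfsg.Agent.Known.ChevCent

open Cfsg.Lie Cfsg.Agent.ChevGrp
open scoped MatrixGroups

variable {D : ChevalleyDatum} {F : Type*} [Field F] {G : Type*} [Group G] (S : Sys D F G) {len : ℕ → ℕ}

/-- The subgroup generated by `U` and the `X_{-p}` with `p` fundamental and in `J`. -/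
def cenSub (J : Finset (Fin D.rank)) : Subgroup G :=
  S.Ubar ⊔ S.US {s | ∃ i ∈ J, s = D.neg (D.simple i)}

/-- Hypotheses on a set `R` of roots: positive, elementwise centralized by `U`, `J` is the set of
fundamental roots fixing all of them, and the others are in Kronecker duality with `R`. -/
structure TopRoots (R : Finset ℕ) (J : Finset (Fin D.rank)) (ι : ℕ → Fin D.rank) : Prop where
  pos : ∀ r ∈ R, D.IsPosRoot r
  central : ∀ r ∈ R, ∀ s, D.IsPosRoot s → ∀ t u : F, Commute (S.x s u) (S.x r t)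
  fix : ∀ i ∈ J, ∀ r ∈ R, D.cartan i r = 0
  dual : ∀ r ∈ R, D.cartan (ι r) r = 1 ∧ ∀ r' ∈ R, r' ≠ r → D.cartan (ι r) r' = 0
  mem_or : ∀ i, i ∈ J ∨ ∃ r ∈ R, i = ι r

variable {R : Finset ℕ} {J : Finset (Fin D.rank)} {ι : ℕ → Fin D.rank}

theorem singleton_closed (hR : RootTable D len) {r : ℕ} (hr : D.IsPosRoot r) :
    UClosed D len (htHom D) ({r} : Set ℕ) :=
  hR.posSet_closed.subset_closed (fun s hs => by rw [Set.mem_singleton_iff.1 hs]; exact hr)
    fun a ha s hs hne => absurd ((Set.mem_singleton_iff.1 hs).trans (Set.mem_singleton_iff.1 ha).symm) hne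

theorem root_eq_of_mem (hS : Rules D F) (hR : RootTable D len) {r s : ℕ} (hr : D.IsPosRoot r)
    (hs : s < D.nroots) {a : F} (ha : a ≠ 0) (h : S.x s a ∈ S.US {r}) : s = r :=
  S.root_mem_of_mem_US hR (singleton_closed hR hr)
    (fun x hx => by rw [Set.mem_singleton_iff.1 hx]; exact hr) hs ha hS h

theorem reflect_eq_self (hR : RootTable D len) (i : Fin D.rank) {s : ℕ} (hs : s < D.nroots)
    (h : D.cartan i s = 0) : D.reflectRoot i s = s := by
  refine hR.vec_inj _ (hR.reflect_lt i i.2 s hs) _ hs ?_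
  rw [hR.vec_reflect i i.2 s hs, h, zero_smul, sub_zero]

theorem cartan_eq_zero_of_fix (hR : RootTable D len) (i : Fin D.rank) {s : ℕ} (hs : s < D.nroots)
    (h : D.reflectRoot i s = s) : D.cartan i s = 0 := by
  have e := hR.vec_reflect i i.2 s hs
  rw [h, eq_comm, sub_eq_self] at e
  exact (smul_eq_zero.1 e).resolve_right (hR.vec_ne_zero _ (hR.simple_lt i i.2))

theorem Ubar_centralizes (hT : TopRoots S R J ι) {v : G} (hv : v ∈ S.Ubar) {r : ℕ} (hr : r ∈ R) (t : F) :
    Commute v (S.x r t) := by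
  refine Subgroup.closure_induction ?_ ?_ ?_ ?_ hv
  · rintro _ ⟨s, hs, u, rfl⟩
    exact hT.central r hr s hs t u
  · exact Commute.one_left _
  · exact fun a b _ _ ha hb => ha.mul_left hb
  · exact fun a _ ha => ha.inv_left

theorem conjP_fix (hR : RootTable D len) {g : G} {w : List (Fin D.rank)} (h : S.ConjP g w) {r : ℕ}
    (hr : r < D.nroots) {a : F} (hga : g * S.x r 1 * g⁻¹ = S.x r a) : act D w r = r := by
  obtain ⟨b, hb, hgb⟩ := h
  refine S.x_root_inj hR (hR.act_lt w hr) hr ?_ ((hgb r hr 1).symm.trans hga)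
  simpa using right_ne_zero_of_mul_eq_one (hb r hr)

theorem negSimple_centralizes (hS : Rules D F) (hR : RootTable D len) (hT : TopRoots S R J ι)
    {i : Fin D.rank} (hi : i ∈ J) (u : F) {r : ℕ} (hr : r ∈ R) (t : F) :
    Commute (S.x (D.neg (D.simple i)) u) (S.x r t) := by
  obtain ⟨a, ha, hga⟩ := S.conjP_nI hS hR i
  have hr' := (hT.pos r hr).1
  have hp := hR.simple_lt i i.2
  have e1 := hga _ hp (u / a (D.simple i))
  have e2 := hga r hr' (t / a r)
  rw [act_singleton, mul_div_cancel₀ _ (right_ne_zero_of_mul_eq_one (ha _ hp)), hR.reflect_simple i.2] at e1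
  rw [act_singleton, mul_div_cancel₀ _ (right_ne_zero_of_mul_eq_one (ha _ hr')),
    reflect_eq_self hR i hr' (hT.fix i hi r hr)] at e2
  rw [← e1, ← e2]
  exact Commute.map (hT.central r hr _ (hR.simple_pos i) _ _) (MulAut.conj (S.nI i)).toMonoidHom

theorem cenSub_centralizes (hS : Rules D F) (hR : RootTable D len) (hT : TopRoots S R J ι) {g : G}
    (hg : g ∈ cenSub S J) {r : ℕ} (hr : r ∈ R) (t : F) : Commute g (S.x r t) := by
  have : cenSub S J ≤ Subgroup.centralizer {S.x r t} := by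
    refine sup_le (fun v hv => ?_) ?_
    · exact Subgroup.mem_centralizer_singleton_iff.2 (Ubar_centralizes S hT hv hr t).eq
    · rw [Sys.US, Subgroup.closure_le]
      rintro _ ⟨s, ⟨i, hi, rfl⟩, u, rfl⟩
      exact Subgroup.mem_centralizer_singleton_iff.2 (negSimple_centralizes S hS hR hT hi u hr t).eq
  exact Subgroup.mem_centralizer_singleton_iff.1 (this hg)

theorem Ubar_le_cenSub : S.Ubar ≤ cenSub S J := le_sup_left

theorem x_neg_mem_cenSub {i : Fin D.rank} (hi : i ∈ J) (u : F) :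
    S.x (D.neg (D.simple i)) u ∈ cenSub S J :=
  Subgroup.mem_sup_right (S.x_mem_US (T := {s | ∃ j ∈ J, s = D.neg (D.simple j)}) ⟨i, hi, rfl⟩ u)

theorem nEl_mem_cenSub (hR : RootTable D len) {i : Fin D.rank} (hi : i ∈ J) (c : F) :
    S.nEl (D.simple i) c ∈ cenSub S J :=
  mul_mem (mul_mem (Ubar_le_cenSub S (S.x_mem_US (hR.simple_pos i) _)) (x_neg_mem_cenSub S hi _))
    (Ubar_le_cenSub S (S.x_mem_US (hR.simple_pos i) _))

theorem cenSub_le_Gbar (hR : RootTable D len) : cenSub S J ≤ S.Gbar := by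
  refine sup_le ?_ ?_
  · rw [Sys.Ubar, Sys.US, Subgroup.closure_le]
    rintro _ ⟨s, hs, t, rfl⟩
    exact Subgroup.subset_closure ⟨s, hs.1, t, rfl⟩
  · rw [Sys.US, Subgroup.closure_le]
    rintro _ ⟨s, ⟨i, -, rfl⟩, t, rfl⟩
    exact Subgroup.subset_closure ⟨_, hR.neg_lt _ (hR.simple_lt i i.2), t, rfl⟩

/-- A Weyl element fixing all roots of `R` is a product of the `n_i` with `i ∈ J`. -/
theorem nW_mem_cenSub (hS : Rules D F) (hR : RootTable D len) (hT : TopRoots S R J ι) :
    ∀ w : List (Fin D.rank), Reduced D w → (∀ r ∈ R, act D w r = r) → S.nW w ∈ cenSub S J := by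
  let P : Subgroup G := ⨅ r ∈ R, Subgroup.normalizer (S.US {r} : Set G)
  have hnW : ∀ w : List (Fin D.rank), (∀ r ∈ R, act D w r = r) → S.nW w ∈ P := by
    intro w hw
    simp only [P, Subgroup.mem_iInf]
    intro r hr
    have hr' := (hT.pos r hr).1
    obtain ⟨a, ha, hga⟩ := S.conjP_nW hS hR w
    refine S.mem_normalizer_US (fun s hs t => ?_) fun s hs t => ?_
    · rw [Set.mem_singleton_iff.1 hs, hga r hr', hw r hr]
      exact S.x_mem_US (Set.mem_singleton r) _
    · rw [Set.mem_singleton_iff.1 hs]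
      have e := hga r hr' (t / a r)
      rw [hw r hr, mul_div_cancel₀ _ (right_ne_zero_of_mul_eq_one (ha r hr'))] at e
      rw [← e]
      simpa [mul_assoc] using S.x_mem_US (Set.mem_singleton r) (t / a r)
  have hUP : S.Ubar ≤ P := by
    simp only [P, le_iInf_iff]
    intro r hr v hv
    refine S.mem_normalizer_US (fun s hs t => ?_) fun s hs t => ?_ <;>
      rw [Set.mem_singleton_iff.1 hs]
    · rw [(Ubar_centralizes S hT hv hr t).eq, mul_inv_cancel_right]
      exact S.x_mem_US (Set.mem_singleton r) _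
    · rw [mul_assoc, ← (Ubar_centralizes S hT hv hr t).eq, inv_mul_cancel_left]
      exact S.x_mem_US (Set.mem_singleton r) _
  intro w
  induction w with
  | nil => intros; exact one_mem _
  | cons i w ih =>
    intro hred hfix
    obtain ⟨hredw, hq⟩ := hR.reduced_of_cons hred
    set q := act D w.reverse (D.simple i) with hqd
    have hn : S.nI i ∈ P := by
      have hp := hR.simple_lt i i.2
      have hneg : ∀ t : F, S.x (D.neg (D.simple i)) t ∈ P := by
        intro t
        obtain ⟨a, ha, hga⟩ := S.conjP_nW hS hR (i :: w)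
        have e := hga q (hR.act_lt _ hp) (t / a q)
        rw [mul_div_cancel₀ _ (right_ne_zero_of_mul_eq_one (ha q (hR.act_lt _ hp))), act_cons, hqd,
          hR.act_act_reverse w hp, hR.reflect_simple i.2] at e
        rw [← e]
        exact mul_mem (mul_mem (hnW _ hfix) (hUP (S.x_mem_US hq _))) (inv_mem (hnW _ hfix))
      exact mul_mem (mul_mem (hUP (S.x_mem_US (hR.simple_pos i) _)) (hneg _))
        (hUP (S.x_mem_US (hR.simple_pos i) _))
    have hfi : ∀ r ∈ R, D.reflectRoot i r = r := by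
      intro r hr
      simp only [P, Subgroup.mem_iInf] at hn
      obtain ⟨a, ha, hga⟩ := S.conjP_nI hS hR i
      have h1 := (Subgroup.mem_normalizer_iff.1 (hn r hr) _).1 (S.x_mem_US (Set.mem_singleton r) 1)
      rw [hga r (hT.pos r hr).1, act_singleton, mul_one] at h1
      exact root_eq_of_mem S hS hR (hT.pos r hr) (hR.reflect_lt i i.2 r (hT.pos r hr).1)
        (right_ne_zero_of_mul_eq_one (ha r (hT.pos r hr).1)) h1
    have hiJ : i ∈ J := by
      rcases hT.mem_or i with h | ⟨r, hr, rfl⟩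
      · exact h
      · have := cartan_eq_zero_of_fix hR (ι r) (hT.pos r hr).1 (hfi r hr)
        rw [(hT.dual r hr).1] at this
        exact absurd this one_ne_zero
    rw [Sys.nW_cons]
    refine mul_mem (nEl_mem_cenSub S hR hiJ 1) (ih hredw fun r hr => ?_)
    have h := congrArg (D.reflectRoot i) (hfix r hr)
    rwa [act_cons, hR.reflect_reflect i.2 (hR.act_lt w (hT.pos r hr).1), hfi r hr] at h

/-- The torus elements with fundamental coordinates in `I`. -/
def torI (I : Finset (Fin D.rank)) : Subgroup G :=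
  Subgroup.closure {g | ∃ i ∈ I, ∃ c : F, c ≠ 0 ∧ g = S.hEl (D.simple i) c}

theorem torI_le_Hbar (I : Finset (Fin D.rank)) : torI S I ≤ S.Hbar :=
  Subgroup.closure_mono fun _ ⟨i, _, c, hc, h⟩ => ⟨i, c, hc, h⟩

theorem hEl_centralizes (hS : Rules D F) (hR : RootTable D len) {I : Finset (Fin D.rank)} {r : ℕ}
    (hr : r < D.nroots) (hI : ∀ i ∈ I, D.cartan i r = 0) {h : G} (hh : h ∈ torI S I) (t : F) :
    Commute h (S.x r t) := by
  have : torI S I ≤ Subgroup.centralizer {S.x r t} := by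
    rw [torI, Subgroup.closure_le]
    rintro _ ⟨i, hi, c, hc, rfl⟩
    refine Subgroup.mem_centralizer_singleton_iff.2 ?_
    have e := S.conjP_hI hS hR i hc r hr t
    rw [hI i hi, zpow_zero, one_mul, mul_inv_eq_iff_eq_mul] at e
    exact e
  exact Subgroup.mem_centralizer_singleton_iff.1 (this hh)

/-- Torus elements centralizing `x_r(1)` for a root dual to the `i₀`-th coroot only. -/
theorem torI_erase (hS : Rules D F) (hR : RootTable D len)
    (hcomm : ∀ a ∈ S.Hbar, ∀ b ∈ S.Hbar, a * b = b * a)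
    (hmul : ∀ i : Fin D.rank, ∀ c d : F, c ≠ 0 → d ≠ 0 →
      S.hEl (D.simple i) c * S.hEl (D.simple i) d = S.hEl (D.simple i) (c * d))
    {I : Finset (Fin D.rank)} {i₀ : Fin D.rank} {r : ℕ} (hr : r < D.nroots)
    (h1 : D.cartan i₀ r = 1) (hI : ∀ i ∈ I.erase i₀, D.cartan i r = 0) {h : G} (hh : h ∈ torI S I)
    (hfix : Commute h (S.x r 1)) : h ∈ torI S (I.erase i₀) := by
  have hp := hR.simple_lt i₀ i₀.2
  have key : ∃ c : F, c ≠ 0 ∧ ∃ m ∈ torI S (I.erase i₀), h = m * S.hEl (D.simple i₀) c := by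
    refine Subgroup.closure_induction ?_ ?_ ?_ ?_ hh
    · rintro _ ⟨i, hi, c, hc, rfl⟩
      by_cases e : i = i₀
      · exact ⟨c, hc, 1, one_mem _, by rw [e, one_mul]⟩
      · exact ⟨1, one_ne_zero, S.hEl (D.simple i) c,
          Subgroup.subset_closure ⟨i, Finset.mem_erase.2 ⟨e, hi⟩, c, hc, rfl⟩,
          by rw [S.hEl_one hR hp, mul_one]⟩
    · exact ⟨1, one_ne_zero, 1, one_mem _, by rw [S.hEl_one hR hp, mul_one]⟩
    · rintro _ _ _ _ ⟨c, hc, m, hm, rfl⟩ ⟨d, hd, n, hn, rfl⟩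
      refine ⟨c * d, mul_ne_zero hc hd, m * n, mul_mem hm hn, ?_⟩
      rw [← hmul i₀ c d hc hd, mul_assoc m, ← mul_assoc (S.hEl (D.simple i₀) c) n,
        hcomm (S.hEl (D.simple i₀) c) (S.hEl_mem_Hbar hS hR hp hc) n (torI_le_Hbar S _ hn)]
      simp only [mul_assoc]
    · rintro _ _ ⟨c, hc, m, hm, rfl⟩
      refine ⟨c⁻¹, inv_ne_zero hc, m⁻¹, inv_mem hm, ?_⟩
      have e : (S.hEl (D.simple i₀) c)⁻¹ = S.hEl (D.simple i₀) c⁻¹ := by
        refine inv_eq_of_mul_eq_one_right ?_
        rw [hmul i₀ c _ hc (inv_ne_zero hc), mul_inv_cancel₀ hc, S.hEl_one hR hp]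
      rw [mul_inv_rev, e]
      exact hcomm _ (S.hEl_mem_Hbar hS hR hp (inv_ne_zero hc)) _ (inv_mem (torI_le_Hbar S _ hm))
  obtain ⟨c, hc, m, hm, rfl⟩ := key
  have hm1 := hEl_centralizes S hS hR hr hI hm (1 : F)
  have hd : Commute (S.hEl (D.simple i₀) c) (S.x r 1) := by
    simpa using hm1.inv_left.mul_left hfix
  have e := S.conjP_hI hS hR i₀ hc r hr (1 : F)
  rw [hd.eq, mul_inv_cancel_right, h1, zpow_one, mul_one] at e
  have hc1 : c = 1 := by
    by_contra hne
    have e2 : S.x r (c - 1) = 1 := by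
      rw [sub_eq_add_neg, ← S.x_add r hr, ← S.x_inv hr, ← e, mul_inv_cancel]
    have e3 : S.x r (c - 1) = S.x (D.neg r) 0 := by rw [e2, S.x_zero (hR.neg_lt r hr)]
    exact hR.neg_ne hr (S.x_root_inj hR hr (hR.neg_lt r hr) (sub_ne_zero.2 hne) e3).symm
  subst hc1
  rwa [S.hEl_one hR hp, mul_one]

theorem torI_mem_of_fix (hS : Rules D F) (hR : RootTable D len)
    (hcomm : ∀ a ∈ S.Hbar, ∀ b ∈ S.Hbar, a * b = b * a)
    (hmul : ∀ i : Fin D.rank, ∀ c d : F, c ≠ 0 → d ≠ 0 →
      S.hEl (D.simple i) c * S.hEl (D.simple i) d = S.hEl (D.simple i) (c * d))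
    (hT : TopRoots S R J ι) {h : G} (hh : h ∈ S.Hbar) (hfix : ∀ r ∈ R, Commute h (S.x r 1)) :
    h ∈ cenSub S J := by
  classical
  have key : ∀ s ⊆ R, h ∈ torI S (Finset.univ \ s.image ι) := by
    intro s
    induction s using Finset.induction_on with
    | empty =>
      intro _
      refine Subgroup.closure_mono ?_ hh
      rintro _ ⟨i, c, hc, rfl⟩
      exact ⟨i, by simp, c, hc, rfl⟩
    | insert r s hrs ih =>
      intro hsub
      have hrR := hsub (Finset.mem_insert_self r s)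
      have hsR : s ⊆ R := (Finset.subset_insert r s).trans hsub
      rw [Finset.image_insert, Finset.sdiff_insert]
      refine torI_erase S hS hR hcomm hmul (hT.pos r hrR).1 (hT.dual r hrR).1 (fun i hi => ?_)
        (ih hsR) (hfix r hrR)
      rcases hT.mem_or i with hiJ | ⟨r', hr', rfl⟩
      · exact hT.fix i hiJ r hrR
      · exact (hT.dual r' hr').2 r hrR fun e => (Finset.mem_erase.1 hi).1 (by rw [e])
  refine (?_ : torI S (Finset.univ \ R.image ι) ≤ cenSub S J) (key R subset_rfl)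
  rw [torI, Subgroup.closure_le]
  rintro _ ⟨i, hi, c, -, rfl⟩
  have hiJ : i ∈ J := by
    rcases hT.mem_or i with h | ⟨r', hr', rfl⟩
    · exact h
    · exact absurd (Finset.mem_image_of_mem ι hr') (Finset.mem_sdiff.1 hi).2
  exact mul_mem (nEl_mem_cenSub S hR hiJ _) (nEl_mem_cenSub S hR hiJ _)

/-- The centralizer of the root elements `x_r(1)`, `r ∈ R`. -/
theorem centralizer_roots (hS : Rules D F) (hR : RootTable D len)
    (hcomm : ∀ a ∈ S.Hbar, ∀ b ∈ S.Hbar, a * b = b * a)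
    (hmul : ∀ i : Fin D.rank, ∀ c d : F, c ≠ 0 → d ≠ 0 →
      S.hEl (D.simple i) c * S.hEl (D.simple i) d = S.hEl (D.simple i) (c * d))
    (hT : TopRoots S R J ι) {g : G} :
    (g ∈ S.Gbar ∧ ∀ r ∈ R, Commute g (S.x r 1)) ↔ g ∈ cenSub S J := by
  refine ⟨fun ⟨hg, hfix⟩ => ?_, fun hg =>
    ⟨cenSub_le_Gbar S hR hg, fun r hr => cenSub_centralizes S hS hR hT hg hr 1⟩⟩
  obtain ⟨b, hb, w, hw, v, hv, rfl⟩ := S.mem_NF hS hR hg
  obtain ⟨u, hu, h, hh, rfl⟩ := (S.mem_Bbar hS hR).1 hb
  have hvU : v ∈ S.Ubar := S.US_mono (fun r h => h.1) hv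
  have hk : ∀ r ∈ R, Commute (h * S.nW w) (S.x r 1) := by
    intro r hr
    simpa [mul_assoc] using
      ((Ubar_centralizes S hT hu hr 1).inv_left.mul_left (hfix r hr)).mul_left
        (Ubar_centralizes S hT hvU hr 1).inv_left
  have hact : ∀ r ∈ R, act D w r = r := by
    intro r hr
    have hc : S.ConjP (h * S.nW w) w := by
      simpa using (S.conjP_Hbar hS hR hh).mul hR (S.conjP_nW hS hR w)
    refine conjP_fix S hR hc (hT.pos r hr).1 (a := 1) ?_
    rw [(hk r hr).eq, mul_inv_cancel_right]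
  have hn := nW_mem_cenSub S hS hR hT w hw hact
  have hh' : ∀ r ∈ R, Commute h (S.x r 1) := by
    intro r hr
    simpa using (hk r hr).mul_left (cenSub_centralizes S hS hR hT hn hr 1).inv_left
  exact mul_mem (mul_mem (mul_mem (Ubar_le_cenSub S hu)
    (torI_mem_of_fix S hS hR hcomm hmul hT hh hh')) hn) (Ubar_le_cenSub S hvU)

end Cfsg.Agent.Known.ChevCent
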