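import Cfsg.Agent.Known.ChevCentMin
import Cfsg.Agent.Chev.Rules
import Cfsg.Prelude.Def_ChevF4
import Cfsg.Prelude.Def_ChevG2

/-!
The non-central involution centralizers in `G₂` and `F₄` in characteristic two.
-/

set_option autoImplicit false

namespace Cfsg.Agent.Known.ChevCent

open Cfsg.Lie Cfsg.Agent.ChevGrp
open scoped MatrixGroups

variable {D : ChevalleyDatum} {F : Type*} [Field F] {G : Type*} [Group G] (S : Sys D F G) {len : ℕ → ℕ}

theorem torI_decomp (hS : Rules D F) (hR : RootTable D len)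
    (hcomm : ∀ a ∈ S.Hbar, ∀ b ∈ S.Hbar, a * b = b * a)
    (hmul : ∀ i : Fin D.rank, ∀ c d : F, c ≠ 0 → d ≠ 0 →
      S.hEl (D.simple i) c * S.hEl (D.simple i) d = S.hEl (D.simple i) (c * d))
    {I : Finset (Fin D.rank)} (i₀ : Fin D.rank) {h : G} (hh : h ∈ torI S I) :
    ∃ c : F, c ≠ 0 ∧ ∃ m ∈ torI S (I.erase i₀), h = m * S.hEl (D.simple i₀) c := by
  have hp := hR.simple_lt i₀ i₀.2
  refine Subgroup.closure_induction ?_ ?_ ?_ ?_ hh
  · rintro _ ⟨i, hi, c, hc, rfl⟩
    by_cases e : i = i₀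
    · exact ⟨c, hc, 1, one_mem _, by rw [e, one_mul]⟩
    · exact ⟨1, one_ne_zero, S.hEl (D.simple i) c,
        Subgroup.subset_closure ⟨i, Finset.mem_erase.2 ⟨e, hi⟩, c, hc, rfl⟩,
        by rw [S.hEl_one hR hp, mul_one]⟩
  · exact ⟨1, one_ne_zero, 1, one_mem _, by rw [S.hEl_one hR hp, mul_one]⟩
  · rintro _ _ _ _ ⟨c, hc, m, hm, rfl⟩ ⟨d, hd, n, hn, rfl⟩
    refine ⟨c * d, mul_ne_zero hc hd, m * n, mul_mem hm hn, ?_⟩
    rw [← hmul i₀ c d hc hd, mul_assoc m, ← mul_assoc (S.hEl (D.simple i₀) c) n,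
      hcomm (S.hEl (D.simple i₀) c) (S.hEl_mem_Hbar hS hR hp hc) n (torI_le_Hbar S _ hn)]
    simp only [mul_assoc]
  · rintro _ _ ⟨c, hc, m, hm, rfl⟩
    refine ⟨c⁻¹, inv_ne_zero hc, m⁻¹, inv_mem hm, ?_⟩
    have e : (S.hEl (D.simple i₀) c)⁻¹ = S.hEl (D.simple i₀) c⁻¹ := by
      refine inv_eq_of_mul_eq_one_right ?_
      rw [hmul i₀ c _ hc (inv_ne_zero hc), mul_inv_cancel₀ hc, S.hEl_one hR hp]
    rw [mul_inv_rev, e]
    exact hcomm _ (S.hEl_mem_Hbar hS hR hp (inv_ne_zero hc)) _ (inv_mem (torI_le_Hbar S _ hm))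

theorem scalar_one (hR : RootTable D len) {r : ℕ} (hr : r < D.nroots) {a : F} (e : S.x r a = S.x r 1) :
    a = 1 := by
  by_contra hne
  have e2 : S.x r (a - 1) = 1 := by
    rw [sub_eq_add_neg, ← S.x_add r hr, ← S.x_inv hr, ← e, mul_inv_cancel]
  have e3 : S.x r (a - 1) = S.x (D.neg r) 0 := by rw [e2, S.x_zero (hR.neg_lt r hr)]
  exact hR.neg_ne hr (S.x_root_inj hR hr (hR.neg_lt r hr) (sub_ne_zero.2 hne) e3).symm

theorem torI_le_minSub (hR : RootTable D len) (M : MinData) {I : Finset (Fin D.rank)}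
    (hI : ∀ i ∈ I, (i : ℕ) ∈ M.Js ∧ D.simple (i : ℕ) ∉ M.D1.map Prod.fst) :
    torI S I ≤ minSub S M := by
  rw [torI, Subgroup.closure_le]
  rintro _ ⟨i, hi, c, -, rfl⟩
  have hxp : ∀ a : F, S.x (D.simple i) a ∈ minSub S M := fun a =>
    S.x_mem_US (Or.inl ⟨hR.simple_pos i, (hI i hi).2⟩) a
  have hn : ∀ a : F, S.nEl (D.simple i) a ∈ minSub S M := fun a =>
    mul_mem (mul_mem (hxp _) (S.x_mem_US (Or.inr ⟨(i : ℕ), (hI i hi).1, rfl⟩) _)) (hxp _)
  exact mul_mem (hn _) (hn _)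

/-- Centralizer data of `x_{2a+b}(1)` in `G₂`. -/
def dataG2 : MinData where
  R := [9]
  W := fun _ => 1
  T' := [10, 11]
  Js := [1]
  JR := [5, 6]
  D1 := [(7, 9, 10), (8, 9, 11)]

/-- Centralizer data of `x_39(1) x_45(1)` in `F₄`. -/
def dataF4 : MinData where
  R := [39, 45]
  W := fun r => if r = 39 then 3 else 2
  T' := [40, 44, 46, 47]
  Js := [0, 3]
  JR := [14, 23, 24, 33]
  D1 := [(27, 39, 40), (34, 39, 44), (25, 45, 46), (26, 45, 47)]

theorem orbit_closed_mem (O : List ℕ)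
    (hcl : ((List.range D.rank).all fun i => (List.range D.nroots).all fun s =>
      decide (O.contains (D.reflectRoot i s) = O.contains s)) = true)
    (hR : RootTable D len) (w : List (Fin D.rank)) {r : ℕ} (hr : r < D.nroots) :
    O.contains (act D w r) = O.contains r := by
  induction w with
  | nil => rfl
  | cons i w ih =>
    simp only [List.all_eq_true, List.mem_range, decide_eq_true_eq] at hcl
    rw [act_cons, hcl i i.2 _ (hR.act_lt w hr), ih]

theorem hpair_G2 (hR : RootTable chevG2 len) (w : List (Fin chevG2.rank))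
    (h : ∀ r ∈ dataG2.R, act chevG2 w r ∈ dataG2.R ++ dataG2.T') :
    ∀ r ∈ dataG2.R, act chevG2 w r = r := by
  intro r hr
  simp only [dataG2, List.mem_singleton] at hr
  subst hr
  have h9 := h 9 (by simp [dataG2])
  have ho := orbit_closed_mem (D := chevG2) [2, 3, 4, 7, 8, 9] (by decide +kernel) hR w (r := 9)
    (by decide +kernel)
  simp only [dataG2, List.mem_cons, List.mem_append, List.not_mem_nil, or_false] at h9
  rcases h9 with e | e | e <;> rw [e] at ho ⊢ <;> first | rfl | exact absurd ho (by decide)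

theorem hpair_F4 (hR : RootTable chevF4 len) (hP : pairingB chevF4 = true) (w : List (Fin chevF4.rank))
    (h : ∀ r ∈ dataF4.R, act chevF4 w r ∈ dataF4.R ++ dataF4.T') :
    ∀ r ∈ dataF4.R, act chevF4 w r = r := by
  let O := [0, 1, 2, 4, 5, 6, 15, 16, 17, 21, 22, 23, 24, 25, 26, 30, 31, 32, 41, 42, 43, 45, 46, 47]
  have hcl : ((List.range chevF4.rank).all fun i => (List.range chevF4.nroots).all fun s =>
      decide (O.contains (chevF4.reflectRoot i s) = O.contains s)) = true := by decide +kernel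
  have l1 : 39 < chevF4.nroots := by decide +kernel
  have l2 : 45 < chevF4.nroots := by decide +kernel
  have o1 := orbit_closed_mem O hcl hR w l1
  have o2 := orbit_closed_mem O hcl hR w l2
  have p := pairing_act hR hP w l1 l2
  have key : ∀ s ∈ dataF4.R ++ dataF4.T', ∀ l ∈ dataF4.R ++ dataF4.T',
      O.contains s = O.contains 39 → O.contains l = O.contains 45 →
      pairing chevF4 s l = pairing chevF4 39 45 → s = 39 ∧ l = 45 := by decide +kernel
  obtain ⟨e1, e2⟩ := key _ (h 39 (by simp [dataF4])) _ (h 45 (by simp [dataF4])) o1 o2 p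
  intro r hr
  simp only [dataF4, List.mem_cons, List.not_mem_nil, or_false] at hr
  rcases hr with rfl | rfl
  · exact e1
  · exact e2

theorem minSub_eq (hS : Rules D F) (M : MinData) (Sg : List ℕ)
    (h : ∀ s < D.nroots, (s ∈ Sg ↔ ((posB D s = true ∧ s ∉ M.D1.map Prod.fst) ∨
      s ∈ M.Js.map fun j => D.neg (D.simple j))))
    (hlt : ∀ s ∈ Sg, s < D.nroots) (hn : ∀ j ∈ M.Js, D.neg (D.simple j) < D.nroots) :
    minSub (glSys hS) M = (glSys hS).US {s | s ∈ Sg} := by
  rw [minSub]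
  congr 1
  ext s
  simp only [Set.mem_ofPred_eq, ← posB_iff]
  constructor
  · intro hs
    have hs' : (posB D s = true ∧ s ∉ M.D1.map Prod.fst) ∨ s ∈ M.Js.map fun j => D.neg (D.simple j) :=
      hs.imp_right fun ⟨j, hj, e⟩ => List.mem_map.2 ⟨j, hj, e.symm⟩
    refine (h s ?_).2 hs'
    rcases hs with ⟨hs, -⟩ | ⟨j, hj, rfl⟩
    · exact ((posB_iff D s).1 hs).1
    · exact hn j hj
  · intro hs
    exact ((h s (hlt s hs)).1 hs).imp_right fun h' => by
      obtain ⟨j, hj, e⟩ := List.mem_map.1 h'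
      exact ⟨j, hj, e.symm⟩

/-- The centralizer of `x_{2a+b}(1)` in `G₂(q)`, `q` even. -/
theorem centralizer_G2_short [CharP F 2] (t : GL chevG2.Idx F)
    (ht : (t : Matrix chevG2.Idx chevG2.Idx F) = chevG2.x F 9 1) :
    chevG2.group F ⊓ Subgroup.centralizer {t} =
      (glSys (Cfsg.Agent.Chev.rules_of_mem F (D := chevG2) (by simp))).US {s | s ∈ [9, 10, 11, 6, 5]} := by
  classical
  set hS := Cfsg.Agent.Chev.rules_of_mem F (D := chevG2) (by simp)
  obtain ⟨len, hR⟩ := hS.root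
  have hP : pairingB chevG2 = true := by decide +kernel
  rw [← minSub_eq hS dataG2 [9, 10, 11, 6, 5] (by decide +kernel) (by decide +kernel) (by decide +kernel)]
  ext g
  have hcomm := glSys_Hbar_comm hS hR
  have hmul := fun i c d hc hd => glSys_hEl_simple hS hR i c d hc hd
  rw [← centralizer_min (glSys hS) dataG2 hS hR (by decide +kernel) hP (hpair_G2 hR) ?_,
    Subgroup.mem_inf, Subgroup.mem_centralizer_singleton_iff, (eq_xGL_iff hS t 9 1).1 ht, group_eq hS]
  · simp [minElt, dataG2, Sys.P_cons, Sys.P_nil, Commute, SemiconjBy, glSys]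
  intro k hk hfix
  let i₀ : Fin chevG2.rank := ⟨0, by decide +kernel⟩
  have hk' : k ∈ torI (glSys hS) Finset.univ := by
    refine Subgroup.closure_mono ?_ hk
    rintro _ ⟨i, c, hc, rfl⟩
    exact ⟨i, Finset.mem_univ i, c, hc, rfl⟩
  have h1 := torI_erase (glSys hS) hS hR hcomm hmul (r := 9) (i₀ := i₀) (by decide +kernel)
    (by decide +kernel) (fun i hi => ?_) hk' (hfix 9 (by simp [dataG2]))
  · refine torI_le_minSub (glSys hS) hR dataG2 (fun i hi => ?_) h1
    revert i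
    decide +kernel
  · revert i
    decide +kernel

/-- The centralizer of `x_39(1) x_45(1)` in `F₄(q)`, `q` even. -/
theorem centralizer_F4_min [CharP F 2] (t : GL chevF4.Idx F)
    (ht : (t : Matrix chevF4.Idx chevF4.Idx F) = chevF4.x F 39 1 * chevF4.x F 45 1) :
    chevF4.group F ⊓ Subgroup.centralizer {t} =
      (glSys (Cfsg.Agent.Chev.rules_of_mem F (D := chevF4) (by simp))).US
        {s | s ∈ [33, 14, 24, 23, 28, 29, 30, 31, 32, 35, 36, 37, 38, 39, 40, 41, 42, 43, 44, 45, 46, 47]} := by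
  classical
  set hS := Cfsg.Agent.Chev.rules_of_mem F (D := chevF4) (by simp)
  obtain ⟨len, hR⟩ := hS.root
  have hP : pairingB chevF4 = true := by decide +kernel
  rw [← minSub_eq hS dataF4 _ (by decide +kernel) (by decide +kernel) (by decide +kernel)]
  ext g
  have hcomm := glSys_Hbar_comm hS hR
  have hmul := fun i c d hc hd => glSys_hEl_simple hS hR i c d hc hd
  have ht' : t = xGL chevF4 F 39 1 * xGL chevF4 F 45 1 :=
    Units.ext (by rw [ht, Units.val_mul, val_xGL hS, val_xGL hS])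
  rw [← centralizer_min (glSys hS) dataF4 hS hR (by decide +kernel) hP (hpair_F4 hR hP) ?_,
    Subgroup.mem_inf, Subgroup.mem_centralizer_singleton_iff, ht', group_eq hS]
  · simp [minElt, dataF4, Sys.P_cons, Sys.P_nil, Commute, SemiconjBy, glSys]
  intro k hk hfix
  let i₁ : Fin chevF4.rank := ⟨1, by decide +kernel⟩
  let i₂ : Fin chevF4.rank := ⟨2, by decide +kernel⟩
  have hk' : k ∈ torI (glSys hS) Finset.univ := by
    refine Subgroup.closure_mono ?_ hk
    rintro _ ⟨i, c, hc, rfl⟩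
    exact ⟨i, Finset.mem_univ i, c, hc, rfl⟩
  obtain ⟨a, ha, m₁, hm₁, rfl⟩ := torI_decomp (glSys hS) hS hR hcomm hmul i₁ hk'
  obtain ⟨b, hb, m, hm, rfl⟩ := torI_decomp (glSys hS) hS hR hcomm hmul i₂ hm₁
  have hI : ∀ i ∈ (Finset.univ.erase i₁).erase i₂,
      ((i : ℕ) ∈ dataF4.Js ∧ chevF4.simple (i : ℕ) ∉ dataF4.D1.map Prod.fst) ∧
        chevF4.cartan i 39 = 0 ∧ chevF4.cartan i 45 = 0 := by decide +kernel
  have hchar : ∀ r, r < chevF4.nroots → (∀ i ∈ (Finset.univ.erase i₁).erase i₂, chevF4.cartan i r = 0) →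
      Commute (m * (glSys hS).hEl (chevF4.simple i₂) b * (glSys hS).hEl (chevF4.simple i₁) a)
        ((glSys hS).x r 1) → b ^ chevF4.cartan i₂ r * a ^ chevF4.cartan i₁ r = 1 := by
    intro r hr hz hc
    have hc2 := (hEl_centralizes (glSys hS) hS hR hr hz hm 1).inv_left.mul_left hc
    rw [← mul_assoc, ← mul_assoc, inv_mul_cancel, one_mul] at hc2
    refine scalar_one (glSys hS) hR hr ?_
    have e1 := (glSys hS).conjP_hI hS hR i₁ ha r hr 1
    have e2 := (glSys hS).conjP_hI hS hR i₂ hb r hr (a ^ chevF4.cartan i₁ r * 1)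
    rw [← e1, mul_one] at e2
    rw [← e2]
    calc _ = ((glSys hS).hEl (chevF4.simple i₂) b * (glSys hS).hEl (chevF4.simple i₁) a) * (glSys hS).x r 1 *
          ((glSys hS).hEl (chevF4.simple i₂) b * (glSys hS).hEl (chevF4.simple i₁) a)⁻¹ := by group
      _ = _ := by rw [hc2.eq, mul_inv_cancel_right]
  have f1 := hchar 39 (by decide +kernel) (fun i hi => (hI i hi).2.1) (hfix 39 (by simp [dataF4]))
  have f2 := hchar 45 (by decide +kernel) (fun i hi => (hI i hi).2.2) (hfix 45 (by simp [dataF4]))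
  rw [show chevF4.cartan i₂ 39 = 1 by decide +kernel, show chevF4.cartan i₁ 39 = -1 by decide +kernel,
    zpow_one, zpow_neg_one] at f1
  rw [show chevF4.cartan i₂ 45 = -1 by decide +kernel, show chevF4.cartan i₁ 45 = 2 by decide +kernel,
    zpow_neg_one, zpow_ofNat] at f2
  have hab : b = a := by field_simp at f1; exact f1
  subst hab
  have ha1 : b = 1 := by field_simp at f2; exact f2
  subst ha1
  rw [(glSys hS).hEl_one hR (hR.simple_lt i₂ i₂.2), (glSys hS).hEl_one hR (hR.simple_lt i₁ i₁.2),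
    mul_one, mul_one]
  exact torI_le_minSub (glSys hS) hR dataF4 (fun i hi => (hI i hi).1) hm

end Cfsg.Agent.Known.ChevCent

namespace Cfsg.Agent.Known.ChevCent

open Cfsg.Lie Cfsg.Agent.ChevGrp
open scoped MatrixGroups

variable {D : ChevalleyDatum} {F : Type*} [Field F]

theorem US_union {G : Type*} [Group G] (S : Sys D F G) (A B : Set ℕ) :
    S.US A ⊔ S.US B = S.US (A ∪ B) := by
  rw [Sys.US, Sys.US, Sys.US, ← Subgroup.closure_union]
  congr 1
  ext g
  simp [or_and_right, exists_or]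

theorem rootSubgroup_sup_cons (hS : Rules D F) (r : ℕ) (L : List ℕ) :
    D.rootSubgroup F r ⊔ (glSys hS).US {s | s ∈ L} = (glSys hS).US {s | s ∈ r :: L} := by
  rw [rootSubgroup_eq hS, US_union]
  congr 1
  ext s
  simp

theorem rootSubgroup_eq_list (hS : Rules D F) (r : ℕ) :
    D.rootSubgroup F r = (glSys hS).US {s | s ∈ [r]} := by
  rw [rootSubgroup_eq hS]
  congr 1
  ext s
  simp

theorem closure_pos_notin (hS : Rules D F) (L Sg : List ℕ)
    (h : ∀ s < D.nroots, (s ∈ Sg ↔ posB D s = true ∧ s ∉ L)) (hlt : ∀ s ∈ Sg, s < D.nroots) :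
    Subgroup.closure {g : GL D.Idx F | ∃ (r : ℕ) (c : F), D.IsPosRoot r ∧ r ∉ L ∧
      (g : Matrix D.Idx D.Idx F) = D.x F r c} = (glSys hS).US {s | s ∈ Sg} := by
  rw [← closure_x_eq hS]
  congr 1
  ext g
  simp only [Set.mem_ofPred_eq]
  constructor
  · rintro ⟨r, c, hr, hL, hg⟩
    exact ⟨r, c, (h r hr.1).2 ⟨(posB_iff D r).2 hr, hL⟩, hg⟩
  · rintro ⟨r, c, hr, hg⟩
    obtain ⟨h1, h2⟩ := (h r (hlt r hr)).1 hr
    exact ⟨r, c, (posB_iff D r).1 h1, h2, hg⟩

end Cfsg.Agent.Known.ChevCent
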