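import Cfsg.Agent.Known.ChevCentTop

/-!
The centralizer of a product of two central root elements in different Weyl orbits.
-/

set_option autoImplicit false

namespace Cfsg.Agent.Known.ChevCent

open Cfsg.Lie Cfsg.Agent.ChevGrp
open scoped MatrixGroups

variable {D : ChevalleyDatum} {F : Type*} [Field F] {G : Type*} [Group G] (S : Sys D F G) {len : ℕ → ℕ}

theorem P_prefix {L : List ℕ} (hL : ∀ x ∈ L, x < D.nroots) {t : ℕ → F} (pre rest : List ℕ)
    (e : L = pre ++ rest) (h0 : ∀ x ∈ rest, t x = 0) : S.P L t = S.P pre t := by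
  subst e
  rw [S.P_append, S.P_zero (fun x hx => hL x (List.mem_append_right _ hx)) h0, mul_one]

theorem exists_enum_prefix (hR : RootTable D len) (pre : List ℕ) (hnd : pre.Nodup)
    (hp : ∀ x ∈ pre, D.IsPosRoot x) :
    ∃ rest : List ℕ, Enum (posSet D) (pre ++ rest) ∧ ∀ x ∈ rest, x ∉ pre := by
  classical
  obtain ⟨L, hL⟩ := hR.posSet_closed.exists_enum
  refine ⟨L.filter fun x => decide (x ∉ pre), ⟨List.nodup_append.2 ⟨hnd, hL.1.filter _, ?_⟩, fun x => ?_⟩, ?_⟩
  · intro a ha b hb e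
    rw [List.mem_filter] at hb
    exact (of_decide_eq_true hb.2) (e ▸ ha)
  · simp only [List.mem_append, List.mem_filter, decide_eq_true_eq]
    constructor
    · rintro (h | ⟨h, -⟩)
      · exact hp x h
      · exact (hL.2 x).1 h
    · intro h
      by_cases hx : x ∈ pre
      · exact Or.inl hx
      · exact Or.inr ⟨(hL.2 x).2 h, hx⟩
  · intro x hx
    exact of_decide_eq_true (List.mem_filter.1 hx).2

theorem coef_prefix (hR : RootTable D len) {pre : List ℕ} (hnd : pre.Nodup)
    (hp : ∀ x ∈ pre, D.IsPosRoot x) {t t' : ℕ → F} (ht : ∀ x, x ∉ pre → t x = 0)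
    (ht' : ∀ x, x ∉ pre → t' x = 0) (e : S.P pre t = S.P pre t') {x : ℕ} (hx : x ∈ pre) : t x = t' x := by
  obtain ⟨rest, hL, hrest⟩ := exists_enum_prefix hR pre hnd hp
  have hlt : ∀ y ∈ pre ++ rest, y < D.nroots := fun y hy => ((hL.2 y).1 hy).1
  refine S.coef_unique hR hR.posSet_closed hL (congrArg S.θ ?_) x (hp x hx)
  rw [P_prefix S hlt pre rest rfl fun y hy => ht y (hrest y hy),
    P_prefix S hlt pre rest rfl fun y hy => ht' y (hrest y hy), e]

theorem mem_pair_of_eq (hR : RootTable D len) {r r' s s' : ℕ} (hr : D.IsPosRoot r) (hr' : D.IsPosRoot r')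
    (hne : r ≠ r') (hs : D.IsPosRoot s) (hs' : D.IsPosRoot s') (hss : s ≠ s') {a a' : F} (ha : a ≠ 0)
    (e : S.x s a * S.x s' a' = S.x r 1 * S.x r' 1) : s = r ∨ s = r' := by
  classical
  by_contra hcon
  push Not at hcon
  let t₁ : ℕ → F := fun x => if x = s then a else if x = s' then a' else 0
  let t₂ : ℕ → F := fun x => if x = r ∨ x = r' then 1 else 0
  by_cases hs'R : s' = r ∨ s' = r'
  · have h := coef_prefix S hR (pre := [s, r, r']) (by simp [hcon.1, hcon.2, hne])
      (by simp [hs, hr, hr']) (t := t₁) (t' := t₂) ?_ ?_ ?_ (x := s) (by simp)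
    · simp [t₁, t₂, hcon.1, hcon.2, ha] at h
    · intro x hx
      simp only [List.mem_cons, List.not_mem_nil, or_false, not_or] at hx
      rcases hs'R with rfl | rfl <;> simp [t₁, hx.1, hx.2.1, hx.2.2]
    · intro x hx
      simp only [List.mem_cons, List.not_mem_nil, or_false, not_or] at hx
      simp [t₂, hx.2.1, hx.2.2]
    · rcases hs'R with rfl | rfl <;>
        simp [t₁, t₂, Sys.P_cons, Sys.P_nil, hcon.1, hcon.2, Ne.symm hcon.1, Ne.symm hcon.2, hne,
          Ne.symm hne, S.x_zero hr.1, S.x_zero hr'.1, S.x_zero hs.1, e]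
  · push Not at hs'R
    have h := coef_prefix S hR (pre := [s, s', r, r'])
      (by simp [hss, hcon.1, hcon.2, hs'R.1, hs'R.2, hne])
      (by simp [hs, hs', hr, hr']) (t := t₁) (t' := t₂) ?_ ?_ ?_ (x := s) (by simp)
    · simp [t₁, t₂, hcon.1, hcon.2, ha] at h
    · intro x hx
      simp only [List.mem_cons, List.not_mem_nil, or_false, not_or] at hx
      simp [t₁, hx.1, hx.2.1]
    · intro x hx
      simp only [List.mem_cons, List.not_mem_nil, or_false, not_or] at hx
      simp [t₂, hx.2.2.1, hx.2.2.2]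
    · simp [t₁, t₂, Sys.P_cons, Sys.P_nil, hcon.1, hcon.2, Ne.symm hcon.1, Ne.symm hcon.2, hs'R.1, hs'R.2,
        Ne.symm hs'R.1, Ne.symm hs'R.2, Ne.symm hss, hne, Ne.symm hne, S.x_zero hr.1, S.x_zero hr'.1,
        S.x_zero hs.1, S.x_zero hs'.1, e]

variable {J : Finset (Fin D.rank)} {ι : ℕ → Fin D.rank}

/-- An element centralizing `x_r(1) x_{r'}(1)` centralizes both factors. -/
theorem commute_each (hS : Rules D F) (hR : RootTable D len) {r r' : ℕ} (hne : r ≠ r')
    (hT : TopRoots S {r, r'} J ι) (hsep : ∀ w : List (Fin D.rank), act D w r ≠ r') {g : G}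
    (hg : g ∈ S.Gbar) (hfix : Commute g (S.x r 1 * S.x r' 1)) :
    ∀ x ∈ ({r, r'} : Finset ℕ), Commute g (S.x x 1) := by
  classical
  have hr := hT.pos r (by simp)
  have hr' := hT.pos r' (by simp)
  obtain ⟨b, hb, w, hw, v, hv, rfl⟩ := S.mem_NF hS hR hg
  obtain ⟨u, hu, h, hh, rfl⟩ := (S.mem_Bbar hS hR).1 hb
  have hvU : v ∈ S.Ubar := S.US_mono (fun r h => h.1) hv
  have hcU : ∀ z ∈ S.Ubar, ∀ x ∈ ({r, r'} : Finset ℕ), Commute z (S.x x 1) :=
    fun z hz x hx => Ubar_centralizes S hT hz hx 1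
  have hk : Commute (h * S.nW w) (S.x r 1 * S.x r' 1) := by
    have h1 := (hcU u hu r (by simp)).mul_right (hcU u hu r' (by simp))
    have h2 := (hcU v hvU r (by simp)).mul_right (hcU v hvU r' (by simp))
    simpa [mul_assoc] using (h1.inv_left.mul_left hfix).mul_left h2.inv_left
  suffices hkey : ∀ x ∈ ({r, r'} : Finset ℕ), Commute (h * S.nW w) (S.x x 1) by
    intro x hx
    simpa [mul_assoc] using ((hcU u hu x hx).mul_left (hkey x hx)).mul_left (hcU v hvU x hx)
  have hc : S.ConjP (h * S.nW w) w := by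
    simpa using (S.conjP_Hbar hS hR hh).mul hR (S.conjP_nW hS hR w)
  obtain ⟨c, hc0, hcc⟩ := hc
  set k := h * S.nW w with hkdef
  set s := act D w r with hs
  set s' := act D w r' with hs'
  have ha : c r ≠ 0 := right_ne_zero_of_mul_eq_one (hc0 r hr.1)
  have ha' : c r' ≠ 0 := right_ne_zero_of_mul_eq_one (hc0 r' hr'.1)
  have e : S.x s (c r) * S.x s' (c r') = S.x r 1 * S.x r' 1 := by
    rw [← mul_one (c r), ← mul_one (c r'), ← hcc r hr.1, ← hcc r' hr'.1]
    calc k * S.x r 1 * k⁻¹ * (k * S.x r' 1 * k⁻¹) = k * (S.x r 1 * S.x r' 1) * k⁻¹ := by group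
      _ = _ := by rw [hk.eq, mul_inv_cancel_right]
  have hslt := hR.act_lt w hr.1
  have hs'lt := hR.act_lt w hr'.1
  have hss : s ≠ s' := fun e => hne (hR.act_inj w hr.1 hr'.1 e)
  have he : S.x r 1 * S.x r' 1 ∈ S.Ubar := mul_mem (S.x_mem_US hr _) (S.x_mem_US hr' _)
  have hpos : D.IsPosRoot s ∧ D.IsPosRoot s' := by
    have h1 : D.IsPosRoot s → D.IsPosRoot s' := fun hp => by
      refine S.root_mem_of_mem_US hR hR.posSet_closed (fun _ h => h) hs'lt ha' hS ?_
      rw [show S.x s' (c r') = (S.x s (c r))⁻¹ * (S.x r 1 * S.x r' 1) by rw [← e, inv_mul_cancel_left]]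
      exact mul_mem (inv_mem (S.x_mem_US hp _)) he
    have h2 : D.IsPosRoot s' → D.IsPosRoot s := fun hp => by
      refine S.root_mem_of_mem_US hR hR.posSet_closed (fun _ h => h) hslt ha hS ?_
      rw [show S.x s (c r) = (S.x r 1 * S.x r' 1) * (S.x s' (c r'))⁻¹ by rw [← e, mul_inv_cancel_right]]
      exact mul_mem he (inv_mem (S.x_mem_US hp _))
    rcases hR.sign s hslt with hp | hn
    · exact ⟨hp, h1 hp⟩
    rcases hR.sign s' hs'lt with hp' | hn'
    · exact ⟨h2 hp', hp'⟩
    exfalso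
    have hB : S.x r 1 * S.x r' 1 ∈ S.Vbar ⊓ S.Bbar :=
      ⟨by rw [← e]; exact mul_mem (S.x_mem_US hn _) (S.x_mem_US hn' _), S.Ubar_le_Bbar he⟩
    rw [S.Vbar_inf_Bbar hS hR, Subgroup.mem_bot, mul_eq_one_iff_eq_inv, S.x_inv hr'.1] at hB
    exact hne (S.x_root_inj hR hr.1 hr'.1 one_ne_zero hB)
  have h1 := mem_pair_of_eq S hR hr hr' hne hpos.1 hpos.2 hss ha e
  rcases h1 with h1 | h1
  swap
  · exact absurd h1 (hsep w)
  have e' : S.x s' (c r') * S.x s (c r) = S.x r 1 * S.x r' 1 := by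
    rw [← e, h1]
    exact (hT.central r (by simp) s' hpos.2 _ _).eq
  have h2 := mem_pair_of_eq S hR hr hr' hne hpos.2 hpos.1 hss.symm ha' e'
  rcases h2 with h2 | h2
  · exact absurd (h1.trans h2.symm) hss
  have hcoef : ∀ x ∈ [r, r'], c x = 1 := by
    intro x hx
    let t₁ : ℕ → F := fun y => if y = r then c r else if y = r' then c r' else 0
    let t₂ : ℕ → F := fun y => if y = r ∨ y = r' then 1 else 0
    have := coef_prefix S hR (pre := [r, r']) (by simp [hne]) (by simp [hr, hr'])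
      (t := t₁) (t' := t₂) (by intro y hy; simp at hy; simp [t₁, hy.1, hy.2])
      (by intro y hy; simp at hy; simp [t₂, hy.1, hy.2])
      (by simp [t₁, t₂, Sys.P_cons, Sys.P_nil, Ne.symm hne]; rw [← e, h1, h2]) hx
    rcases List.mem_cons.1 hx with rfl | hx'
    · simpa [t₁, t₂] using this
    · obtain rfl := List.mem_singleton.1 hx'
      simpa [t₁, t₂, Ne.symm hne] using this
  intro x hx
  have hx1 : act D w x = x ∧ x < D.nroots ∧ c x = 1 := by
    rcases Finset.mem_insert.1 hx with rfl | hx'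
    · exact ⟨h1, hr.1, hcoef x (by simp)⟩
    · obtain rfl := Finset.mem_singleton.1 hx'
      exact ⟨h2, hr'.1, hcoef x (by simp)⟩
  have e3 := hcc x hx1.2.1 1
  rw [hx1.1, hx1.2.2, one_mul, mul_inv_eq_iff_eq_mul] at e3
  exact e3

theorem sep_of_invariant {r r' : ℕ} (O : List ℕ) (hr : r ∈ O) (hr' : r' ∉ O)
    (hcl : ((List.range D.rank).all fun i => O.all fun s => O.contains (D.reflectRoot i s)) = true) :
    ∀ w : List (Fin D.rank), act D w r ≠ r' := by
  have hmem : ∀ w : List (Fin D.rank), act D w r ∈ O := by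
    intro w
    induction w with
    | nil => exact hr
    | cons i w ih =>
      rw [act_cons]
      simp only [List.all_eq_true, List.mem_range, List.contains_iff_mem] at hcl
      exact hcl i i.2 _ ih
  exact fun w e => hr' (e ▸ hmem w)

/-- In characteristic two: the centralizer of `x_r(1) x_{r'}(1)` in the matrix group. -/
theorem centralizer_top_pair [CharP F 2] (hS : Rules D F) (r r' i i' : ℕ) (Js Ns O : List ℕ) (hne : r ≠ r')
    (h : topB D [(r, i), (r', i')] Js = true) (hN : Js.map (fun j => D.neg (D.simple j)) = Ns)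
    (hlt : ∀ j ∈ Js, j < D.rank) (hr : r ∈ O) (hr' : r' ∉ O)
    (hcl : ((List.range D.rank).all fun i => O.all fun s => O.contains (D.reflectRoot i s)) = true)
    (t : GL D.Idx F) (ht : (t : Matrix D.Idx D.Idx F) = D.x F r 1 * D.x F r' 1) :
    D.group F ⊓ Subgroup.centralizer {t} =
      D.posUnipotent F ⊔ Subgroup.closure {g : GL D.Idx F | ∃ s ∈ Ns, ∃ c : F,
        (g : Matrix D.Idx D.Idx F) = D.x F s c} := by
  have hnd : (List.map Prod.fst [(r, i), (r', i')]).Nodup := by simp [hne]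
  obtain ⟨len, hR⟩ := hS.root
  have ht' : t = xGL D F r 1 * xGL D F r' 1 :=
    Units.ext (by rw [ht, Units.val_mul, val_xGL hS, val_xGL hS])
  ext g
  rw [← centralizer_top hS [(r, i), (r', i')] Js Ns hnd h hN hlt g, Subgroup.mem_inf,
    Subgroup.mem_centralizer_singleton_iff, ht']
  constructor
  · rintro ⟨hg, hc⟩
    refine ⟨hg, fun p hp => ?_⟩
    have hT := topRoots_of_topB (glSys hS) hR _ Js hnd h (lt_of_lt_of_le Nat.zero_lt_two hR.two_le_rank)
    have hset : (List.map Prod.fst [(r, i), (r', i')]).toFinset = ({r, r'} : Finset ℕ) := by simp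
    rw [hset] at hT
    exact commute_each (glSys hS) hS hR hne hT (sep_of_invariant O hr hr' hcl)
      (by rwa [← group_eq hS]) hc p.1 (by
        simp only [List.mem_cons, List.not_mem_nil, or_false] at hp
        rcases hp with rfl | rfl <;> simp)
  · rintro ⟨hg, hc⟩
    exact ⟨hg, (hc (r, i) (by simp)).mul_right (hc (r', i') (by simp))⟩

end Cfsg.Agent.Known.ChevCent
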