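import Cfsg.Agent.Known.ChevPairing
import Cfsg.Agent.Known.ChevCentPair

/-!
Centralizers in Chevalley groups in characteristic two of products of root elements that are central
in `U` modulo an abelian normal subgroup.
-/

set_option autoImplicit false

namespace Cfsg.Agent.Known.ChevCent

open Cfsg.Lie Cfsg.Agent.ChevGrp
open scoped MatrixGroups

/-- The two root subgroups commute in characteristic two, by the tables. -/
def evenB (D : ChevalleyDatum) (r s : ℕ) : Bool :=
  decide (s = r) || (decide (s ≠ D.neg r) && (D.commTerms r s).all fun c => decide (c.2.1 % 2 = 0))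

/-- The commutator of the two root elements has the single odd term `(y, _, 1, 1)`. -/
def oneTermB (D : ChevalleyDatum) (r s y : ℕ) : Bool :=
  decide (s ≠ r) && decide (s ≠ D.neg r) &&
    (((D.commTerms r s).filter fun c => decide (c.2.1 % 2 ≠ 0)).map
      (fun c => (c.1, c.2.2.1, c.2.2.2)) == [(y, 1, 1)])

/-- Table data: `R` the support, `W` weights, `T'` the normal abelian part, `Js` the fundamental roots of
the Levi, `JR` its roots, `D1` triples (root, the member of `R` it moves, target). -/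
structure MinData where
  R : List ℕ
  W : ℕ → ℤ
  T' : List ℕ
  Js : List ℕ
  JR : List ℕ
  D1 : List (ℕ × ℕ × ℕ)

/-- The finite conditions. -/
def MinData.check (D : ChevalleyDatum) (M : MinData) : Bool :=
  decide ((M.R ++ M.T').Nodup) && ((M.R ++ M.T').all fun x => posB D x) &&
  ((List.range D.nroots).all fun s => !posB D s || (M.R ++ M.T').all fun r => decide (s = r) ||
    ((D.commTerms r s).all (fun c => decide (c.2.1 % 2 = 0) || decide (c.1 ∈ M.T')) &&
      (D.commTerms s r).all (fun c => decide (c.2.1 % 2 = 0) || decide (c.1 ∈ M.T')) &&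
      decide (s ≠ D.neg r))) &&
  ((M.R ++ M.T').all fun r => (M.R ++ M.T').all fun s => decide (s = r) ||
    (D.commTerms r s).all fun c => decide (c.1 ∈ M.T')) &&
  ((M.R ++ M.T').all fun r => (M.R ++ M.T').all fun s => evenB D r s) &&
  ((List.range D.nroots).all fun s => !posB D s || decide (s ∈ M.D1.map Prod.fst) ||
    M.R.all fun r => evenB D r s) &&
  (M.Js.all fun i => decide (i < D.rank) && (M.R.all fun r => decide (D.cartan i r = 0)) &&
    decide (D.simple i ∈ M.JR) && (M.JR.all fun q => decide (D.reflectRoot i q ∈ M.JR))) &&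
  (M.JR.all fun q => decide (q ∉ M.D1.map Prod.fst)) &&
  ((List.range D.nroots).all fun q => !posB D q ||
    decide (0 ≤ (M.R.map fun r => M.W r * pairing D r q).sum)) &&
  ((List.range D.rank).all fun i => decide (i ∈ M.Js) ||
    decide ((M.R.map fun r => M.W r * D.cartan i r).sum ≠ 0)) &&
  decide ((M.D1.map Prod.fst).Nodup) && decide ((M.D1.map fun d => d.2.2).Nodup) &&
  (M.D1.all fun d => posB D d.1 && decide (d.2.1 ∈ M.R) && decide (d.2.2 ∈ M.T') &&
    oneTermB D d.2.1 d.1 d.2.2 && (M.R.all fun r => decide (r = d.2.1) || evenB D r d.1) &&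
    M.D1.all fun d' => evenB D d'.2.2 d.1)

variable {D : ChevalleyDatum} {F : Type*} [Field F] {G : Type*} [Group G] (S : Sys D F G) {len : ℕ → ℕ}

theorem commute_even [CharP F 2] (hR : RootTable D len) {r s : ℕ} (hr : r < D.nroots) (hs : s < D.nroots)
    (h : evenB D r s = true) (t u : F) : Commute (S.x s u) (S.x r t) := by
  simp only [evenB, List.all_eq_true, Bool.or_eq_true, Bool.and_eq_true, decide_eq_true_eq] at h
  rcases h with rfl | ⟨hneg, hterms⟩
  · exact (S.x_add s hr u t).trans ((congrArg (S.x s) (add_comm u t)).trans (S.x_add s hr t u).symm)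
  · by_cases hsr : s = r
    · subst hsr
      exact (S.x_add s hr u t).trans ((congrArg (S.x s) (add_comm u t)).trans (S.x_add s hr t u).symm)
    have e := S.comm r hr s hs hsr hneg t u
    rw [List.prod_eq_one ?_, mul_one] at e
    · exact e
    intro g hg
    simp only [ChevalleyDatum.commWord, List.map_map, List.mem_map] at hg
    obtain ⟨c, hc, rfl⟩ := hg
    obtain ⟨k, hk⟩ := Int.dvd_of_emod_eq_zero (hterms c hc)
    have h0 : (c.2.1 : F) = 0 := by
      have h2 : (2 : F) = 0 := CharTwo.two_eq_zero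
      rw [hk, Int.cast_mul, Int.cast_ofNat, h2, zero_mul]
    simp only [Function.comp_apply, h0, zero_mul]
    exact S.x_zero (hR.commTerms_vec r hr s hs hsr hneg c hc).1

theorem prod_oneTerm [CharP F 2] (hR : RootTable D len) {r s y : ℕ} (hr : r < D.nroots) (hs : s < D.nroots)
    (h : oneTermB D r s y = true) (u : F) :
    S.x s u * S.x r 1 = S.x r 1 * S.x s u * S.x y u := by
  simp only [oneTermB, Bool.and_eq_true, decide_eq_true_eq, beq_iff_eq] at h
  obtain ⟨⟨hsr, hneg⟩, hl⟩ := h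
  rw [S.comm r hr s hs hsr hneg 1 u]
  congr 1
  have key : ∀ L : List (ℕ × ℤ × ℕ × ℕ), (∀ c ∈ L, c.1 < D.nroots) →
      ((L.map fun c => S.x c.1 ((c.2.1 : F) * (-1) ^ c.2.2.1 * u ^ c.2.2.2)).prod =
      (((L.filter fun c => decide (c.2.1 % 2 ≠ 0)).map (fun c => (c.1, c.2.2.1, c.2.2.2))).map
        fun c => S.x c.1 (u ^ c.2.2)).prod) := by
    intro L
    induction L with
    | nil => simp
    | cons c L ih =>
      intro hlt
      rw [List.map_cons, List.prod_cons, ih fun d hd => hlt d (List.mem_cons_of_mem _ hd)]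
      have hm : (-1 : F) = 1 := CharTwo.neg_eq 1
      by_cases hc : c.2.1 % 2 = 0
      · obtain ⟨k, hk⟩ := Int.dvd_of_emod_eq_zero hc
        have h0 : (c.2.1 : F) = 0 := by
          rw [hk, Int.cast_mul, Int.cast_ofNat, show (2 : F) = 0 from CharTwo.two_eq_zero, zero_mul]
        rw [List.filter_cons_of_neg (by simp [hc]), h0]
        simp [S.x_zero (hlt c List.mem_cons_self)]
      · obtain ⟨k, hk⟩ : ∃ k : ℤ, c.2.1 = 2 * k + 1 := ⟨c.2.1 / 2, by omega⟩
        have h1 : (c.2.1 : F) = 1 := by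
          rw [hk, Int.cast_add, Int.cast_mul, Int.cast_ofNat, show (2 : F) = 0 from CharTwo.two_eq_zero,
            zero_mul, zero_add, Int.cast_one]
        rw [List.filter_cons_of_pos (by simp [hc]), List.map_cons, List.map_cons, List.prod_cons, h1, hm]
        simp
  rw [ChevalleyDatum.commWord, List.map_map]
  simp only [Function.comp_def]
  rw [key _ fun c hc => (hR.commTerms_vec r hr s hs hsr hneg c hc).1, hl]
  simp

theorem P_split {L : List ℕ} (p : ℕ → Bool) (t : ℕ → F)
    (hc : ∀ r ∈ L, ∀ s ∈ L, ∀ a b : F, Commute (S.x r a) (S.x s b)) :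
    S.P L t = S.P (L.filter p) t * S.P (L.filter fun x => !p x) t := by
  induction L with
  | nil => simp [S.P_nil]
  | cons r L ih =>
    have ih' := ih fun a ha b hb => hc a (List.mem_cons_of_mem _ ha) b (List.mem_cons_of_mem _ hb)
    cases hp : p r
    · rw [List.filter_cons_of_neg (by simp [hp]), List.filter_cons_of_pos (by simp [hp]), S.P_cons, S.P_cons,
        ih', ← mul_assoc, ← mul_assoc]
      congr 1
      refine (?_ : Commute (S.x r (t r)) (S.P (L.filter p) t)).eq
      refine Commute.list_prod_right _ _ fun g hg => ?_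
      obtain ⟨s, hs, rfl⟩ := List.mem_map.1 hg
      exact hc r List.mem_cons_self s (List.mem_cons_of_mem _ (List.mem_filter.1 hs).1) _ _
    · rw [List.filter_cons_of_pos (by simp [hp]), List.filter_cons_of_neg (by simp [hp]), S.P_cons, S.P_cons,
        ih', mul_assoc]

theorem conjP_P {g : G} {w : List (Fin D.rank)} (hR : RootTable D len) {c : ℕ → F}
    (hg : ∀ s < D.nroots, ∀ t : F, g * S.x s t * g⁻¹ = S.x (act D w s) (c s * t)) {L : List ℕ}
    (hL : ∀ r ∈ L, r < D.nroots) (t : ℕ → F) :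
    g * S.P L t * g⁻¹ =
      S.P (L.map (act D w)) (fun y => c (act D w.reverse y) * t (act D w.reverse y)) := by
  induction L with
  | nil => simp [S.P_nil]
  | cons r L ih =>
    rw [List.map_cons, S.P_cons, S.P_cons, ← ih fun a ha => hL a (List.mem_cons_of_mem _ ha),
      hR.act_reverse_act w (hL r List.mem_cons_self), ← hg r (hL r List.mem_cons_self)]
    group

variable (M : MinData)

/-- The subgroup which turns out to be the centralizer. -/
def minSub : Subgroup G :=
  S.US {s | (D.IsPosRoot s ∧ s ∉ M.D1.map Prod.fst) ∨ ∃ j ∈ M.Js, s = D.neg (D.simple j)}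

/-- The element centralized. -/
noncomputable def minElt : G := S.P M.R fun _ => 1

theorem centralizer_min [CharP F 2] (hS : Rules D F) (hR : RootTable D len) (h : M.check D = true)
    (hP : pairingB D = true)
    (hpair : ∀ w : List (Fin D.rank), (∀ r ∈ M.R, act D w r ∈ M.R ++ M.T') → ∀ r ∈ M.R, act D w r = r)
    (htor : ∀ k ∈ S.Hbar, (∀ r ∈ M.R, Commute k (S.x r 1)) → k ∈ minSub S M) {g : G} :
    (g ∈ S.Gbar ∧ Commute g (minElt S M)) ↔ g ∈ minSub S M := by
  classical
  simp only [MinData.check, Bool.and_eq_true, List.all_eq_true, List.mem_range, Bool.or_eq_true,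
    Bool.not_eq_true', decide_eq_true_eq] at h
  obtain ⟨⟨⟨⟨⟨⟨⟨⟨⟨⟨⟨⟨hnd, hpos⟩, hideal⟩, hclosed⟩, hab⟩, hcen⟩, hJs⟩, hJR⟩, hdom⟩, hzero⟩, hnd1⟩, hnd2⟩, hD1⟩ := h
  have hTpos : ∀ x ∈ M.R ++ M.T', D.IsPosRoot x := fun x hx => (posB_iff D x).1 (hpos x hx)
  have hRpos : ∀ r ∈ M.R, D.IsPosRoot r := fun r hr => hTpos r (List.mem_append_left _ hr)
  have hlt : ∀ x ∈ M.R ++ M.T', x < D.nroots := fun x hx => (hTpos x hx).1
  have hposB : ∀ {s}, D.IsPosRoot s → ¬ posB D s = false := fun hs e => by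
    rw [(posB_iff D _).2 hs] at e
    exact Bool.noConfusion e
  have hide : ∀ s, D.IsPosRoot s → ∀ r ∈ M.R ++ M.T', s ≠ r →
      (∀ c ∈ D.commTerms r s, c.2.1 % 2 = 0 ∨ c.1 ∈ M.T') ∧ (∀ c ∈ D.commTerms s r, c.2.1 % 2 = 0 ∨ c.1 ∈ M.T') ∧ s ≠ D.neg r := by
    intro s hs r hr hne
    rcases hideal s hs.1 with h1 | h1
    · exact absurd h1 (hposB hs)
    rcases h1 r hr with h2 | h2
    · exact absurd h2 hne
    · exact ⟨h2.1.1, h2.1.2, h2.2⟩
  let T : Set ℕ := {x | x ∈ M.R ++ M.T'}
  let T' : Set ℕ := {x | x ∈ M.T'}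
  have hT'T : ∀ {x}, x ∈ M.T' → x ∈ M.R ++ M.T' := fun hx => List.mem_append_right _ hx
  have hTc : UClosed D len (htHom D) T := hR.posSet_closed.subset_closed (fun x hx => hTpos x hx)
    fun r hr s hs hne c hc => hT'T (((hclosed r hr s hs).resolve_left hne) c hc)
  have hT'c : UClosed D len (htHom D) T' := hR.posSet_closed.subset_closed (fun x hx => hTpos x (hT'T hx))
    fun r hr s hs hne c hc => ((hclosed r (hT'T hr) s (hT'T hs)).resolve_left hne) c hc
  have hcomm : ∀ r ∈ M.R ++ M.T', ∀ s ∈ M.R ++ M.T', ∀ a b : F, Commute (S.x r a) (S.x s b) :=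
    fun r hr s hs a b => (commute_even S hR (hlt r hr) (hlt s hs) (hab r hr s hs) a b).symm
  -- the normal subgroup `N`
  let N : Subgroup G := S.US T'
  have hwordN : ∀ (r s : ℕ), r < D.nroots → s < D.nroots → s ≠ r → s ≠ D.neg r →
      (∀ c ∈ D.commTerms r s, c.2.1 % 2 = 0 ∨ c.1 ∈ M.T') → ∀ t u : F,
      ((D.commWord F r s t u).map fun p => S.x p.1 p.2).prod ∈ N := by
    intro r s hr hs hne hneg hc t u
    refine list_prod_mem fun y hy => ?_
    simp only [ChevalleyDatum.commWord, List.map_map, List.mem_map, Function.comp_apply] at hy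
    obtain ⟨c, hcm, rfl⟩ := hy
    rcases hc c hcm with h1 | h1
    · obtain ⟨k, hk⟩ := Int.dvd_of_emod_eq_zero h1
      have h0 : (c.2.1 : F) = 0 := by
        rw [hk, Int.cast_mul, Int.cast_ofNat, show (2 : F) = 0 from CharTwo.two_eq_zero, zero_mul]
      rw [h0, zero_mul, zero_mul, S.x_zero (hR.commTerms_vec r hr s hs hne hneg c hcm).1]
      exact one_mem _
    · exact S.x_mem_US (T := T') h1 _
  have hUN : S.Ubar ≤ Subgroup.normalizer (N : Set G) := by
    rw [Sys.Ubar, Sys.US, Subgroup.closure_le]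
    rintro _ ⟨s, hs, a, rfl⟩
    have key : ∀ b : F, ∀ r ∈ T', ∀ t : F, S.x s b * S.x r t * (S.x s b)⁻¹ ∈ N := by
      intro b r hr t
      have hr' := hlt r (hT'T hr)
      by_cases hne : s = r
      · subst hne
        have hh : Commute (S.x s b) (S.x s t) :=
          (S.x_add s hr' b t).trans ((congrArg (S.x s) (add_comm b t)).trans (S.x_add s hr' t b).symm)
        rw [hh.eq, mul_inv_cancel_right]
        exact S.x_mem_US hr _
      · have hi := hide s hs r (hT'T hr) hne
        have hneg : r ≠ D.neg s := fun e => hi.2.2 (by rw [e, hR.neg_neg_root hs.1])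
        have hc := S.comm s hs.1 r hr' (Ne.symm hne) hneg (-b) t
        rw [S.x_inv hs.1, mul_assoc, hc, ← mul_assoc, ← mul_assoc, S.x_add s hs.1, add_neg_cancel,
          S.x_zero hs.1, one_mul]
        exact mul_mem (S.x_mem_US hr t) (hwordN s r hs.1 hr' (Ne.symm hne) hneg hi.2.1 _ _)
    refine S.mem_normalizer_US (key a) fun r hr t => ?_
    have h1 := key (-a) r hr t
    rwa [← S.x_inv hs.1, inv_inv] at h1
  have hconjN : ∀ u ∈ S.Ubar, ∀ k ∈ N, u * k * u⁻¹ ∈ N := fun u hu k hk =>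
    (Subgroup.mem_normalizer_iff.1 (hUN hu) k).1 hk
  have hmod : ∀ r ∈ M.R, ∀ u ∈ S.Ubar, (S.x r 1)⁻¹ * u * S.x r 1 * u⁻¹ ∈ N := by
    intro r hr u hu
    have hr' := (hRpos r hr).1
    refine Subgroup.closure_induction ?_ ?_ ?_ ?_ hu
    · rintro _ ⟨s, hs, a, rfl⟩
      by_cases hsr : s = r
      · subst hsr
        have hh : Commute (S.x s a) (S.x s 1) :=
          (S.x_add s hr' a 1).trans ((congrArg (S.x s) (add_comm a 1)).trans (S.x_add s hr' 1 a).symm)
        rw [mul_assoc _ (S.x s a), hh.eq, inv_mul_cancel_left, mul_inv_cancel]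
        exact one_mem _
      · have hi := hide s hs r (List.mem_append_left _ hr) hsr
        rw [mul_assoc _ (S.x s a), S.comm r hr' s hs.1 hsr hi.2.2 1 a, mul_assoc (S.x r 1), inv_mul_cancel_left]
        exact hconjN _ (S.x_mem_US hs a) _ (hwordN r s hr' hs.1 hsr hi.2.2 hi.1 _ _)
    · simp [one_mem]
    · intro a b ha _ hka hkb
      have e : (S.x r 1)⁻¹ * (a * b) * S.x r 1 * (a * b)⁻¹ =
          (S.x r 1)⁻¹ * a * S.x r 1 * a⁻¹ * (a * ((S.x r 1)⁻¹ * b * S.x r 1 * b⁻¹) * a⁻¹) := by group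
      rw [e]
      exact mul_mem hka (hconjN a ha _ hkb)
    · intro a ha hka
      have e : (S.x r 1)⁻¹ * a⁻¹ * S.x r 1 * a⁻¹⁻¹ = a⁻¹ * ((S.x r 1)⁻¹ * a * S.x r 1 * a⁻¹)⁻¹ * a⁻¹⁻¹ := by
        group
      rw [e]
      exact hconjN _ (inv_mem ha) _ (inv_mem hka)
  set v := minElt S M with hvdef
  have hmodv : ∀ u ∈ S.Ubar, v⁻¹ * u * v * u⁻¹ ∈ N := by
    intro u hu
    suffices hgen : ∀ L : List ℕ, (∀ r ∈ L, r ∈ M.R) →
        (S.P L fun _ => 1)⁻¹ * u * (S.P L fun _ => 1) * u⁻¹ ∈ N by exact hgen M.R fun _ h => h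
    intro L
    induction L with
    | nil => simp [S.P_nil, one_mem]
    | cons r L ih =>
      intro hL
      rw [S.P_cons]
      set y := S.P L fun _ => (1 : F)
      have hy : y ∈ S.Ubar := S.P_mem (fun x hx => (hRpos x (hL x (List.mem_cons_of_mem _ hx))).1)
        fun x hx _ => hRpos x (hL x (List.mem_cons_of_mem _ hx))
      have h1 := hconjN y⁻¹ (inv_mem hy) _ (hmod r (hL r List.mem_cons_self) u hu)
      have h2 := ih fun x hx => hL x (List.mem_cons_of_mem _ hx)
      have e : (S.x r 1 * y)⁻¹ * u * (S.x r 1 * y) * u⁻¹ =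
          y⁻¹ * ((S.x r 1)⁻¹ * u * S.x r 1 * u⁻¹) * y⁻¹⁻¹ * (y⁻¹ * u * y * u⁻¹) := by group
      rw [e]
      exact mul_mem h1 h2
  have hnd' := List.nodup_append.1 hnd
  have hET : Enum T (M.R ++ M.T') := ⟨hnd, fun _ => Iff.rfl⟩
  have hcoset : ∀ k ∈ N, ∃ t : ℕ → F, v * k = S.P (M.R ++ M.T') t ∧ ∀ r ∈ M.R, t r = 1 := by
    intro k hk
    obtain ⟨t, ht⟩ := S.exists_coef hR hT'c (L := M.T') ⟨hnd'.2.1, fun _ => Iff.rfl⟩ hk
    refine ⟨fun x => if x ∈ M.R then 1 else t x, ?_, fun r hr => if_pos hr⟩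
    rw [S.P_append, ht]
    congr 1
    · exact S.P_congr fun x hx => (if_pos hx).symm
    · exact S.P_congr fun x hx => (if_neg fun hx' => hnd'.2.2 x hx' x hx rfl).symm
  have hvT : ∀ k ∈ N, v * k ∈ S.US T := fun k hk => by
    obtain ⟨t, ht, -⟩ := hcoset k hk
    rw [ht]
    exact S.P_mem' hTc hET t
  have hvcomm : ∀ r ∈ M.R, ∀ s, D.IsPosRoot s → s ∉ M.D1.map Prod.fst → ∀ a b : F,
      Commute (S.x s a) (S.x r b) := by
    intro r hr s hs hs1 a b
    rcases hcen s hs.1 with (h1 | h1) | h1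
    · exact absurd h1 (hposB hs)
    · exact absurd h1 hs1
    · exact commute_even S hR (hRpos r hr).1 hs.1 (h1 r hr) b a
  let J : Finset (Fin D.rank) := idxSet D M.Js
  have hJfix : ∀ i ∈ J, ∀ r ∈ M.R, D.reflectRoot (i : ℕ) r = r := fun i hi r hr =>
    reflect_eq_self hR i (hRpos r hr).1 ((hJs i (by simpa [J, idxSet] using hi)).1.1.2 r hr)
  have hsimpleD1 : ∀ j ∈ M.Js, D.IsPosRoot (D.simple j) ∧ D.simple j ∉ M.D1.map Prod.fst := fun j hj =>
    ⟨hR.simple_pos ⟨j, (hJs j hj).1.1.1⟩, hJR _ (hJs j hj).1.2⟩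
  have hgenR : ∀ r ∈ M.R, ∀ k ∈ minSub S M, Commute k (S.x r 1) := by
    intro r hr k hk
    have hr' := (hRpos r hr).1
    have hle : minSub S M ≤ Subgroup.centralizer {S.x r 1} := by
      rw [minSub, Sys.US, Subgroup.closure_le]
      rintro _ ⟨s, hs, a, rfl⟩
      refine Subgroup.mem_centralizer_singleton_iff.2 ?_
      rcases hs with ⟨hs, hs1⟩ | ⟨j, hj, rfl⟩
      · exact (hvcomm r hr s hs hs1 a 1).eq
      · let i : Fin D.rank := ⟨j, (hJs j hj).1.1.1⟩
        obtain ⟨b, hb, hgb⟩ := S.conjP_nI hS hR i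
        have hp := hR.simple_lt i i.2
        have e1 := hgb _ hp (a / b (D.simple i))
        have e2 := hgb r hr' (1 / b r)
        rw [act_singleton, mul_div_cancel₀ _ (right_ne_zero_of_mul_eq_one (hb _ hp)),
          hR.reflect_simple i.2] at e1
        rw [act_singleton, mul_div_cancel₀ _ (right_ne_zero_of_mul_eq_one (hb _ hr')),
          reflect_eq_self hR i hr' ((hJs j hj).1.1.2 r hr)] at e2
        show S.x (D.neg (D.simple i)) a * S.x r 1 = S.x r 1 * S.x (D.neg (D.simple i)) a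
        rw [← e1, ← e2]
        exact (Commute.map (hvcomm r hr _ (hsimpleD1 j hj).1 (hsimpleD1 j hj).2 _ _)
          (MulAut.conj (S.nI i)).toMonoidHom).eq
    exact Subgroup.mem_centralizer_singleton_iff.1 (hle hk)
  have hgenv : ∀ k ∈ minSub S M, Commute k v := fun k hk =>
    Commute.list_prod_right _ _ fun y hy => by
      obtain ⟨r, hr, rfl⟩ := List.mem_map.1 hy
      exact hgenR r hr k hk
  refine ⟨fun ⟨hg, hgv⟩ => ?_, fun hg => ⟨?_, hgenv g hg⟩⟩
  swap
  · refine (?_ : minSub S M ≤ S.Gbar) hg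
    rw [minSub, Sys.US, Subgroup.closure_le]
    rintro _ ⟨s, hs, a, rfl⟩
    refine Subgroup.subset_closure ⟨s, ?_, a, rfl⟩
    rcases hs with ⟨hs, -⟩ | ⟨j, hj, rfl⟩
    · exact hs.1
    · exact hR.neg_lt _ (hR.simple_lt j (hJs j hj).1.1.1)
  obtain ⟨b, hb, w, hw, v0, hv0, rfl⟩ := S.mem_NF hS hR hg
  obtain ⟨u, hu, k0, hk0, rfl⟩ := (S.mem_Bbar hS hR).1 hb
  have hv0U : v0 ∈ S.Ubar := S.US_mono (fun r h => h.1) hv0
  -- the Weyl component
  have hc : S.ConjP (k0 * S.nW w) w := by
    simpa using (S.conjP_Hbar hS hR hk0).mul hR (S.conjP_nW hS hR w)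
  obtain ⟨c, hc0, hcc⟩ := hc
  set k := k0 * S.nW w with hkdef
  have he : k * (v * (v⁻¹ * v0 * v * v0⁻¹)) * k⁻¹ = v * (v⁻¹ * u⁻¹ * v * u⁻¹⁻¹) := by
    have e := hgv.eq
    calc k * (v * (v⁻¹ * v0 * v * v0⁻¹)) * k⁻¹
        = u⁻¹ * ((u * k0 * S.nW w * v0) * v) * (v0⁻¹ * k⁻¹) := by rw [hkdef]; group
      _ = u⁻¹ * (v * (u * k0 * S.nW w * v0)) * (v0⁻¹ * k⁻¹) := by rw [e]
      _ = _ := by rw [hkdef]; group
  obtain ⟨t, ht, ht1⟩ := hcoset _ (hmodv v0 hv0U)
  have he' : k * S.P (M.R ++ M.T') t * k⁻¹ ∈ S.US T := by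
    rw [← ht, he]
    exact hvT _ (hmodv _ (inv_mem hu))
  let p : ℕ → Bool := fun x => posB D (act D w x)
  set Lp := (M.R ++ M.T').filter p with hLp
  set Ln := (M.R ++ M.T').filter fun x => !p x with hLn
  have hsplit := P_split S (L := M.R ++ M.T') p t hcomm
  rw [← hLp, ← hLn] at hsplit
  have hLplt : ∀ x ∈ Lp, x < D.nroots := fun x hx => hlt x (List.mem_filter.1 hx).1
  have hLnlt : ∀ x ∈ Ln, x < D.nroots := fun x hx => hlt x (List.mem_filter.1 hx).1
  have hPp : k * S.P Lp t * k⁻¹ ∈ S.Ubar := by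
    rw [conjP_P S hR hcc hLplt]
    refine S.P_mem (fun x hx => ?_) fun x hx _ => ?_
    all_goals obtain ⟨y, hy, rfl⟩ := List.mem_map.1 hx
    · exact hR.act_lt w (hLplt y hy)
    · exact (posB_iff D _).1 (List.mem_filter.1 hy).2
  have hPn : S.P Ln t = 1 := by
    have h1 : k * S.P Ln t * k⁻¹ ∈ S.Vbar ⊓ S.Bbar := by
      refine ⟨?_, S.Ubar_le_Bbar ?_⟩
      · rw [conjP_P S hR hcc hLnlt]
        refine S.P_mem (fun x hx => ?_) fun x hx _ => ?_
        all_goals obtain ⟨y, hy, rfl⟩ := List.mem_map.1 hx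
        · exact hR.act_lt w (hLnlt y hy)
        · refine hR.neg_of_not_pos (hR.act_lt w (hLnlt y hy)) fun hp => ?_
          have hyp : (!p y) = true := (List.mem_filter.1 hy).2
          simp [p, (posB_iff D _).2 hp] at hyp
      · have e : k * S.P Ln t * k⁻¹ = (k * S.P Lp t * k⁻¹)⁻¹ * (k * S.P (M.R ++ M.T') t * k⁻¹) := by
          rw [hsplit]
          group
        rw [e]
        exact mul_mem (inv_mem hPp) (S.US_mono (fun x hx => hTpos x hx) he')
    rw [S.Vbar_inf_Bbar hS hR, Subgroup.mem_bot] at h1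
    have h2 : S.P Ln t = k⁻¹ * (k * S.P Ln t * k⁻¹) * k := by group
    rw [h2, h1]
    group
  have hRp : ∀ r ∈ M.R, r ∈ Lp := by
    intro r hr
    refine List.mem_filter.2 ⟨List.mem_append_left _ hr, ?_⟩
    by_contra hp
    have hrn : r ∈ Ln := List.mem_filter.2 ⟨List.mem_append_left _ hr, by simpa using hp⟩
    let t₁ : ℕ → F := fun x => if x ∈ Ln then t x else 0
    have h2 := coef_prefix S hR (pre := Ln) (hnd.filter _) (fun x hx => hTpos x (List.mem_filter.1 hx).1)
      (t := t₁) (t' := fun _ => 0) (fun x hx => if_neg hx) (fun _ _ => rfl)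
      (by rw [S.P_zero hLnlt (t := fun _ => (0 : F)) (fun _ _ => rfl), ← hPn]
          exact S.P_congr fun x hx => if_pos hx) hrn
    simp [t₁, hrn, ht1 r hr] at h2
  have hwT : ∀ r ∈ M.R, act D w r ∈ M.R ++ M.T' := by
    intro r hr
    have hLw : (Lp.map (act D w)).Nodup :=
      (hnd.filter _).map_on fun a ha b hb e => hR.act_inj w (hLplt a ha) (hLplt b hb) e
    have hLwpos : ∀ x ∈ Lp.map (act D w), D.IsPosRoot x := fun x hx => by
      obtain ⟨y, hy, rfl⟩ := List.mem_map.1 hx
      exact (posB_iff D _).1 (List.mem_filter.1 hy).2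
    obtain ⟨rest, hL, hrest⟩ := exists_enum_prefix hR _ hLw hLwpos
    let t₂ : ℕ → F := fun y =>
      if y ∈ Lp.map (act D w) then c (act D w.reverse y) * t (act D w.reverse y) else 0
    have hmem : S.P (Lp.map (act D w) ++ rest) t₂ ∈ S.US T := by
      rw [P_prefix S (fun y hy => ((hL.2 y).1 hy).1) _ rest rfl fun y hy => if_neg (hrest y hy),
        S.P_congr (t' := fun y => c (act D w.reverse y) * t (act D w.reverse y)) fun y hy => if_pos hy,
        ← conjP_P S hR hcc hLplt]
      rw [hsplit, hPn, mul_one] at he'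
      exact he'
    have hin : act D w r ∈ Lp.map (act D w) := List.mem_map_of_mem (hRp r hr)
    refine S.coef_supp hR hR.posSet_closed hL hTc (fun x hx => hTpos x hx) hmem _ (hLwpos _ hin) ?_
    simp only [t₂, if_pos hin, hR.act_reverse_act w (hRpos r hr).1, ht1 r hr, mul_one]
    exact right_ne_zero_of_mul_eq_one (hc0 r (hRpos r hr).1)
  have hfix := hpair w hwT
  have hwJ : ∀ i ∈ w, i ∈ J := by
    refine letters_of_fix hR hP M.R (fun r hr => (hRpos r hr).1) M.W J (fun q hq => ?_) (fun i hi => ?_)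
      hJfix hw hfix
    · exact (hdom q hq.1).resolve_left (hposB hq)
    · rcases hzero i i.2 with h1 | h1
      · simp [J, idxSet, h1]
      · exact absurd hi h1
  have hinv : v0 ∈ minSub S M := by
    refine S.US_mono (fun q hq => Or.inl ⟨hq.1, ?_⟩) hv0
    refine hJR q (invSet_subset hR J M.JR ?_ ?_ w hwJ hw q hq)
    · exact fun i hi => (hJs i (by simpa [J, idxSet] using hi)).1.2
    · exact fun i hi q hq => (hJs i (by simpa [J, idxSet] using hi)).2 q hq
  have hn : S.nW w ∈ minSub S M := by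
    refine list_prod_mem fun y hy => ?_
    obtain ⟨i, hi, rfl⟩ := List.mem_map.1 hy
    have hij : (i : ℕ) ∈ M.Js := by simpa [J, idxSet] using hwJ i hi
    have hxp : ∀ a : F, S.x (D.simple i) a ∈ minSub S M := fun a =>
      S.x_mem_US (Or.inl (hsimpleD1 i hij)) a
    exact mul_mem (mul_mem (hxp _) (S.x_mem_US (Or.inr ⟨(i : ℕ), hij, rfl⟩) _)) (hxp _)
  -- the Borel component
  have hb' : Commute (u * k0) v := by
    have := (hgv.mul_left (hgenv v0 hinv).inv_left).mul_left (hgenv _ hn).inv_left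
    simpa [mul_assoc] using this
  have hk0R : ∀ r ∈ M.R, Commute k0 (S.x r 1) := by
    obtain ⟨a, -, hka⟩ := S.conjP_Hbar hS hR hk0
    obtain ⟨t', ht', ht'1⟩ := hcoset _ (hmodv _ (inv_mem hu))
    have e : S.P M.R a = S.P (M.R ++ M.T') t' := by
      rw [← ht']
      calc S.P M.R a = k0 * v * k0⁻¹ := by
            rw [hvdef, minElt, conjP_P S hR hka (fun r hr => (hRpos r hr).1), List.map_congr_left
              (g := id) (fun x _ => act_nil D x), List.map_id]
            exact S.P_congr fun x _ => by simp [act_nil]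
        _ = u⁻¹ * ((u * k0) * v) * k0⁻¹ := by group
        _ = v * (v⁻¹ * u⁻¹ * v * u⁻¹⁻¹) := by rw [hb'.eq]; group
    let ta : ℕ → F := fun x => if x ∈ M.R then a x else 0
    let tb : ℕ → F := fun x => if x ∈ M.R ++ M.T' then t' x else 0
    intro r hr
    have hr1 : r ∈ M.R ++ M.T' := List.mem_append_left _ hr
    have h2 := coef_prefix S hR (pre := M.R ++ M.T') hnd hTpos (t := ta) (t' := tb)
      (fun x hx => if_neg fun h => hx (List.mem_append_left _ h)) (fun x hx => if_neg hx)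
      (by rw [P_prefix S hlt M.R M.T' rfl (fun x hx => if_neg fun h => hnd'.2.2 x h x hx rfl),
            S.P_congr (t' := a) (fun x hx => if_pos hx), e]
          exact S.P_congr fun x hx => (if_pos hx).symm) hr1
    simp only [ta, tb, if_pos hr, if_pos hr1, ht'1 r hr] at h2
    have e3 := hka r (hRpos r hr).1 1
    rw [act_nil, h2, one_mul, mul_inv_eq_iff_eq_mul] at e3
    exact e3
  have hk0m : k0 ∈ minSub S M := htor k0 hk0 hk0R
  have huv : Commute u v := by
    have := hb'.mul_left (hgenv k0 hk0m).inv_left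
    simpa using this
  -- splitting off the moving part of `u`
  let S1 := M.D1.map Prod.fst
  obtain ⟨Lall, hLall⟩ := hR.posSet_closed.exists_enum
  let L0 := Lall.filter fun x => decide (x ∉ S1)
  have hS1pos : ∀ x ∈ S1, D.IsPosRoot x := fun x hx => by
    obtain ⟨d, hd, rfl⟩ := List.mem_map.1 hx
    exact (posB_iff D _).1 (hD1 d hd).1.1.1.1.1
  have hLe : Enum (posSet D) (L0 ++ S1) := by
    refine ⟨List.nodup_append.2 ⟨hLall.1.filter _, hnd1, fun a ha b hb e => ?_⟩, fun x => ?_⟩
    · exact (of_decide_eq_true (List.mem_filter.1 ha).2) (e ▸ hb)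
    · simp only [L0, List.mem_append, List.mem_filter, decide_eq_true_eq]
      constructor
      · rintro (⟨h1, -⟩ | h1)
        · exact (hLall.2 x).1 h1
        · exact hS1pos x h1
      · intro hx
        by_cases h1 : x ∈ S1
        · exact Or.inr h1
        · exact Or.inl ⟨(hLall.2 x).2 hx, h1⟩
  obtain ⟨tu, htu⟩ := S.exists_coef hR hR.posSet_closed hLe hu
  rw [S.P_append] at htu
  have hu0 : S.P L0 tu ∈ minSub S M := by
    refine S.P_mem (fun x hx => ((hLall.2 x).1 (List.mem_filter.1 hx).1).1) fun x hx _ => ?_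
    exact Or.inl ⟨(hLall.2 x).1 (List.mem_filter.1 hx).1, of_decide_eq_true (List.mem_filter.1 hx).2⟩
  have hdv : Commute (S.P S1 tu) v := by
    have h1 := (hgenv _ hu0).inv_left.mul_left huv
    rw [htu, inv_mul_cancel_left] at h1
    exact h1
  have hmove : ∀ d ∈ M.D1, S.x d.1 (tu d.1) * v * (S.x d.1 (tu d.1))⁻¹ = v * S.x d.2.2 (tu d.1) := by
    intro d hd
    have hd' := hD1 d hd
    obtain ⟨⟨⟨⟨⟨hdp, hdR⟩, hdT⟩, hone⟩, hother⟩, hdd⟩ := hd'
    have hs := (posB_iff D _).1 hdp
    have hy : d.2.2 ∈ M.R ++ M.T' := hT'T hdT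
    have hsy : Commute (S.x d.1 (tu d.1)) (S.x d.2.2 (tu d.1)) :=
      commute_even S hR (hlt _ hy) hs.1 (hdd d hd) _ _
    have hsrc : S.x d.1 (tu d.1) * S.x d.2.1 1 * (S.x d.1 (tu d.1))⁻¹ =
        S.x d.2.1 1 * S.x d.2.2 (tu d.1) := by
      rw [prod_oneTerm S hR (hRpos _ hdR).1 hs.1 hone, mul_assoc (S.x d.2.1 1), hsy.eq, ← mul_assoc,
        mul_inv_cancel_right]
    have hgen : ∀ L : List ℕ, L.Nodup → (∀ r ∈ L, r ∈ M.R) →
        S.x d.1 (tu d.1) * (S.P L fun _ => 1) * (S.x d.1 (tu d.1))⁻¹ =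
          if d.2.1 ∈ L then (S.P L fun _ => 1) * S.x d.2.2 (tu d.1) else S.P L fun _ => 1 := by
      intro L
      induction L with
      | nil => intro _ _; simp [S.P_nil]
      | cons r L ih =>
        intro hLn hL
        rw [List.nodup_cons] at hLn
        have ih' := ih hLn.2 fun x hx => hL x (List.mem_cons_of_mem _ hx)
        rw [S.P_cons, show S.x d.1 (tu d.1) * (S.x r 1 * S.P L fun _ => 1) * (S.x d.1 (tu d.1))⁻¹ =
          (S.x d.1 (tu d.1) * S.x r 1 * (S.x d.1 (tu d.1))⁻¹) *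
          (S.x d.1 (tu d.1) * (S.P L fun _ => 1) * (S.x d.1 (tu d.1))⁻¹) by group, ih']
        rcases (hother r (hL r List.mem_cons_self)) with rfl | hev
        · rw [if_neg hLn.1, if_pos List.mem_cons_self, hsrc, mul_assoc, mul_assoc]
          congr 1
          refine (Commute.list_prod_right _ _ fun z hz => ?_).eq
          obtain ⟨x, hx, rfl⟩ := List.mem_map.1 hz
          exact hcomm _ hy x (List.mem_append_left _ (hL x (List.mem_cons_of_mem _ hx))) _ _
        · have hc1 := (commute_even S hR (hRpos r (hL r List.mem_cons_self)).1 hs.1 hev 1 (tu d.1)).eq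
          rw [hc1, mul_inv_cancel_right]
          by_cases hin : d.2.1 ∈ L
          · rw [if_pos hin, if_pos (List.mem_cons_of_mem _ hin), mul_assoc]
          · rw [if_neg hin]
            by_cases e : d.2.1 = r
            · subst e
              have h0 : Commute (S.x d.1 (tu d.1)) (S.x d.2.1 1) :=
                commute_even S hR (hRpos _ hdR).1 hs.1 hev 1 (tu d.1)
              rw [h0.eq, mul_inv_cancel_right] at hsrc
              rw [if_pos List.mem_cons_self]
              have h1 : S.x d.2.2 (tu d.1) = 1 := by simpa using hsrc.symm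
              rw [h1, mul_one]
            · rw [if_neg]
              simp [e, hin]
    have := hgen M.R hnd'.1 fun _ h => h
    rwa [if_pos hdR] at this
  have hlist : ∀ L : List (ℕ × ℕ × ℕ), (∀ d ∈ L, d ∈ M.D1) →
      S.P (L.map Prod.fst) tu * v * (S.P (L.map Prod.fst) tu)⁻¹ =
        v * (L.map fun d => S.x d.2.2 (tu d.1)).prod := by
    intro L
    induction L with
    | nil => intro _; simp [S.P_nil]
    | cons d L ih =>
      intro hL
      have hd := hL d List.mem_cons_self
      have hL' := fun e he => hL e (List.mem_cons_of_mem d he)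
      set a := S.x d.1 (tu d.1)
      set y := (L.map fun d => S.x d.2.2 (tu d.1)).prod
      have hay : Commute a y := Commute.list_prod_right _ _ fun z hz => by
        obtain ⟨e, he, rfl⟩ := List.mem_map.1 hz
        exact commute_even S hR (hlt _ (hT'T (hD1 e (hL' e he)).1.1.1.2))
          ((posB_iff D _).1 (hD1 d hd).1.1.1.1.1).1 ((hD1 d hd).2 e (hL' e he)) _ _
      rw [List.map_cons, List.map_cons, S.P_cons, List.prod_cons]
      calc a * S.P (L.map Prod.fst) tu * v * (a * S.P (L.map Prod.fst) tu)⁻¹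
          = a * (S.P (L.map Prod.fst) tu * v * (S.P (L.map Prod.fst) tu)⁻¹) * a⁻¹ := by group
        _ = a * v * (y * a⁻¹) := by rw [ih hL']; group
        _ = a * v * (a⁻¹ * y) := by rw [hay.inv_left.eq]
        _ = a * v * a⁻¹ * y := by group
        _ = _ := by rw [hmove d hd, mul_assoc]
  have hzero1 : ∀ d ∈ M.D1, tu d.1 = 0 := by
    intro d hd
    have h1 := hlist M.D1 fun _ h => h
    rw [hdv.eq, mul_inv_cancel_right] at h1
    have h2 : (M.D1.map fun d => S.x d.2.2 (tu d.1)).prod = 1 := by simpa using h1.symm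
    let tgts := M.D1.map fun d => d.2.2
    let tz : ℕ → F := fun y =>
      if hy : y ∈ tgts then tu (List.mem_map.1 hy).choose.1 else 0
    have htz : ∀ e ∈ M.D1, tz e.2.2 = tu e.1 := by
      intro e he
      have hy : e.2.2 ∈ tgts := List.mem_map_of_mem he
      simp only [tz, dif_pos hy]
      obtain ⟨h3, h4⟩ := (List.mem_map.1 hy).choose_spec
      rw [List.inj_on_of_nodup_map hnd2 h3 he h4]
    have h5 := coef_prefix S hR (pre := tgts) hnd2
      (fun x hx => by
        obtain ⟨e, he, rfl⟩ := List.mem_map.1 hx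
        exact hTpos _ (hT'T (hD1 e he).1.1.1.2))
      (t := tz) (t' := fun _ => 0) (fun x hx => dif_neg hx) (fun _ _ => rfl)
      (by
        rw [S.P_zero (t := fun _ => (0 : F)) (fun x hx => by
          obtain ⟨e, he, rfl⟩ := List.mem_map.1 hx
          exact hlt _ (hT'T (hD1 e he).1.1.1.2)) (fun _ _ => rfl), ← h2]
        simp only [Sys.P, tgts, List.map_map]
        exact congrArg List.prod (List.map_congr_left fun e he => by simp [htz e he]))
      (List.mem_map_of_mem (f := fun d => d.2.2) hd)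
    rw [← htz d hd]
    exact h5
  have hu' : u ∈ minSub S M := by
    rw [htu, S.P_zero (fun x hx => (hS1pos x hx).1) fun x hx => by
      obtain ⟨d, hd, rfl⟩ := List.mem_map.1 hx
      exact hzero1 d hd, mul_one]
    exact hu0
  exact mul_mem (mul_mem (mul_mem hu' hk0m) hn) hinv

end Cfsg.Agent.Known.ChevCent
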