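import Cfsg.Agent.Known.ChevCent

/-!
Decidable hypotheses for `ChevCent.centralizer_roots` and its statement in the matrix groups.
-/

set_option autoImplicit false

namespace Cfsg.Agent.Known.ChevCent

open Cfsg.Lie Cfsg.Agent.ChevGrp
open scoped MatrixGroups

/-- Boolean form of `IsPosRoot` in range. -/
def posB (D : ChevalleyDatum) (r : ℕ) : Bool :=
  decide (r < D.nroots) && (D.coroot.getD r #[]).toList.all fun c => decide (0 ≤ c)

theorem posB_iff (D : ChevalleyDatum) (r : ℕ) : posB D r = true ↔ D.IsPosRoot r := by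
  simp only [posB, ChevalleyDatum.IsPosRoot, Bool.and_eq_true, decide_eq_true_eq, List.all_eq_true]

/-- All commutator coefficients of `x_r` with positive root elements are even. -/
def centralB (D : ChevalleyDatum) (r : ℕ) : Bool :=
  (List.range D.nroots).all fun s =>
    !posB D s || decide (s = r) || (decide (s ≠ D.neg r) &&
      (D.commTerms r s).all fun c => decide (c.2.1 % 2 = 0))

/-- `R` (with duals `E`) is a set of central roots and `Ns` lists the `-p_j` for the other fundamental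
roots. -/
def topB (D : ChevalleyDatum) (R : List (ℕ × ℕ)) (Js : List ℕ) : Bool :=
  (R.all fun r => posB D r.1 && centralB D r.1 && decide (r.2 < D.rank) && decide (D.cartan r.2 r.1 = 1) &&
    R.all fun r' => decide (r'.1 = r.1) || decide (D.cartan r.2 r'.1 = 0)) &&
  (List.range D.rank).all fun i =>
    (decide (i ∈ Js) && R.all fun r => decide (D.cartan i r.1 = 0)) ||
    (decide (i ∉ Js) && R.any fun r => decide (r.2 = i))

/-- The indices in `Js` as fundamental roots. -/
def idxSet (D : ChevalleyDatum) (Js : List ℕ) : Finset (Fin D.rank) :=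
  Finset.univ.filter fun i => (i : ℕ) ∈ Js

/-- The dual index of a root of `R`. -/
def dualIdx (D : ChevalleyDatum) (R : List (ℕ × ℕ)) (h : 0 < D.rank) (r : ℕ) : Fin D.rank :=
  match R.find? fun p => decide (p.1 = r) with
  | some p => if hp : p.2 < D.rank then ⟨p.2, hp⟩ else ⟨0, h⟩
  | none => ⟨0, h⟩

variable {D : ChevalleyDatum} {F : Type*} [Field F] {len : ℕ → ℕ}

theorem dualIdx_eq {R : List (ℕ × ℕ)} (hnd : (R.map Prod.fst).Nodup) (h : 0 < D.rank) {r : ℕ × ℕ}
    (hr : r ∈ R) (hlt : r.2 < D.rank) : dualIdx D R h r.1 = ⟨r.2, hlt⟩ := by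
  unfold dualIdx
  cases hf : R.find? fun p => decide (p.1 = r.1) with
  | none => simpa using List.find?_eq_none.1 hf r hr
  | some p =>
    have hp := List.mem_of_find?_eq_some hf
    have he : p.1 = r.1 := by simpa using List.find?_some hf
    obtain rfl : p = r := List.inj_on_of_nodup_map hnd hp hr he
    simp [hlt]

theorem central_of_centralB [CharP F 2] {G : Type*} [Group G] (S : Sys D F G) (hR : RootTable D len) {r : ℕ}
    (hr : r < D.nroots) (h : centralB D r = true) {s : ℕ} (hs : D.IsPosRoot s) (t u : F) :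
    Commute (S.x s u) (S.x r t) := by
  simp only [centralB, List.all_eq_true, List.mem_range, Bool.or_eq_true, Bool.and_eq_true,
    Bool.not_eq_true', decide_eq_true_eq] at h
  rcases h s hs.1 with (h1 | rfl) | ⟨hneg, hterms⟩
  · rw [(posB_iff D s).2 hs] at h1
    exact Bool.noConfusion h1
  · exact (S.x_add s hr u t).trans ((congrArg (S.x s) (add_comm u t)).trans (S.x_add s hr t u).symm)
  · by_cases hsr : s = r
    · subst hsr
      exact (S.x_add s hr u t).trans ((congrArg (S.x s) (add_comm u t)).trans (S.x_add s hr t u).symm)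
    have e := S.comm r hr s hs.1 hsr hneg t u
    rw [List.prod_eq_one ?_, mul_one] at e
    · exact e
    intro g hg
    simp only [ChevalleyDatum.commWord, List.map_map, List.mem_map] at hg
    obtain ⟨c, hc, rfl⟩ := hg
    obtain ⟨k, hk⟩ := Int.dvd_of_emod_eq_zero (hterms c hc)
    have h0 : (c.2.1 : F) = 0 := by
      have h2 : (2 : F) = 0 := CharTwo.two_eq_zero
      rw [hk, Int.cast_mul, Int.cast_ofNat, h2, zero_mul]
    simp only [Function.comp_apply, h0, zero_mul]
    exact S.x_zero (hR.commTerms_vec r hr s hs.1 hsr hneg c hc).1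

theorem topRoots_of_topB [CharP F 2] {G : Type*} [Group G] (S : Sys D F G) (hR : RootTable D len)
    (R : List (ℕ × ℕ)) (Js : List ℕ) (hnd : (R.map Prod.fst).Nodup) (h : topB D R Js = true)
    (h0 : 0 < D.rank) :
    TopRoots S (R.map Prod.fst).toFinset (idxSet D Js) (dualIdx D R h0) := by
  simp only [topB, List.all_eq_true, List.any_eq_true, List.mem_range, Bool.or_eq_true,
    Bool.and_eq_true, decide_eq_true_eq] at h
  have hmem : ∀ r ∈ (R.map Prod.fst).toFinset, ∃ p ∈ R, p.1 = r := fun r hr => by simpa using hr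
  refine ⟨?_, ?_, ?_, ?_, ?_⟩
  · intro r hr
    obtain ⟨p, hp, rfl⟩ := hmem r hr
    exact (posB_iff D _).1 (h.1 p hp).1.1.1.1
  · intro r hr s hs t u
    obtain ⟨p, hp, rfl⟩ := hmem r hr
    exact central_of_centralB S hR ((posB_iff D _).1 (h.1 p hp).1.1.1.1).1 (h.1 p hp).1.1.1.2 hs t u
  · intro i hi r hr
    obtain ⟨p, hp, rfl⟩ := hmem r hr
    simp only [idxSet, Finset.mem_filter, Finset.mem_univ, true_and] at hi
    rcases h.2 i i.2 with h' | h'
    · exact h'.2 p hp
    · exact absurd hi h'.1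
  · intro r hr
    obtain ⟨p, hp, rfl⟩ := hmem r hr
    rw [dualIdx_eq hnd h0 hp (h.1 p hp).1.1.2]
    refine ⟨(h.1 p hp).1.2, fun r' hr' hne => ?_⟩
    obtain ⟨q, hq, rfl⟩ := hmem r' hr'
    exact ((h.1 p hp).2 q hq).resolve_left hne
  · intro i
    rcases h.2 i i.2 with h' | h'
    · exact Or.inl (by simp [idxSet, h'.1])
    · obtain ⟨p, hp, he⟩ := h'.2
      refine Or.inr ⟨p.1, by simpa using ⟨_, hp⟩, Fin.ext ?_⟩
      rw [dualIdx_eq hnd h0 hp (he ▸ i.2)]
      exact he.symm

/-- In characteristic two: the centralizer of `x_r(1)`, `r ∈ R`, in the matrix group. -/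
theorem centralizer_top [CharP F 2] (hS : Rules D F) (R : List (ℕ × ℕ)) (Js Ns : List ℕ)
    (hnd : (R.map Prod.fst).Nodup) (h : topB D R Js = true) (hN : Js.map (fun j => D.neg (D.simple j)) = Ns)
    (hlt : ∀ j ∈ Js, j < D.rank) (g : GL D.Idx F) :
    (g ∈ D.group F ∧ ∀ p ∈ R, Commute g (xGL D F p.1 1)) ↔
      g ∈ D.posUnipotent F ⊔ Subgroup.closure {g : GL D.Idx F | ∃ s ∈ Ns, ∃ c : F,
        (g : Matrix D.Idx D.Idx F) = D.x F s c} := by
  obtain ⟨len, hR⟩ := hS.root
  have h0 : 0 < D.rank := lt_of_lt_of_le Nat.zero_lt_two hR.two_le_rank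
  have hT := topRoots_of_topB (glSys hS) hR R Js hnd h h0
  have hset : Subgroup.closure {g : GL D.Idx F | ∃ s ∈ Ns, ∃ c : F,
      (g : Matrix D.Idx D.Idx F) = D.x F s c} =
      (glSys hS).US {s | ∃ i ∈ idxSet D Js, s = D.neg (D.simple i)} := by
    rw [Sys.US]
    congr 1
    ext g
    constructor
    · rintro ⟨s, hs, c, hg⟩
      rw [← hN] at hs
      obtain ⟨j, hj, rfl⟩ := List.mem_map.1 hs
      exact ⟨_, ⟨⟨j, hlt j hj⟩, by simp [idxSet, hj], rfl⟩, c, (eq_xGL_iff hS g _ c).1 hg⟩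
    · rintro ⟨s, ⟨i, hi, rfl⟩, c, hg⟩
      refine ⟨_, ?_, c, (eq_xGL_iff hS g _ c).2 hg⟩
      rw [← hN]
      exact List.mem_map.2 ⟨(i : ℕ), by simpa [idxSet] using hi, rfl⟩
  rw [hset, posUnipotent_eq hS, group_eq hS]
  refine Iff.trans ?_ (centralizer_roots (glSys hS) hS hR (glSys_Hbar_comm hS hR)
    (fun i c d hc hd => glSys_hEl_simple hS hR i c d hc hd) hT)
  constructor
  · rintro ⟨hg, hp⟩
    exact ⟨hg, fun r hr => by
      obtain ⟨p, hp', rfl⟩ : ∃ p ∈ R, p.1 = r := by simpa using hr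
      exact hp p hp'⟩
  · rintro ⟨hg, hp⟩
    exact ⟨hg, fun p hp' => hp p.1 (List.mem_toFinset.2 (List.mem_map_of_mem hp'))⟩

theorem centralizer_top_one [CharP F 2] (hS : Rules D F) (r i : ℕ) (Js Ns : List ℕ)
    (h : topB D [(r, i)] Js = true) (hN : Js.map (fun j => D.neg (D.simple j)) = Ns)
    (hlt : ∀ j ∈ Js, j < D.rank) (t : GL D.Idx F) (ht : (t : Matrix D.Idx D.Idx F) = D.x F r 1) :
    D.group F ⊓ Subgroup.centralizer {t} =
      D.posUnipotent F ⊔ Subgroup.closure {g : GL D.Idx F | ∃ s ∈ Ns, ∃ c : F,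
        (g : Matrix D.Idx D.Idx F) = D.x F s c} := by
  ext g
  rw [← centralizer_top hS [(r, i)] Js Ns (List.nodup_singleton _) h hN hlt g, Subgroup.mem_inf,
    Subgroup.mem_centralizer_singleton_iff, (eq_xGL_iff hS t r 1).1 ht]
  simp [Commute, SemiconjBy]

theorem closure_cons_eq (F : Type*) [Field F] (D : ChevalleyDatum) (s : ℕ) (L : List ℕ) :
    Subgroup.closure {g : GL D.Idx F | ∃ r ∈ s :: L, ∃ c : F, (g : Matrix D.Idx D.Idx F) = D.x F r c} =
      D.rootSubgroup F s ⊔
        Subgroup.closure {g : GL D.Idx F | ∃ r ∈ L, ∃ c : F, (g : Matrix D.Idx D.Idx F) = D.x F r c} := by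
  rw [ChevalleyDatum.rootSubgroup, ← Subgroup.closure_union]
  congr 1
  ext g
  simp [or_and_right, exists_or]

theorem closure_nil_eq (F : Type*) [Field F] (D : ChevalleyDatum) :
    Subgroup.closure {g : GL D.Idx F | ∃ r ∈ ([] : List ℕ), ∃ c : F, (g : Matrix D.Idx D.Idx F) = D.x F r c} = ⊥ := by
  simp

end Cfsg.Agent.Known.ChevCent
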