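import Cfsg.Agent.Known.ChevCentTop

/-!
The pairing `⟨r, q^∨⟩` of roots read off the tables, and Weyl stabilizers of dominant combinations.
-/

set_option autoImplicit false

namespace Cfsg.Agent.Known.ChevCent

open Cfsg.Lie Cfsg.Agent.ChevGrp

/-- The Cartan integer of a root and a coroot. -/
def pairing (D : ChevalleyDatum) (r q : ℕ) : ℤ :=
  ((List.range D.rank).map fun j => (D.coroot.getD q #[]).getD j 0 * D.cartan j r).sum

/-- The pairing is reflection invariant and extends the table of Cartan integers. -/
def pairingB (D : ChevalleyDatum) : Bool :=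
  (List.range D.rank).all fun i =>
    ((List.range D.nroots).all fun r => decide (pairing D r (D.simple i) = D.cartan i r)) &&
    (List.range D.nroots).all fun r => (List.range D.nroots).all fun q =>
      decide (pairing D (D.reflectRoot i r) (D.reflectRoot i q) = pairing D r q)

variable {D : ChevalleyDatum} {len : ℕ → ℕ}

theorem pairing_simple (h : pairingB D = true) (i : Fin D.rank) {r : ℕ} (hr : r < D.nroots) :
    pairing D r (D.simple i) = D.cartan i r := by
  simp only [pairingB, List.all_eq_true, List.mem_range, Bool.and_eq_true, decide_eq_true_eq] at h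
  exact (h i i.2).1 r hr

theorem pairing_act (hR : RootTable D len) (h : pairingB D = true) (w : List (Fin D.rank)) {r q : ℕ}
    (hr : r < D.nroots) (hq : q < D.nroots) : pairing D (act D w r) (act D w q) = pairing D r q := by
  induction w with
  | nil => rfl
  | cons i w ih =>
    simp only [pairingB, List.all_eq_true, List.mem_range, Bool.and_eq_true, decide_eq_true_eq] at h
    rw [act_cons, act_cons, (h i i.2).2 _ (hR.act_lt w hr) _ (hR.act_lt w hq), ih]

theorem act_eq_of_forall_fix {R : List ℕ} :
    ∀ w : List (Fin D.rank), (∀ i ∈ w, ∀ r ∈ R, D.reflectRoot (i : ℕ) r = r) → ∀ r ∈ R, act D w r = r := by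
  intro w
  induction w with
  | nil => intros; rfl
  | cons i w ih =>
    intro h r hr
    rw [act_cons, ih (fun j hj => h j (List.mem_cons_of_mem _ hj)) r hr, h i List.mem_cons_self r hr]

/-- A reduced word fixing a dominant combination of roots uses only letters of its zero set. -/
theorem letters_of_fix (hR : RootTable D len) (h : pairingB D = true) (R : List ℕ)
    (hlt : ∀ r ∈ R, r < D.nroots) (a : ℕ → ℤ) (J : Finset (Fin D.rank))
    (hdom : ∀ q, D.IsPosRoot q → 0 ≤ (R.map fun r => a r * pairing D r q).sum)
    (hzero : ∀ i : Fin D.rank, (R.map fun r => a r * D.cartan i r).sum = 0 → i ∈ J)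
    (hJ : ∀ i ∈ J, ∀ r ∈ R, D.reflectRoot (i : ℕ) r = r) {w : List (Fin D.rank)} (hw : Reduced D w)
    (hfix : ∀ r ∈ R, act D w r = r) : ∀ i ∈ w, i ∈ J := by
  let H : List (Fin D.rank) → ℤ := fun w => (R.map fun r => a r * htHom D (vec D len (act D w r))).sum
  have step : ∀ (i : Fin D.rank) (w : List (Fin D.rank)), H (i :: w) =
      H w - (R.map fun r => a r * D.cartan i (act D w r)).sum * (len (D.simple i) : ℤ) := by
    intro i w
    simp only [H]
    have e : ∀ L : List ℕ, (∀ r ∈ L, r < D.nroots) →
        (L.map fun r => a r * htHom D (vec D len (act D (i :: w) r))).sum =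
          (L.map fun r => a r * htHom D (vec D len (act D w r))).sum -
            (L.map fun r => a r * D.cartan i (act D w r)).sum * (len (D.simple i) : ℤ) := by
      intro L
      induction L with
      | nil => simp
      | cons r L ih =>
        intro hL
        have hs : htHom D (vec D len (D.simple i)) = (len (D.simple i) : ℤ) := by
          simp [htHom, hR.vec_simple i]
        simp only [List.map_cons, List.sum_cons]
        rw [ih fun x hx => hL x (List.mem_cons_of_mem _ hx), act_cons,
          hR.vec_reflect i i.2 _ (hR.act_lt w (hL r List.mem_cons_self)), map_sub, map_zsmul, hs,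
          smul_eq_mul]
        ring
    exact e R hlt
  have key : ∀ w : List (Fin D.rank), Reduced D w → H w ≤ H [] ∧ (H w = H [] → ∀ i ∈ w, i ∈ J) := by
    intro w
    induction w with
    | nil => intro _; simp
    | cons i w ih =>
      intro hred
      obtain ⟨hrw, hq⟩ := hR.reduced_of_cons hred
      have hp := hR.simple_lt i i.2
      have hc : ∀ r ∈ R, D.cartan i (act D w r) = pairing D r (act D w.reverse (D.simple i)) := by
        intro r hr
        rw [← pairing_simple h i (hR.act_lt w (hlt r hr))]
        conv_lhs => rw [← hR.act_act_reverse w hp]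
        exact pairing_act hR h w (hlt r hr) hq.1
      have hsum : (R.map fun r => a r * D.cartan i (act D w r)).sum =
          (R.map fun r => a r * pairing D r (act D w.reverse (D.simple i))).sum :=
        congrArg List.sum (List.map_congr_left fun r hr => by rw [hc r hr])
      have hnn := hdom _ hq
      rw [← hsum] at hnn
      have hlen : (0 : ℤ) < (len (D.simple i) : ℤ) := by exact_mod_cast hR.len_pos hp
      have hle := (ih hrw).1
      rw [step]
      refine ⟨by nlinarith, fun heq => ?_⟩
      have h1 : H w = H [] := by nlinarith
      have h2 : (R.map fun r => a r * D.cartan i (act D w r)).sum = 0 := by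
        have : (R.map fun r => a r * D.cartan i (act D w r)).sum * (len (D.simple i) : ℤ) = 0 := by omega
        exact (mul_eq_zero.1 this).resolve_right hlen.ne'
      have hwJ := (ih hrw).2 h1
      refine List.forall_mem_cons.2 ⟨hzero i ?_, hwJ⟩
      rw [← h2]
      refine congrArg List.sum (List.map_congr_left fun r hr => ?_)
      rw [act_eq_of_forall_fix (R := R) w (fun j hj => hJ j (hwJ j hj)) r hr]
  refine (key w hw).2 ?_
  simp only [H]
  exact congrArg List.sum (List.map_congr_left fun r hr => by rw [hfix r hr, act_nil])

/-- The inversion set of a word in `J` lies in any `J`-stable set of roots containing the simple roots of `J`. -/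
theorem invSet_subset (hR : RootTable D len) (J : Finset (Fin D.rank)) (JR : List ℕ)
    (hs : ∀ i ∈ J, D.simple (i : ℕ) ∈ JR)
    (hcl : ∀ i ∈ J, ∀ q ∈ JR, D.reflectRoot (i : ℕ) q ∈ JR) :
    ∀ w : List (Fin D.rank), (∀ i ∈ w, i ∈ J) → Reduced D w → ∀ q ∈ invSet D w, q ∈ JR := by
  intro w
  induction w with
  | nil =>
    intro _ _ q hq
    exact absurd hq.2 (by rw [act_nil]; exact fun h => hR.not_pos_and_neg hq.1 h)
  | cons i w ih =>
    intro hJ hred q hq
    obtain ⟨hrw, hp⟩ := hR.reduced_of_cons hred
    rw [hR.invSet_cons_pos i w hp] at hq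
    have hw : ∀ j ∈ w, j ∈ J := fun j hj => hJ j (List.mem_cons_of_mem _ hj)
    rcases Set.mem_insert_iff.1 hq with rfl | hq
    · have : ∀ v : List (Fin D.rank), (∀ j ∈ v, j ∈ J) → ∀ s ∈ JR, act D v s ∈ JR := by
        intro v
        induction v with
        | nil => exact fun _ s hs => hs
        | cons j v ihv =>
          intro hv s hs
          rw [act_cons]
          exact hcl j (hv j List.mem_cons_self) _ (ihv (fun k hk => hv k (List.mem_cons_of_mem _ hk)) s hs)
      exact this w.reverse (fun j hj => hw j (List.mem_reverse.1 hj)) _ (hs i (hJ i List.mem_cons_self))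
    · exact ih hw hrw q hq

end Cfsg.Agent.Known.ChevCent
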