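import Cfsg.Agent.Known.ChevCentTop

/-!
Pairs of conjugates of a root subgroup centralized by `U`.
-/

set_option autoImplicit false

namespace Cfsg.Agent.Known.ChevCent

open Cfsg.Lie Cfsg.Agent.ChevGrp
open scoped MatrixGroups

variable {D : ChevalleyDatum} {F : Type*} [Field F] {G : Type*} [Group G] (S : Sys D F G) {len : ℕ → ℕ}

/-- Two independent roots lie in the positive degree part of some functional, so generate a `p`-group. -/
theorem isPGroup_pair [Finite F] (hR : RootTable D len) {p f : ℕ} (hq : Nat.card F = p ^ f) {r s : ℕ}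
    (hr : r < D.nroots) (hs : s < D.nroots) (i j : Fin D.rank)
    (hdet : vec D len r i * vec D len s j - vec D len r j * vec D len s i ≠ 0) :
    IsPGroup p ↥(S.US {r} ⊔ S.US {s}) := by
  set d := vec D len r i * vec D len s j - vec D len r j * vec D len s i with hd
  let φ : (Fin D.rank → ℤ) →+ ℤ :=
    (d * (vec D len s j - vec D len r j)) • Pi.evalAddMonoidHom (fun _ => ℤ) i +
      (d * (vec D len r i - vec D len s i)) • Pi.evalAddMonoidHom (fun _ => ℤ) j
  have hdd : 0 < d * d := mul_self_pos.2 hdet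
  have h1 : φ (vec D len r) = d * d := by
    simp only [φ, AddMonoidHom.add_apply, AddMonoidHom.smul_apply, Pi.evalAddMonoidHom_apply, smul_eq_mul]
    conv_rhs => arg 2; rw [hd]
    ring
  have h2 : φ (vec D len s) = d * d := by
    simp only [φ, AddMonoidHom.add_apply, AddMonoidHom.smul_apply, Pi.evalAddMonoidHom_apply, smul_eq_mul]
    conv_rhs => arg 2; rw [hd]
    ring
  have hP : IsPGroup p ↥(S.US (degPos D len φ)) :=
    IsPGroup.of_card (n := f * Nat.card (degPos D len φ))
      (by rw [S.card_US hR (hR.degPos_closed φ), hq, ← pow_mul])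
  refine hP.to_le (sup_le (S.US_mono ?_) (S.US_mono ?_)) <;> intro x hx <;>
    rw [Set.mem_singleton_iff.1 hx]
  · exact ⟨hr, by rw [h1]; exact hdd⟩
  · exact ⟨hs, by rw [h2]; exact hdd⟩

theorem pairs [Finite F] (hS : Rules D F) (hR : RootTable D len) {p f : ℕ} (hq : Nat.card F = p ^ f) {r : ℕ}
    (hr : D.IsPosRoot r) (hcentral : ∀ s, D.IsPosRoot s → ∀ t u : F, Commute (S.x s u) (S.x r t))
    (hind : ∀ s < D.nroots, s ≠ r → s ≠ D.neg r →
      ∃ i j, vec D len r i * vec D len s j - vec D len r j * vec D len s i ≠ 0)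
    {g : G} (hg : g ∈ S.Gbar) :
    IsPGroup p ↥(S.US {r} ⊔ (S.US {r}).map (MulAut.conj g).toMonoidHom) ∨
      ∃ h ∈ S.Gbar, (S.US {r} ⊔ (S.US {r}).map (MulAut.conj g).toMonoidHom).map (MulAut.conj h).toMonoidHom =
        S.US {r} ⊔ S.US {D.neg r} := by
  have hUc : ∀ y ∈ S.Ubar, ∀ z ∈ S.US {r}, Commute y z := by
    intro y hy z hz
    refine Subgroup.closure_induction ?_ ?_ ?_ ?_ hz
    · rintro _ ⟨x, hx, t, rfl⟩
      rw [Set.mem_singleton_iff.1 hx]
      refine Subgroup.closure_induction ?_ ?_ ?_ ?_ hy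
      · rintro _ ⟨s, hs, u, rfl⟩
        exact hcentral s hs t u
      · exact Commute.one_left _
      · exact fun a b _ _ ha hb => ha.mul_left hb
      · exact fun a _ ha => ha.inv_left
    · exact Commute.one_right _
    · exact fun a b _ _ ha hb => ha.mul_right hb
    · exact fun a _ ha => ha.inv_right
  have hnorm : S.Bbar ≤ Subgroup.normalizer (S.US {r} : Set G) := by
    refine sup_le (fun y hy => Subgroup.mem_normalizer_iff.2 fun z => ⟨fun hz => ?_, fun hz => ?_⟩)
      (S.Hbar_le_normalizer_US hS hR fun x hx => by rw [Set.mem_singleton_iff.1 hx]; exact hr.1)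
    · rw [(hUc y hy z hz).eq, mul_inv_cancel_right]
      exact hz
    · have h := hUc y hy _ hz
      have e : y * z * y⁻¹ = z := by
        exact mul_left_cancel (a := y) (h.eq.trans (by group))
      rwa [e] at hz
  obtain ⟨b, hb, w, -, v, hv, rfl⟩ := S.mem_NF hS hR hg
  have hfix : ∀ y ∈ S.Bbar, (S.US {r}).map (MulAut.conj y).toMonoidHom = S.US {r} := fun y hy =>
    SetLike.coe_injective (Subgroup.mem_normalizer_iff_conj_image_eq.1 (hnorm hy))
  have hvB : v ∈ S.Bbar := S.Ubar_le_Bbar (S.US_mono (fun x h => h.1) hv)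
  have hcomp : ∀ (a c : G) (H : Subgroup G),
      H.map (MulAut.conj (a * c)).toMonoidHom =
        (H.map (MulAut.conj c).toMonoidHom).map (MulAut.conj a).toMonoidHom := by
    intro a c H
    rw [Subgroup.map_map]
    congr 1
    ext z
    simp [mul_assoc]
  have hconj : (S.US {r}).map (MulAut.conj (b * S.nW w * v)).toMonoidHom =
      (S.US {act D w r}).map (MulAut.conj b).toMonoidHom := by
    rw [hcomp, hfix v hvB, hcomp, S.conj_US hS hR w fun x hx => by rw [Set.mem_singleton_iff.1 hx]; exact hr.1,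
      Set.image_singleton]
  have hsum : S.US {r} ⊔ (S.US {r}).map (MulAut.conj (b * S.nW w * v)).toMonoidHom =
      (S.US {r} ⊔ S.US {act D w r}).map (MulAut.conj b).toMonoidHom := by
    rw [hconj, Subgroup.map_sup, hfix b hb]
  set s := act D w r
  have hs : s < D.nroots := hR.act_lt w hr.1
  by_cases h1 : s = D.neg r
  · refine Or.inr ⟨b⁻¹, inv_mem (S.Gbar_eq hR hS ▸ Subgroup.mem_sup_left hb), ?_⟩
    rw [hsum, h1, ← hcomp, inv_mul_cancel]
    ext z
    simp
  left
  rw [hsum]
  refine IsPGroup.map ?_ _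
  by_cases h2 : s = r
  · rw [h2, sup_idem]
    exact IsPGroup.of_card (n := f * Nat.card ({r} : Set ℕ)) (by
      rw [S.card_US hR (singleton_closed hR hr), hq, ← pow_mul])
  obtain ⟨i, j, hdet⟩ := hind s hs h2 h1
  exact isPGroup_pair S hR hq hr.1 hs i j hdet

/-- The coroot vectors of `r` and `s` are not proportional. -/
def indepB (D : ChevalleyDatum) (r : ℕ) : Bool :=
  (List.range D.nroots).all fun s => decide (s = r) || decide (s = D.neg r) ||
    (List.range D.rank).any fun i => (List.range D.rank).any fun j =>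
      decide ((D.coroot.getD r #[]).getD i 0 * (D.coroot.getD s #[]).getD j 0 -
        (D.coroot.getD r #[]).getD j 0 * (D.coroot.getD s #[]).getD i 0 ≠ 0)

theorem ind_of_indepB (hR : RootTable D len) {r : ℕ} (hr : r < D.nroots) (h : indepB D r = true) {s : ℕ}
    (hs : s < D.nroots) (h1 : s ≠ r) (h2 : s ≠ D.neg r) :
    ∃ i j, vec D len r i * vec D len s j - vec D len r j * vec D len s i ≠ 0 := by
  simp only [indepB, List.all_eq_true, List.any_eq_true, List.mem_range, Bool.or_eq_true,
    decide_eq_true_eq] at h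
  obtain ⟨i, hi, j, hj, hd⟩ := ((h s hs).resolve_left fun h => h.elim h1 h2)
  refine ⟨⟨i, hi⟩, ⟨j, hj⟩, ?_⟩
  simp only [vec]
  have hl1 : (len r : ℤ) ≠ 0 := by exact_mod_cast (hR.len_pos hr).ne'
  have hl2 : (len s : ℤ) ≠ 0 := by exact_mod_cast (hR.len_pos hs).ne'
  intro e
  apply hd
  have : (len r : ℤ) * (len s : ℤ) * ((D.coroot.getD r #[]).getD i 0 * (D.coroot.getD s #[]).getD j 0 -
      (D.coroot.getD r #[]).getD j 0 * (D.coroot.getD s #[]).getD i 0) = 0 := by linear_combination e
  exact (mul_eq_zero.1 this).resolve_left (mul_ne_zero hl1 hl2)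

theorem pairs_top [Fintype F] [CharP F 2] (hS : Rules D F) {r r0 : ℕ} (hlt : posB D r = true)
    (hc : centralB D r = true) (hi : indepB D r = true) (h0 : D.neg r = r0) {g : GL D.Idx F}
    (hg : g ∈ D.group F) :
    IsPGroup 2 ↥(D.rootSubgroup F r ⊔ (D.rootSubgroup F r).map (MulAut.conj g).toMonoidHom) ∨
      ∃ h ∈ D.group F, (D.rootSubgroup F r ⊔ (D.rootSubgroup F r).map (MulAut.conj g).toMonoidHom).map
        (MulAut.conj h).toMonoidHom = D.rootSubgroup F r ⊔ D.rootSubgroup F r0 := by
  obtain ⟨len, hR⟩ := hS.root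
  have hr : D.IsPosRoot r := (posB_iff D r).1 hlt
  obtain ⟨f, -, hf⟩ := FiniteField.card F 2
  rw [rootSubgroup_eq hS r, rootSubgroup_eq hS r0, group_eq hS, ← h0]
  exact pairs (glSys hS) hS hR (p := 2) (f := f) (by rw [Nat.card_eq_fintype_card, hf]) hr
    (fun s hs t u => central_of_centralB _ hR hr.1 hc hs t u)
    (fun s hs h1 h2 => ind_of_indepB hR hr.1 hi hs h1 h2) (by rw [← group_eq hS]; exact hg)

end Cfsg.Agent.Known.ChevCent
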