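import Mathlib
import Cfsg.Prelude.Def_Classical
import Cfsg.Agent.Known.Section
import Cfsg.Agent.Perm.Modules

/-!
`Qd(p)` is not a section of `SU₃` in the defining characteristic: the normaliser of a `p`-subgroup fixes an
isotropic line, and the stabiliser of such a line is `p`-closed with abelian quotient.
-/

set_option autoImplicit false

namespace Cfsg.Agent.Known.PSU3Qd

open Matrix

/-- Normalisers of non-trivial `p`-subgroups have a normal `p`-subgroup containing all commutators. -/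
def PClosedLocals (p : ℕ) (G : Type*) [Group G] : Prop :=
  ∀ P : Subgroup G, IsPGroup p P → P ≠ ⊥ → ∃ B K : Subgroup G,
    Subgroup.normalizer (P : Set G) ≤ B ∧ IsPGroup p K ∧ (∀ g ∈ B, ∀ h ∈ B, g * h * g⁻¹ * h⁻¹ ∈ K)

theorem qd_row {p : ℕ} [Fact p.Prime] {M : SpecialLinearGroup (Fin 3) (ZMod p)} (h : M ∈ Cfsg.qd p) :
    M 2 0 = 0 ∧ M 2 1 = 0 ∧ M 2 2 = 1 := by
  refine Subgroup.closure_induction ?_ ?_ ?_ ?_ h
  · exact fun x hx => hx
  · simp
  · intro x y _ _ hx hy
    simp [SpecialLinearGroup.coe_mul, Matrix.mul_apply, Fin.sum_univ_three, hx, hy]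
  · intro x _ hx
    have hd := x.2
    rw [Matrix.det_fin_three] at hd
    simp only [hx.1, hx.2.1, hx.2.2] at hd
    refine ⟨?_, ?_, ?_⟩ <;>
      simp [SpecialLinearGroup.coe_inv, Matrix.adjugate_fin_three, hx]
    linear_combination hd

/-- A non-trivial normal `p`-subgroup of `Qd(p)` exists. -/
theorem qd_exists_normal {p : ℕ} [Fact p.Prime] (hp : p ≠ 2) :
    ∃ V : Subgroup (Cfsg.qd p), V.Normal ∧ IsPGroup p V ∧ V ≠ ⊥ := by
  let f : Cfsg.qd p →* Matrix (Fin 2) (Fin 2) (ZMod p) :=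
    { toFun := fun M => !![M.1 0 0, M.1 0 1; M.1 1 0, M.1 1 1]
      map_one' := by
        ext i j
        fin_cases i <;> fin_cases j <;> simp
      map_mul' := fun A B => by
        obtain ⟨a, b, -⟩ := qd_row B.2
        ext i j
        fin_cases i <;> fin_cases j <;>
          simp [Subgroup.coe_mul, SpecialLinearGroup.coe_mul, Matrix.mul_apply, Fin.sum_univ_three,
            Fin.sum_univ_two, a, b] }
  refine ⟨f.ker, inferInstance, fun x => ⟨1, ?_⟩, ?_⟩
  · have hx : f x.1 = 1 := x.2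
    obtain ⟨a, b, c⟩ := qd_row x.1.2
    have e00 := congrFun (congrFun hx 0) 0
    have e10 := congrFun (congrFun hx 1) 0
    have e11 := congrFun (congrFun hx 1) 1
    simp [f] at e00 e10 e11
    rw [pow_one]
    exact Subtype.ext (Subtype.ext (unitri3_pow_eq_one hp ⟨e00, e11, c, e10, a, b⟩))
  · intro hbot
    let t : SpecialLinearGroup (Fin 3) (ZMod p) :=
      ⟨!![1, 0, 1; 0, 1, 0; 0, 0, 1], by simp [Matrix.det_fin_three]⟩
    have ht : t ∈ Cfsg.qd p := Subgroup.subset_closure ⟨rfl, rfl, rfl⟩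
    have hk : (⟨t, ht⟩ : Cfsg.qd p) ∈ f.ker := by
      rw [MonoidHom.mem_ker]
      ext i j
      fin_cases i <;> fin_cases j <;> simp [f, t]
    rw [hbot, Subgroup.mem_bot] at hk
    have := congrArg (fun M : Cfsg.qd p => M.1 0 2) hk
    simp [t] at this

/-- No normal `p`-subgroup of `Qd(p)` contains all commutators. -/
theorem qd_not_pclosed {p : ℕ} [Fact p.Prime] (hp : p ≠ 2) (K : Subgroup (Cfsg.qd p))
    (hK : IsPGroup p K) : ¬ ∀ g h : Cfsg.qd p, g * h * g⁻¹ * h⁻¹ ∈ K := by
  intro hc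
  have hn : ∀ L : Subgroup (Cfsg.qd p), K ≤ L → L.Normal := fun L hL => ⟨fun a ha g => by
    have h1 := mul_mem (hL (hc g a)) ha
    simpa [mul_assoc] using h1⟩
  have key : ∀ x y : Cfsg.qd p, x ^ p = 1 → y ^ p = 1 → ∀ z, z ∈ Subgroup.closure ({x, y} : Set (Cfsg.qd p)) →
      ∃ k, z ^ p ^ k = 1 := by
    intro x y hx hy z hz
    have hz' : ∀ w : Cfsg.qd p, w ^ p = 1 → IsPGroup p (Subgroup.zpowers w) := fun w hw v => by
      obtain ⟨n, hn⟩ := Subgroup.mem_zpowers_iff.1 v.2
      refine ⟨1, Subtype.ext ?_⟩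
      rw [pow_one, Subgroup.coe_pow, ← hn, ← zpow_natCast, zpow_comm, zpow_natCast, hw, _root_.one_zpow]
      rfl
    haveI := hn K le_rfl
    have h1 : IsPGroup p ↥(K ⊔ Subgroup.zpowers x) := hK.to_sup_of_normal_left (hz' x hx)
    haveI := hn (K ⊔ Subgroup.zpowers x) le_sup_left
    have h2 : IsPGroup p ↥(K ⊔ Subgroup.zpowers x ⊔ Subgroup.zpowers y) := h1.to_sup_of_normal_left (hz' y hy)
    have hle : Subgroup.closure ({x, y} : Set (Cfsg.qd p)) ≤ K ⊔ Subgroup.zpowers x ⊔ Subgroup.zpowers y := by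
      rw [Subgroup.closure_le]
      rintro w (rfl | rfl)
      · exact Subgroup.mem_sup_left (Subgroup.mem_sup_right (Subgroup.mem_zpowers _))
      · exact Subgroup.mem_sup_right (Subgroup.mem_zpowers _)
    obtain ⟨k, hk⟩ := h2 ⟨z, hle hz⟩
    exact ⟨k, congrArg Subtype.val hk⟩
  let u : SpecialLinearGroup (Fin 3) (ZMod p) :=
    ⟨!![1, 1, 0; 0, 1, 0; 0, 0, 1], by simp [Matrix.det_fin_three]⟩
  let l : SpecialLinearGroup (Fin 3) (ZMod p) :=
    ⟨!![1, 0, 0; -1, 1, 0; 0, 0, 1], by simp [Matrix.det_fin_three]⟩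
  have hu : u ∈ Cfsg.qd p := Subgroup.subset_closure ⟨rfl, rfl, rfl⟩
  have hl : l ∈ Cfsg.qd p := Subgroup.subset_closure ⟨rfl, rfl, rfl⟩
  set U : Cfsg.qd p := ⟨u, hu⟩
  set L : Cfsg.qd p := ⟨l, hl⟩
  have hU : U ^ p = 1 := Subtype.ext (unitri3_pow_eq_one hp ⟨rfl, rfl, rfl, rfl, rfl, rfl⟩)
  have hL : L ^ p = 1 := by
    let w : SpecialLinearGroup (Fin 3) (ZMod p) :=
      ⟨!![0, 1, 0; -1, 0, 0; 0, 0, 1], by simp [Matrix.det_fin_three]⟩
    have e : w * u * w⁻¹ = l := by
      rw [mul_inv_eq_iff_eq_mul]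
      refine Subtype.ext ?_
      show w.1 * u.1 = l.1 * w.1
      ext i j
      fin_cases i <;> fin_cases j <;>
        simp [w, u, l, Matrix.mul_apply, Fin.sum_univ_three]
    refine Subtype.ext ?_
    show l ^ p = 1
    rw [← e, conj_pow, show u ^ p = 1 from congrArg Subtype.val hU, mul_one, mul_inv_cancel]
  set W := U * L * U
  have hW4 : W ^ 4 = 1 := by
    refine Subtype.ext (Subtype.ext ?_)
    have e : (u.1 * l.1 * u.1) = !![0, 1, 0; -1, 0, 0; 0, 0, 1] := by
      ext i j
      fin_cases i <;> fin_cases j <;> simp [u, l, Matrix.mul_apply, Fin.sum_univ_three]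
    show (u.1 * l.1 * u.1) ^ 4 = 1
    rw [e]
    ext i j
    fin_cases i <;> fin_cases j <;> simp [pow_succ, Matrix.mul_apply, Fin.sum_univ_three]
  obtain ⟨k, hk⟩ := key U L hU hL W (mul_mem (mul_mem (Subgroup.subset_closure (by simp))
    (Subgroup.subset_closure (by simp))) (Subgroup.subset_closure (by simp)))
  have hcop : Nat.Coprime 4 (p ^ k) := by
    refine Nat.Coprime.pow_right k ?_
    rw [show 4 = 2 ^ 2 from rfl]
    exact Nat.Coprime.pow_left 2 ((Nat.coprime_primes Nat.prime_two Fact.out).2 (Ne.symm hp))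
  have hW1 : W = 1 := by
    rw [← orderOf_eq_one_iff]
    exact Nat.eq_one_of_dvd_coprimes hcop (orderOf_dvd_of_pow_eq_one hW4) (orderOf_dvd_of_pow_eq_one hk)
  have := congrArg (fun M : Cfsg.qd p => M.1.1 0 0) hW1
  change (u.1 * l.1 * u.1) 0 0 = (1 : Matrix (Fin 3) (Fin 3) (ZMod p)) 0 0 at this
  simp [u, l, Matrix.mul_apply, Fin.sum_univ_three] at this

/-- The abstract argument. -/
theorem not_qd_section {p : ℕ} [Fact p.Prime] (hp : p ≠ 2) {G : Type*} [Group G] [Finite G]
    (hG : PClosedLocals p G) (H : Subgroup G) (f : ↥H →* Cfsg.qd p) (hf : Function.Surjective f) : False := by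
  obtain ⟨V, hVn, hV, hV1⟩ := qd_exists_normal (p := p) hp
  haveI := hVn
  obtain ⟨P⟩ : Nonempty (Sylow p ↥(V.comap f)) := inferInstance
  have hfr := Sylow.normalizer_sup_eq_top P
  set P0 : Subgroup ↥H := (P : Subgroup ↥(V.comap f)).map (V.comap f).subtype
  have hfP : P0.map f = V := by
    set fV : ↥(V.comap f) →* V := f.subgroupComap V
    have hfV : Function.Surjective fV := f.subgroupComap_surjective_of_surjective V hf
    have h1 : (P.mapSurjective hfV : Subgroup V) = ⊤ :=
      (P.mapSurjective hfV).3 (hV.of_equiv Subgroup.topEquiv.symm) le_top |>.symm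
    rw [Sylow.coe_mapSurjective] at h1
    have h2 := congrArg (fun S : Subgroup V => S.map V.subtype) h1
    simp only [← MonoidHom.range_eq_map, Subgroup.range_subtype] at h2
    rw [Subgroup.map_map] at h2
    rw [Subgroup.map_map]
    exact h2
  have hN : (Subgroup.normalizer (P0 : Set ↥H)).map f = ⊤ := by
    refine le_antisymm le_top ?_
    calc (⊤ : Subgroup (Cfsg.qd p)) = (⊤ : Subgroup ↥H).map f := (Subgroup.map_top_of_surjective f hf).symm
      _ = (Subgroup.normalizer (P0 : Set ↥H)).map f ⊔ (V.comap f).map f := by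
          rw [← hfr, Subgroup.map_sup]
      _ ≤ _ := by
          refine sup_le le_rfl ((Subgroup.map_comap_le f V).trans ?_)
          rw [← hfP]
          exact Subgroup.map_mono Subgroup.le_normalizer
  set P1 : Subgroup G := P0.map H.subtype
  have hP1 : P1 ≠ ⊥ := by
    intro h
    rw [Subgroup.map_eq_bot_iff_of_injective _ H.subtype_injective] at h
    exact hV1 (by rw [← hfP, h, Subgroup.map_bot])
  obtain ⟨B, K, hB, hK, hc⟩ := hG P1 ((P.2.map _).map _) hP1
  have hNB : ∀ n ∈ Subgroup.normalizer (P0 : Set ↥H), (n : G) ∈ B := fun n hn =>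
    hB (Subgroup.le_normalizer_map H.subtype (Subgroup.mem_map_of_mem H.subtype hn))
  refine qd_not_pclosed hp ((K.subgroupOf H).map f) ((hK.comap_of_injective _ H.subtype_injective).map _)
    fun a b => ?_
  obtain ⟨x, hx, rfl⟩ : a ∈ (Subgroup.normalizer (P0 : Set ↥H)).map f := hN ▸ Subgroup.mem_top a
  obtain ⟨y, hy, rfl⟩ : b ∈ (Subgroup.normalizer (P0 : Set ↥H)).map f := hN ▸ Subgroup.mem_top b
  exact ⟨x * y * x⁻¹ * y⁻¹, hc _ (hNB x hx) _ (hNB y hy), by simp⟩

variable {K : Type*} [Field K]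

theorem cross_parallel {a b u : Fin 3 → K} (hu : u ⬝ᵥ a = 0) (hu' : u ⬝ᵥ b = 0)
    (hne : crossProduct a b ≠ 0) : ∃ c : K, u = c • crossProduct a b := by
  set w := crossProduct a b with hw
  have h0 : crossProduct u w = 0 := by
    simp only [dotProduct, Fin.sum_univ_three] at hu hu'
    rw [hw, cross_apply, cross_apply]
    funext i
    fin_cases i <;> simp
    · linear_combination a 0 * hu' - b 0 * hu
    · linear_combination a 1 * hu' - b 1 * hu
    · linear_combination a 2 * hu' - b 2 * hu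
  rw [cross_apply] at h0
  have e0 := congrFun h0 0
  have e1 := congrFun h0 1
  have e2 := congrFun h0 2
  simp at e0 e1 e2
  obtain ⟨i, hi⟩ := Function.ne_iff.1 hne
  simp at hi
  refine ⟨u i / w i, funext fun j => ?_⟩
  simp only [Pi.smul_apply, smul_eq_mul]
  rw [div_mul_eq_mul_div, eq_div_iff hi]
  fin_cases i <;> fin_cases j <;> simp <;>
    first
      | rfl
      | linear_combination e0 | linear_combination (-1 : K) * e0
      | linear_combination e1 | linear_combination (-1 : K) * e1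
      | linear_combination e2 | linear_combination (-1 : K) * e2

variable {p n : ℕ} [CharP K p] [Fact p.Prime]

/-- The standard Hermitian form. -/
abbrev hf (q : ℕ) (u v : Fin 3 → K) : K := Cfsg.hermForm 3 K q u v

theorem hf_add_left (q : ℕ) (u u' v : Fin 3 → K) : hf q (u + u') v = hf q u v + hf q u' v := by
  simp [hf, Cfsg.hermForm, add_mul, Finset.sum_add_distrib]

theorem hf_sub_left (q : ℕ) (u u' v : Fin 3 → K) : hf q (u - u') v = hf q u v - hf q u' v := by
  simp [hf, Cfsg.hermForm, sub_mul, Finset.sum_sub_distrib]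

theorem hf_smul_left (q : ℕ) (c : K) (u v : Fin 3 → K) : hf q (c • u) v = c * hf q u v := by
  simp [hf, Cfsg.hermForm, Finset.mul_sum, mul_assoc]

theorem hf_zero_left (q : ℕ) (v : Fin 3 → K) : hf q 0 v = 0 := by
  simp [hf, Cfsg.hermForm]

theorem hf_smul_right (q : ℕ) (c : K) (u v : Fin 3 → K) : hf q u (c • v) = c ^ q * hf q u v := by
  simp [hf, Cfsg.hermForm, Finset.mul_sum, mul_pow, mul_left_comm]

theorem hf_dot (q : ℕ) (u v : Fin 3 → K) : hf q u v = u ⬝ᵥ fun i => v i ^ q := rfl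

variable (hK : Nat.card K = (p ^ n) ^ 2)

include hK in
theorem hf_symm [Finite K] (u v : Fin 3 → K) : (hf (p ^ n) u v) ^ p ^ n = hf (p ^ n) v u := by
  haveI := Fintype.ofFinite K
  rw [Nat.card_eq_fintype_card] at hK
  simp only [hf, Cfsg.hermForm, sum_pow_char_pow, mul_pow]
  refine Finset.sum_congr rfl fun i _ => ?_
  rw [← pow_mul, ← pow_two, ← hK, FiniteField.pow_card, mul_comm]

include hK in
theorem exists_hf_ne [Finite K] {x : Fin 3 → K} (hx : x ≠ 0) : ∃ z, hf (p ^ n) z x = 1 := by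
  obtain ⟨i, hi⟩ := Function.ne_iff.1 hx
  refine ⟨Pi.single i ((x i ^ p ^ n)⁻¹), ?_⟩
  rw [hf_dot, single_dotProduct, inv_mul_cancel₀ (pow_ne_zero _ hi)]

/-- The action on vectors. -/
def mv (g : Matrix.SpecialLinearGroup (Fin 3) K) (v : Fin 3 → K) : Fin 3 → K :=
  (g : Matrix (Fin 3) (Fin 3) K) *ᵥ v

theorem mv_mul (g h : Matrix.SpecialLinearGroup (Fin 3) K) (v : Fin 3 → K) : mv (g * h) v = mv g (mv h v) := by
  simp [mv, Matrix.mulVec_mulVec]

theorem mv_one (v : Fin 3 → K) : mv (1 : Matrix.SpecialLinearGroup (Fin 3) K) v = v := by simp [mv]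

theorem mv_hf {q : ℕ} (g : Cfsg.SU 3 K q) (u v : Fin 3 → K) : hf q (mv g.1 u) (mv g.1 v) = hf q u v :=
  g.2 u v

include hK in
theorem pow_eq_one_of_fix [Finite K] (hp : p ≠ 2) {x : Fin 3 → K} (hx : x ≠ 0)
    (hiso : hf (p ^ n) x x = 0) : ∀ g : Cfsg.SU 3 K (p ^ n), mv g.1 x = x → g ^ p = 1 := by
  set q := p ^ n
  intro g hg
  have hq : q ≠ 0 := pow_ne_zero _ (Fact.out : p.Prime).ne_zero
  obtain ⟨z, hz⟩ : ∃ z, hf q z x = 1 := exists_hf_ne hK hx
  have hxz : hf q x z = 1 := by rw [← hf_symm hK z x, hz, one_pow]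
  set a : Fin 3 → K := fun i => x i ^ q
  set b : Fin 3 → K := fun i => z i ^ q
  set y := crossProduct a b with hy
  have hyne : y ≠ 0 := by
    intro h0
    have h1 : crossProduct x (crossProduct a b) = 0 := by rw [← hy, h0, map_zero]
    have h2 : ∀ i, b i * hf q x x = a i * hf q x z → a i = 0 := fun i h => by
      rw [hiso, hxz, mul_zero, mul_one] at h
      exact h.symm
    have h3 : a = 0 := by
      funext i
      refine h2 i ?_
      have := congrFun h1 i
      simp only [hf_dot, dotProduct, Fin.sum_univ_three, cross_apply] at this ⊢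
      fin_cases i <;> simp [a, b] at this ⊢
      · linear_combination (-1 : K) * this
      · linear_combination (-1 : K) * this
      · linear_combination (-1 : K) * this
    obtain ⟨i, hi⟩ := Function.ne_iff.1 hx
    exact pow_ne_zero q hi (congrFun h3 i)
  have hyx : hf q y x = 0 := by
    rw [hf_dot, dotProduct_comm]
    exact dot_self_cross a b
  have hyz : hf q y z = 0 := by
    rw [hf_dot, dotProduct_comm]
    exact dot_cross_self a b
  have hperp : ∀ u, hf q u x = 0 → ∃ α β : K, u = α • x + β • y := by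
    intro u hu
    obtain ⟨c, hc⟩ := cross_parallel (a := a) (b := b) (u := u - hf q u z • x)
      (by rw [← hf_dot, hf_sub_left, hf_smul_left, hu, hiso, mul_zero, sub_zero])
      (by rw [← hf_dot, hf_sub_left, hf_smul_left, hxz, mul_one, sub_self]) hyne
    exact ⟨hf q u z, c, by rw [← hc, add_sub_cancel]⟩
  obtain ⟨α, β, hgy⟩ := hperp (mv g.1 y) (by
    have := mv_hf g y x
    rwa [hg, hyx] at this)
  obtain ⟨γ, δ, hgz⟩ := hperp (mv g.1 z - z) (by
    have := mv_hf g z x
    rw [hg] at this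
    rw [hf_sub_left, this, sub_self])
  rw [sub_eq_iff_eq_add] at hgz
  -- independence
  have hind : ∀ c₀ c₁ c₂ : K, c₀ • x + c₁ • y + c₂ • z = 0 → c₀ = 0 ∧ c₁ = 0 ∧ c₂ = 0 := by
    intro c₀ c₁ c₂ h
    have h2 := congrArg (hf q · x) h
    simp only [hf_add_left, hf_smul_left, hiso, hyx, hz, hf_zero_left] at h2
    have hc2 : c₂ = 0 := by simpa using h2
    subst hc2
    rw [zero_smul, add_zero] at h
    have h0 := congrArg (hf q · z) h
    simp only [hf_add_left, hf_smul_left, hxz, hyz, hf_zero_left] at h0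
    have hc0 : c₀ = 0 := by simpa using h0
    subst hc0
    rw [zero_smul, zero_add, smul_eq_zero] at h
    exact ⟨rfl, h.resolve_right hyne, rfl⟩
  set M : Matrix (Fin 3) (Fin 3) K := Matrix.of fun i j => ![x, y, z] j i with hM
  set T : Matrix (Fin 3) (Fin 3) K := !![1, α, γ; 0, β, δ; 0, 0, 1] with hT
  have hMdet : M.det ≠ 0 := by
    intro hd
    obtain ⟨c, hc, hMc⟩ := Matrix.exists_mulVec_eq_zero_iff.2 hd
    obtain ⟨h0, h1, h2⟩ := hind (c 0) (c 1) (c 2) (by
      rw [← hMc]
      funext i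
      simp [M, Matrix.mulVec, dotProduct, Fin.sum_univ_three, mul_comm])
    exact hc (funext fun i => by fin_cases i <;> assumption)
  set A : Matrix (Fin 3) (Fin 3) K := ((g.1 : Matrix.SpecialLinearGroup (Fin 3) K) : Matrix (Fin 3) (Fin 3) K)
  have hAM : A * M = M * T := by
    ext i j
    have e0 := congrFun hg i
    have e1 := congrFun hgy i
    have e2 := congrFun hgz i
    simp [mv, Matrix.mulVec, dotProduct, Fin.sum_univ_three] at e0 e1 e2
    fin_cases j <;> simp [A, M, T, Matrix.mul_apply, Fin.sum_univ_three]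
    · linear_combination e0
    · linear_combination e1
    · linear_combination e2
  have hβ : β = 1 := by
    have := congrArg Matrix.det hAM
    rw [Matrix.det_mul, Matrix.det_mul, show A.det = 1 from g.1.2, one_mul] at this
    have hTd : T.det = β := by simp [T, Matrix.det_fin_three]
    rw [hTd] at this
    exact (mul_left_cancel₀ hMdet (this.symm.trans (mul_one _).symm))
  -- unipotence
  haveI : CharP (Matrix (Fin 3) (Fin 3) K) p := Matrix.charP p
  have h3 : (T - 1) ^ 3 = 0 := by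
    rw [hT, hβ]
    ext i j
    fin_cases i <;> fin_cases j <;>
      simp [pow_succ, Matrix.mul_apply, Fin.sum_univ_three]
  have hp3 : 3 ≤ p := by have := (Fact.out : p.Prime).two_le; omega
  have hTp : T ^ p = 1 := by
    have h := pow_eq_zero_of_le hp3 h3
    rwa [sub_pow_char_of_commute (p := p) (h := Commute.one_right T), one_pow, sub_eq_zero] at h
  have hAk : ∀ k : ℕ, A ^ k * M = M * T ^ k := by
    intro k
    induction k with
    | zero => simp
    | succ k ih => rw [pow_succ, Matrix.mul_assoc, hAM, ← Matrix.mul_assoc, ih, Matrix.mul_assoc, ← pow_succ]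
  have hAp := hAk p
  rw [hTp, Matrix.mul_one] at hAp
  have hA1 : A ^ p = 1 := by
    have hu : IsUnit M := (Matrix.isUnit_iff_isUnit_det M).2 (isUnit_iff_ne_zero.2 hMdet)
    exact (IsUnit.mul_left_inj hu).1 (hAp.trans (Matrix.one_mul M).symm)
  refine Subtype.ext (Subtype.ext ?_)
  rw [Subgroup.coe_pow, Matrix.SpecialLinearGroup.coe_pow]
  exact hA1

include hK in
theorem pClosedLocals [Finite K] (hp : p ≠ 2) : PClosedLocals p (Cfsg.SU 3 K (p ^ n)) := by
  set q := p ^ n
  intro P hP hP1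
  let ρ : Representation K P (Fin 3 → K) :=
    { toFun := fun u => Matrix.toLin' ((u.1.1 : Matrix.SpecialLinearGroup (Fin 3) K) : Matrix (Fin 3) (Fin 3) K)
      map_one' := by simp [Module.End.one_eq_id]
      map_mul' := fun u w => by simp [Matrix.toLin'_mul, Module.End.mul_eq_comp] }
  have hρ : ∀ (u : P) v, ρ u v = mv u.1.1 v := fun u v => Matrix.toLin'_apply _ _
  let W : Submodule K (Fin 3 → K) :=
    { carrier := {v | ∀ u : P, mv u.1.1 v = v}
      zero_mem' := fun u => Matrix.mulVec_zero _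
      add_mem' := fun {a b} ha hb u => by
        show (_ : Matrix (Fin 3) (Fin 3) K) *ᵥ (a + b) = a + b
        rw [Matrix.mulVec_add]
        exact congrArg₂ (· + ·) (ha u) (hb u)
      smul_mem' := fun c {a} ha u => by
        show (_ : Matrix (Fin 3) (Fin 3) K) *ᵥ (c • a) = c • a
        rw [Matrix.mulVec_smul]
        exact congrArg (c • ·) (ha u) }
  let Wp : Submodule K (Fin 3 → K) :=
    { carrier := {v | ∀ w ∈ W, hf q v w = 0}
      zero_mem' := fun w _ => hf_zero_left q w
      add_mem' := fun {a b} ha hb w hw => by rw [hf_add_left, ha w hw, hb w hw, add_zero]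
      smul_mem' := fun c {a} ha w hw => by rw [hf_smul_left, ha w hw, mul_zero] }
  have hinv : ∀ (u : P), ∀ v ∈ Wp, ρ u v ∈ Wp := fun u v hv w hw => by
    rw [hρ]
    conv_lhs => rw [← hw u]
    rw [mv_hf, hv w hw]
  have hWp : Wp ≠ ⊥ := by
    intro hbot
    refine hP1 ((Subgroup.eq_bot_iff_forall _).2 fun u hu => Subtype.ext (Subtype.ext ?_))
    refine Matrix.toLin'.injective (LinearMap.ext fun v => ?_)
    have hmem : mv u.1 v - v ∈ Wp := by
      intro w hw
      rw [hf_sub_left]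
      conv_lhs => arg 1; rw [← hw ⟨u, hu⟩]
      rw [mv_hf, sub_self]
    rw [hbot, Submodule.mem_bot, sub_eq_zero] at hmem
    simpa [mv] using hmem
  obtain ⟨x, hxWp, hx, hfix⟩ := Cfsg.Agent.PermLib.exists_fixed_vector hP ρ Wp hinv hWp
  have hxW : x ∈ W := fun u => by rw [← hρ]; exact hfix u
  have hiso : hf q x x = 0 := hxWp x hxW
  -- the radical is a line
  have hline : ∀ y ∈ W, y ∈ Wp → ∃ c : K, y = c • x := by
    intro y hyW hyWp
    by_contra hcon
    push Not at hcon
    obtain ⟨z, hz⟩ := exists_hf_ne hK hx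
    set a : Fin 3 → K := fun i => x i ^ q
    set b : Fin 3 → K := fun i => y i ^ q
    have hxy : ∀ u, hf q u x = 0 → hf q u y = 0 → crossProduct a b ≠ 0 → ∃ c : K, u = c • crossProduct a b :=
      fun u h1 h2 h3 => cross_parallel h1 h2 h3
    by_cases hab : crossProduct a b = 0
    · -- `a` and `b` are parallel
      obtain ⟨i, hi⟩ := Function.ne_iff.1 hx
      have hi' : a i ≠ 0 := pow_ne_zero q hi
      rw [cross_apply] at hab
      have e0 := congrFun hab 0
      have e1 := congrFun hab 1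
      have e2 := congrFun hab 2
      simp at e0 e1 e2
      refine hcon (y i / x i) (funext fun j => ?_)
      have hj : b j * a i = b i * a j := by
        fin_cases i <;> fin_cases j <;> simp <;>
          first
            | rfl
            | linear_combination e0 | linear_combination (-1 : K) * e0
            | linear_combination e1 | linear_combination (-1 : K) * e1
            | linear_combination e2 | linear_combination (-1 : K) * e2
      have hj' : (y j * x i) ^ q = (y i * x j) ^ q := by rw [mul_pow, mul_pow]; exact hj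
      have hinj : Function.Injective fun c : K => c ^ q := iterateFrobenius_inj K p n
      have hj'' := hinj hj'
      simp only [Pi.smul_apply, smul_eq_mul]
      rw [div_mul_eq_mul_div, eq_div_iff (by simpa using hi)]
      exact hj''
    · obtain ⟨c, hc⟩ := hxy x hiso (hxWp y hyW) hab
      obtain ⟨d, hd⟩ := hxy y (hyWp x hxW) (hyWp y hyW) hab
      have hc0 : c ≠ 0 := fun h => hx (by rw [hc, h, zero_smul])
      exact hcon (d / c) (by rw [hd, hc, smul_smul, div_mul_cancel₀ _ hc0])
  let B : Subgroup (Cfsg.SU 3 K q) :=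
    { carrier := {g | ∃ c : K, c ≠ 0 ∧ mv g.1 x = c • x}
      one_mem' := ⟨1, one_ne_zero, by rw [one_smul]; exact mv_one x⟩
      mul_mem' := by
        rintro g h ⟨c, hc, hgc⟩ ⟨d, hd, hhd⟩
        refine ⟨c * d, mul_ne_zero hc hd, ?_⟩
        rw [Subgroup.coe_mul, mv_mul, hhd]
        show (_ : Matrix (Fin 3) (Fin 3) K) *ᵥ (d • x) = _
        rw [Matrix.mulVec_smul, ← smul_smul, smul_comm]
        exact congrArg (d • ·) hgc
      inv_mem' := by
        rintro g ⟨c, hc, hgc⟩
        refine ⟨c⁻¹, inv_ne_zero hc, ?_⟩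
        have : mv (g⁻¹).1 (mv g.1 x) = x := by rw [← mv_mul, ← Subgroup.coe_mul, inv_mul_cancel]; exact mv_one x
        rw [hgc] at this
        conv_rhs => rw [← this]
        show mv (g⁻¹).1 x = c⁻¹ • ((_ : Matrix (Fin 3) (Fin 3) K) *ᵥ (c • x))
        rw [Matrix.mulVec_smul, smul_smul, inv_mul_cancel₀ hc, one_smul]
        rfl }
  let K0 : Subgroup (Cfsg.SU 3 K q) :=
    { carrier := {g | mv g.1 x = x}
      one_mem' := mv_one x
      mul_mem' := fun {g h} (hg : mv g.1 x = x) (hh : mv h.1 x = x) => by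
        show mv _ x = x
        rw [Subgroup.coe_mul, mv_mul, hh, hg]
      inv_mem' := fun {g} (hg : mv g.1 x = x) => by
        show mv _ x = x
        conv_lhs => rw [← hg]
        rw [← mv_mul, ← Subgroup.coe_mul, inv_mul_cancel]
        exact mv_one x }
  refine ⟨B, K0, fun g hg => ?_, fun g => ⟨1, ?_⟩, ?_⟩
  · have hgW : ∀ v ∈ W, mv g.1 v ∈ W := by
      intro v hv u
      have hu' : g⁻¹ * u.1 * g ∈ P := (Subgroup.mem_normalizer_iff''.1 hg u.1).1 u.2
      have h1 := congrArg (mv g.1) (hv ⟨_, hu'⟩)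
      rw [← mv_mul, ← Subgroup.coe_mul, show g * (g⁻¹ * u.1 * g) = u.1 * g by group, Subgroup.coe_mul,
        mv_mul] at h1
      exact h1
    have hgW' : ∀ v ∈ W, mv (g⁻¹).1 v ∈ W := by
      intro v hv u
      have hu' : g * u.1 * g⁻¹ ∈ P := (Subgroup.mem_normalizer_iff.1 hg u.1).1 u.2
      have h1 := congrArg (mv (g⁻¹).1) (hv ⟨_, hu'⟩)
      rw [← mv_mul, ← Subgroup.coe_mul, show g⁻¹ * (g * u.1 * g⁻¹) = u.1 * g⁻¹ by group, Subgroup.coe_mul,
        mv_mul] at h1
      exact h1
    have hgWp : mv g.1 x ∈ Wp := by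
      intro w hw
      have e : w = mv g.1 (mv (g⁻¹).1 w) := by rw [← mv_mul, ← Subgroup.coe_mul, mul_inv_cancel]; exact (mv_one w).symm
      rw [e, mv_hf]
      exact hxWp _ (hgW' w hw)
    obtain ⟨c, hc⟩ := hline _ (hgW x hxW) hgWp
    refine ⟨c, fun h0 => hx ?_, hc⟩
    rw [h0, zero_smul] at hc
    have := congrArg (mv (g⁻¹).1) hc
    rw [← mv_mul, ← Subgroup.coe_mul, inv_mul_cancel] at this
    rw [← mv_one x]
    exact this.trans (Matrix.mulVec_zero _)
  · rw [pow_one]
    exact Subtype.ext (pow_eq_one_of_fix hK hp hx hiso g.1 g.2)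
  · rintro g ⟨c, hc, hgc⟩ h ⟨d, hd, hhd⟩
    show mv _ x = x
    have key : ∀ (a : Cfsg.SU 3 K q) (e : K), e ≠ 0 → mv a.1 x = e • x → mv (a⁻¹).1 x = e⁻¹ • x := by
      intro a e he hae
      have : mv (a⁻¹).1 (mv a.1 x) = x := by rw [← mv_mul, ← Subgroup.coe_mul, inv_mul_cancel]; exact mv_one x
      rw [hae] at this
      conv_rhs => rw [← this]
      show mv (a⁻¹).1 x = e⁻¹ • ((_ : Matrix (Fin 3) (Fin 3) K) *ᵥ (e • x))
      rw [Matrix.mulVec_smul, smul_smul, inv_mul_cancel₀ he, one_smul]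
      rfl
    have ms : ∀ (a : Cfsg.SU 3 K q) (e : K), mv a.1 (e • x) = e • mv a.1 x := fun a e => Matrix.mulVec_smul _ _ _
    simp only [Subgroup.coe_mul, mv_mul]
    rw [key h d hd hhd, ms, key g c hc hgc, smul_smul, ms, hhd, smul_smul, ms, hgc, smul_smul]
    convert one_smul K x using 2
    field_simp

include hK in
theorem not_involves [Finite K] (hp : p ≠ 2) : ¬ Cfsg.Involves ↥(Cfsg.qd p) (Cfsg.PSU 3 K (p ^ n)) := by
  rintro ⟨L, R, hn, ⟨e⟩⟩
  haveI := hn
  set mk := QuotientGroup.mk' (Subgroup.center (Cfsg.SU 3 K (p ^ n)))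
  refine not_qd_section hp (pClosedLocals hK hp) (L.comap mk)
    ((e.toMonoidHom.comp (QuotientGroup.mk' (R.subgroupOf L))).comp (mk.subgroupComap L)) ?_
  exact (e.surjective.comp (QuotientGroup.mk'_surjective _)).comp
    (mk.subgroupComap_surjective_of_surjective L (QuotientGroup.mk'_surjective _))

end Cfsg.Agent.Known.PSU3Qd
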