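import Cfsg.Agent.Known.Transv
import Cfsg.Agent.Linear.Transvection

/-!
The regular unipotent bidiagonal elements of `SL_n` and a generation criterion using the first row
of the last column.
-/

set_option autoImplicit false

namespace Cfsg.Agent.Known

open Matrix

variable {F : Type*} [Field F] {m : ℕ}

/-- The standard nilpotent Jordan block. -/
def shiftN (n : ℕ) : Matrix (Fin n) (Fin n) F :=
  Matrix.of fun i j => if (i : ℕ) + 1 = j then 1 else 0

theorem shiftN_pow (n k : ℕ) :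
    (shiftN n : Matrix (Fin n) (Fin n) F) ^ k = Matrix.of fun i j : Fin n => if (i : ℕ) + k = j then 1 else 0 := by
  induction k with
  | zero => ext i j; simp [Matrix.one_apply, Fin.ext_iff]
  | succ k ih =>
    ext i j
    rw [pow_succ, ih, mul_apply]
    by_cases hk : (i : ℕ) + k < n
    · rw [Finset.sum_eq_single ⟨(i : ℕ) + k, hk⟩]
      · simp [shiftN, add_assoc]
      · intro x _ hx
        rw [Matrix.of_apply, if_neg, zero_mul]
        exact fun h => hx (Fin.ext h.symm)
      · simp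
    · have h2 : ¬ (i : ℕ) + (k + 1) = j := by omega
      rw [Matrix.of_apply, if_neg h2]
      exact Finset.sum_eq_zero fun x _ => by rw [Matrix.of_apply, if_neg (by omega), zero_mul]

theorem isNilpotent_shiftN (n : ℕ) : IsNilpotent (shiftN n : Matrix (Fin n) (Fin n) F) :=
  ⟨n, by rw [shiftN_pow]; ext i j; exact if_neg (by omega)⟩

theorem shiftN_pow_ne_zero (n : ℕ) [NeZero n] :
    (shiftN n : Matrix (Fin n) (Fin n) F) ^ (n - 1) ≠ 0 := by
  intro h
  rw [shiftN_pow] at h
  have h1 := congrFun (congrFun h 0) ⟨n - 1, Nat.sub_lt (Nat.pos_of_neZero n) one_pos⟩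
  simp at h1

/-- The upper bidiagonal unipotent element. -/
def regU (n : ℕ) : SpecialLinearGroup (Fin n) F :=
  ⟨1 + shiftN n, by
    rw [Matrix.det_of_isUpperTriangular (fun i j (hij : j < i) => by
      simp only [Matrix.add_apply, shiftN, Matrix.of_apply, Matrix.one_apply_ne (ne_of_gt hij)]
      rw [if_neg (by simp only [Fin.lt_def] at hij; omega), add_zero])]
    exact Finset.prod_eq_one fun i _ => by simp [shiftN]⟩

theorem val_regU (n : ℕ) : ((regU n : SpecialLinearGroup (Fin n) F) : Matrix (Fin n) (Fin n) F) = 1 + shiftN n := rfl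

theorem regU_mulVec_succ (j : Fin (m + 2)) :
    ((regU (m + 3) : SpecialLinearGroup (Fin (m + 3)) F) : Matrix (Fin (m + 3)) (Fin (m + 3)) F) *ᵥ
      Pi.single j.succ 1 = Pi.single j.succ 1 + Pi.single j.castSucc 1 := by
  ext i
  rw [mulVec_single_one]
  simp [val_regU, shiftN, Matrix.one_apply, Pi.single_apply, Fin.ext_iff]

theorem regU_mulVec_zero :
    ((regU (m + 3) : SpecialLinearGroup (Fin (m + 3)) F) : Matrix (Fin (m + 3)) (Fin (m + 3)) F) *ᵥ
      Pi.single 0 1 = Pi.single 0 1 := by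
  ext i
  rw [mulVec_single_one]
  simp [val_regU, shiftN, Matrix.one_apply, Pi.single_apply]

theorem vecMul_regU_last :
    Pi.single (Fin.last (m + 2)) (1 : F) ᵥ*
      ((regU (m + 3) : SpecialLinearGroup (Fin (m + 3)) F) : Matrix (Fin (m + 3)) (Fin (m + 3)) F) =
      Pi.single (Fin.last (m + 2)) 1 := by
  ext i
  rw [single_one_vecMul]
  simp [val_regU, shiftN, Matrix.one_apply, Pi.single_apply, Fin.ext_iff, eq_comm]
  omega

theorem vecMul_regU_castSucc (j : Fin (m + 2)) :
    Pi.single j.castSucc (1 : F) ᵥ*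
      ((regU (m + 3) : SpecialLinearGroup (Fin (m + 3)) F) : Matrix (Fin (m + 3)) (Fin (m + 3)) F) =
      Pi.single j.castSucc 1 + Pi.single j.succ 1 := by
  ext i
  rw [single_one_vecMul]
  simp [val_regU, shiftN, Matrix.one_apply, Pi.single_apply, Fin.ext_iff, eq_comm]

/-- `v = w (1 + N) w⁻¹` with nonzero subdiagonal `θ`. -/
structure LowerBidiag (v : SpecialLinearGroup (Fin (m + 3)) F) (θ : Fin (m + 2) → F) : Prop where
  ne_zero : ∀ j, θ j ≠ 0
  col : ∀ j : Fin (m + 2), (v : Matrix (Fin (m + 3)) (Fin (m + 3)) F) *ᵥ Pi.single j.castSucc 1 =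
    Pi.single j.castSucc 1 + θ j • Pi.single j.succ 1
  row : ∀ j : Fin (m + 2), Pi.single j.succ (1 : F) ᵥ* (v : Matrix (Fin (m + 3)) (Fin (m + 3)) F) =
    Pi.single j.succ 1 + θ j • Pi.single j.castSucc 1

theorem exists_conj_regU_lowerBidiag (m : ℕ) :
    ∃ (w : SpecialLinearGroup (Fin (m + 3)) F) (θ : Fin (m + 2) → F),
      LowerBidiag (w * regU (m + 3) * w⁻¹) θ := by
  classical
  let s : F := ((Equiv.Perm.sign (Fin.revPerm : Equiv.Perm (Fin (m + 3))) : ℤ) : F)
  let d : Fin (m + 3) → F := fun i => if i = 0 then s else 1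
  have hs : s * s = 1 := by
    simp only [s]
    rcases Int.units_eq_one_or (Equiv.Perm.sign (Fin.revPerm : Equiv.Perm (Fin (m + 3)))) with h | h <;>
      simp [h]
  have hd : ∀ i, d i ≠ 0 := fun i => by
    simp only [d]
    split_ifs
    · exact left_ne_zero_of_mul_eq_one hs
    · exact one_ne_zero
  let W : Matrix (Fin (m + 3)) (Fin (m + 3)) F := (diagonal d).submatrix Fin.revPerm id
  have hW : W.det = 1 := by
    simp only [W]
    rw [det_permute, det_diagonal]
    simp only [d, Finset.prod_ite_eq', Finset.mem_univ, if_true]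
    exact hs
  let L : Matrix (Fin (m + 3)) (Fin (m + 3)) F :=
    Matrix.of fun i k => if (k : ℕ) + 1 = i then d i.rev / d k.rev else 0
  have hWN : W * shiftN (m + 3) = L * W := by
    ext i j
    have h1 : (W * shiftN (m + 3) : Matrix (Fin (m + 3)) (Fin (m + 3)) F) i j =
        d i.rev * shiftN (m + 3) i.rev j := by
      rw [mul_apply, Finset.sum_eq_single i.rev]
      · simp [W]
      · intro x _ hx
        simp [W, Ne.symm hx]
      · simp
    have h2 : (L * W) i j = L i j.rev * d j := by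
      rw [mul_apply, Finset.sum_eq_single j.rev]
      · simp [W]
      · intro x _ hx
        have : x.rev ≠ j := fun h => hx (by rw [← h, Fin.rev_rev])
        simp [W, this]
      · simp
    rw [h1, h2]
    simp only [shiftN, L, Matrix.of_apply, Fin.rev_rev, Fin.val_rev, mul_ite, mul_one, mul_zero, ite_mul, zero_mul]
    have : (m + 3 - ((i : ℕ) + 1) + 1 = (j : ℕ)) ↔ (m + 3 - ((j : ℕ) + 1) + 1 = (i : ℕ)) := by omega
    rw [div_mul_cancel₀ _ (hd j)]
    exact if_congr this rfl rfl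
  let w : SpecialLinearGroup (Fin (m + 3)) F := ⟨W, hW⟩
  have hv : ((w * regU (m + 3) * w⁻¹ : SpecialLinearGroup (Fin (m + 3)) F) :
      Matrix (Fin (m + 3)) (Fin (m + 3)) F) = 1 + L := by
    rw [val_mul, val_mul, val_regU, mul_add, mul_one, add_mul, val_mul_inv]
    show 1 + W * shiftN (m + 3) * _ = _
    rw [hWN, mul_assoc]
    show 1 + L * ((w : Matrix (Fin (m + 3)) (Fin (m + 3)) F) * _) = _
    rw [val_mul_inv, mul_one]
  refine ⟨w, fun j => d j.succ.rev / d j.castSucc.rev, fun j => div_ne_zero (hd _) (hd _), ?_, ?_⟩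
  · intro j
    ext i
    rw [mulVec_single_one, hv]
    simp only [Matrix.col_apply, Matrix.add_apply, Pi.add_apply, Pi.smul_apply, smul_eq_mul,
      Pi.single_apply, Matrix.one_apply, L, Matrix.of_apply, mul_ite, mul_one, mul_zero]
    congr 1
    rcases eq_or_ne i j.succ with h | h
    · subst h; simp
    · rw [if_neg h, if_neg]
      exact fun h' => h (Fin.ext (by simpa using h'.symm))
  · intro j
    ext i
    rw [single_one_vecMul, hv]
    simp only [Matrix.row_apply, Matrix.add_apply, Pi.add_apply, Pi.smul_apply, smul_eq_mul,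
      Pi.single_apply, Matrix.one_apply, L, Matrix.of_apply, mul_ite, mul_one, mul_zero]
    congr 1
    · exact if_congr eq_comm rfl rfl
    rcases eq_or_ne i j.castSucc with h | h
    · subst h; simp
    · rw [if_neg h, if_neg]
      exact fun h' => h (Fin.ext (by simp only [Fin.val_succ] at h'; simp only [Fin.val_castSucc]; omega))

theorem LowerBidiag.inv_last_zero_ne {v : SpecialLinearGroup (Fin (m + 3)) F} {θ : Fin (m + 2) → F}
    (hv : LowerBidiag v θ) :
    (Pi.single (Fin.last (m + 2)) (1 : F) ᵥ*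
      ((v⁻¹ : SpecialLinearGroup (Fin (m + 3)) F) : Matrix (Fin (m + 3)) (Fin (m + 3)) F)) 0 ≠ 0 := by
  set y := Pi.single (Fin.last (m + 2)) (1 : F) ᵥ*
      ((v⁻¹ : SpecialLinearGroup (Fin (m + 3)) F) : Matrix (Fin (m + 3)) (Fin (m + 3)) F) with hy
  have hyv : y ᵥ* (v : Matrix (Fin (m + 3)) (Fin (m + 3)) F) = Pi.single (Fin.last (m + 2)) 1 := by
    rw [hy, vecMul_vecMul, val_inv_mul, vecMul_one]
  have hrec : ∀ j : Fin (m + 2), y j.castSucc + θ j * y j.succ = 0 := fun j => by
    have h1 : (y ᵥ* (v : Matrix (Fin (m + 3)) (Fin (m + 3)) F)) ⬝ᵥ Pi.single j.castSucc (1 : F) =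
        y j.castSucc + θ j * y j.succ := by
      rw [← dotProduct_mulVec, hv.col j]
      simp
    rw [← h1, hyv]
    simp [(Fin.castSucc_lt_last j).ne]
  suffices h : ∀ i : Fin (m + 3), y i = 0 → ∀ k, y k = 0 by
    intro h0
    have hy0 : y = 0 := funext fun k => h 0 h0 k
    have := congrFun hyv (Fin.last (m + 2))
    simp [hy0] at this
  have hiff : ∀ j : Fin (m + 2), y j.castSucc = 0 ↔ y j.succ = 0 := fun j => by
    have h := hrec j
    constructor
    · intro h1
      rw [h1, zero_add] at h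
      exact (mul_eq_zero.mp h).resolve_left (hv.ne_zero j)
    · intro h1
      rwa [h1, mul_zero, add_zero] at h
  have hall : ∀ i : Fin (m + 3), y i = 0 ↔ y 0 = 0 := by
    intro i
    induction i using Fin.induction with
    | zero => rfl
    | succ j ih => rw [← hiff j, ih]
  exact fun i hi k => (hall k).2 ((hall i).1 hi)

theorem eq_top_of_regU_lowerBidiag {G : Subgroup (SpecialLinearGroup (Fin (m + 3)) F)}
    {v : SpecialLinearGroup (Fin (m + 3)) F} {θ : Fin (m + 2) → F} (hv : LowerBidiag v θ)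
    (hvG : v ∈ G)
    (hR : ∀ r : F, tv (r • Pi.single 0 1) (Pi.single (Fin.last (m + 2)) 1) ∈ G) : G = ⊤ := by
  classical
  set el : Fin (m + 3) → F := Pi.single (Fin.last (m + 2)) 1 with hel
  set y := el ᵥ* ((v⁻¹ : SpecialLinearGroup (Fin (m + 3)) F) : Matrix (Fin (m + 3)) (Fin (m + 3)) F)
  have hk : y 0 ≠ 0 := hv.inv_last_zero_ne
  let S : AddSubgroup (Fin (m + 3) → F) :=
    { carrier := {z | el ⬝ᵥ z = 0 ∧ tv z el ∈ G}
      zero_mem' := ⟨dotProduct_zero _, by rw [tv_zero_left]; exact G.one_mem⟩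
      add_mem' := fun {a b} ha hb => ⟨by rw [dotProduct_add, ha.1, hb.1, add_zero],
        by rw [tv_add_left ha.1 hb.1]; exact G.mul_mem ha.2 hb.2⟩
      neg_mem' := fun {a} ha => ⟨by rw [dotProduct_neg, ha.1, neg_zero],
        by rw [← tv_inv ha.1]; exact G.inv_mem ha.2⟩ }
  have hlow : ∀ (r : F) (j : Fin (m + 2)), el ⬝ᵥ (r • Pi.single j.castSucc 1) = 0 := fun r j => by
    simp [el]
  have hall : ∀ (i : Fin (m + 3)), i ≠ Fin.last (m + 2) → ∀ r : F, r • Pi.single i 1 ∈ S := by
    intro i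
    induction i using Fin.induction with
    | zero => exact fun _ r => ⟨hlow r 0, hR r⟩
    | succ j ih =>
      intro hj r
      have hjs : el ⬝ᵥ ((r • Pi.single j.succ (1 : F)) : Fin (m + 3) → F) = 0 := by
        simp [el, Ne.symm hj]
      have hb := ih (Fin.castSucc_lt_last j).ne (-(r / θ j) / y 0)
      have hc := tv_conj v hb.1
      rw [mulVec_smul, hv.col j] at hc
      have ha : el ⬝ᵥ ((1 : F) • Pi.single (0 : Fin (m + 3)) 1) = 0 := by
        simpa using hlow 1 0
      have hg : y ⬝ᵥ ((-(r / θ j) / y 0) • (Pi.single j.castSucc 1 + θ j • Pi.single j.succ 1)) = 0 := by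
        rw [← hv.col j, ← mulVec_smul, dot_vecMul_inv_mulVec, hb.1]
      have hfb : el ⬝ᵥ ((-(r / θ j) / y 0) • (Pi.single j.castSucc 1 + θ j • Pi.single j.succ 1)) = 0 := by
        simp [el, Ne.symm hj]
      have hcm := tv_commutator ha hg hfb
      have hmem : tv ((-(r / θ j) / y 0) • (Pi.single j.castSucc 1 + θ j • Pi.single j.succ 1))
          ((-(y ⬝ᵥ ((1 : F) • Pi.single (0 : Fin (m + 3)) 1))) • el) ∈ G := by
        rw [← hcm]
        have h1 : tv ((1 : F) • Pi.single (0 : Fin (m + 3)) 1) el ∈ G := hR 1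
        have h2 : tv ((-(r / θ j) / y 0) • (Pi.single j.castSucc 1 + θ j • Pi.single j.succ 1)) y ∈ G := by
          rw [← hc]; exact G.mul_mem (G.mul_mem hvG hb.2) (G.inv_mem hvG)
        exact G.mul_mem (G.mul_mem (G.mul_mem h1 h2) (G.inv_mem h1)) (G.inv_mem h2)
      rw [tv_smul_swap _ hfb, smul_smul] at hmem
      have hcoef : -(y ⬝ᵥ ((1 : F) • Pi.single (0 : Fin (m + 3)) 1)) * (-(r / θ j) / y 0) = r / θ j := by
        simp; field_simp
      rw [hcoef] at hmem
      have hsum : (r / θ j) • (Pi.single j.castSucc 1 + θ j • Pi.single j.succ (1 : F)) =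
          (r / θ j) • Pi.single j.castSucc 1 + r • Pi.single j.succ (1 : F) := by
        rw [smul_add, smul_smul, div_mul_cancel₀ _ (hv.ne_zero j)]
      rw [hsum] at hmem
      have hin : (r / θ j) • Pi.single j.castSucc 1 + r • Pi.single j.succ (1 : F) ∈ S :=
        ⟨by rw [dotProduct_add, hlow, hjs, add_zero], hmem⟩
      have := S.sub_mem hin (ih (Fin.castSucc_lt_last j).ne (r / θ j))
      simpa using this
  have hlast : el ∈ fullFunctionals G := by
    intro z hz
    have hsum : z = ∑ i, z i • Pi.single i (1 : F) := by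
      ext k; simp [Finset.sum_apply, Pi.single_apply]
    have : z ∈ S := by
      rw [hsum]
      refine S.sum_mem fun i _ => ?_
      by_cases hi : i = Fin.last (m + 2)
      · subst hi
        have : z (Fin.last (m + 2)) = 0 := by simpa [el] using hz
        rw [this, zero_smul]
        exact S.zero_mem
      · exact hall i hi _
    exact this.2
  have hevery : ∀ i : Fin (m + 3), Pi.single i (1 : F) ∈ fullFunctionals G := by
    intro i
    induction i using Fin.reverseInduction with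
    | last => exact hlast
    | cast j ih =>
      have h := vecMul_mem_fullFunctionals ih hvG
      rw [hv.row j] at h
      have h2 := Submodule.sub_mem _ h ih
      rw [add_sub_cancel_left] at h2
      exact (Submodule.smul_mem_iff _ (hv.ne_zero j)).mp h2
  refine Cfsg.Agent.Linear.eq_top_of_transvection_mem G fun i j hij c => ?_
  rw [transvection_eq_tv hij c]
  exact hevery j _ (by simp [hij])

theorem val_regU_sub_one (n : ℕ) :
    ((regU n : SpecialLinearGroup (Fin n) F) : Matrix (Fin n) (Fin n) F) - 1 = shiftN n := by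
  rw [val_regU, add_sub_cancel_left]

theorem regU_regular (n : ℕ) [NeZero n] :
    IsNilpotent (((regU n : SpecialLinearGroup (Fin n) F) : Matrix (Fin n) (Fin n) F) - 1) ∧
      (((regU n : SpecialLinearGroup (Fin n) F) : Matrix (Fin n) (Fin n) F) - 1) ^ (n - 1) ≠ 0 := by
  rw [val_regU_sub_one]
  exact ⟨isNilpotent_shiftN n, shiftN_pow_ne_zero n⟩

/-- The corner elements `tv (r e₀) e_last` in `G` are closed under `(r, r') ↦ c₀ r r'`. -/
theorem corner_closed' {G : Subgroup (SpecialLinearGroup (Fin (m + 3)) F)}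
    {v : SpecialLinearGroup (Fin (m + 3)) F} {θ : Fin (m + 2) → F} (hv : LowerBidiag v θ)
    (hu : regU (m + 3) ∈ G) (hvG : v ∈ G) :
    ∀ r r' : F,
      tv (r • Pi.single 0 1) (Pi.single (Fin.last (m + 2)) 1) ∈ G →
      tv (r' • Pi.single 0 1) (Pi.single (Fin.last (m + 2)) 1) ∈ G →
      tv ((-((Pi.single (Fin.last (m + 2)) (1 : F) ᵥ* v⁻¹.val) 0) * θ 0 * r * r') • Pi.single 0 1)
        (Pi.single (Fin.last (m + 2)) 1) ∈ G := by
  set el : Fin (m + 3) → F := Pi.single (Fin.last (m + 2)) 1 with hel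
  set e0 : Fin (m + 3) → F := Pi.single 0 1 with he0
  set y := el ᵥ* ((v⁻¹ : SpecialLinearGroup (Fin (m + 3)) F) : Matrix (Fin (m + 3)) (Fin (m + 3)) F)
  intro r r' hr hr'
  have hlow : ∀ c : F, el ⬝ᵥ (c • e0) = 0 := fun c => by
    simp [el, e0]
  have hlow1 : ∀ c : F, el ⬝ᵥ (c • (e0 + θ 0 • Pi.single (0 : Fin (m + 2)).succ 1)) = 0 := fun c => by
    have : (Fin.last (m + 2)) ≠ (1 : Fin (m + 3)) := by simp [Fin.ext_iff]
    simp [el, e0, Ne.symm this]
  have hc := tv_conj v (hlow r')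
  have hcol : (v : Matrix (Fin (m + 3)) (Fin (m + 3)) F) *ᵥ e0 =
      e0 + θ 0 • Pi.single (0 : Fin (m + 2)).succ 1 := by
    simpa [e0] using hv.col 0
  rw [mulVec_smul, hcol] at hc
  have hg : y ⬝ᵥ (r' • (e0 + θ 0 • Pi.single (0 : Fin (m + 2)).succ 1)) = 0 := by
    rw [← hcol, ← mulVec_smul, dot_vecMul_inv_mulVec, hlow]
  have hcm := tv_commutator (hlow r) hg (hlow1 r')
  have hZ : tv (r' • (e0 + θ 0 • Pi.single (0 : Fin (m + 2)).succ 1)) ((-(y ⬝ᵥ (r • e0))) • el) ∈ G := by
    rw [← hcm]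
    have h2 : tv (r' • (e0 + θ 0 • Pi.single (0 : Fin (m + 2)).succ 1)) y ∈ G := by
      rw [← hc]; exact G.mul_mem (G.mul_mem hvG hr') (G.inv_mem hvG)
    exact G.mul_mem (G.mul_mem (G.mul_mem hr h2) (G.inv_mem hr)) (G.inv_mem h2)
  rw [tv_smul_swap _ (hlow1 r'), smul_smul] at hZ
  set c := -(y ⬝ᵥ (r • e0)) * r'
  have hcv : c * θ 0 = -(y 0) * θ 0 * r * r' := by simp [c, e0]; ring
  have hconj := tv_conj (regU (m + 3) : SpecialLinearGroup (Fin (m + 3)) F) (hlow1 c)
  have hel' : el ᵥ* ((regU (m + 3) : SpecialLinearGroup (Fin (m + 3)) F)⁻¹ :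
      Matrix.SpecialLinearGroup (Fin (m + 3)) F).val = el := by
    conv_lhs => rw [hel, ← vecMul_regU_last (F := F) (m := m), vecMul_vecMul, val_mul_inv, vecMul_one]
  rw [hel', mulVec_smul, mulVec_add, mulVec_smul, he0, regU_mulVec_zero, regU_mulVec_succ] at hconj
  have hmem : tv (c • (e0 + θ 0 • (Pi.single (0 : Fin (m + 2)).succ 1 + Pi.single (0 : Fin (m + 2)).castSucc 1))) el ∈ G := by
    rw [he0, ← hconj]
    exact G.mul_mem (G.mul_mem hu hZ) (G.inv_mem hu)
  have hsplit : c • (e0 + θ 0 • (Pi.single (0 : Fin (m + 2)).succ 1 + Pi.single (0 : Fin (m + 2)).castSucc 1)) =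
      (-(y 0) * θ 0 * r * r') • e0 + c • (e0 + θ 0 • Pi.single (0 : Fin (m + 2)).succ 1) := by
    simp only [← hcv, e0, Fin.castSucc_zero, smul_add, smul_smul]
    abel
  rw [hsplit, tv_add_left (hlow _) (hlow1 c)] at hmem
  exact (G.mul_mem_cancel_right hZ).1 hmem

theorem corner_conj_eq (a : F) :
    tv (a • Pi.single 0 1) (Pi.single (Fin.last (m + 1)).castSucc 1) * regU (m + 3) =
      regU (m + 3) * tv (a • Pi.single 0 1) (Pi.single (Fin.last (m + 2)) 1) *
        (tv (a • Pi.single 0 1) (Pi.single (Fin.last (m + 1)).castSucc 1) :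
          SpecialLinearGroup (Fin (m + 3)) F) := by
  have h1 : Pi.single (Fin.last (m + 1)).castSucc (1 : F) ⬝ᵥ (a • Pi.single (0 : Fin (m + 3)) 1) = 0 := by
    simp [Fin.ext_iff]
  have h2 : Pi.single (Fin.last (m + 2)) (1 : F) ⬝ᵥ (a • Pi.single (0 : Fin (m + 3)) 1) = 0 := by
    simp
  rw [mul_assoc]
  refine Subtype.ext ?_
  simp only [val_mul, val_tv h1, val_tv h2, add_mul, mul_add, one_mul, mul_one,
    vecMulVec_mul_vecMulVec, h2, zero_smul, vecMulVec_zero, add_zero]
  simp only [vecMulVec_mul, mul_vecMulVec, vecMul_regU_castSucc, mulVec_smul, regU_mulVec_zero,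
    Fin.succ_last, vecMulVec_add]
  abel

/-- With the corner element `tv (a e₀) e_last` for a suitable `a`, `⟨1 + N, v⟩` is all of `SL_n`. -/
theorem exists_corner_generates [Fintype F] {v : SpecialLinearGroup (Fin (m + 3)) F}
    {θ : Fin (m + 2) → F} (hv : LowerBidiag v θ) :
    ∃ a : F, ∀ G : Subgroup (SpecialLinearGroup (Fin (m + 3)) F),
      regU (m + 3) ∈ G → v ∈ G →
      tv (a • Pi.single 0 1) (Pi.single (Fin.last (m + 2)) 1) ∈ G → G = ⊤ := by
  obtain ⟨c₀, hc₀, hclosed⟩ : ∃ c₀ : F, c₀ ≠ 0 ∧ ∀ G : Subgroup (SpecialLinearGroup (Fin (m + 3)) F),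
      regU (m + 3) ∈ G → v ∈ G → ∀ r r' : F,
      tv (r • Pi.single 0 1) (Pi.single (Fin.last (m + 2)) 1) ∈ G →
      tv (r' • Pi.single 0 1) (Pi.single (Fin.last (m + 2)) 1) ∈ G →
      tv ((c₀ * r * r') • Pi.single 0 1) (Pi.single (Fin.last (m + 2)) 1) ∈ G := by
    refine ⟨-((Pi.single (Fin.last (m + 2)) (1 : F) ᵥ* v⁻¹.val) 0) * θ 0,
      mul_ne_zero (neg_ne_zero.2 hv.inv_last_zero_ne) (hv.ne_zero 0), fun G hu hvG => ?_⟩
    exact (corner_closed' hv hu hvG)
  obtain ⟨g, hg⟩ := IsCyclic.exists_generator (α := Fˣ)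
  refine ⟨c₀⁻¹ * (g : F), fun G hu hvG ha => eq_top_of_regU_lowerBidiag hv hvG ?_⟩
  have hpow : ∀ k : ℕ, tv ((c₀⁻¹ * (g : F) ^ (k + 1)) • Pi.single 0 1)
      (Pi.single (Fin.last (m + 2)) 1) ∈ G := by
    intro k
    induction k with
    | zero => simpa using ha
    | succ k ih =>
      have h := hclosed G hu hvG _ _ ih ha
      rwa [show c₀ * (c₀⁻¹ * (g : F) ^ (k + 1)) * (c₀⁻¹ * (g : F)) = c₀⁻¹ * (g : F) ^ (k + 1 + 1) by
        field_simp; ring] at h
  intro r
  by_cases hr : r = 0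
  · subst hr
    rw [zero_smul, tv_zero_left]
    exact G.one_mem
  obtain ⟨k, hk⟩ := (mem_powers_iff_mem_zpowers (x := g)
    (y := Units.mk0 (c₀ * r) (mul_ne_zero hc₀ hr))).2 (hg _)
  have h := hpow (k + (orderOf g - 1))
  have e : (g : F) ^ (k + (orderOf g - 1) + 1) = c₀ * r := by
    have h1 : orderOf g - 1 + 1 = orderOf g := Nat.sub_add_cancel (orderOf_pos g)
    rw [add_assoc, h1, ← Units.val_pow_eq_pow_val, pow_add, pow_orderOf_eq_one, mul_one]
    exact congrArg Units.val hk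
  rwa [e, inv_mul_cancel_left₀ hc₀] at h

end Cfsg.Agent.Known
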