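import Cfsg.Agent.Known.RegUnip

/-!
For `n ≥ 4` the regular unipotent `u = 1 + N` and its conjugate by the transvection `1 + ζ e_last ⊗ e₀*`
generate `SL_n(F)`, `ζ` a generator of `Fˣ`.

With `T k = u^k x u^-k` the group contains every `W k = T (k+1) (T k)⁻¹`, and `[[W 1, W 0], W 0]` is
already a transvection.
-/

set_option autoImplicit false

namespace Cfsg.Agent.Known.RegUnipConj

open Matrix

variable {F : Type*} [Field F] {m : ℕ}

/-- The commutator identity behind the construction. -/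
theorem ring_core {R : Type*} [Ring R] (a b c : R) (haa : a * a = 0) (hbb : b * b = 0) (hcc : c * c = 0)
    (hab : a * b = 0) (hac : a * c = 0) (hbc : b * c = 0) :
    ((1 + c) * (1 - b)) * ((1 + b) * (1 - a)) =
        (1 + (c * b - c * a + b * a + c * b * a)) * (((1 + b) * (1 - a)) * ((1 + c) * (1 - b))) ∧
      (1 + (c * b - c * a + b * a + c * b * a)) * ((1 + b) * (1 - a)) =
        (1 - c * b * a) * (((1 + b) * (1 - a)) * (1 + (c * b - c * a + b * a + c * b * a))) := by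
  have haa' : ∀ x, a * (a * x) = 0 := fun x => by rw [← mul_assoc, haa, zero_mul]
  have hbb' : ∀ x, b * (b * x) = 0 := fun x => by rw [← mul_assoc, hbb, zero_mul]
  have hcc' : ∀ x, c * (c * x) = 0 := fun x => by rw [← mul_assoc, hcc, zero_mul]
  have hab' : ∀ x, a * (b * x) = 0 := fun x => by rw [← mul_assoc, hab, zero_mul]
  have hac' : ∀ x, a * (c * x) = 0 := fun x => by rw [← mul_assoc, hac, zero_mul]
  have hbc' : ∀ x, b * (c * x) = 0 := fun x => by rw [← mul_assoc, hbc, zero_mul]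
  constructor <;>
    simp only [mul_add, add_mul, mul_sub, sub_mul, mul_one, one_mul, mul_assoc, haa, hbb, hcc, hab, hac, hbc,
      haa', hbb', hcc', hab', hac', hbc', mul_zero, zero_mul, sub_zero, add_zero, zero_add, zero_sub] <;>
    abel

/-- `choose (p^a e + p^a - 1) (p^a) ≡ e` modulo `p`. -/
theorem choose_modEq (p : ℕ) [Fact p.Prime] (a e : ℕ) :
    Nat.choose (p ^ a * e + (p ^ a - 1)) (p ^ a) ≡ e [MOD p] := by
  induction a with
  | zero => simp [Nat.choose_one_right, Nat.ModEq.refl]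
  | succ a ih =>
    have hp : 0 < p := (Fact.out : p.Prime).pos
    have hpa : 1 ≤ p ^ a := Nat.one_le_pow _ _ hp
    have e1 : p ^ (a + 1) * e + (p ^ (a + 1) - 1) = (p - 1) + p * (p ^ a * e + (p ^ a - 1)) := by
      rw [pow_succ', Nat.mul_add, Nat.mul_sub, mul_one, mul_assoc]
      have : p ≤ p * p ^ a := Nat.le_mul_of_pos_right _ hpa
      omega
    refine (Choose.choose_modEq_choose_mod_mul_choose_div_nat (p := p)).trans ?_
    rw [e1, Nat.add_mul_mod_self_left, Nat.mod_eq_of_lt (show p - 1 < p by omega),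
      Nat.add_mul_div_left _ _ hp, Nat.div_eq_of_lt (show p - 1 < p by omega), zero_add, pow_succ',
      Nat.mul_mod_right, Nat.choose_zero_right, one_mul, Nat.mul_div_cancel_left _ hp]
    exact ih

/-- `u^i e_last`. -/
def zv (i : ℤ) : Fin (m + 3) → F :=
  ((regU (m + 3) ^ i : SpecialLinearGroup (Fin (m + 3)) F) : Matrix (Fin (m + 3)) (Fin (m + 3)) F) *ᵥ Pi.single (Fin.last (m + 2)) 1

/-- `e₀* u^-i`. -/
def fv (i : ℤ) : Fin (m + 3) → F :=
  Pi.single 0 1 ᵥ* ((regU (m + 3) ^ (-i) : SpecialLinearGroup (Fin (m + 3)) F) : Matrix (Fin (m + 3)) (Fin (m + 3)) F)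

theorem pairing (a b : ℤ) :
    (fv a : Fin (m + 3) → F) ⬝ᵥ zv b = (zv (b - a) : Fin (m + 3) → F) 0 := by
  rw [fv, zv, ← dotProduct_mulVec, mulVec_mulVec, mul_val_eq, ← _root_.zpow_add, single_dotProduct, one_mul, zv,
    neg_add_eq_sub]

theorem fv_zero : (fv 0 : Fin (m + 3) → F) = Pi.single 0 1 := by
  rw [fv, neg_zero, zpow_zero, val_one, vecMul_one]

theorem regU_mulVec_fun (c : ℕ → F) :
    ((regU (m + 3) : SpecialLinearGroup (Fin (m + 3)) F) : Matrix (Fin (m + 3)) (Fin (m + 3)) F) *ᵥ (fun i : Fin (m + 3) => c (m + 2 - (i : ℕ))) =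
      fun i : Fin (m + 3) => c (m + 2 - (i : ℕ)) + if m + 2 - (i : ℕ) = 0 then 0 else c (m + 2 - (i : ℕ) - 1) := by
  funext i
  rw [val_regU, add_mulVec, one_mulVec, Pi.add_apply]
  congr 1
  show ∑ j, shiftN (m + 3) i j * c (m + 2 - (j : ℕ)) = _
  by_cases hi : (i : ℕ) = m + 2
  · rw [if_pos (by omega)]
    refine Finset.sum_eq_zero fun j _ => ?_
    rw [shiftN, Matrix.of_apply, if_neg (by omega), zero_mul]
  · rw [if_neg (by omega), Finset.sum_eq_single ⟨(i : ℕ) + 1, by omega⟩]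
    · simp [shiftN]
      congr 1
      omega
    · intro j _ hj
      rw [shiftN, Matrix.of_apply, if_neg (fun h => hj (Fin.ext h.symm)), zero_mul]
    · simp

theorem last_eq : (Pi.single (Fin.last (m + 2)) 1 : Fin (m + 3) → F) =
    fun i : Fin (m + 3) => if m + 2 - (i : ℕ) = 0 then (1 : F) else 0 := by
  funext i
  rw [Pi.single_apply]
  exact if_congr (by rw [Fin.ext_iff, Fin.val_last]; omega) rfl rfl

theorem zv_nat (k : ℕ) :
    (zv (k : ℤ) : Fin (m + 3) → F) = fun i : Fin (m + 3) => (Nat.choose k (m + 2 - (i : ℕ)) : F) := by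
  induction k with
  | zero =>
    rw [zv, Nat.cast_zero, zpow_zero, val_one, one_mulVec, last_eq]
    funext i
    rcases Nat.eq_zero_or_pos (m + 2 - (i : ℕ)) with h | h
    · simp [h]
    · rw [if_neg (by omega), Nat.choose_eq_zero_of_lt h, Nat.cast_zero]
  | succ k ih =>
    have : (zv ((k + 1 : ℕ) : ℤ) : Fin (m + 3) → F) =
        ((regU (m + 3) : SpecialLinearGroup (Fin (m + 3)) F) : Matrix (Fin (m + 3)) (Fin (m + 3)) F) *ᵥ zv (k : ℤ) := by
      rw [zv, zv, mulVec_mulVec, mul_val_eq]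
      congr 3
      rw [show ((k + 1 : ℕ) : ℤ) = 1 + (k : ℤ) by omega, _root_.zpow_one_add]
    rw [this, ih, regU_mulVec_fun (fun t => (Nat.choose k t : F))]
    funext i
    rcases Nat.eq_zero_or_pos (m + 2 - (i : ℕ)) with h | h
    · simp [h]
    · rw [if_neg (by omega)]
      conv_rhs => rw [show m + 2 - (i : ℕ) = m + 2 - (i : ℕ) - 1 + 1 by omega, Nat.choose_succ_succ]
      rw [Nat.cast_add, Nat.succ_eq_add_one, show m + 2 - (i : ℕ) - 1 + 1 = m + 2 - (i : ℕ) by omega]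
      ring

theorem zv_neg (k : ℕ) : (zv (-(k : ℤ)) : Fin (m + 3) → F) =
    fun i : Fin (m + 3) => (-1) ^ (m + 2 - (i : ℕ)) * (Nat.choose (k + (m + 2 - (i : ℕ)) - 1) (m + 2 - (i : ℕ)) : F) := by
  set c : ℕ → ℕ → F := fun k t => (-1) ^ t * (Nat.choose (k + t - 1) t : F) with hc
  suffices h : ((regU (m + 3) ^ (k : ℤ) : SpecialLinearGroup (Fin (m + 3)) F) : Matrix (Fin (m + 3)) (Fin (m + 3)) F) *ᵥ
      (fun i : Fin (m + 3) => c k (m + 2 - (i : ℕ))) = Pi.single (Fin.last (m + 2)) 1 by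
    rw [zv, ← h, mulVec_mulVec, mul_val_eq, ← _root_.zpow_add, neg_add_cancel, zpow_zero, val_one, one_mulVec]
  induction k with
  | zero =>
    rw [Nat.cast_zero, zpow_zero, val_one, one_mulVec, last_eq]
    funext i
    simp only [hc]
    rcases Nat.eq_zero_or_pos (m + 2 - (i : ℕ)) with h | h
    · simp [h]
    · rw [if_neg (by omega), zero_add, Nat.choose_eq_zero_of_lt (by omega), Nat.cast_zero, mul_zero]
  | succ k ih =>
    rw [Nat.cast_add, Nat.cast_one, _root_.zpow_add, zpow_one, val_mul, ← mulVec_mulVec,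
      regU_mulVec_fun (c (k + 1))]
    refine Eq.trans ?_ ih
    congr 1
    funext i
    simp only [hc]
    rcases Nat.eq_zero_or_pos (m + 2 - (i : ℕ)) with h | h
    · simp [h]
    · obtain ⟨s, hs⟩ : ∃ s, m + 2 - (i : ℕ) = s + 1 := ⟨m + 2 - (i : ℕ) - 1, by omega⟩
      rw [if_neg (by omega), hs, show k + 1 + (s + 1) - 1 = (k + s) + 1 by omega, Nat.choose_succ_succ,
        show s + 1 - 1 = s from rfl, show k + 1 + s - 1 = k + s by omega, show k + (s + 1) - 1 = k + s by omega,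
        Nat.cast_add, pow_succ]
      ring

theorem S_nat (k : ℕ) : (zv (k : ℤ) : Fin (m + 3) → F) 0 = (Nat.choose k (m + 2) : F) := by
  rw [zv_nat]
  simp

theorem S_zero {i : ℤ} (h0 : 0 ≤ i) (h : i < ((m + 2 : ℕ) : ℤ)) : (zv i : Fin (m + 3) → F) 0 = 0 := by
  lift i to ℕ using h0
  rw [S_nat, Nat.choose_eq_zero_of_lt (by exact_mod_cast h), Nat.cast_zero]

theorem S_top : (zv ((m + 2 : ℕ) : ℤ) : Fin (m + 3) → F) 0 = 1 := by
  rw [S_nat, Nat.choose_self, Nat.cast_one]

theorem S_neg_one : (zv (-1) : Fin (m + 3) → F) 0 = (-1) ^ (m + 2) := by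
  rw [show (-1 : ℤ) = -((1 : ℕ) : ℤ) from rfl, zv_neg]
  simp

variable (G : Subgroup (SpecialLinearGroup (Fin (m + 3)) F))

/-- `1 + r z_a ⊗ f_b` lies in `G`. -/
def Mem (a b : ℤ) (r : F) : Prop := tv (r • zv a) (fv b) ∈ G

theorem perp {a b : ℤ} (h : (zv (a - b) : Fin (m + 3) → F) 0 = 0) (r : F) :
    fv b ⬝ᵥ (r • zv a : Fin (m + 3) → F) = 0 := by
  rw [dotProduct_smul, pairing, h, smul_zero]

variable {G}

theorem Mem.neg {a b : ℤ} {r : F} (h : (zv (a - b) : Fin (m + 3) → F) 0 = 0) (hr : Mem G a b r) :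
    Mem G a b (-r) := by
  show tv _ _ ∈ G
  rw [neg_smul, ← tv_inv (perp h r)]
  exact G.inv_mem hr

theorem Mem.sign {a b : ℤ} {r : F} (h : (zv (a - b) : Fin (m + 3) → F) 0 = 0) (hr : Mem G a b r) (s : ℕ) :
    Mem G a b ((-1) ^ s * r) := by
  rcases neg_one_pow_eq_or F s with e | e <;> rw [e]
  · rwa [one_mul]
  · rw [neg_one_mul]; exact hr.neg h

theorem conj_zpow (k a b : ℤ) (r : F) (h : (zv (a - b) : Fin (m + 3) → F) 0 = 0) :
    regU (m + 3) ^ k * tv (r • zv a) (fv b) * (regU (m + 3) ^ k : SpecialLinearGroup (Fin (m + 3)) F)⁻¹ =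
      tv (r • zv (a + k)) (fv (b + k) : Fin (m + 3) → F) := by
  rw [tv_conj _ (perp h r)]
  congr 1
  · rw [mulVec_smul, zv, mulVec_mulVec, mul_val_eq, ← _root_.zpow_add, zv, add_comm a k]
  · rw [fv, fv, vecMul_vecMul, mul_val_eq, ← _root_.zpow_neg, ← _root_.zpow_add, neg_add]

theorem Mem.shift {a b : ℤ} {r : F} (hu : regU (m + 3) ∈ G) (h : (zv (a - b) : Fin (m + 3) → F) 0 = 0)
    (hr : Mem G a b r) (k : ℤ) : Mem G (a + k) (b + k) r := by
  show tv _ _ ∈ G
  rw [← conj_zpow k a b r h]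
  exact G.mul_mem (G.mul_mem (G.zpow_mem hu k) hr) (G.inv_mem (G.zpow_mem hu k))

theorem Mem.comm {a b a' b' : ℤ} {r r' : F} (h : (zv (a - b) : Fin (m + 3) → F) 0 = 0)
    (h' : (zv (a' - b') : Fin (m + 3) → F) 0 = 0) (hx : (zv (a - b') : Fin (m + 3) → F) 0 = 0)
    (hr : Mem G a b r) (hr' : Mem G a' b' r') :
    Mem G a b' (r * r' * (zv (a' - b) : Fin (m + 3) → F) 0) := by
  have hc := tv_commutator (perp h' r') (perp h r) (perp hx r)
  have hm : tv (r • zv a) ((-((fv b : Fin (m + 3) → F) ⬝ᵥ (r' • zv a'))) • fv b') ∈ G := by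
    rw [← hc]
    exact G.mul_mem (G.mul_mem (G.mul_mem hr' hr) (G.inv_mem hr')) (G.inv_mem hr)
  rw [tv_smul_swap _ (perp hx r), smul_smul, dotProduct_smul, pairing, smul_eq_mul] at hm
  have := Mem.neg hx hm
  convert this using 1
  ring

theorem commute_tv {a b f g : Fin (m + 3) → F} (ha : f ⬝ᵥ a = 0) (hb : g ⬝ᵥ b = 0) (hfb : f ⬝ᵥ b = 0)
    (hga : g ⬝ᵥ a = 0) : tv a f * tv b g = tv b g * tv a f := by
  have h := tv_commutator ha hb hfb
  rw [hga, neg_zero, tv_smul_swap _ hfb, zero_smul, tv_zero_left, mul_inv_eq_one, mul_inv_eq_iff_eq_mul] at h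
  exact h

/-- The `k`-th translate of the transvection `1 + lam e_last ⊗ e₀*`. -/
noncomputable def T (lam : F) (k : ℤ) : SpecialLinearGroup (Fin (m + 3)) F := tv (lam • zv k) (fv k)

theorem val_T (lam : F) (k : ℤ) :
    ((T lam k : SpecialLinearGroup (Fin (m + 3)) F) : Matrix (Fin (m + 3)) (Fin (m + 3)) F) = 1 + vecMulVec (lam • zv k) (fv k) :=
  val_tv (perp (by rw [sub_self]; exact S_zero le_rfl (by omega)) lam)

theorem val_T_inv (lam : F) (k : ℤ) :
    (((T lam k)⁻¹ : SpecialLinearGroup (Fin (m + 3)) F) : Matrix (Fin (m + 3)) (Fin (m + 3)) F) = 1 - vecMulVec (lam • zv k) (fv k) := by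
  have h : (zv (k - k) : Fin (m + 3) → F) 0 = 0 := by rw [sub_self]; exact S_zero le_rfl (by omega)
  rw [T, tv_inv (perp h lam), val_tv (by rw [dotProduct_neg, perp h lam, neg_zero]), neg_vecMulVec,
    sub_eq_add_neg]

theorem T_mul (lam : F) (a b : ℤ) (h : (zv (b - a) : Fin (m + 3) → F) 0 = 0) :
    vecMulVec (lam • zv a) (fv a) * vecMulVec (lam • zv b) (fv b) =
      (0 : Matrix (Fin (m + 3)) (Fin (m + 3)) F) := by
  rw [vecMulVec_mul_vecMulVec, perp h lam, zero_smul, vecMulVec_zero]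

theorem W_mem {lam : F} (hu : regU (m + 3) ∈ G) (h0 : T lam 1 * (T lam 0)⁻¹ ∈ G) (k : ℤ) :
    T lam (k + 1) * (T lam k)⁻¹ ∈ G := by
  have hz : ∀ j : ℤ, (zv (j - j) : Fin (m + 3) → F) 0 = 0 := fun j => by
    rw [sub_self]; exact S_zero le_rfl (by omega)
  have h := G.mul_mem (G.mul_mem (G.zpow_mem hu k) h0) (G.inv_mem (G.zpow_mem hu k))
  convert h using 1
  rw [T, T, T, T, ← conj_mul, ← conj_inv, conj_zpow k 1 1 lam (hz 1), conj_zpow k 0 0 lam (hz 0),
    zero_add, add_comm 1 k]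

theorem first_mem {lam : F} (hm : 1 ≤ m) (hu : regU (m + 3) ∈ G) (h0 : T lam 1 * (T lam 0)⁻¹ ∈ G) :
    Mem G 2 0 (lam ^ 3) := by
  set a := vecMulVec (lam • zv 0) (fv 0 : Fin (m + 3) → F) with ha
  set b := vecMulVec (lam • zv 1) (fv 1 : Fin (m + 3) → F) with hb
  set c := vecMulVec (lam • zv 2) (fv 2 : Fin (m + 3) → F) with hc
  have hz : ∀ i : ℤ, 0 ≤ i → i ≤ 2 → (zv i : Fin (m + 3) → F) 0 = 0 := fun i h1 h2 => S_zero h1 (by omega)
  obtain ⟨h1, h2⟩ := ring_core a b c (T_mul lam 0 0 (hz _ (by norm_num) (by norm_num)))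
    (T_mul lam 1 1 (hz _ (by norm_num) (by norm_num))) (T_mul lam 2 2 (hz _ (by norm_num) (by norm_num)))
    (T_mul lam 0 1 (hz _ (by norm_num) (by norm_num))) (T_mul lam 0 2 (hz _ (by norm_num) (by norm_num)))
    (T_mul lam 1 2 (hz _ (by norm_num) (by norm_num)))
  obtain ⟨W0, hW0⟩ : ∃ W : SpecialLinearGroup (Fin (m + 3)) F, W = T lam 1 * (T lam 0)⁻¹ := ⟨_, rfl⟩
  obtain ⟨W1, hW1⟩ : ∃ W : SpecialLinearGroup (Fin (m + 3)) F, W = T lam (1 + 1) * (T lam 1)⁻¹ := ⟨_, rfl⟩
  have hW1G : W1 ∈ G := hW1 ▸ W_mem hu h0 1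
  rw [← hW0] at h0
  obtain ⟨X, hX⟩ : ∃ X, X = W1 * W0 * W1⁻¹ * W0⁻¹ := ⟨_, rfl⟩
  have hXG : X ∈ G := hX ▸ G.mul_mem (G.mul_mem (G.mul_mem hW1G h0) (G.inv_mem hW1G)) (G.inv_mem h0)
  obtain ⟨Y, hY⟩ : ∃ Y, Y = X * W0 * X⁻¹ * W0⁻¹ := ⟨_, rfl⟩
  have hYG : Y ∈ G := hY ▸ G.mul_mem (G.mul_mem (G.mul_mem hXG h0) (G.inv_mem hXG)) (G.inv_mem h0)
  have v0 : (W0 : Matrix (Fin (m + 3)) (Fin (m + 3)) F) = (1 + b) * (1 - a) := by
    rw [hW0, val_mul, val_T, val_T_inv]
  have v1 : (W1 : Matrix (Fin (m + 3)) (Fin (m + 3)) F) = (1 + c) * (1 - b) := by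
    rw [hW1, val_mul, val_T, val_T_inv, hc, show (1 : ℤ) + 1 = 2 from rfl]
  have hunit : IsUnit (((W0 * W1 : SpecialLinearGroup (Fin (m + 3)) F) : Matrix (Fin (m + 3)) (Fin (m + 3)) F)) :=
    IsUnit.of_mul_eq_one _ (val_mul_inv (W0 * W1))
  have vX : (X : Matrix (Fin (m + 3)) (Fin (m + 3)) F) = 1 + (c * b - c * a + b * a + c * b * a) := by
    refine hunit.mul_right_cancel ?_
    rw [mul_val_eq, show X * (W0 * W1) = W1 * W0 by rw [hX]; group, val_mul, val_mul, v0, v1]
    exact h1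
  have hunit2 : IsUnit (((W0 * X : SpecialLinearGroup (Fin (m + 3)) F) : Matrix (Fin (m + 3)) (Fin (m + 3)) F)) :=
    IsUnit.of_mul_eq_one _ (val_mul_inv (W0 * X))
  have vY : (Y : Matrix (Fin (m + 3)) (Fin (m + 3)) F) = 1 - c * b * a := by
    refine hunit2.mul_right_cancel ?_
    rw [mul_val_eq, show Y * (W0 * X) = X * W0 by rw [hY]; group, val_mul, val_mul, v0, vX]
    exact h2
  have hperp : (zv (2 - 0 : ℤ) : Fin (m + 3) → F) 0 = 0 := hz _ (by norm_num) (by norm_num)
  have hmem : Mem G 2 0 (-(lam ^ 3)) := by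
    show tv _ _ ∈ G
    convert hYG using 1
    refine Subtype.ext ?_
    rw [val_tv (perp hperp _), vY, hc, hb, ha, vecMulVec_mul_vecMulVec, vecMulVec_smul,
      Matrix.smul_mul, vecMulVec_mul_vecMulVec, vecMulVec_smul, smul_smul, dotProduct_smul, dotProduct_smul,
      pairing, pairing, show (1 : ℤ) - 2 = -1 from rfl, show (0 : ℤ) - 1 = -1 from rfl, S_neg_one,
      sub_eq_add_neg, ← neg_smul, ← smul_vecMulVec, smul_smul]
    congr 3
    rcases neg_one_pow_eq_or F (m + 2) with e | e <;> rw [e] <;> simp only [smul_eq_mul] <;> ring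
  simpa using hmem.neg hperp

theorem step {lam r : F} (hu : regU (m + 3) ∈ G) (h0 : T lam 1 * (T lam 0)⁻¹ ∈ G) {k : ℕ} (hk : k < m + 1)
    (hr : Mem G k 0 r) : Mem G (k + 1 : ℕ) 0 (lam * r) := by
  have hz : ∀ i : ℤ, 0 ≤ i → i ≤ (k : ℤ) + 1 → (zv i : Fin (m + 3) → F) 0 = 0 := fun i h1 h2 =>
    S_zero h1 (by omega)
  have hkk : (zv ((k : ℤ) - 0) : Fin (m + 3) → F) 0 = 0 := hz _ (by omega) (by omega)
  have hTk : (zv ((k : ℤ) - k) : Fin (m + 3) → F) 0 = 0 := hz _ (by omega) (by omega)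
  have hTk1 : (zv ((k : ℤ) + 1 - ((k : ℤ) + 1)) : Fin (m + 3) → F) 0 = 0 := hz _ (by omega) (by omega)
  have hk1 : (zv ((k : ℤ) + 1 - 0) : Fin (m + 3) → F) 0 = 0 := hz _ (by omega) (by omega)
  set τ := tv (r • zv (k : ℤ)) (fv 0 : Fin (m + 3) → F) with hτ
  have hW := W_mem hu h0 (k : ℤ)
  have hcomm : τ * T lam k = T lam k * τ :=
    commute_tv (perp hkk r) (perp hTk lam) (perp hkk lam) (perp hTk r)
  have hmem : τ * (T lam ((k : ℤ) + 1)) * τ⁻¹ * (T lam ((k : ℤ) + 1))⁻¹ ∈ G := by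
    have h := G.mul_mem (G.mul_mem (G.mul_mem hr hW) (G.inv_mem hr)) (G.inv_mem hW)
    convert h using 1
    have e : ∀ Z : SpecialLinearGroup (Fin (m + 3)) F, (T lam k)⁻¹ * (τ⁻¹ * (T lam k * Z)) = τ⁻¹ * Z := by
      intro Z
      rw [← mul_assoc τ⁻¹, (Commute.inv_left hcomm).eq, mul_assoc, inv_mul_cancel_left]
    rw [← hτ, _root_.mul_inv_rev, inv_inv]
    simp only [mul_assoc]
    rw [e]
  rw [hτ, T, tv_commutator (perp hkk r) (perp hTk1 lam) (perp hk1 lam), tv_smul_swap _ (perp hk1 lam),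
    smul_smul, dotProduct_smul, pairing, show (k : ℤ) - ((k : ℤ) + 1) = -1 by ring, S_neg_one,
    smul_eq_mul] at hmem
  have h := Mem.sign (a := ((k + 1 : ℕ) : ℤ)) (b := 0) (r := -(r * (-1) ^ (m + 2)) * lam)
    (by push_cast; exact hk1) (by push_cast; exact hmem) (m + 3)
  convert h using 1
  rcases neg_one_pow_eq_or F (m + 2) with e | e <;> rw [pow_succ _ (m + 2), e] <;> ring

theorem up {lam r : F} (hu : regU (m + 3) ∈ G) (h0 : T lam 1 * (T lam 0)⁻¹ ∈ G) {k : ℕ} (j : ℕ)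
    (hk : k + j < m + 2) (hr : Mem G k 0 r) : Mem G (k + j : ℕ) 0 (lam ^ j * r) := by
  induction j with
  | zero => simpa using hr
  | succ j ih =>
    have := step hu h0 (k := k + j) (by omega) (ih (by omega))
    rwa [pow_succ', mul_assoc, ← add_assoc]

theorem down {r r' : F} (hu : regU (m + 3) ∈ G) {i j : ℕ} (hi : 1 ≤ i) (hij : i ≤ j) (hj : j < m + 2)
    (hr : Mem G j 0 r) (hr' : Mem G (m + 2 - i : ℕ) 0 r') : Mem G (j - i : ℕ) 0 (r * r') := by
  have h := hr.shift hu (S_zero (by omega) (by omega)) (-(i : ℤ))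
  have h2 := Mem.comm (S_zero (by omega) (by omega)) (S_zero (by omega) (by omega))
    (S_zero (by omega) (by omega)) h hr'
  rw [show ((m + 2 - i : ℕ) : ℤ) - (0 + -(i : ℤ)) = ((m + 2 : ℕ) : ℤ) by omega, S_top, mul_one] at h2
  rwa [show (j : ℤ) + -(i : ℤ) = ((j - i : ℕ) : ℤ) by omega] at h2

/-- `⟨u, x u x⁻¹⟩ = SL_n` for `x = 1 + lam e_last ⊗ e₀*` with `lam` a generator of `Fˣ`. -/
theorem generates [Fintype F] (hm : 1 ≤ m) (ζ : Fˣ) (hζ : ∀ x : Fˣ, x ∈ Subgroup.zpowers ζ)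
    (hu : regU (m + 3) ∈ G)
    (hv : T (ζ : F) 0 * regU (m + 3) * (T (ζ : F) 0)⁻¹ ∈ G) : G = ⊤ := by
  classical
  set lam : F := (ζ : F) with hlam
  have hl : lam ≠ 0 := ζ.ne_zero
  have h0 : T lam 1 * (T lam 0)⁻¹ ∈ G := by
    have h := G.mul_mem hu (G.inv_mem hv)
    convert h using 1
    have e : T lam 1 = regU (m + 3) * T lam 0 * (regU (m + 3) : SpecialLinearGroup (Fin (m + 3)) F)⁻¹ := by
      have := conj_zpow (F := F) (m := m) 1 0 0 lam (by rw [sub_zero]; exact S_zero le_rfl (by omega))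
      rw [zpow_one, zero_add] at this
      rw [T, T, this]
    rw [e]
    group
  set ν := lam ^ (m + 3) with hν
  have hν0 : ν ≠ 0 := pow_ne_zero _ hl
  have hR : ∀ j : ℕ, j < m + 2 → (zv ((j : ℤ) - 0) : Fin (m + 3) → F) 0 = 0 := fun j hj =>
    S_zero (by omega) (by omega)
  have hj2 : ∀ j : ℕ, j + 2 < m + 2 → Mem G (2 + j : ℕ) 0 (lam ^ j * lam ^ 3) := fun j hj =>
    up hu h0 (k := 2) j (by omega) (first_mem hm hu h0)
  have hr0 : Mem G (0 : ℕ) 0 (lam / ν * ν ^ 3) := by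
    have hd := hj2 (m - 1) (by omega)
    rw [show 2 + (m - 1) = m + 2 - 1 by omega] at hd
    have h1 := down hu (i := 1) (j := 2) le_rfl (by norm_num) (by omega) (first_mem hm hu h0) hd
    have h2 := down hu (i := 1) (j := 1) le_rfl le_rfl (by omega) h1 hd
    convert h2 using 1
    rw [hν, div_mul_eq_mul_div, div_eq_iff (pow_ne_zero _ hl)]
    simp only [← pow_mul, ← pow_add, ← pow_succ']
    congr 1
    omega
  set M : Set F := {y | Mem G (0 : ℕ) 0 (lam / ν * y)} with hM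
  have hmul : ∀ y ∈ M, ∀ y' ∈ M, y * y' ∈ M := by
    intro y hy y' hy'
    have ha := up hu h0 (k := 0) 1 (by omega) hy
    have hb := up hu h0 (k := 0) (m + 1) (by omega) hy'
    have h := down hu (i := 1) (j := 1) le_rfl le_rfl (by omega) (by simpa using ha)
      (show Mem G (m + 2 - 1 : ℕ) 0 _ by rw [show m + 2 - 1 = 0 + (m + 1) by omega]; exact hb)
    show Mem G _ _ _
    convert h using 1
    field_simp
    rw [hν]
    ring
  have hadd : ∀ y ∈ M, ∀ y' ∈ M, y + y' ∈ M := by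
    intro y hy y' hy'
    show tv _ _ ∈ G
    rw [mul_add, add_smul, tv_add_left (perp (hR 0 (by omega)) _) (perp (hR 0 (by omega)) _)]
    exact G.mul_mem hy hy'
  have hzero : (0 : F) ∈ M := by
    show tv _ _ ∈ G
    rw [mul_zero, zero_smul, tv_zero_left]
    exact G.one_mem
  have hneg : ∀ y ∈ M, -y ∈ M := fun y hy => by
    show Mem G _ _ _
    rw [mul_neg]
    exact Mem.neg (hR 0 (by omega)) hy
  have hpowM : ∀ y ∈ M, ∀ n : ℕ, y ^ (n + 1) ∈ M := by
    intro y hy n
    induction n with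
    | zero => simpa using hy
    | succ n ih => rw [pow_succ]; exact hmul _ ih _ hy
  have hν3 : ν ^ 3 ∈ M := hr0
  have hone : (1 : F) ∈ M := by
    have := hpowM _ hν3 (Fintype.card F - 1 - 1)
    rwa [Nat.sub_add_cancel (by have := Fintype.one_lt_card (α := F); omega),
      FiniteField.pow_card_sub_one_eq_one _ (pow_ne_zero 3 hν0)] at this
  let K : Subfield F :=
    { carrier := M
      mul_mem' := fun {x y} hx hy => hmul x hx y hy
      one_mem' := hone
      add_mem' := fun {x y} hx hy => hadd x hx y hy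
      zero_mem' := hzero
      neg_mem' := fun {x} hx => hneg x hx
      inv_mem' := fun x hx => by
        by_cases hx0 : x = 0
        · rwa [hx0, _root_.inv_zero, ← hx0]
        by_cases h2 : Fintype.card F = 2
        · have := FiniteField.pow_card_sub_one_eq_one x hx0
          rw [h2] at this
          rw [show x = 1 by simpa using this, inv_one]
          exact hone
        have := hpowM x hx (Fintype.card F - 2 - 1)
        rwa [Nat.sub_add_cancel (by have := Fintype.one_lt_card (α := F); omega),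
          eq_inv_of_mul_eq_one_left (show x ^ (Fintype.card F - 2) * x = 1 by
            rw [← pow_succ, show Fintype.card F - 2 + 1 = Fintype.card F - 1 by
              have := Fintype.one_lt_card (α := F); omega,
              FiniteField.pow_card_sub_one_eq_one x hx0])] at this }
  have hνK : ν ∈ K := by
    have hb := up hu h0 (k := 0) m (by omega) (show Mem G ((0 : ℕ) : ℤ) 0 (lam / ν * 1) from hone)
    have h := down hu (i := 2) (j := 2) (by norm_num) le_rfl (by omega) (first_mem hm hu h0)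
      (show Mem G (m + 2 - 2 : ℕ) 0 _ by rw [show m + 2 - 2 = 0 + m by omega]; exact hb)
    show Mem G _ _ _
    convert h using 1
    rw [hν]
    field_simp
    ring
  have hx : Mem G (0 : ℕ) 0 lam := by
    have : Mem G (0 : ℕ) 0 (lam / ν * ν) := hνK
    rwa [div_mul_cancel₀ _ hν0] at this
  -- the subfield is everything
  obtain ⟨p, hc⟩ := CharP.exists F
  have hp : p.Prime := CharP.char_is_prime F p
  haveI := Fact.mk hp
  obtain ⟨a, e, hpe, hn⟩ := Nat.exists_eq_pow_mul_and_not_dvd (n := m + 3) (by omega) p hp.ne_one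
  set P := p ^ a with hP
  have hP1 : 1 ≤ P := Nat.one_le_pow _ _ hp.pos
  have hPK : lam ^ P ∈ K := by
    by_cases he : e = 1
    · rw [he, mul_one] at hn
      rw [← hn]
      exact hνK
    have he2 : 2 ≤ e := by
      rcases Nat.eq_zero_or_pos e with h | h
      · exact absurd (h ▸ dvd_zero p) hpe
      · omega
    have hPle : P + 1 < m + 2 := by
      by_contra hh
      have h2P : 2 * P ≤ e * P := Nat.mul_le_mul_right P he2
      have : P = 2 ∧ e = 2 := by
        have hP2 : P ≤ 2 := by nlinarith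
        interval_cases P <;> omega
      obtain ⟨hP', he'⟩ := this
      rcases Nat.eq_zero_or_pos a with ha | ha
      · rw [ha, pow_zero] at hP; omega
      have : p = 2 := (Nat.prime_dvd_prime_iff_eq hp Nat.prime_two).1 (hP' ▸ hP ▸ dvd_pow_self p ha.ne')
      exact hpe (by rw [this, he'])
    set C : F := (Nat.choose (m + 2 + P) P : F) with hC
    have hC0 : C ≠ 0 := by
      rw [hC, Ne, CharP.cast_eq_zero_iff F p]
      intro hd
      refine hpe ?_
      have := choose_modEq p a e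
      rw [← hP, ← hn, show m + 3 + (P - 1) = m + 2 + P by omega] at this
      exact (Nat.ModEq.dvd_iff this dvd_rfl).1 hd
    have hmm := hx.shift hu (hR 0 (by omega)) ((P + 1 : ℕ) : ℤ)
    rw [Nat.cast_zero, zero_add] at hmm
    have hm0 := Mem.comm (a' := ((0 : ℕ) : ℤ)) (b' := 0) (S_zero (by omega) (by omega)) (hR 0 (by omega))
      (S_zero (by omega) (by omega)) hmm hx
    have hS : (zv (((0 : ℕ) : ℤ) - ((P + 1 : ℕ) : ℤ)) : Fin (m + 3) → F) 0 = (-1) ^ (m + 2) * C := by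
      rw [Nat.cast_zero, zero_sub, zv_neg]
      simp only [Fin.val_zero, Nat.sub_zero]
      rw [hC, show P + 1 + (m + 2) - 1 = m + 2 + P by omega, Nat.choose_symm_add]
    rw [hS] at hm0
    have hm1 := hm0.sign (S_zero (by omega) (by omega)) (m + 2)
    have hb := up hu h0 (k := 0) (m + 2 - (P + 1)) (by omega) hx
    have h := down hu (i := P + 1) (j := P + 1) (by omega) le_rfl hPle hm1
      (by rw [show ((0 + (m + 2 - (P + 1)) : ℕ)) = m + 2 - (P + 1) by omega] at hb; exact hb)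
    rw [Nat.sub_self] at h
    have hy : C * (ν ^ 2 / lam ^ P) ∈ K := by
      show Mem G _ _ _
      convert h using 1
      rcases neg_one_pow_eq_or F (m + 2) with e' | e' <;> rw [e', hν] <;> field_simp <;>
        simp only [← pow_mul, ← pow_add, ← pow_succ, ← pow_succ'] <;> congr 1 <;> omega
    have : lam ^ P = C * ν ^ 2 / (C * (ν ^ 2 / lam ^ P)) := by field_simp
    rw [this]
    exact div_mem (mul_mem (natCast_mem K _) (pow_mem hνK 2)) hy
  have hKtop : ∀ y : F, y ∈ K := by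
    have hlK : lam ∈ K := by
      obtain ⟨N, -, hN⟩ := FiniteField.card F p
      have e1 : lam ^ (Fintype.card F ^ a) = lam := FiniteField.pow_card_pow a lam
      have e2 : Fintype.card F ^ a = P * p ^ (((N : ℕ) - 1) * a) := by
        rw [hN, hP, ← pow_mul, ← pow_add]
        congr 1
        have := N.pos
        obtain ⟨t, ht⟩ : ∃ t, (N : ℕ) = t + 1 := ⟨(N : ℕ) - 1, by omega⟩
        rw [ht, Nat.add_sub_cancel]
        ring
      rw [← e1, e2, pow_mul]
      exact pow_mem hPK _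
    intro y
    by_cases hy : y = 0
    · exact hy ▸ K.zero_mem
    obtain ⟨k, hk⟩ := (mem_powers_iff_mem_zpowers (x := ζ) (y := Units.mk0 y hy)).2 (hζ _)
    have := congrArg Units.val hk
    simp at this
    exact this ▸ pow_mem hlK k
  have hall : ∀ (j : ℕ), j < m + 2 → ∀ r : F, Mem G j 0 r := by
    intro j hj r
    have : r * ν / lam / lam ^ j ∈ K := hKtop _
    have := up hu h0 (k := 0) j (by omega) (show Mem G ((0 : ℕ) : ℤ) 0 _ from this)
    rw [zero_add] at this
    convert this using 1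
    field_simp
  -- the hyperplane `y 0 = 0`
  have hfull : ∀ k : ℕ, k ≤ m + 2 → ∀ y : Fin (m + 3) → F,
      (∀ i : Fin (m + 3), k ≤ m + 2 - (i : ℕ) → y i = 0) → tv y (fv 0) ∈ G := by
    intro k
    induction k with
    | zero =>
      intro _ y hy
      rw [show y = 0 from funext fun i => hy i (Nat.zero_le _), tv_zero_left]
      exact G.one_mem
    | succ k ih =>
      intro hk y hy
      set i0 : Fin (m + 3) := ⟨m + 2 - k, by omega⟩
      set y' := y - y i0 • zv (k : ℤ) with hy'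
      have hy'' : ∀ i : Fin (m + 3), k ≤ m + 2 - (i : ℕ) → y' i = 0 := by
        intro i hi
        rw [hy', Pi.sub_apply, Pi.smul_apply, zv_nat]
        rcases Nat.lt_or_ge k (m + 2 - (i : ℕ)) with h | h
        · simp [hy i h, Nat.choose_eq_zero_of_lt h]
        · have : i = i0 := Fin.ext (by simp only [i0]; omega)
          subst this
          simp [show m + 2 - (i0 : ℕ) = k by omega]
      have hp' : fv 0 ⬝ᵥ y' = 0 := by
        rw [fv_zero, single_dotProduct, one_mul]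
        exact hy'' 0 (by simp; omega)
      rw [show y = y' + y i0 • zv (k : ℤ) by rw [hy', sub_add_cancel],
        tv_add_left hp' (perp (hR k (by omega)) _)]
      exact G.mul_mem (ih (by omega) y' hy'') (hall k (by omega) _)
  have hf0 : (Pi.single 0 1 : Fin (m + 3) → F) ∈ fullFunctionals G := by
    intro y hy
    rw [← fv_zero]
    rw [single_dotProduct, one_mul] at hy
    refine hfull (m + 2) le_rfl y fun i hi => ?_
    rw [show i = 0 from Fin.ext (by simp only [Fin.val_zero]; omega)]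
    exact hy
  have hevery : ∀ i : Fin (m + 3), Pi.single i (1 : F) ∈ fullFunctionals G := by
    intro i
    induction i using Fin.induction with
    | zero => exact hf0
    | succ j ih =>
      have h := vecMul_mem_fullFunctionals ih hu
      rw [vecMul_regU_castSucc] at h
      have h2 := Submodule.sub_mem _ h ih
      rwa [add_sub_cancel_left] at h2
  refine Cfsg.Agent.Linear.eq_top_of_transvection_mem G fun i j hij c => ?_
  rw [transvection_eq_tv hij c]
  exact hevery j _ (by simp [hij])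

theorem conj_regular (n : ℕ) [NeZero n] (g : SpecialLinearGroup (Fin n) F) :
    IsNilpotent (((g * regU n * g⁻¹ : SpecialLinearGroup (Fin n) F) : Matrix (Fin n) (Fin n) F) - 1) ∧
      (((g * regU n * g⁻¹ : SpecialLinearGroup (Fin n) F) : Matrix (Fin n) (Fin n) F) - 1) ^ (n - 1) ≠ 0 := by
  let U : (Matrix (Fin n) (Fin n) F)ˣ := ⟨g.1, (g⁻¹).1, val_mul_inv g, val_inv_mul g⟩
  have e : ((g * regU n * g⁻¹ : SpecialLinearGroup (Fin n) F) : Matrix (Fin n) (Fin n) F) - 1 =
      (U : Matrix (Fin n) (Fin n) F) * shiftN n * (↑U⁻¹ : Matrix (Fin n) (Fin n) F) := by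
    show _ = g.1 * shiftN n * (g⁻¹).1
    rw [val_mul, val_mul, val_regU, mul_add, mul_one, add_mul, val_mul_inv, add_sub_cancel_left]
  rw [e, Units.conj_pow]
  refine ⟨?_, ?_⟩
  · obtain ⟨k, hk⟩ := isNilpotent_shiftN (F := F) n
    exact ⟨k, by rw [Units.conj_pow, hk, mul_zero, zero_mul]⟩
  · intro h
    refine shiftN_pow_ne_zero (F := F) n ?_
    have := congrArg (fun M => (↑U⁻¹ : Matrix (Fin n) (Fin n) F) * M * (U : Matrix (Fin n) (Fin n) F)) h
    simp only [mul_zero, zero_mul] at this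
    rwa [← mul_assoc, ← mul_assoc, Units.inv_mul, one_mul, mul_assoc, Units.inv_mul, mul_one] at this

end Cfsg.Agent.Known.RegUnipConj
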