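import Cfsg.Agent.Known.RegUnip
import Cfsg.Agent.PSLTwoSub.DicksonGen

/-!
`SL₃` over a finite field is generated by two conjugate regular unipotent elements.

Odd characteristic: for `u = 1 + N` and `v` lower unitriangular with entries `a, a b, b`, `a + b = -4`, the
square of `u v` is a transvection, and it and its `u`-conjugate generate an `SL₂` by Dickson's theorem.
Characteristic two: `u²` is a corner transvection.
-/

set_option autoImplicit false

namespace Cfsg.Agent.Known.RegUnipThree

open Matrix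

variable {F : Type*} [Field F]

/-- A matrix of determinant one as an element of `SL₃`. -/
def sl3 (M : Matrix (Fin 3) (Fin 3) F) (h : M.det = 1) : SpecialLinearGroup (Fin 3) F := ⟨M, h⟩

theorem val_sl3 (M : Matrix (Fin 3) (Fin 3) F) (h : M.det = 1) :
    ((sl3 M h : SpecialLinearGroup (Fin 3) F) : Matrix (Fin 3) (Fin 3) F) = M := rfl

theorem val_mul3 (A B : SpecialLinearGroup (Fin 3) F) :
    ((A * B : SpecialLinearGroup (Fin 3) F) : Matrix (Fin 3) (Fin 3) F) = (A : Matrix (Fin 3) (Fin 3) F) * B := rfl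

/-- The lower unitriangular matrix. -/
def lowU (a β b : F) : SpecialLinearGroup (Fin 3) F :=
  sl3 !![1, 0, 0; a, 1, 0; β, b, 1] (by simp [det_fin_three])

theorem val_lowU (a β b : F) : ((lowU a β b : SpecialLinearGroup (Fin 3) F) : Matrix (Fin 3) (Fin 3) F) =
    !![1, 0, 0; a, 1, 0; β, b, 1] := rfl

theorem val_regU_three : ((regU 3 : SpecialLinearGroup (Fin 3) F) : Matrix (Fin 3) (Fin 3) F) =
    !![1, 1, 0; 0, 1, 1; 0, 0, 1] := by
  ext i j
  fin_cases i <;> fin_cases j <;> simp [val_regU, shiftN]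

theorem exists_conj (a β b k : F) (hb : b ≠ 0) (hk : k ≠ 0) (h : a ^ 2 * b = -(k ^ 3)) :
    ∃ g : SpecialLinearGroup (Fin 3) F, g * regU 3 * g⁻¹ = lowU a β b := by
  let x : F := -β * k⁻¹ / b
  refine ⟨sl3 !![0, 0, k⁻¹; 0, a * k⁻¹, x; a * b * k⁻¹, 0, 0] ?_, ?_⟩
  · simp [det_fin_three]
    field_simp
    linear_combination -h
  · refine mul_inv_eq_iff_eq_mul.2 ?_
    refine Subtype.ext ?_
    rw [val_mul, val_mul, val_regU_three, val_sl3, val_lowU]
    ext i j
    fin_cases i <;> fin_cases j <;> simp [Matrix.mul_apply, Fin.sum_univ_three, x] <;> field_simp <;> ring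

/-- A finite subfield which is proper has at most `√q` elements. -/
theorem sq_card_le [Finite F] {K : Subfield F} (hK : K ≠ ⊤) : Nat.card K * Nat.card K ≤ Nat.card F := by
  haveI : Module.Finite K F := Module.Finite.of_finite
  have h := Module.natCard_eq_pow_finrank (K := K) (V := F)
  have h1 : Module.finrank K F ≠ 1 := by
    intro h1
    rw [h1, pow_one] at h
    refine hK (SetLike.ext fun x => ⟨fun _ => Subfield.mem_top x, fun _ => ?_⟩)
    have h' : Nat.card K = Nat.card F := h.symm
    exact ((Finite.injective_iff_surjective_of_equiv (Finite.equivFinOfCardEq h' |>.trans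
      (Finite.equivFin F).symm)).1 Subtype.val_injective x).choose_spec ▸ SetLike.coe_mem _
  have h2 : 2 ≤ Module.finrank K F := by
    have : 0 < Module.finrank K F := Module.finrank_pos
    omega
  rw [h, ← pow_two]
  exact Nat.pow_le_pow_right Nat.card_pos h2

theorem subfield_eq_top_of_card_prime [Finite F] (hp : (Nat.card F).Prime) (K : Subfield F) : K = ⊤ := by
  by_contra hK
  have h := sq_card_le hK
  haveI : Fintype F := Fintype.ofFinite F
  haveI : Module.Finite K F := Module.Finite.of_finite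
  have hd : Nat.card K ∣ Nat.card F :=
    ⟨Nat.card K ^ (Module.finrank K F - 1), by
      rw [Module.natCard_eq_pow_finrank (K := K) (V := F), ← pow_succ',
        Nat.sub_add_cancel Module.finrank_pos]⟩
  have h1 : 1 < Nat.card K := Finite.one_lt_card
  rcases (Nat.dvd_prime hp).1 hd with e | e
  · omega
  · rw [e] at h h1
    nlinarith

section Even

variable [CharP F 2]

omit [CharP F 2] in
theorem lowU_lowerBidiag (b : F) (hb : b ≠ 0) :
    LowerBidiag (m := 0) (lowU 1 0 b) ![1, b] := by
  refine ⟨fun j => ?_, fun j => ?_, fun j => ?_⟩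
  · fin_cases j <;> simp [hb]
  · ext i
    rw [mulVec_single_one]
    fin_cases j <;> fin_cases i <;> simp [val_lowU, Pi.single_apply]
  · ext i
    rw [single_one_vecMul]
    fin_cases j <;> fin_cases i <;> simp [val_lowU, Pi.single_apply]

theorem regU_sq :
    (regU 3 : SpecialLinearGroup (Fin 3) F) * regU 3 = tv ((1 : F) • Pi.single 0 1) (Pi.single 2 1) := by
  refine Subtype.ext ?_
  rw [val_mul, val_regU_three, val_tv (by simp)]
  ext i j
  fin_cases i <;> fin_cases j <;>
    simp [Matrix.mul_apply, Fin.sum_univ_three, vecMulVec, CharTwo.add_self_eq_zero]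

/-- With `b` a field generator, `regU` and the bidiagonal element generate. -/
theorem even_generates [Finite F] {b : F} (hb : b ≠ 0) (hgen : ∀ K : Subfield F, b ∈ K → K = ⊤)
    (G : Subgroup (SpecialLinearGroup (Fin 3) F)) (hu : regU 3 ∈ G) (hv : lowU 1 0 b ∈ G) : G = ⊤ := by
  refine eq_top_of_regU_lowerBidiag (m := 0) (lowU_lowerBidiag b hb) hv ?_
  set c₀ := -((Pi.single (Fin.last 2) (1 : F) ᵥ* (lowU 1 0 b)⁻¹.val) 0) * (![1, b] : Fin 2 → F) 0 with hc₀
  have hc : c₀ = b := by
    have e : (lowU 1 0 b)⁻¹ = lowU (-1) b (-b) := by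
      refine inv_eq_of_mul_eq_one_right (Subtype.ext ?_)
      rw [val_mul, val_one]
      ext i j
      fin_cases i <;> fin_cases j <;> simp [val_lowU, Matrix.mul_apply, Fin.sum_univ_three]
    rw [hc₀, e, single_one_vecMul]
    simp [val_lowU, CharTwo.neg_eq]
  have hclosed : ∀ r r' : F, tv (r • Pi.single 0 1) (Pi.single (Fin.last 2) 1) ∈ G →
      tv (r' • Pi.single 0 1) (Pi.single (Fin.last 2) 1) ∈ G →
      tv ((b * r * r') • Pi.single 0 1) (Pi.single (Fin.last 2) 1) ∈ G := by
    intro r r' hr hr'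
    have := corner_closed' (lowU_lowerBidiag b hb) hu hv r r' hr hr'
    rw [← hc₀, hc] at this
    exact this
  have hone : tv ((1 : F) • Pi.single 0 1) (Pi.single (Fin.last 2) 1) ∈ G := by
    have := G.mul_mem hu hu
    rwa [regU_sq] at this
  have hel : ∀ r : F, Pi.single (Fin.last 2) (1 : F) ⬝ᵥ (r • Pi.single (0 : Fin 3) 1) = 0 := fun r => by simp
  let S : Set F := {x | tv ((b⁻¹ * x) • Pi.single 0 1) (Pi.single (Fin.last 2) 1) ∈ G}
  have hmul : ∀ x ∈ S, ∀ y ∈ S, x * y ∈ S := by
    intro x hx y hy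
    show tv _ _ ∈ G
    have := hclosed _ _ hx hy
    rwa [show b * (b⁻¹ * x) * (b⁻¹ * y) = b⁻¹ * (x * y) by field_simp] at this
  have hadd : ∀ x ∈ S, ∀ y ∈ S, x + y ∈ S := by
    intro x hx y hy
    show tv _ _ ∈ G
    rw [mul_add, add_smul, tv_add_left (hel _) (hel _)]
    exact G.mul_mem hx hy
  have h0 : (0 : F) ∈ S := by
    show tv _ _ ∈ G
    rw [mul_zero, zero_smul, tv_zero_left]
    exact G.one_mem
  have hbS : b ∈ S := by
    show tv _ _ ∈ G
    rwa [inv_mul_cancel₀ hb]
  have hpowS : ∀ x ∈ S, ∀ n : ℕ, x ^ (n + 1) ∈ S := by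
    intro x hx n
    induction n with
    | zero => simpa using hx
    | succ n ih => rw [pow_succ]; exact hmul _ ih _ hx
  haveI : Fintype F := Fintype.ofFinite F
  have h1 : (1 : F) ∈ S := by
    have := hpowS b hbS (Fintype.card F - 1 - 1)
    rwa [Nat.sub_add_cancel (by have := Fintype.one_lt_card (α := F); omega),
      FiniteField.pow_card_sub_one_eq_one b hb] at this
  let K : Subfield F :=
    { carrier := S
      mul_mem' := fun {x y} hx hy => hmul x hx y hy
      one_mem' := h1
      add_mem' := fun {x y} hx hy => hadd x hx y hy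
      zero_mem' := h0
      neg_mem' := fun {x} hx => by rwa [CharTwo.neg_eq]
      inv_mem' := fun x hx => by
        by_cases hx0 : x = 0
        · rwa [hx0, _root_.inv_zero, ← hx0]
        · by_cases h2 : Fintype.card F = 2
          · have := FiniteField.pow_card_sub_one_eq_one x hx0
            rw [h2] at this
            rw [show x = 1 by simpa using this, inv_one]
            exact h1
          · have := hpowS x hx (Fintype.card F - 2 - 1)
            rwa [Nat.sub_add_cancel (by have := Fintype.one_lt_card (α := F); omega),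
              eq_inv_of_mul_eq_one_left (show x ^ (Fintype.card F - 2) * x = 1 by
                rw [← pow_succ, show Fintype.card F - 2 + 1 = Fintype.card F - 1 by
                  have := Fintype.one_lt_card (α := F); omega,
                  FiniteField.pow_card_sub_one_eq_one x hx0])] at this }
  intro r
  have : b * r ∈ K := by rw [hgen K hbS]; exact Subfield.mem_top _
  have : tv ((b⁻¹ * (b * r)) • Pi.single 0 1) (Pi.single (Fin.last 2) 1) ∈ G := this
  rwa [inv_mul_cancel_left₀ hb] at this

set_option maxHeartbeats 1000000 in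
/-- The exceptional field of four elements. -/
theorem four_generates [Finite F] {w : F} (hw : w ^ 2 = w + 1) (hgen : ∀ K : Subfield F, w ∈ K → K = ⊤)
    (G : Subgroup (SpecialLinearGroup (Fin 3) F)) (hu : regU 3 ∈ G) (hv : lowU 1 w 1 ∈ G) : G = ⊤ := by
  have h2 : (2 : F) = 0 := CharTwo.two_eq_zero
  obtain ⟨U, hUdef⟩ : ∃ U : SpecialLinearGroup (Fin 3) F, U = regU 3 * regU 3 := ⟨_, rfl⟩
  obtain ⟨V, hVdef⟩ : ∃ V : SpecialLinearGroup (Fin 3) F, V = lowU 1 w 1 * lowU 1 w 1 := ⟨_, rfl⟩
  have hU : U ∈ G := hUdef ▸ G.mul_mem hu hu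
  have hV : V ∈ G := hVdef ▸ G.mul_mem hv hv
  have eU : (U : Matrix (Fin 3) (Fin 3) F) = !![1, 0, 1; 0, 1, 0; 0, 0, 1] := by
    rw [hUdef, val_mul, val_regU_three]
    ext i j
    fin_cases i <;> fin_cases j <;> simp [Matrix.mul_apply, Fin.sum_univ_three, CharTwo.add_self_eq_zero]
  have eV : (V : Matrix (Fin 3) (Fin 3) F) = !![1, 0, 0; 0, 1, 0; 1, 0, 1] := by
    rw [hVdef, val_mul]
    simp only [val_lowU]
    ext i j
    fin_cases i <;> fin_cases j <;>
      simp [Matrix.mul_apply, Fin.sum_univ_three, CharTwo.add_self_eq_zero]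
    linear_combination w * h2
  have hw0 : w ≠ 0 := by
    rintro rfl
    simp at hw
  have hup : tv (w • Pi.single 0 1) (Pi.single (Fin.last 2) 1) ∈ G := by
    have h := G.mul_mem (G.mul_mem (G.mul_mem (G.mul_mem (G.mul_mem (G.mul_mem hu hV) hU) hV) hv) hU) hV
    convert h using 1
    refine Subtype.ext ?_
    rw [val_tv (by simp)]
    simp only [val_mul, eU, eV, val_regU_three, val_lowU]
    ext i j
    fin_cases i <;> fin_cases j <;> simp [Matrix.mul_apply, Fin.sum_univ_three, vecMulVec] <;> grind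
  have hlo : lowU 1 0 (1 : F) ∈ G := by
    have h := G.mul_mem hv (G.mul_mem (G.mul_mem (G.mul_mem (G.mul_mem (G.mul_mem (G.mul_mem hU hV) hu) hV) hU) hV) hv)
    convert h using 1
    refine Subtype.ext ?_
    simp only [val_mul, eU, eV, val_regU_three, val_lowU]
    ext i j
    fin_cases i <;> fin_cases j <;> simp [Matrix.mul_apply, Fin.sum_univ_three] <;> grind
  refine eq_top_of_regU_lowerBidiag (m := 0) (lowU_lowerBidiag 1 one_ne_zero) hlo ?_
  let A : AddSubgroup F :=
    { carrier := {r | tv (r • Pi.single 0 1) (Pi.single (Fin.last 2) 1) ∈ G}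
      zero_mem' := by
        show tv _ _ ∈ G
        rw [zero_smul, tv_zero_left]
        exact G.one_mem
      add_mem' := fun {x y} hx hy => by
        show tv _ _ ∈ G
        rw [add_smul, tv_add_left (by simp) (by simp)]
        exact G.mul_mem hx hy
      neg_mem' := fun {x} hx => by rwa [CharTwo.neg_eq] }
  have hone : (1 : F) ∈ A := by
    show tv _ _ ∈ G
    have h := G.mul_mem hu hu
    rwa [regU_sq] at h
  let K : Subfield F :=
    { carrier := {r | r = 0 ∨ r = 1 ∨ r = w ∨ r = w + 1}
      mul_mem' := fun {x y} hx hy => by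
        simp only [Set.mem_setOf_eq] at hx hy ⊢
        rcases hx with rfl | rfl | rfl | rfl <;> rcases hy with rfl | rfl | rfl | rfl <;> grind
      one_mem' := Or.inr (Or.inl rfl)
      add_mem' := fun {x y} hx hy => by
        simp only [Set.mem_setOf_eq] at hx hy ⊢
        rcases hx with rfl | rfl | rfl | rfl <;> rcases hy with rfl | rfl | rfl | rfl <;> grind
      zero_mem' := Or.inl rfl
      neg_mem' := fun {x} hx => by rwa [CharTwo.neg_eq]
      inv_mem' := fun x hx => by
        simp only [Set.mem_setOf_eq] at hx ⊢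
        rcases hx with rfl | rfl | rfl | rfl
        · simp
        · simp
        · right; right; right
          exact inv_eq_of_mul_eq_one_right (by linear_combination hw + x * h2)
        · right; right; left
          exact inv_eq_of_mul_eq_one_right (by linear_combination hw + w * h2) }
  intro r
  have hr : r ∈ K := by rw [hgen K (Or.inr (Or.inr (Or.inl rfl)))]; exact Subfield.mem_top _
  show r ∈ A
  rcases hr with rfl | rfl | rfl | rfl
  exacts [A.zero_mem, hone, hup, A.add_mem hup hone]

theorem exists_even [Fintype F] :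
    ∃ u g : SpecialLinearGroup (Fin 3) F, u = regU 3 ∧
      Subgroup.closure ({u, g * u * g⁻¹} : Set (SpecialLinearGroup (Fin 3) F)) = ⊤ := by
  classical
  obtain ⟨n, -, hn⟩ := FiniteField.card F 2
  obtain ⟨ζ, hζ⟩ := IsCyclic.exists_generator (α := Fˣ)
  have hord : orderOf ζ = Fintype.card F - 1 := by
    rw [orderOf_eq_card_of_forall_mem_zpowers hζ, Nat.card_units, Nat.card_eq_fintype_card]
  by_cases h4 : Fintype.card F = 4
  · have hne1 : (ζ : F) ≠ 1 := by
      intro h
      rw [show ζ = 1 from Units.ext h, orderOf_one] at hord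
      omega
    have h3 : (ζ : F) ^ 3 = 1 := by
      have := FiniteField.pow_card_sub_one_eq_one (ζ : F) ζ.ne_zero
      rwa [h4] at this
    have hw : (ζ : F) ^ 2 = (ζ : F) + 1 := by
      have h := mul_left_cancel₀ (sub_ne_zero.2 hne1)
        (show ((ζ : F) - 1) * ((ζ : F) ^ 2 + (ζ : F) + 1) = ((ζ : F) - 1) * 0 by linear_combination h3)
      linear_combination h - ((ζ : F) + 1) * (CharTwo.two_eq_zero (R := F))
    obtain ⟨g, hg⟩ := exists_conj (1 : F) (ζ : F) 1 1 one_ne_zero one_ne_zero (by
      simp [CharTwo.neg_eq])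
    refine ⟨regU 3, g, rfl, ?_⟩
    rw [hg]
    refine four_generates hw (fun K hK => ?_) _ (Subgroup.subset_closure (by simp))
      (Subgroup.subset_closure (by simp))
    refine eq_top_iff.2 fun x _ => ?_
    by_cases hx : x = 0
    · exact hx ▸ K.zero_mem
    obtain ⟨k, hk⟩ := (mem_powers_iff_mem_zpowers (x := ζ) (y := Units.mk0 x hx)).2 (hζ _)
    have := congrArg Units.val hk
    simp at this
    exact this ▸ pow_mem hK k
  · obtain ⟨g, hg⟩ := exists_conj (1 : F) 0 ((ζ : F) ^ 3) (ζ : F) (pow_ne_zero _ ζ.ne_zero) ζ.ne_zero (by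
      rw [CharTwo.neg_eq, one_pow, one_mul])
    refine ⟨regU 3, g, rfl, ?_⟩
    rw [hg]
    refine even_generates (pow_ne_zero 3 ζ.ne_zero) (fun K hK => ?_) _ (Subgroup.subset_closure (by simp))
      (Subgroup.subset_closure (by simp))
    by_contra hne
    have hcard := sq_card_le hne
    rw [Nat.card_eq_fintype_card (α := F)] at hcard
    haveI := Fintype.ofFinite K
    have h1 : ((ζ : F) ^ 3) ^ (Nat.card K - 1) = 1 := by
      have h0 : (⟨_, hK⟩ : K) ≠ 0 := fun h => pow_ne_zero 3 ζ.ne_zero (congrArg Subtype.val h)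
      have := congrArg Subtype.val (FiniteField.pow_card_sub_one_eq_one (⟨_, hK⟩ : K) h0)
      rw [Nat.card_eq_fintype_card]
      simpa using this
    have hdvd : Fintype.card F - 1 ∣ 3 * (Nat.card K - 1) := by
      rw [← hord]
      refine orderOf_dvd_of_pow_eq_one (Units.ext ?_)
      rw [pow_mul]
      simpa using h1
    have hk2 : 2 ≤ Nat.card K := Finite.one_lt_card
    have hq2 : Fintype.card F ≠ 3 := by
      intro h
      rw [h] at hn
      have h2 : 2 ∣ 3 := hn ▸ dvd_pow_self 2 n.pos.ne'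
      omega
    have hle := Nat.le_of_dvd (by omega) hdvd
    have : Nat.card K ≤ 2 := by
      by_contra hk
      have hk3 : 3 ≤ Nat.card K := by omega
      have : Nat.card K * Nat.card K ≤ 3 * Nat.card K := by omega
      have := Nat.le_of_mul_le_mul_right this (by omega)
      have : Nat.card K = 3 := by omega
      have hbig : 9 ≤ Fintype.card F := by rw [this] at hcard; omega
      omega
    have : Nat.card K = 2 := by omega
    rw [this] at hcard hle
    omega

end Even

section Odd

variable (a b : F)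

/-- The centre of the transvection. -/
def z0 : Fin 3 → F := ![1, 2 + b, b]

/-- The axis of the transvection. -/
def fv : Fin 3 → F := ![-a, -2, 1]

theorem odd_generates (h2 : (2 : F) ≠ 0) [Fintype F] (hab : a + b = -4) (ha : a ≠ 0) (hb : b ≠ 0)
    (hA : 8 - a * b ≠ 0)
    (hgen : Subfield.closure ({-8 * (8 - a * b)} : Set F) = ⊤)
    (hexc : ¬ (Fintype.card F = 9 ∧ (-8 * (8 - a * b)) ^ 2 = -1))
    (G : Subgroup (SpecialLinearGroup (Fin 3) F)) (hu : regU 3 ∈ G) (hv : lowU a (a * b) b ∈ G) : G = ⊤ := by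
  classical
  have hb' : b = -4 - a := by linear_combination hab
  have h8 : (8 : F) ≠ 0 := by
    rw [show (8 : F) = 2 ^ 3 by norm_num]
    exact pow_ne_zero 3 h2
  set f := fv a with hfdef
  set z := z0 b with hzdef
  set ui : SpecialLinearGroup (Fin 3) F := (regU 3)⁻¹ with huidef
  have hui : (ui : Matrix (Fin 3) (Fin 3) F) = !![1, -1, 1; 0, 1, -1; 0, 0, 1] := by
    have e : ui = sl3 !![1, -1, 1; 0, 1, -1; 0, 0, 1] (by simp [det_fin_three]) := by
      refine inv_eq_of_mul_eq_one_right (Subtype.ext ?_)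
      rw [val_mul, val_one, val_regU_three, val_sl3]
      ext i j
      fin_cases i <;> fin_cases j <;> simp [Matrix.mul_apply, Fin.sum_univ_three]
    rw [e, val_sl3]
  have hfz : f ⬝ᵥ z = 0 := by
    simp [f, z, fv, z0, dotProduct, Fin.sum_univ_three]
    linear_combination (-(1 : F)) * hab
  -- the transvection
  have ht : tv z f ∈ G := by
    have h := G.mul_mem (G.mul_mem hu hv) (G.mul_mem hu hv)
    convert h using 1
    refine Subtype.ext ?_
    rw [val_tv hfz]
    simp only [val_mul, val_regU_three, val_lowU]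
    simp only [val_lowU, hb']
    ext i j
    fin_cases i <;> fin_cases j <;>
      simp [f, z, fv, z0, Matrix.mul_apply, Fin.sum_univ_three, vecMulVec, hb'] <;> ring
  -- its conjugate by `u`
  set z1 := (regU 3 : SpecialLinearGroup (Fin 3) F).val *ᵥ z with hz1
  set f1 := f ᵥ* (ui : Matrix (Fin 3) (Fin 3) F) with hf1
  have hf1z1 : f1 ⬝ᵥ z1 = 0 := by rw [hf1, hz1, huidef, dot_vecMul_inv_mulVec, hfz]
  have ht1 : tv z1 f1 ∈ G := by
    rw [hf1, hz1, huidef, ← tv_conj (regU 3) hfz]
    exact G.mul_mem (G.mul_mem hu ht) (G.inv_mem hu)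
  have hfz1 : f ⬝ᵥ z1 = 8 - a * b := by
    simp [f, z, z1, fv, z0, val_regU_three, dotProduct, mulVec, Fin.sum_univ_three, hb']
    ring
  have hf1z : f1 ⬝ᵥ z = -8 := by
    simp [f, z, f1, fv, z0, hui, dotProduct, vecMul, Fin.sum_univ_three, hb']
    ring
  set A := 8 - a * b with hAdef
  set B : F := -8 with hBdef
  have hB : B ≠ 0 := neg_ne_zero.2 h8
  -- the embedding of SL₂
  set Z : Matrix (Fin 3) (Fin 2) F := Matrix.of fun i j => ![A⁻¹ * z1 i, z i] j with hZ
  set Φ : Matrix (Fin 2) (Fin 3) F := Matrix.of fun i j => ![f j, B⁻¹ * f1 j] i with hΦ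
  have hΦZ : Φ * Z = 1 := by
    simp only [dotProduct, Fin.sum_univ_three] at hfz hf1z1 hfz1 hf1z
    ext i j
    fin_cases i <;> fin_cases j <;>
      simp [Φ, Z, Matrix.mul_apply, Fin.sum_univ_three]
    · field_simp
      linear_combination hfz1
    · linear_combination hfz
    · linear_combination B⁻¹ * A⁻¹ * hf1z1
    · field_simp
      linear_combination hf1z
  let φ : SpecialLinearGroup (Fin 2) F →* SpecialLinearGroup (Fin 3) F :=
    { toFun := fun M => ⟨1 + Z * ((M : Matrix (Fin 2) (Fin 2) F) - 1) * Φ, by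
        rw [Matrix.det_one_add_mul_comm, ← Matrix.mul_assoc, hΦZ, Matrix.one_mul]
        exact (congrArg Matrix.det (add_sub_cancel _ _)).trans M.2⟩
      map_one' := Subtype.ext (by simp)
      map_mul' := fun M N => Subtype.ext (by
        show 1 + Z * (((M * N : SpecialLinearGroup (Fin 2) F) : Matrix (Fin 2) (Fin 2) F) - 1) * Φ =
          (1 + Z * ((M : Matrix (Fin 2) (Fin 2) F) - 1) * Φ) * (1 + Z * ((N : Matrix (Fin 2) (Fin 2) F) - 1) * Φ)
        rw [val_mul]
        set X := (M : Matrix (Fin 2) (Fin 2) F) - 1 with hX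
        set Y := (N : Matrix (Fin 2) (Fin 2) F) - 1 with hY
        have e : (M : Matrix (Fin 2) (Fin 2) F) * (N : Matrix (Fin 2) (Fin 2) F) - 1 = X + Y + X * Y := by
          rw [hX, hY]; noncomm_ring
        have e2 : Z * X * Φ * (Z * Y * Φ) = Z * (X * Y) * Φ := by
          calc Z * X * Φ * (Z * Y * Φ) = Z * X * (Φ * Z) * (Y * Φ) := by simp only [Matrix.mul_assoc]
            _ = _ := by rw [hΦZ, Matrix.mul_one]; simp only [Matrix.mul_assoc]
        rw [e, add_mul, mul_add, mul_add, one_mul, one_mul, mul_one, e2]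
        simp only [Matrix.mul_add, Matrix.add_mul]
        abel) }
  have hfull : ∀ M, φ M ∈ G := by
    have htop := Cfsg.Agent.PSLTwoSub.closure_eq_top h2 (mul_ne_zero hB hA) hgen hexc
    intro M
    have : M ∈ G.comap φ := by
      refine (le_of_eq ?_ : (⊤ : Subgroup _) ≤ G.comap φ) (Subgroup.mem_top M)
      refine (top_unique ?_).symm
      rw [← htop, Subgroup.closure_le]
      rintro N (hN | hN)
      · show φ N ∈ G
        convert ht using 1
        refine Subtype.ext ?_
        rw [val_tv hfz]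
        show 1 + Z * ((N : Matrix (Fin 2) (Fin 2) F) - 1) * Φ = _
        rw [hN]
        congr 1
        ext i j
        simp [Z, Φ, Matrix.mul_apply, Fin.sum_univ_two, vecMulVec]
      · show φ N ∈ G
        convert ht1 using 1
        refine Subtype.ext ?_
        rw [val_tv hf1z1]
        show 1 + Z * ((N : Matrix (Fin 2) (Fin 2) F) - 1) * Φ = _
        rw [hN]
        congr 1
        ext i j
        simp [Z, Φ, Matrix.mul_apply, Fin.sum_univ_two, vecMulVec]
        field_simp
    exact this
  -- root groups inside the SL₂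
  have hroot : ∀ x y : Fin 2 → F, y ⬝ᵥ x = 0 → tv (Z *ᵥ x) (y ᵥ* Φ) ∈ G := by
    intro x y hxy
    have hd : (y ᵥ* Φ) ⬝ᵥ (Z *ᵥ x) = 0 := by
      rw [← dotProduct_mulVec, mulVec_mulVec, hΦZ, one_mulVec, hxy]
    convert hfull (tv x y) using 1
    refine Subtype.ext ?_
    rw [val_tv hd]
    show _ = 1 + Z * ((tv x y : SpecialLinearGroup (Fin 2) F).val - 1) * Φ
    rw [val_tv hxy, add_sub_cancel_left, mul_vecMulVec, vecMulVec_mul]
  have hfull_f : ∀ r : F, tv (r • z) f ∈ G := by
    intro r
    have h := hroot ![0, r] ![1, 0] (by simp [dotProduct])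
    convert h using 2
    · ext i; simp [Z, mulVec, dotProduct, mul_comm]
    · ext i; simp [Φ, vecMul, dotProduct]
  -- a second centre for the axis `f`
  set C := f ⬝ᵥ ((regU 3 : SpecialLinearGroup (Fin 3) F).val *ᵥ z1) with hC
  set bb := (regU 3 : SpecialLinearGroup (Fin 3) F).val *ᵥ (C • z - A • z1) with hbb
  set g0 := (C * B) • f + (A * A) • f1 with hg0
  set g := g0 ᵥ* (ui : Matrix (Fin 3) (Fin 3) F) with hg
  have hgz : g ⬝ᵥ bb = 0 := by
    rw [hg, hbb, huidef, dot_vecMul_inv_mulVec, hg0]
    simp only [add_dotProduct, smul_dotProduct, dotProduct_sub, dotProduct_smul, hfz, hf1z1, hfz1, hf1z,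
      smul_eq_mul]
    ring
  have hfbb : f ⬝ᵥ bb = 0 := by
    rw [hbb, mulVec_sub, mulVec_smul, mulVec_smul, ← hz1, dotProduct_sub, dotProduct_smul, dotProduct_smul,
      ← hC, hfz1]
    simp only [smul_eq_mul]
    ring
  have hbbG : ∀ r : F, tv (r • bb) g ∈ G := by
    intro r
    have h := hroot (r • ![-(A * A), C]) ![C * B, A * A * B] (by
      simp [dotProduct, Fin.sum_univ_two]; ring)
    have e1 : Z *ᵥ (r • ![-(A * A), C]) = r • (C • z - A • z1) := by
      ext i
      simp [Z, mulVec, dotProduct, Fin.sum_univ_two]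
      field_simp
      ring
    have e2 : (![C * B, A * A * B] : Fin 2 → F) ᵥ* Φ = g0 := by
      ext i
      simp [Φ, g0, vecMul, dotProduct, Fin.sum_univ_two]
      field_simp
    rw [e1, e2] at h
    have hd : g0 ⬝ᵥ (r • (C • z - A • z1)) = 0 := by
      rw [hg0]
      simp only [add_dotProduct, smul_dotProduct, dotProduct_sub, dotProduct_smul, hfz, hf1z1, hfz1, hf1z,
        smul_eq_mul]
      ring
    rw [hbb, hg, huidef, ← mulVec_smul, ← tv_conj (regU 3) hd]
    exact G.mul_mem (G.mul_mem hu h) (G.inv_mem hu)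
  have hgzne : g ⬝ᵥ z = -((a * b) ^ 3) := by
    rw [hg, hg0, hC, hf1, hui, hz1, val_regU_three, hAdef, hBdef]
    simp [f, z, fv, z0, dotProduct, mulVec, vecMul, Fin.sum_univ_three, hb']
    ring
  have hfull_bb : ∀ r : F, tv (r • bb) f ∈ G := by
    intro r
    have hd : g ⬝ᵥ (r / (a * b) ^ 3) • bb = 0 := by rw [dotProduct_smul, hgz, smul_zero]
    have hfb : f ⬝ᵥ (r / (a * b) ^ 3) • bb = 0 := by rw [dotProduct_smul, hfbb, smul_zero]
    have hcm := tv_commutator (show f ⬝ᵥ ((1 : F) • z) = 0 by rw [one_smul, hfz]) hd hfb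
    have hmem : tv ((r / (a * b) ^ 3) • bb) ((-(g ⬝ᵥ ((1 : F) • z))) • f) ∈ G := by
      rw [← hcm]
      exact G.mul_mem (G.mul_mem (G.mul_mem (hfull_f 1) (hbbG _)) (G.inv_mem (hfull_f 1)))
        (G.inv_mem (hbbG _))
    rw [tv_smul_swap _ hfb, one_smul, hgzne, neg_neg, smul_smul,
      mul_div_cancel₀ _ (pow_ne_zero 3 (mul_ne_zero ha hb))] at hmem
    exact hmem
  -- the kernel of `f` is spanned by the two centres
  have hmem : f ∈ fullFunctionals G := by
    intro x hx
    obtain ⟨α, β, hx'⟩ : ∃ α β : F, x = α • z + β • bb := by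
      have hd : z 0 * bb 1 - z 1 * bb 0 = -(b ^ 3) := by
        rw [hbb, hz1, hC, hz1, val_regU_three, hAdef]
        simp [f, z, fv, z0, dotProduct, mulVec, Fin.sum_univ_three, hb']
        ring
      have hne : z 0 * bb 1 - z 1 * bb 0 ≠ 0 := by rw [hd]; exact neg_ne_zero.2 (pow_ne_zero 3 hb)
      set d := z 0 * bb 1 - z 1 * bb 0 with hddef
      refine ⟨(x 0 * bb 1 - x 1 * bb 0) / d, (z 0 * x 1 - z 1 * x 0) / d, funext fun i => ?_⟩
      simp only [dotProduct, Fin.sum_univ_three, show f 2 = 1 from rfl, one_mul] at hx hfz hfbb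
      simp only [Pi.add_apply, Pi.smul_apply, smul_eq_mul]
      rw [div_mul_eq_mul_div, div_mul_eq_mul_div, ← add_div, eq_div_iff hne, hddef]
      fin_cases i
      · simp only [Fin.zero_eta]; ring
      · simp only [Fin.mk_one]; ring
      · simp only [Fin.reduceFinMk]
        linear_combination d * hx - (x 0 * bb 1 - x 1 * bb 0) * hfz - (z 0 * x 1 - z 1 * x 0) * hfbb
    rw [hx', tv_add_left (by rw [dotProduct_smul, hfz, smul_zero]) (by rw [dotProduct_smul, hfbb, smul_zero])]
    exact G.mul_mem (hfull_f α) (hfull_bb β)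
  have m1 := vecMul_mem_fullFunctionals hmem (G.inv_mem hu)
  have m2 := vecMul_mem_fullFunctionals m1 (G.inv_mem hu)
  rw [← huidef] at m1 m2
  -- second differences
  have e2 : f - (2 : F) • f1 + f1 ᵥ* (ui : Matrix (Fin 3) (Fin 3) F) = (-a) • Pi.single 2 1 := by
    ext i
    fin_cases i <;>
      simp [f, f1, fv, hui, vecMul, dotProduct, Fin.sum_univ_three] <;> ring
  have g2 : Pi.single 2 1 ∈ fullFunctionals G := by
    refine (Submodule.smul_mem_iff _ (neg_ne_zero.2 ha)).1 ?_
    rw [← e2]
    exact Submodule.add_mem _ (Submodule.sub_mem _ hmem (Submodule.smul_mem _ _ m1)) m2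
  have e1 : f - f1 = (-a) • Pi.single 1 1 + (a - 2) • Pi.single 2 (1 : F) := by
    ext i
    fin_cases i <;>
      simp [f, f1, fv, hui, vecMul, dotProduct, Fin.sum_univ_three] <;> ring
  have g1 : Pi.single 1 1 ∈ fullFunctionals G := by
    refine (Submodule.smul_mem_iff _ (neg_ne_zero.2 ha)).1 ?_
    rw [show (-a) • Pi.single 1 (1 : F) = f - f1 - (a - 2) • Pi.single (2 : Fin 3) 1 by rw [e1]; abel]
    exact Submodule.sub_mem _ (Submodule.sub_mem _ hmem m1) (Submodule.smul_mem _ _ g2)
  have g0' : Pi.single 0 1 ∈ fullFunctionals G := by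
    refine (Submodule.smul_mem_iff _ (neg_ne_zero.2 ha)).1 ?_
    rw [show (-a) • Pi.single 0 (1 : F) = f + (2 : F) • Pi.single (1 : Fin 3) 1 - Pi.single 2 1 by
      ext i; fin_cases i <;> simp [f, fv, Pi.single_apply, vecHead, vecTail]]
    exact Submodule.sub_mem _ (Submodule.add_mem _ hmem (Submodule.smul_mem _ _ g1)) g2
  refine Cfsg.Agent.Linear.eq_top_of_transvection_mem G fun i j hij c => ?_
  rw [transvection_eq_tv hij c]
  have hj : Pi.single j (1 : F) ∈ fullFunctionals G := by
    fin_cases j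
    exacts [g0', g1, g2]
  exact hj _ (by simp [hij])

theorem exists_odd [Fintype F] (h2 : (2 : F) ≠ 0) :
    ∃ u g : SpecialLinearGroup (Fin 3) F, u = regU 3 ∧
      Subgroup.closure ({u, g * u * g⁻¹} : Set (SpecialLinearGroup (Fin 3) F)) = ⊤ := by
  classical
  have h4 : (4 : F) ≠ 0 := by
    rw [show (4 : F) = 2 ^ 2 by norm_num]
    exact pow_ne_zero 2 h2
  have main : ∀ m : F, m ≠ 0 → m ^ 3 ≠ 1 → (m ^ 3) ^ 2 + 1 ≠ 0 →
      (∀ K : Subfield F, -8 * (8 - (4 / (m ^ 3 - 1)) * (-4 * m ^ 3 / (m ^ 3 - 1))) ∈ K → K = ⊤) →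
      ¬ (Fintype.card F = 9 ∧
        (-8 * (8 - (4 / (m ^ 3 - 1)) * (-4 * m ^ 3 / (m ^ 3 - 1)))) ^ 2 = -1) →
      ∃ u g : SpecialLinearGroup (Fin 3) F, u = regU 3 ∧
        Subgroup.closure ({u, g * u * g⁻¹} : Set (SpecialLinearGroup (Fin 3) F)) = ⊤ := by
    intro m hm hm1 hm2 hK hexc
    have hd : m ^ 3 - 1 ≠ 0 := sub_ne_zero.2 hm1
    set a := 4 / (m ^ 3 - 1) with ha_def
    set b := -4 * m ^ 3 / (m ^ 3 - 1) with hb_def
    have ha : a ≠ 0 := div_ne_zero h4 hd
    have hb : b ≠ 0 := div_ne_zero (mul_ne_zero (neg_ne_zero.2 h4) (pow_ne_zero 3 hm)) hd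
    have hab : a + b = -4 := by
      rw [ha_def, hb_def, ← add_div, div_eq_iff hd]
      ring
    have hA : 8 - a * b ≠ 0 := by
      intro h
      refine hm2 ?_
      rw [ha_def, hb_def, div_mul_div_comm, sub_eq_zero, eq_div_iff (mul_ne_zero hd hd)] at h
      have h8 : (8 : F) ≠ 0 := by
        rw [show (8 : F) = 2 ^ 3 by norm_num]
        exact pow_ne_zero 3 h2
      refine mul_left_cancel₀ h8 ?_
      linear_combination h
    obtain ⟨g, hg⟩ := exists_conj a (a * b) b (a * m) hb (mul_ne_zero ha hm) (by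
      rw [ha_def, hb_def]
      field_simp)
    refine ⟨regU 3, g, rfl, ?_⟩
    rw [hg]
    exact odd_generates a b h2 hab ha hb hA (hK _ (Subfield.subset_closure rfl)) hexc _
      (Subgroup.subset_closure (by simp)) (Subgroup.subset_closure (by simp))
  by_cases hp : (Fintype.card F).Prime
  · refine main (-1) (neg_ne_zero.2 one_ne_zero) ?_ ?_ (fun K _ => subfield_eq_top_of_card_prime
      (by rwa [Nat.card_eq_fintype_card]) K) fun h => ?_
    · intro h
      exact h2 (by linear_combination (-1 : F) * h)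
    · intro h
      exact h2 (by linear_combination h)
    · rw [h.1] at hp
      norm_num at hp
  obtain ⟨ζ, hζ⟩ := IsCyclic.exists_generator (α := Fˣ)
  set q := Fintype.card F with hq
  have hord : orderOf ζ = q - 1 := by
    rw [orderOf_eq_card_of_forall_mem_zpowers hζ, Nat.card_units, Nat.card_eq_fintype_card]
  have hbig : q = 9 ∨ 17 ≤ q := by
    obtain ⟨p, hc, n, hpr, hn⟩ := FiniteField.card' F
    haveI := hc
    have hp2 : p ≠ 2 := by
      rintro rfl
      exact h2 CharTwo.two_eq_zero
    have h3 : 3 ≤ p := by have := hpr.two_le; omega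
    rw [← hq] at hn
    have hn2 : 2 ≤ (n : ℕ) := by
      by_contra hlt
      have : (n : ℕ) = 1 := by have := n.pos; omega
      rw [this, pow_one] at hn
      exact hp (hn ▸ hpr)
    rcases eq_or_ne p 3 with rfl | hne
    · rcases eq_or_ne (n : ℕ) 2 with e | e
      · left; rw [hn, e]; norm_num
      · right
        rw [hn]
        calc 17 ≤ 3 ^ 3 := by norm_num
          _ ≤ 3 ^ (n : ℕ) := Nat.pow_le_pow_right (by norm_num) (by omega)
    · right
      have h5 : 5 ≤ p := by
        by_contra hlt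
        have : p = 4 := by omega
        rw [this] at hpr
        norm_num at hpr
      rw [hn]
      calc 17 ≤ 5 ^ 2 := by norm_num
        _ ≤ p ^ 2 := Nat.pow_le_pow_left h5 2
        _ ≤ p ^ (n : ℕ) := Nat.pow_le_pow_right (by omega) hn2
  -- the order of `ζ³`
  have hdvd : ∀ j : ℕ, ((ζ : F) ^ 3) ^ j = 1 → q - 1 ∣ 3 * j := by
    intro j hj
    rw [← hord]
    refine orderOf_dvd_of_pow_eq_one (Units.ext ?_)
    rw [pow_mul]
    simpa using hj
  have hsmall : ∀ j : ℕ, 0 < j → j ≤ 4 → ((ζ : F) ^ 3) ^ j ≠ 1 := by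
    intro j hj0 hj hj1
    have h := hdvd j hj1
    have hle := Nat.le_of_dvd (by omega) h
    rcases hbig with h9 | h17
    · rw [h9] at h
      interval_cases j <;> norm_num at h
    · omega
  refine main (ζ : F) ζ.ne_zero ?_ ?_ (fun K hK => ?_) ?_
  · intro h
    exact hsmall 1 one_pos (by norm_num) (by rw [pow_one]; exact h)
  · intro h
    refine hsmall 4 (by norm_num) le_rfl ?_
    linear_combination (((ζ : F) ^ 3) ^ 2 - 1) * h
  · by_contra hne
    have hcard := sq_card_le hne
    rw [Nat.card_eq_fintype_card (α := F), ← hq] at hcard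
    set s := (ζ : F) ^ 3 with hs
    set k := Nat.card K with hk
    have hs0 : s ≠ 0 := pow_ne_zero 3 ζ.ne_zero
    have hd : s - 1 ≠ 0 := sub_ne_zero.2 fun h => hsmall 1 one_pos (by norm_num) (by rw [pow_one]; exact h)
    set lam := -8 * (8 - (4 / (s - 1)) * (-4 * s / (s - 1))) with hlam
    have hl : lam + 64 = -128 * s / (s - 1) ^ 2 := by
      rw [hlam]
      field_simp
      ring
    have h128 : (-128 : F) ≠ 0 := by
      rw [show (-128 : F) = -(2 ^ 7) by norm_num]
      exact neg_ne_zero.2 (pow_ne_zero 7 h2)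
    have h128' : (128 : F) ≠ 0 := neg_ne_zero.1 h128
    have ht : s + s⁻¹ = 2 + -128 / (lam + 64) := by
      rw [hl]
      field_simp
      ring
    have nK : ∀ n : ℕ, (n : F) ∈ K := fun n => natCast_mem K n
    have htK : s + s⁻¹ ∈ K := by
      rw [ht]
      refine add_mem ?_ (div_mem (neg_mem ?_) (add_mem hK ?_))
      · exact_mod_cast nK 2
      · exact_mod_cast nK 128
      · exact_mod_cast nK 64
    haveI := Fintype.ofFinite K
    have hpow : (s + s⁻¹) ^ k = s + s⁻¹ := by
      have := congrArg Subtype.val (FiniteField.pow_card (⟨_, htK⟩ : K))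
      rw [hk, Nat.card_eq_fintype_card]
      simpa using this
    obtain ⟨p, hc, n, hpr, hn⟩ := FiniteField.card' K
    haveI := hc
    haveI : Fact p.Prime := ⟨hpr⟩
    haveI : CharP F p := charP_of_injective_ringHom (f := K.subtype) Subtype.val_injective p
    have hkn : k = p ^ (n : ℕ) := by rw [hk, Nat.card_eq_fintype_card, hn]
    rw [hkn, add_pow_char_pow, ← hkn, inv_pow] at hpow
    set x := s ^ k with hx
    have hx0 : x ≠ 0 := pow_ne_zero k hs0
    have hz : (x - s) * (x * s - 1) = 0 := by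
      field_simp at hpow
      linear_combination hpow
    have hk2 : 2 ≤ k := Finite.one_lt_card
    have hbound : q - 1 ≤ 3 * (k + 1) := by
      rcases mul_eq_zero.1 hz with h | h
      · refine (Nat.le_of_dvd (by omega) (hdvd (k - 1) ?_)).trans (by omega)
        have : s ^ (k - 1) * s = 1 * s := by
          rw [← pow_succ, Nat.sub_add_cancel (by omega), one_mul]
          exact sub_eq_zero.1 h
        exact mul_right_cancel₀ hs0 this
      · refine Nat.le_of_dvd (by omega) (hdvd (k + 1) ?_)
        rw [pow_succ]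
        exact sub_eq_zero.1 h
    rcases hbig with h9 | h17
    · have hk3 : k = 3 := by
        have : k ≤ 3 := by nlinarith
        interval_cases k
        · exfalso
          rcases mul_eq_zero.1 hz with h | h
          · rw [hx] at h
            have := hdvd 1 (mul_right_cancel₀ hs0 (by linear_combination h))
            rw [h9] at this; norm_num at this
          · rw [hx] at h
            have := hdvd 3 (by linear_combination h)
            rw [h9] at this; norm_num at this
        · rfl
      rw [hk3] at hx hbound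
      rcases mul_eq_zero.1 hz with h | h
      · refine hsmall 2 (by norm_num) (by norm_num) (mul_right_cancel₀ hs0 ?_)
        rw [one_mul, ← pow_succ, ← hx]
        exact sub_eq_zero.1 h
      · refine hsmall 4 (by norm_num) le_rfl ?_
        rw [pow_succ, ← hx]
        exact sub_eq_zero.1 h
    · nlinarith [Nat.sub_add_cancel (show 1 ≤ q by omega)]
  · rintro ⟨h9, hsq⟩
    have h3 : (3 : F) = 0 := by
      have h := Nat.cast_card_eq_zero F
      rw [← hq, h9] at h
      have : (3 : F) * 3 = 0 := by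
        rw [show (3 : F) * 3 = ((9 : ℕ) : F) by norm_num, h]
      exact mul_self_eq_zero.1 this
    set s := (ζ : F) ^ 3 with hs
    have hd : s - 1 ≠ 0 := sub_ne_zero.2 fun h => hsmall 1 one_pos (by norm_num) (by rw [pow_one]; exact h)
    have hl : -8 * (8 - (4 / (s - 1)) * (-4 * s / (s - 1))) = -64 * (s ^ 2 + 1) / (s - 1) ^ 2 := by
      field_simp
      ring
    rw [hl, div_pow, div_eq_iff (pow_ne_zero 2 (pow_ne_zero 2 hd))] at hsq
    have e : s ^ 5 = 1 := by
      linear_combination (1 - s) * hsq + (s - 1) * (1366 * s ^ 4 - s ^ 3 + 2733 * s ^ 2 - s + 1366) * h3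
    have := hdvd 5 e
    rw [h9] at this; norm_num at this

end Odd

end Cfsg.Agent.Known.RegUnipThree
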