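import Cfsg.Agent.Known.RegUnipConj

/-!
`n` consecutive translates `u^k x u^-k` of the transvection `x = 1 + lam e_last ⊗ e₀*` generate `SL_n(F)`
for `lam` a generator of `Fˣ`, except for `n = 3`, `|F| = 4`.
-/

set_option autoImplicit false

namespace Cfsg.Agent.Known.SLWindow

open Matrix RegUnipConj

variable {F : Type*} [Field F] {m : ℕ} {G : Subgroup (SpecialLinearGroup (Fin (m + 3)) F)}

theorem fullFunctional_T {lam : F} {j k : ℤ} (hT : T lam j ∈ G)
    (hk : (fv k : Fin (m + 3) → F) ∈ fullFunctionals G) (hne : lam * (zv (j - k) : Fin (m + 3) → F) 0 ≠ 0) :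
    (fv j : Fin (m + 3) → F) ∈ fullFunctionals G := by
  have h := vecMul_mem_fullFunctionals hk hT
  rw [val_T, vecMul_add, vecMul_one, vecMul_vecMulVec, dotProduct_smul, pairing, smul_eq_mul] at h
  have h2 := Submodule.sub_mem _ h hk
  rw [add_sub_cancel_left] at h2
  exact (Submodule.smul_mem_iff _ hne).1 h2

theorem step {lam r : F} (hT : ∀ k : ℤ, 0 ≤ k → k ≤ (m + 2 : ℕ) → T lam k ∈ G) {b j : ℕ}
    (hj : j + 1 < m + 2) (hbj : b + j + 1 ≤ m + 2) (hr : Mem G (b + j : ℕ) b r) :
    Mem G (b + j + 1 : ℕ) b (lam * r) := by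
  have hz : (zv (((b + j + 1 : ℕ) : ℤ) - (b : ℤ)) : Fin (m + 3) → F) 0 = 0 := S_zero (by omega) (by omega)
  have h := Mem.comm (S_zero (by omega) (by omega)) (S_zero (by omega) (by omega)) hz
    (hT (b + j + 1 : ℕ) (by omega) (by omega)) hr
  rw [show ((b + j : ℕ) : ℤ) - ((b + j + 1 : ℕ) : ℤ) = -1 by omega, S_neg_one] at h
  have h2 := h.sign hz (m + 2)
  convert h2 using 1
  rcases neg_one_pow_eq_or F (m + 2) with e | e <;> rw [e] <;> ring

/-- `n` consecutive translates generate. -/
theorem window_generates [Fintype F] (ζ : Fˣ) (hζ : ∀ x : Fˣ, x ∈ Subgroup.zpowers ζ)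
    (hexc : ¬ (m = 0 ∧ Fintype.card F = 4))
    (hT : ∀ k : ℤ, 0 ≤ k → k ≤ (m + 2 : ℕ) → T (ζ : F) k ∈ G) : G = ⊤ := by
  classical
  set lam : F := (ζ : F) with hlam
  have hl : lam ≠ 0 := ζ.ne_zero
  set ν := lam ^ (m + 3) with hν
  have hν0 : ν ≠ 0 := pow_ne_zero _ hl
  have hR : ∀ j : ℕ, j < m + 2 → (zv (((1 + j : ℕ) : ℤ) - ((1 : ℕ) : ℤ)) : Fin (m + 3) → F) 0 = 0 :=
    fun j hj => S_zero (by omega) (by omega)
  have hbase : Mem G ((1 : ℕ) : ℤ) ((1 : ℕ) : ℤ) lam := hT _ (by omega) (by omega)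
  have up : ∀ {j : ℕ} {r : F} (i : ℕ), j + i < m + 2 → Mem G (1 + j : ℕ) (1 : ℕ) r →
      Mem G (1 + (j + i) : ℕ) (1 : ℕ) (lam ^ i * r) := by
    intro j r i hi hr
    induction i with
    | zero => simpa using hr
    | succ i ih =>
      have := step hT (b := 1) (j := j + i) (by omega) (by omega) (ih (by omega))
      rw [pow_succ', mul_assoc]
      rwa [show 1 + (j + (i + 1)) = 1 + (j + i) + 1 by omega]
  have down : ∀ {r r' : F}, Mem G (1 : ℕ) (1 : ℕ) r → Mem G (1 + (m + 1) : ℕ) (1 : ℕ) r' →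
      Mem G (1 : ℕ) (1 : ℕ) (lam * r * r') := by
    intro r r' hr hr'
    have hz : (zv (((1 : ℕ) : ℤ) - 0) : Fin (m + 3) → F) 0 = 0 := S_zero (by omega) (by omega)
    have h0 := Mem.comm (S_zero (by omega) (by omega)) (S_zero (by omega) (by omega)) hz hr (hT 0 le_rfl (by omega))
    rw [show (0 : ℤ) - ((1 : ℕ) : ℤ) = -1 by omega, S_neg_one] at h0
    have h1 := h0.sign hz (m + 2)
    have h2 := Mem.comm hz (hR (m + 1) (by omega)) (S_zero (by omega) (by omega)) h1 hr'
    rw [show ((1 + (m + 1) : ℕ) : ℤ) - 0 = ((m + 2 : ℕ) : ℤ) by omega, S_top, mul_one] at h2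
    convert h2 using 1
    rcases neg_one_pow_eq_or F (m + 2) with e | e <;> rw [e] <;> ring
  set M : Set F := {y | Mem G (1 : ℕ) (1 : ℕ) (lam / ν * y)} with hM
  have hmul : ∀ y ∈ M, ∀ y' ∈ M, y * y' ∈ M := by
    intro y hy y' hy'
    have hb := up (j := 0) (m + 1) (by omega) (show Mem G ((1 + 0 : ℕ) : ℤ) ((1 : ℕ) : ℤ) _ from hy')
    rw [Nat.zero_add] at hb
    have h := down hy hb
    show Mem G _ _ _
    convert h using 1
    field_simp
    rw [hν]
    ring
  have hadd : ∀ y ∈ M, ∀ y' ∈ M, y + y' ∈ M := by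
    intro y hy y' hy'
    show tv _ _ ∈ G
    rw [mul_add, add_smul, tv_add_left (perp (S_zero (by omega) (by omega)) _) (perp (S_zero (by omega) (by omega)) _)]
    exact G.mul_mem hy hy'
  have hzero : (0 : F) ∈ M := by
    show tv _ _ ∈ G
    rw [mul_zero, zero_smul, tv_zero_left]
    exact G.one_mem
  have hneg : ∀ y ∈ M, -y ∈ M := fun y hy => by
    show Mem G _ _ _
    rw [mul_neg]
    exact Mem.neg (S_zero (by omega) (by omega)) hy
  have hpowM : ∀ y ∈ M, ∀ n : ℕ, y ^ (n + 1) ∈ M := by
    intro y hy n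
    induction n with
    | zero => simpa using hy
    | succ n ih => rw [pow_succ]; exact hmul _ ih _ hy
  have hνM : ν ∈ M := by
    show Mem G _ _ _
    rw [div_mul_cancel₀ _ hν0]
    exact hbase
  have hone : (1 : F) ∈ M := by
    have := hpowM _ hνM (Fintype.card F - 1 - 1)
    rwa [Nat.sub_add_cancel (by have := Fintype.one_lt_card (α := F); omega),
      FiniteField.pow_card_sub_one_eq_one _ hν0] at this
  let K : Subfield F :=
    { carrier := M
      mul_mem' := fun {x y} hx hy => hmul x hx y hy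
      one_mem' := hone
      add_mem' := fun {x y} hx hy => hadd x hx y hy
      zero_mem' := hzero
      neg_mem' := fun {x} hx => hneg x hx
      inv_mem' := fun x hx => by
        by_cases hx0 : x = 0
        · rwa [hx0, _root_.inv_zero, ← hx0]
        by_cases h2 : Fintype.card F = 2
        · have := FiniteField.pow_card_sub_one_eq_one x hx0
          rw [h2] at this
          rw [show x = 1 by simpa using this, inv_one]
          exact hone
        have := hpowM x hx (Fintype.card F - 2 - 1)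
        rwa [Nat.sub_add_cancel (by have := Fintype.one_lt_card (α := F); omega),
          eq_inv_of_mul_eq_one_left (show x ^ (Fintype.card F - 2) * x = 1 by
            rw [← pow_succ, show Fintype.card F - 2 + 1 = Fintype.card F - 1 by
              have := Fintype.one_lt_card (α := F); omega,
              FiniteField.pow_card_sub_one_eq_one x hx0])] at this }
  have hνK : ν ∈ K := hνM
  obtain ⟨p, hc⟩ := CharP.exists F
  have hp : p.Prime := CharP.char_is_prime F p
  haveI := Fact.mk hp
  obtain ⟨a, e, hpe, hn⟩ := Nat.exists_eq_pow_mul_and_not_dvd (n := m + 3) (by omega) p hp.ne_one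
  have hgenP : ∀ P : ℕ, P = p ^ a → lam ^ P ∈ K → ∀ y : F, y ∈ K := by
    intro P hP hPK
    have hlK : lam ∈ K := by
      obtain ⟨N, -, hN⟩ := FiniteField.card F p
      have e1 : lam ^ (Fintype.card F ^ a) = lam := FiniteField.pow_card_pow a lam
      have e2 : Fintype.card F ^ a = P * p ^ (((N : ℕ) - 1) * a) := by
        rw [hN, hP, ← pow_mul, ← pow_add]
        congr 1
        have := N.pos
        obtain ⟨t, ht⟩ : ∃ t, (N : ℕ) = t + 1 := ⟨(N : ℕ) - 1, by omega⟩
        rw [ht, Nat.add_sub_cancel]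
        ring
      rw [← e1, e2, pow_mul]
      exact pow_mem hPK _
    intro y
    by_cases hy : y = 0
    · exact hy ▸ K.zero_mem
    obtain ⟨k, hk⟩ := (mem_powers_iff_mem_zpowers (x := ζ) (y := Units.mk0 y hy)).2 (hζ _)
    have := congrArg Units.val hk
    simp at this
    exact this ▸ pow_mem hlK k
  have hKtop : ∀ y : F, y ∈ K := by
    by_cases he : e = 1
    · refine hgenP (p ^ a) rfl ?_
      rw [he, mul_one] at hn
      rw [← hn]
      exact hνK
    by_cases hm : m = 0
    · -- `n = 3`: already `ν = lam ^ 3` generates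
      subst hm
      intro y
      suffices hK : K = ⊤ by rw [hK]; exact Subfield.mem_top y
      by_contra hne
      have h4 : Fintype.card F ≠ 4 := fun h => hexc ⟨rfl, h⟩
      haveI : Module.Finite K F := Module.Finite.of_finite
      have hr1 : Module.finrank K F ≠ 1 := by
        intro h1
        refine hne (eq_top_iff.2 fun z _ => ?_)
        obtain ⟨c, hc⟩ := (finrank_eq_one_iff_of_nonzero' (1 : F) one_ne_zero).1 h1 z
        rw [← hc, Subfield.smul_def, smul_eq_mul, mul_one]
        exact c.2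
      haveI := Fintype.ofFinite K
      have hcard : Fintype.card K * Fintype.card K ≤ Fintype.card F := by
        rw [Module.card_eq_pow_finrank (K := K) (V := F), ← pow_two]
        refine Nat.pow_le_pow_right Fintype.card_pos ?_
        have : 0 < Module.finrank K F := Module.finrank_pos
        omega
      have h1 : (ν : F) ^ (Fintype.card K - 1) = 1 := by
        have := congrArg Subtype.val (FiniteField.pow_card_sub_one_eq_one (⟨ν, hνK⟩ : K)
          fun h => hν0 (congrArg Subtype.val h))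
        simpa using this
      have hord : orderOf ζ = Fintype.card F - 1 := by
        rw [orderOf_eq_card_of_forall_mem_zpowers hζ, Nat.card_units, Nat.card_eq_fintype_card]
      have hdvd : Fintype.card F - 1 ∣ 3 * (Fintype.card K - 1) := by
        rw [← hord]
        refine orderOf_dvd_of_pow_eq_one (Units.ext ?_)
        rw [Units.val_pow_eq_pow_val, Units.val_one, pow_mul, ← hlam]
        exact h1
      have hk2 : 2 ≤ Fintype.card K := Fintype.one_lt_card
      have hle := Nat.le_of_dvd (by omega) hdvd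
      have hk : Fintype.card K = 2 := by
        by_contra hk
        have : 3 ≤ Fintype.card K := by omega
        have : 3 * Fintype.card K ≤ Fintype.card K * Fintype.card K := Nat.mul_le_mul_right _ this
        omega
      rw [hk] at hle hcard
      omega
    set P := p ^ a with hP
    have hP1 : 1 ≤ P := Nat.one_le_pow _ _ hp.pos
    refine hgenP P hP ?_
    have he2 : 2 ≤ e := by
      rcases Nat.eq_zero_or_pos e with h | h
      · exact absurd (h ▸ dvd_zero p) hpe
      · omega
    have hPle : P + 1 < m + 2 := by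
      by_contra hh
      have h2P : 2 * P ≤ e * P := Nat.mul_le_mul_right P he2
      have : P = 2 ∧ e = 2 := by
        have hP2 : P ≤ 2 := by nlinarith
        interval_cases P <;> omega
      obtain ⟨hP', he'⟩ := this
      rcases Nat.eq_zero_or_pos a with ha | ha
      · rw [ha, pow_zero] at hP; omega
      have : p = 2 := (Nat.prime_dvd_prime_iff_eq hp Nat.prime_two).1 (hP' ▸ hP ▸ dvd_pow_self p ha.ne')
      exact hpe (by rw [this, he'])
    set C : F := (Nat.choose (m + 2 + P) P : F) with hC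
    have hC0 : C ≠ 0 := by
      rw [hC, Ne, CharP.cast_eq_zero_iff F p]
      intro hd
      refine hpe ?_
      have := choose_modEq p a e
      rw [← hP, ← hn, show m + 3 + (P - 1) = m + 2 + P by omega] at this
      exact (Nat.ModEq.dvd_iff this dvd_rfl).1 hd
    have hm0 := Mem.comm (S_zero (by omega) (by omega)) (S_zero (by omega) (by omega))
      (S_zero (by omega) (by omega)) (hT (1 + (P + 1) : ℕ) (by omega) (by omega)) hbase
    have hS : (zv (((1 : ℕ) : ℤ) - ((1 + (P + 1) : ℕ) : ℤ)) : Fin (m + 3) → F) 0 = (-1) ^ (m + 2) * C := by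
      rw [show ((1 : ℕ) : ℤ) - ((1 + (P + 1) : ℕ) : ℤ) = -((P + 1 : ℕ) : ℤ) by omega, zv_neg]
      simp only [Fin.val_zero, Nat.sub_zero]
      rw [hC, show P + 1 + (m + 2) - 1 = m + 2 + P by omega, Nat.choose_symm_add]
    rw [hS] at hm0
    have hm1 := hm0.sign (S_zero (by omega) (by omega)) (m + 2)
    have hb := up (j := P + 1) (m + 1 - (P + 1)) (by omega) hm1
    rw [show P + 1 + (m + 1 - (P + 1)) = m + 1 by omega] at hb
    have h := down hbase hb
    have hy : C * (ν / lam ^ P) * ν ∈ K := by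
      show Mem G _ _ _
      convert h using 1
      obtain ⟨k, hk⟩ : ∃ k, m + 2 = (P + 1) + (k + 1) := ⟨m - P, by omega⟩
      rw [hν, show m + 1 - (P + 1) = k by omega, show m + 3 = P + k + 3 by omega]
      rcases neg_one_pow_eq_or F (m + 2) with e' | e' <;> rw [e'] <;> field_simp <;> ring
    have : lam ^ P = C * ν ^ 2 / (C * (ν / lam ^ P) * ν) := by field_simp
    rw [this]
    exact div_mem (mul_mem (natCast_mem K _) (pow_mem hνK 2)) hy
  have hall : ∀ (j : ℕ), j < m + 2 → ∀ r : F, Mem G (1 + j : ℕ) (1 : ℕ) r := by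
    intro j hj r
    have : r * ν / lam / lam ^ j ∈ K := hKtop _
    have := up (j := 0) j (by omega) (show Mem G ((1 + 0 : ℕ) : ℤ) ((1 : ℕ) : ℤ) _ from this)
    rw [Nat.zero_add] at this
    convert this using 1
    field_simp
  set u : SpecialLinearGroup (Fin (m + 3)) F := regU (m + 3)
  have hfull : ∀ k : ℕ, k ≤ m + 2 → ∀ y : Fin (m + 3) → F,
      (∀ i : Fin (m + 3), k ≤ m + 2 - (i : ℕ) → y i = 0) →
      u * tv y (fv 0) * u⁻¹ ∈ G := by
    intro k
    induction k with
    | zero =>
      intro _ y hy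
      rw [show y = 0 from funext fun i => hy i (Nat.zero_le _), tv_zero_left, mul_one, mul_inv_cancel]
      exact G.one_mem
    | succ k ih =>
      intro hk y hy
      set i0 : Fin (m + 3) := ⟨m + 2 - k, by omega⟩
      set y' := y - y i0 • zv (k : ℤ) with hy'
      have hy'' : ∀ i : Fin (m + 3), k ≤ m + 2 - (i : ℕ) → y' i = 0 := by
        intro i hi
        rw [hy', Pi.sub_apply, Pi.smul_apply, zv_nat]
        rcases Nat.lt_or_ge k (m + 2 - (i : ℕ)) with h | h
        · simp [hy i h, Nat.choose_eq_zero_of_lt h]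
        · have : i = i0 := Fin.ext (by simp only [i0]; omega)
          subst this
          simp [show m + 2 - (i0 : ℕ) = k by omega]
      have hp' : fv 0 ⬝ᵥ y' = 0 := by
        rw [fv_zero, single_dotProduct, one_mul]
        exact hy'' 0 (by simp; omega)
      have hzk : (zv ((k : ℤ) - 0) : Fin (m + 3) → F) 0 = 0 := S_zero (by omega) (by omega)
      rw [show y = y' + y i0 • zv (k : ℤ) by rw [hy', sub_add_cancel], tv_add_left hp' (perp hzk _),
        ← conj_mul]
      refine G.mul_mem (ih (by omega) y' hy'') ?_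
      have hc := conj_zpow (F := F) (m := m) 1 k 0 (y i0) hzk
      rw [zpow_one] at hc
      rw [hc]
      have := hall k (by omega) (y i0)
      rwa [show ((1 + k : ℕ) : ℤ) = (k : ℤ) + 1 by omega] at this
  have hf1 : (fv 1 : Fin (m + 3) → F) ∈ fullFunctionals G := by
    intro z hz
    set z₀ := ((u⁻¹ : SpecialLinearGroup (Fin (m + 3)) F) : Matrix (Fin (m + 3)) (Fin (m + 3)) F) *ᵥ z with hz0
    have hf : (fv 0 : Fin (m + 3) → F) ᵥ* ((u⁻¹ : SpecialLinearGroup (Fin (m + 3)) F) : Matrix (Fin (m + 3)) (Fin (m + 3)) F) = fv 1 := by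
      rw [fv, fv, vecMul_vecMul, mul_val_eq, neg_zero, zpow_zero, one_mul, _root_.zpow_neg, zpow_one]
    have hfz : fv 0 ⬝ᵥ z₀ = 0 := by rw [hz0, dotProduct_mulVec, hf, hz]
    have h := tv_conj u hfz
    rw [hf, hz0, mulVec_mulVec, val_mul_inv, one_mulVec] at h
    rw [← h]
    refine hfull (m + 2) le_rfl z₀ fun i hi => ?_
    rw [show i = 0 from Fin.ext (by simp only [Fin.val_zero]; omega)]
    rwa [fv_zero, single_dotProduct, one_mul] at hfz
  have hne : ∀ j k : ℤ, j - k = -1 → lam * (zv (j - k) : Fin (m + 3) → F) 0 ≠ 0 := fun j k h => by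
    rw [h, S_neg_one]
    exact mul_ne_zero hl (pow_ne_zero _ (neg_ne_zero.2 one_ne_zero))
  have hf0 : (fv 0 : Fin (m + 3) → F) ∈ fullFunctionals G :=
    fullFunctional_T (hT 0 le_rfl (by omega)) hf1 (hne _ _ (by norm_num))
  have hfd : (fv ((m + 2 : ℕ) : ℤ) : Fin (m + 3) → F) ∈ fullFunctionals G :=
    fullFunctional_T (hT _ (by omega) le_rfl) hf0 (by rw [sub_zero, S_top, mul_one]; exact hl)
  have hfs : ∀ i : ℕ, i ≤ m + 2 → (fv ((m + 2 - i : ℕ) : ℤ) : Fin (m + 3) → F) ∈ fullFunctionals G := by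
    intro i
    induction i with
    | zero => exact fun _ => hfd
    | succ i ih =>
      intro hi
      exact fullFunctional_T (hT _ (by omega) (by omega)) (ih (by omega)) (hne _ _ (by omega))
  have hspan : ∀ (k : ℕ) (hk : k ≤ m + 2) (i : ℕ), i + k ≤ m + 2 →
      Pi.single (⟨k, by omega⟩ : Fin (m + 3)) (1 : F) ᵥ*
        ((u ^ (-((m + 2 - i : ℕ) : ℤ)) : SpecialLinearGroup (Fin (m + 3)) F) : Matrix (Fin (m + 3)) (Fin (m + 3)) F) ∈
        fullFunctionals G := by
    intro k
    induction k with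
    | zero => exact fun _ i hi => hfs i (by omega)
    | succ k ih =>
      intro hk i hi
      have h1 := ih (by omega) (i + 1) (by omega)
      have h2 := ih (by omega) i (by omega)
      rw [show (⟨k, by omega⟩ : Fin (m + 3)) = (⟨k, by omega⟩ : Fin (m + 2)).castSucc from rfl] at h1 h2
      rw [show -((m + 2 - (i + 1) : ℕ) : ℤ) = 1 + -((m + 2 - i : ℕ) : ℤ) by omega, _root_.zpow_add, zpow_one,
        val_mul, ← vecMul_vecMul, vecMul_regU_castSucc, add_vecMul] at h1
      have h3 := Submodule.sub_mem _ h1 h2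
      rwa [add_sub_cancel_left] at h3
  refine Cfsg.Agent.Linear.eq_top_of_transvection_mem G fun i j hij c => ?_
  rw [transvection_eq_tv hij c]
  have h : Pi.single j (1 : F) ∈ fullFunctionals G := by
    -- the functionals `e_k* u^(-i)`, `i` in the window, span
    have key : ∀ k : Fin (m + 3), Pi.single k (1 : F) ᵥ*
        ((u ^ (-((m + 2 : ℕ) : ℤ)) : SpecialLinearGroup (Fin (m + 3)) F) : Matrix (Fin (m + 3)) (Fin (m + 3)) F) ∈
        fullFunctionals G := fun k => by
      have := hspan k (by omega) 0 (by omega)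
      rwa [Nat.sub_zero] at this
    set W : Matrix (Fin (m + 3)) (Fin (m + 3)) F :=
      ((u ^ (-((m + 2 : ℕ) : ℤ)) : SpecialLinearGroup (Fin (m + 3)) F) : Matrix (Fin (m + 3)) (Fin (m + 3)) F) with hW
    set W' : Matrix (Fin (m + 3)) (Fin (m + 3)) F :=
      ((u ^ ((m + 2 : ℕ) : ℤ) : SpecialLinearGroup (Fin (m + 3)) F) : Matrix (Fin (m + 3)) (Fin (m + 3)) F) with hW'
    have e : Pi.single j (1 : F) = (Pi.single j (1 : F) ᵥ* W') ᵥ* W := by
      rw [vecMul_vecMul, hW, hW', mul_val_eq, ← _root_.zpow_add, add_neg_cancel, zpow_zero, val_one, vecMul_one]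
    rw [e, pi_eq_sum_univ' (Pi.single j (1 : F) ᵥ* W'), sum_vecMul]
    refine Submodule.sum_mem _ fun k _ => ?_
    rw [smul_vecMul]
    exact Submodule.smul_mem _ _ (key k)
  exact h _ (by simp [hij])

end Cfsg.Agent.Known.SLWindow
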