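import Cfsg.Agent.Known.SpSpan
import Cfsg.Agent.Known.RegUnip

/-!
The regular unipotent `uSp` of `Sp_2n`, the monomial element `gSp` and the short root element in the third generator.
-/

set_option autoImplicit false

namespace Cfsg.Agent.Known.SpRegular

open Matrix SpSpan

variable {F : Type*} [Field F] {m : ℕ}

/-- The symmetric matrix unit at the corner. -/
def S0 : Matrix (Fin (m + 2)) (Fin (m + 2)) F := Matrix.single (Fin.last (m + 1)) (Fin.last (m + 1)) 1

theorem S0_symm : (S0 : Matrix (Fin (m + 2)) (Fin (m + 2)) F)ᵀ = S0 := transpose_single _ _ _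

/-- `e_i e_jᵀ + e_j e_iᵀ`. -/
def cross (i j : Fin (m + 2)) : Matrix (Fin (m + 2)) (Fin (m + 2)) F := Matrix.single i j 1 + Matrix.single j i 1

theorem cross_symm (i j : Fin (m + 2)) : (cross i j : Matrix (Fin (m + 2)) (Fin (m + 2)) F)ᵀ = cross i j := by
  rw [cross, transpose_add, transpose_single, transpose_single]
  exact add_comm _ _

/-- The regular unipotent element. -/
noncomputable def uSp : symplecticGroup (Fin (m + 2)) F := levi (regU (m + 2)) * xS S0

theorem val_uSp : (↑(uSp : symplecticGroup (Fin (m + 2)) F) : Matrix (Fin (m + 2) ⊕ Fin (m + 2)) (Fin (m + 2) ⊕ Fin (m + 2)) F) =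
    fromBlocks (regU (m + 2) : SpecialLinearGroup (Fin (m + 2)) F).1
      ((regU (m + 2) : SpecialLinearGroup (Fin (m + 2)) F).1 * S0) 0
      ((regU (m + 2) : SpecialLinearGroup (Fin (m + 2)) F)⁻¹).1ᵀ := by
  rw [uSp, Submonoid.coe_mul, val_levi, val_xS S0_symm, fromBlocks_multiply]
  simp

theorem shift_pow_top :
    (shiftN (m + 2) : Matrix (Fin (m + 2)) (Fin (m + 2)) F) ^ (m + 1) = Matrix.single 0 (Fin.last (m + 1)) 1 := by
  rw [shiftN_pow]
  ext i j
  simp only [Matrix.of_apply, Matrix.single_apply, Fin.ext_iff, Fin.val_zero, Fin.val_last]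
  exact if_congr (by omega) rfl rfl

theorem shift_pow_n : (shiftN (m + 2) : Matrix (Fin (m + 2)) (Fin (m + 2)) F) ^ (m + 2) = 0 := by
  rw [shiftN_pow]; ext i j; exact if_neg (by omega)

/-- `uSp` is regular unipotent. -/
theorem uSp_regular :
    IsNilpotent ((↑(uSp : symplecticGroup (Fin (m + 2)) F) : Matrix (Fin (m + 2) ⊕ Fin (m + 2)) (Fin (m + 2) ⊕ Fin (m + 2)) F) - 1) ∧
      ((↑(uSp : symplecticGroup (Fin (m + 2)) F) : Matrix (Fin (m + 2) ⊕ Fin (m + 2)) (Fin (m + 2) ⊕ Fin (m + 2)) F) - 1) ^ (2 * (m + 2) - 1) ≠ 0 := by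
  set A := (regU (m + 2) : SpecialLinearGroup (Fin (m + 2)) F).1 with hA
  set Ai := ((regU (m + 2) : SpecialLinearGroup (Fin (m + 2)) F)⁻¹).1 with hAi
  set N : Matrix (Fin (m + 2)) (Fin (m + 2)) F := shiftN (m + 2) with hN
  set X := A * S0 with hX
  set M := (-(Ai * N))ᵀ with hM
  have hAN : A = 1 + N := rfl
  have h1 : Ai * A = 1 := congrArg Subtype.val (inv_mul_cancel (regU (m + 2) : SpecialLinearGroup (Fin (m + 2)) F))
  have h2 : A * Ai = 1 := congrArg Subtype.val (mul_inv_cancel (regU (m + 2) : SpecialLinearGroup (Fin (m + 2)) F))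
  have hB : (↑(uSp : symplecticGroup (Fin (m + 2)) F) : Matrix (Fin (m + 2) ⊕ Fin (m + 2)) (Fin (m + 2) ⊕ Fin (m + 2)) F) - 1 =
      fromBlocks N X 0 M := by
    have e : Ai = 1 - Ai * N := by
      rw [hAN, mul_add, mul_one] at h1
      rw [← h1]; abel
    have eA : A - 1 = N := by rw [hAN]; abel
    have eM : Aiᵀ - 1 = M := by
      rw [hM, transpose_neg]; conv_lhs => rw [e, transpose_sub, transpose_one]
      rw [sub_sub_cancel_left]
    rw [val_uSp, ← hA, ← hAi, ← hX, ← fromBlocks_one, sub_eq_add_neg, fromBlocks_neg, fromBlocks_add,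
      neg_zero, add_zero, add_zero, ← sub_eq_add_neg, ← sub_eq_add_neg, eA, eM]
  have hcomm : Commute Ai N := by
    have : A * N = N * A := by rw [hAN, add_mul, mul_add, one_mul, mul_one]
    show Ai * N = N * Ai
    calc Ai * N = Ai * N * (A * Ai) := by rw [h2, mul_one]
      _ = Ai * (N * A) * Ai := by simp only [Matrix.mul_assoc]
      _ = Ai * (A * N) * Ai := by rw [this]
      _ = N * Ai := by rw [← Matrix.mul_assoc Ai, h1, one_mul]
  have hMn : M ^ (m + 2) = 0 := by
    rw [hM, ← transpose_pow, neg_pow, hcomm.mul_pow, hN, shift_pow_n]; simp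
  have hpow : ∀ k, ∃ Y, fromBlocks N X 0 M ^ k = fromBlocks (N ^ k) Y 0 (M ^ k) := by
    intro k
    induction k with
    | zero => exact ⟨0, by rw [pow_zero, pow_zero, pow_zero, fromBlocks_one]⟩
    | succ k ih =>
      obtain ⟨Y, hY⟩ := ih
      exact ⟨N ^ k * X + Y * M, by rw [pow_succ, hY, fromBlocks_multiply, pow_succ, pow_succ]; simp⟩
  rw [hB]
  refine ⟨?_, ?_⟩
  · obtain ⟨Y, hY⟩ := hpow (m + 2)
    refine ⟨2 * (m + 2), ?_⟩
    rw [two_mul, pow_add, hY, hMn, hN, shift_pow_n, fromBlocks_multiply]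
    simp
  · obtain ⟨Y, hY⟩ := hpow (m + 1)
    rw [show 2 * (m + 2) - 1 = (m + 1) + 1 + (m + 1) by omega, pow_add, pow_succ, hY, fromBlocks_multiply,
      fromBlocks_multiply]
    intro h
    have h3 := congrArg (fun Z => Z.toBlocks₁₂) h
    simp only [toBlocks_fromBlocks₁₂] at h3
    have e1 : N ^ (m + 1) * N = 0 := by rw [← pow_succ, hN, shift_pow_n]
    have e2 : M * M ^ (m + 1) = 0 := by rw [← pow_succ', hMn]
    simp only [Matrix.zero_mul, Matrix.mul_zero, add_zero, zero_add, add_mul, Matrix.mul_assoc Y, e2] at h3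
    replace h3 : N ^ (m + 1) * X * M ^ (m + 1) = 0 := by
      rw [e1, Matrix.zero_mul, zero_add] at h3
      rw [h3]; rfl
    have hAiE : ∀ k, Ai ^ k * Matrix.single 0 (Fin.last (m + 1)) (1 : F) = Matrix.single 0 (Fin.last (m + 1)) 1 := by
      have hb : Ai * Matrix.single 0 (Fin.last (m + 1)) (1 : F) = Matrix.single 0 (Fin.last (m + 1)) 1 := by
        have : A * Matrix.single 0 (Fin.last (m + 1)) (1 : F) = Matrix.single 0 (Fin.last (m + 1)) 1 := by
          rw [hAN, add_mul, one_mul, ← shift_pow_top, hN, ← pow_succ', shift_pow_n, add_zero]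
        conv_lhs => rw [← this, ← Matrix.mul_assoc, h1, Matrix.one_mul]
      intro k
      induction k with
      | zero => rw [pow_zero, one_mul]
      | succ k ih => rw [pow_succ, Matrix.mul_assoc, hb, ih]
    have h4 := congrFun (congrFun h3 0) 0
    have hMm : M ^ (m + 1) = (-1 : F) ^ (m + 1) • Matrix.single (Fin.last (m + 1)) 0 (1 : F) := by
      rw [hM, ← transpose_pow, ← neg_one_smul F, smul_pow, hcomm.mul_pow, hN, shift_pow_top, hAiE,
        transpose_smul, transpose_single]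
    rw [hMm, hN, shift_pow_top, hX, hAN, hN] at h4
    simp [S0, shiftN, Matrix.mul_apply, Matrix.single_apply, Matrix.one_apply, ite_and] at h4

/-- The permutation `0 ↦ last`, `1 ↦ 0`. -/
def pi : Equiv.Perm (Fin (m + 2)) := (Equiv.swap 0 1).trans (Equiv.swap 1 (Fin.last (m + 1)))

theorem pi_zero : (pi : Equiv.Perm (Fin (m + 2))) 0 = Fin.last (m + 1) := by simp [pi]

theorem pi_one : (pi : Equiv.Perm (Fin (m + 2))) 1 = 0 := by
  simp [pi, Equiv.swap_apply_def, Fin.ext_iff]

/-- The monomial matrix. -/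
def Pm (c : F) : Matrix (Fin (m + 2)) (Fin (m + 2)) F :=
  Matrix.of fun i j => if i = pi j then (if j = 0 then c else 1) else 0

theorem Pm_mul (c : F) (hc : c ≠ 0) :
    (Pm c : Matrix (Fin (m + 2)) (Fin (m + 2)) F) * (Pm c⁻¹)ᵀ = 1 := by
  ext i j
  rw [Matrix.mul_apply, Finset.sum_eq_single (pi.symm i)]
  · simp only [Pm, Matrix.of_apply, transpose_apply, Equiv.apply_symm_apply, if_true, Matrix.one_apply]
    by_cases h : i = j
    · subst h
      by_cases h0 : pi.symm i = 0 <;> simp [h0, hc]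
    · simp [h, Ne.symm h]
  · intro k _ hk
    simp only [Pm, Matrix.of_apply, transpose_apply]
    rw [if_neg, zero_mul]
    rintro rfl
    exact hk (Equiv.symm_apply_apply _ _).symm
  · simp

/-- `e_1 e_1ᵀ`. -/
def E1 : Matrix (Fin (m + 2)) (Fin (m + 2)) F := Matrix.single 1 1 1

/-- The Weyl element exchanging `e_1` and `f_1`. -/
def w1 : symplecticGroup (Fin (m + 2)) F :=
  ⟨fromBlocks (1 - E1) (-E1) E1 (1 - E1), by
    rw [SymplecticGroup.mem_iff]
    simp [Matrix.J, fromBlocks_multiply, fromBlocks_transpose, E1, transpose_single, mul_sub, sub_mul]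
    abel⟩

/-- The conjugating element. -/
def gSp (c : F) (hc : c ≠ 0) : symplecticGroup (Fin (m + 2)) F := blockD (Pm c) (Pm c⁻¹) (Pm_mul c hc) * w1

theorem val_gSp (c : F) (hc : c ≠ 0) :
    (↑(gSp c hc : symplecticGroup (Fin (m + 2)) F) : Matrix (Fin (m + 2) ⊕ Fin (m + 2)) (Fin (m + 2) ⊕ Fin (m + 2)) F) =
      fromBlocks (Pm c * (1 - E1)) (-(Pm c * E1)) (Pm c⁻¹ * E1) (Pm c⁻¹ * (1 - E1)) := by
  rw [gSp, Submonoid.coe_mul, val_blockD]
  show fromBlocks _ _ _ _ * fromBlocks _ _ _ _ = _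
  rw [fromBlocks_multiply]
  simp

theorem Pm_mulVec (c : F) (j : Fin (m + 2)) :
    (Pm c : Matrix (Fin (m + 2)) (Fin (m + 2)) F) *ᵥ Pi.single j 1 = Pi.single (pi j) (if j = 0 then c else 1) := by
  ext i
  simp [Pm, Pi.single_apply]

theorem last_ne_zero : (Fin.last (m + 1) : Fin (m + 2)) ≠ 0 := by simp [Fin.ext_iff]

/-- The short root element goes to a transvection of the Levi subgroup. -/
theorem gSp_conj (c : F) (hc : c ≠ 0) (r : F) :
    gSp c hc * xS (r • cross 0 1) * (gSp c hc)⁻¹ =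
      levi (SpecialLinearGroup.transvection (last_ne_zero (m := m)) (-(r * c))) := by
  rw [mul_inv_eq_iff_eq_mul]
  refine Subtype.ext ?_
  have hinv : ((SpecialLinearGroup.transvection (last_ne_zero (m := m)) (-(r * c)))⁻¹).1 =
      Matrix.transvection (Fin.last (m + 1)) 0 (r * c) := by
    have e : (SpecialLinearGroup.transvection (last_ne_zero (m := m)) (-(r * c)))⁻¹ =
        SpecialLinearGroup.transvection (last_ne_zero (m := m)) (r * c) := by
      refine inv_eq_of_mul_eq_one_right (Subtype.ext ?_)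
      show Matrix.transvection (Fin.last (m + 1)) 0 (-(r * c)) * Matrix.transvection (Fin.last (m + 1)) 0 (r * c) = (1 : Matrix _ _ F)
      rw [transvection_mul_transvection_same _ _ last_ne_zero, neg_add_cancel, transvection_zero]
    rw [e]; rfl
  have hPE : (Pm c : Matrix (Fin (m + 2)) (Fin (m + 2)) F) * E1 = Matrix.single 0 1 1 := by
    ext i j
    simp [Pm, E1, Matrix.mul_apply, Matrix.single_apply, ite_and, pi_one, eq_comm]
    split_ifs <;> simp_all
  have hPE' : (Pm c⁻¹ : Matrix (Fin (m + 2)) (Fin (m + 2)) F) * E1 = Matrix.single 0 1 1 := by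
    ext i j
    simp [Pm, E1, Matrix.mul_apply, Matrix.single_apply, ite_and, pi_one, eq_comm]
    split_ifs <;> simp_all
  have hP0 : (Pm c : Matrix (Fin (m + 2)) (Fin (m + 2)) F) * Matrix.single 0 1 1 = Matrix.single (Fin.last (m + 1)) 1 c := by
    ext i j
    simp [Pm, Matrix.mul_apply, Matrix.single_apply, ite_and, pi_zero, eq_comm]
    split_ifs <;> simp_all
  have hP1 : (Pm c : Matrix (Fin (m + 2)) (Fin (m + 2)) F) * Matrix.single 1 0 1 = Matrix.single 0 0 1 := by
    ext i j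
    simp [Pm, Matrix.mul_apply, Matrix.single_apply, ite_and, pi_one, eq_comm]
    split_ifs <;> simp_all
  have hQl : ∀ a : F, (Matrix.single 0 (Fin.last (m + 1)) a : Matrix (Fin (m + 2)) (Fin (m + 2)) F) * (Pm c⁻¹ : Matrix (Fin (m + 2)) (Fin (m + 2)) F) =
      Matrix.single 0 0 (a * c⁻¹) := by
    intro a
    ext i j
    simp only [Matrix.mul_apply, Matrix.single_apply, Pm, Matrix.of_apply, ite_and, ite_mul, zero_mul]
    rw [Finset.sum_eq_single (Fin.last (m + 1))]
    · by_cases hj : j = 0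
      · subst hj; simp [pi_zero, eq_comm]
      · have : Fin.last (m + 1) ≠ pi j := fun h => hj (pi.injective (by rw [← h, pi_zero]))
        simp [this, Ne.symm hj]
    · intro k _ hk; simp [Ne.symm hk]
    · simp
  have h10 : (1 : Fin (m + 2)) ≠ 0 := by simp
  simp only [Submonoid.coe_mul, val_gSp, val_levi, hinv,
    val_xS (show (r • cross 0 1 : Matrix (Fin (m + 2)) (Fin (m + 2)) F)ᵀ = r • cross 0 1 by
      rw [transpose_smul, cross_symm])]
  show _ = fromBlocks (Matrix.transvection (Fin.last (m + 1)) 0 (-(r * c))) 0 0 _ * _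
  rw [fromBlocks_multiply, fromBlocks_multiply]
  simp only [Matrix.transvection, transpose_add, transpose_one, transpose_single, Matrix.mul_zero,
    Matrix.zero_mul, add_zero, zero_add, Matrix.mul_one]
  have hl : ∀ (X : Matrix (Fin (m + 2)) (Fin (m + 2)) F) (a : F) (i j : Fin (m + 2)),
      Matrix.single i j a * X = a • (Matrix.single i j 1 * X) := fun X a i j => by
    rw [← Matrix.smul_mul, smul_single, smul_eq_mul, mul_one]
  have hPm0 : Matrix.single (Fin.last (m + 1)) 0 (1 : F) * (Pm c : Matrix (Fin (m + 2)) (Fin (m + 2)) F) =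
      Matrix.single (Fin.last (m + 1)) 1 1 := by
    ext i j
    simp only [Matrix.mul_apply, Matrix.single_apply, Pm, Matrix.of_apply, ite_and, ite_mul, one_mul, zero_mul]
    rw [Finset.sum_eq_single 0]
    · by_cases hj : j = 1
      · subst hj; simp [pi_one, eq_comm]
      · have : (0 : Fin (m + 2)) ≠ pi j := fun h => hj (pi.injective (by rw [← h, pi_one]))
        simp [this, Ne.symm hj]
    · intro k _ hk; simp [Ne.symm hk]
    · simp
  rw [fromBlocks_inj]
  have hE0 : (1 - E1) * (cross 0 1 : Matrix (Fin (m + 2)) (Fin (m + 2)) F) = Matrix.single 0 1 1 := by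
    simp [E1, cross, sub_mul, mul_add]
  have hE0' : E1 * (cross 0 1 : Matrix (Fin (m + 2)) (Fin (m + 2)) F) = Matrix.single 1 0 1 := by
    simp [E1, cross, mul_add]
  have hr1 : ∀ (a : F) (i : Fin (m + 2)), Matrix.single i (1 : Fin (m + 2)) a * (1 - E1) = 0 := fun a i => by
    simp [E1, mul_sub]
  refine ⟨?_, ?_, ?_, ?_⟩
  · rw [add_mul, one_mul, ← Matrix.mul_assoc, hl _ (-(r * c)), hPm0, smul_single, smul_eq_mul, mul_one, hr1,
      add_zero]
  · rw [Matrix.mul_smul, Matrix.mul_assoc, hE0, hP0, smul_single, hPE, add_mul, one_mul, Matrix.mul_neg,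
      single_mul_single_same]
    rw [mul_one, smul_eq_mul, add_comm (-Matrix.single 0 1 (1 : F)), ← sub_eq_add_neg, ← sub_eq_add_neg]
    congr 1
    rw [← Matrix.single_neg, neg_neg]
  · rw [hPE', add_mul, one_mul, single_mul_single_of_ne _ _ _ _ last_ne_zero, add_zero]
  · have hQl' : (Matrix.single 0 (Fin.last (m + 1)) (r * c) : Matrix (Fin (m + 2)) (Fin (m + 2)) F) * ((Pm c⁻¹ : Matrix (Fin (m + 2)) (Fin (m + 2)) F) * ((1 : Matrix (Fin (m + 2)) (Fin (m + 2)) F) - E1)) =
        (Matrix.single 0 0 r : Matrix (Fin (m + 2)) (Fin (m + 2)) F) * (1 - E1) := by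
      rw [← Matrix.mul_assoc, hQl, mul_assoc r, mul_inv_cancel₀ hc, mul_one]
    rw [Matrix.mul_smul, Matrix.mul_assoc, hE0', add_mul, one_mul, hQl']
    have hP1' : (Pm c⁻¹ : Matrix (Fin (m + 2)) (Fin (m + 2)) F) * Matrix.single 1 0 1 = Matrix.single 0 0 1 := by
      ext i j
      simp only [Matrix.mul_apply, Matrix.single_apply, Pm, Matrix.of_apply, ite_and]
      rw [Finset.sum_eq_single 1]
      · simp only [pi_one, h10, if_false, mul_ite, mul_one, mul_zero, if_true]; split_ifs <;> first | rfl | grind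
      · intro k _ hk; simp [Ne.symm hk]
      · simp
    have hE00 : (Matrix.single 0 0 r : Matrix (Fin (m + 2)) (Fin (m + 2)) F) * E1 = 0 := by
      rw [E1, single_mul_single_of_ne _ _ _ _ h10.symm]
    rw [hP1', smul_single, smul_eq_mul, mul_one, mul_sub, mul_sub, hE00, sub_zero, Matrix.mul_one, Matrix.mul_one]
    exact add_comm _ _

theorem gSp_mulVec_f (c : F) (hc : c ≠ 0) :
    (↑(gSp c hc : symplecticGroup (Fin (m + 2)) F) : Matrix (Fin (m + 2) ⊕ Fin (m + 2)) (Fin (m + 2) ⊕ Fin (m + 2)) F) *ᵥ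
      Sum.elim 0 (Pi.single 1 1) = Sum.elim (-Pi.single 0 1) 0 := by
  rw [val_gSp, fromBlocks_mulVec]
  simp only [Sum.elim_comp_inl, Sum.elim_comp_inr, mulVec_zero, zero_add, neg_mulVec, ← mulVec_mulVec,
    sub_mulVec, one_mulVec, E1, single_mulVec]
  have hu : Function.update (0 : Fin (m + 2) → F) 1 1 = Pi.single 1 1 := rfl
  simp [hu, Pm_mulVec, pi_one]
  rw [show (Pm c : Matrix (Fin (m + 2)) (Fin (m + 2)) F).col 1 = Pi.single 0 1 by
    rw [← mulVec_single_one, Pm_mulVec, pi_one, if_neg one_ne_zero]]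

theorem gSp_mulVec_e (c : F) (hc : c ≠ 0) :
    (↑(gSp c hc : symplecticGroup (Fin (m + 2)) F) : Matrix (Fin (m + 2) ⊕ Fin (m + 2)) (Fin (m + 2) ⊕ Fin (m + 2)) F) *ᵥ
      Sum.elim (Pi.single 0 1 : Fin (m + 2) → F) (0 : Fin (m + 2) → F) = Sum.elim (c • Pi.single (Fin.last (m + 1)) 1) (0 : Fin (m + 2) → F) := by
  rw [val_gSp, fromBlocks_mulVec]
  simp only [Sum.elim_comp_inl, Sum.elim_comp_inr, mulVec_zero, add_zero, ← mulVec_mulVec, sub_mulVec, one_mulVec, E1]
  have h0 : (Matrix.single 1 1 1 : Matrix (Fin (m + 2)) (Fin (m + 2)) F) *ᵥ Pi.single 0 1 = 0 := by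
    ext i; simp [Matrix.single_apply, ite_and]
  rw [h0, sub_zero, mulVec_zero, Pm_mulVec, pi_zero, if_pos rfl, ← Pi.single_smul, smul_eq_mul, mul_one]

/-- Conjugating `uSp` by `xS`. -/
theorem conj_xS {R : Matrix (Fin (m + 2)) (Fin (m + 2)) F} (hR : Rᵀ = R) :
    xS ((regU (m + 2) : SpecialLinearGroup (Fin (m + 2)) F).1 * R * (regU (m + 2) : SpecialLinearGroup (Fin (m + 2)) F).1ᵀ) *
        uSp * (xS ((regU (m + 2) : SpecialLinearGroup (Fin (m + 2)) F).1 * R * (regU (m + 2) : SpecialLinearGroup (Fin (m + 2)) F).1ᵀ))⁻¹ =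
      uSp * xS (R - (regU (m + 2) : SpecialLinearGroup (Fin (m + 2)) F).1 * R * (regU (m + 2) : SpecialLinearGroup (Fin (m + 2)) F).1ᵀ) := by
  set A := (regU (m + 2) : SpecialLinearGroup (Fin (m + 2)) F).1
  have hC : (A * R * Aᵀ)ᵀ = A * R * Aᵀ := conj_symm hR
  rw [mul_inv_eq_iff_eq_mul, mul_assoc uSp, ← xS_add (by rw [transpose_sub, hR, hC]) hC, sub_add_cancel]
  rw [← levi_conj (regU (m + 2)) hR, uSp]
  simp only [mul_assoc, inv_mul_cancel_left]
  rw [← xS_add hR S0_symm, ← xS_add S0_symm hR, add_comm R S0]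

theorem u_conj_levi {P : SpecialLinearGroup (Fin (m + 2)) F}
    (h : (P : Matrix (Fin (m + 2)) (Fin (m + 2)) F) *ᵥ Pi.single (Fin.last (m + 1)) 1 = Pi.single (Fin.last (m + 1)) 1) :
    uSp * levi P * (uSp : symplecticGroup (Fin (m + 2)) F)⁻¹ = levi (regU (m + 2) * P * (regU (m + 2))⁻¹) := by
  have hfix : (P : Matrix (Fin (m + 2)) (Fin (m + 2)) F) * S0 * (P : Matrix (Fin (m + 2)) (Fin (m + 2)) F)ᵀ = S0 := by
    have e : (S0 : Matrix (Fin (m + 2)) (Fin (m + 2)) F) =
        vecMulVec (Pi.single (Fin.last (m + 1)) 1) (Pi.single (Fin.last (m + 1)) 1) := by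
      ext i j; simp [S0, vecMulVec, Matrix.single_apply, Pi.single_apply, ite_and, eq_comm]; split_ifs <;> simp_all
    rw [e, mul_vecMulVec, vecMulVec_mul, vecMul_transpose, h]
  have hc := (levi_commute S0_symm hfix).eq
  rw [map_mul, map_mul, map_inv, uSp, _root_.mul_inv_rev]
  simp only [mul_assoc]
  rw [← mul_assoc (levi P) (xS S0)⁻¹, (Commute.inv_right hc).eq, mul_assoc, mul_inv_cancel_left]

theorem outside (c : F) (hc : c ≠ 0) :
    ∃ y : Fin (m + 2) → F, y ≠ 0 ∧ (m = 0 → y 0 = 1) ∧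
      (fun i => ((gSp c hc * uSp * (gSp c hc)⁻¹ : symplecticGroup (Fin (m + 2)) F) :
        Matrix (Fin (m + 2) ⊕ Fin (m + 2)) (Fin (m + 2) ⊕ Fin (m + 2)) F) *ᵥ Sum.elim (-Pi.single 0 1) 0 <| Sum.inr i) = y := by
  refine ⟨_, ?_, ?_, rfl⟩
  all_goals
    have e : ((gSp c hc * uSp * (gSp c hc)⁻¹ : symplecticGroup (Fin (m + 2)) F) :
        Matrix (Fin (m + 2) ⊕ Fin (m + 2)) (Fin (m + 2) ⊕ Fin (m + 2)) F) *ᵥ Sum.elim (-Pi.single 0 1) 0 =
      (↑(gSp c hc : symplecticGroup (Fin (m + 2)) F) : Matrix (Fin (m + 2) ⊕ Fin (m + 2)) (Fin (m + 2) ⊕ Fin (m + 2)) F) *ᵥ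
        ((↑(uSp : symplecticGroup (Fin (m + 2)) F) : Matrix (Fin (m + 2) ⊕ Fin (m + 2)) (Fin (m + 2) ⊕ Fin (m + 2)) F) *ᵥ Sum.elim 0 (Pi.single 1 1)) := by
      rw [← gSp_mulVec_f c hc, mulVec_mulVec, mulVec_mulVec, ← Submonoid.coe_mul, ← Submonoid.coe_mul,
        inv_mul_cancel_right]
  all_goals rw [e, val_uSp, val_gSp, fromBlocks_mulVec, fromBlocks_mulVec]
  all_goals simp only [Sum.elim_comp_inl, Sum.elim_comp_inr, mulVec_zero, zero_add, Sum.elim_inr, add_zero]
  · -- otherwise `A⁻¹ᵀ e₁` would be a multiple of `e₁`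
    intro h
    set A := (regU (m + 2) : SpecialLinearGroup (Fin (m + 2)) F).1 with hA
    set Q := ((regU (m + 2) : SpecialLinearGroup (Fin (m + 2)) F)⁻¹).1ᵀ with hQ
    set x := (A * S0) *ᵥ (Pi.single 1 1 : Fin (m + 2) → F) with hx
    set q := Q *ᵥ (Pi.single 1 1 : Fin (m + 2) → F) with hq
    have hinj : Function.Injective ((Pm c⁻¹ : Matrix (Fin (m + 2)) (Fin (m + 2)) F) *ᵥ ·) := by
      refine Function.LeftInverse.injective (g := ((Pm c : Matrix (Fin (m + 2)) (Fin (m + 2)) F)ᵀ *ᵥ ·)) fun v => ?_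
      have := congrArg Matrix.transpose (mul_eq_one_comm.1 (Pm_mul (m := m) c hc))
      rw [transpose_mul, transpose_transpose, transpose_one] at this
      simp only [mulVec_mulVec, this, one_mulVec]
    have hz : E1 *ᵥ x + (1 - E1) *ᵥ q = 0 := by
      refine hinj ?_
      simp only [mulVec_add, mulVec_zero, mulVec_mulVec]
      exact funext fun i => congrFun h i
    rw [sub_mulVec, one_mulVec, E1, single_mulVec, single_mulVec, one_mul, one_mul] at hz
    by_cases hm : m = 0
    · subst hm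
      have := congrFun hz 1
      simp [hx, hA, val_regU, shiftN, S0, Matrix.mul_apply, Fin.sum_univ_two, Matrix.single_apply] at this
    · have hqj : ∀ j, j ≠ 1 → q j = 0 := fun j hj => by
        have := congrFun hz j
        simpa [Pi.single_apply, hj] using this
      have hAq : Aᵀ *ᵥ q = Pi.single 1 1 := by
        rw [hq, mulVec_mulVec, hA, hQ, ← transpose_mul,
          show ((regU (m + 2) : SpecialLinearGroup (Fin (m + 2)) F)⁻¹).1 * (regU (m + 2) : SpecialLinearGroup (Fin (m + 2)) F).1 = 1 from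
            congrArg Subtype.val (inv_mul_cancel (regU (m + 2) : SpecialLinearGroup (Fin (m + 2)) F)), transpose_one, one_mulVec]
      have hval : ∀ j, (Aᵀ *ᵥ q) j = A 1 j * q 1 := fun j => by
        show ∑ k, Aᵀ j k * q k = _
        rw [Finset.sum_eq_single 1]
        · rfl
        · intro k _ hk; rw [hqj k hk, mul_zero]
        · simp
      have h2 := congrFun hAq ⟨2, by omega⟩
      have h1 := congrFun hAq 1
      rw [hval] at h1 h2
      simp [hA, val_regU, shiftN, Matrix.one_apply, Fin.ext_iff, Pi.single_apply] at h1 h2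
      rw [h2] at h1
      exact zero_ne_one h1
  · intro hm
    subst hm
    simp [val_regU, shiftN, S0, E1, Pm, pi, Matrix.mul_apply, mulVec, dotProduct, Fin.sum_univ_two,
      Matrix.single_apply, Matrix.one_apply]

end Cfsg.Agent.Known.SpRegular
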