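import Cfsg.Agent.Known.SpRegular
import Cfsg.Agent.Known.SLWindow

/-!
`Sp_2n`, `n ≥ 3`, is generated by three conjugates of `uSp`.
-/

set_option autoImplicit false
set_option maxHeartbeats 1000000

namespace Cfsg.Agent.Known.SpRegularBig

open Matrix SpSpan SpRegular RegUnipConj

variable {F : Type*} [Field F] {m : ℕ}

theorem T_eq (lam : F) :
    (T lam 0 : SpecialLinearGroup (Fin (m + 3)) F) =
      SpecialLinearGroup.transvection (last_ne_zero (m := m + 1)) lam := by
  rw [transvection_eq_tv, T, fv_zero, zv, zpow_zero, val_one, one_mulVec, ← Pi.single_smul, smul_eq_mul, mul_one]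

theorem T_fix (lam : F) {k : ℤ} (h : (zv (-k) : Fin (m + 3) → F) 0 = 0) :
    ((T lam k : SpecialLinearGroup (Fin (m + 3)) F) : Matrix (Fin (m + 3)) (Fin (m + 3)) F) *ᵥ
      Pi.single (Fin.last (m + 2)) 1 = Pi.single (Fin.last (m + 2)) 1 := by
  have e : (zv 0 : Fin (m + 3) → F) = Pi.single (Fin.last (m + 2)) 1 := by rw [zv, zpow_zero, val_one, one_mulVec]
  rw [← e, val_T, add_mulVec, one_mulVec, vecMulVec_mulVec, pairing, zero_sub, h]
  simp

theorem T_shift (lam : F) (k a : ℤ) :
    regU (m + 3) ^ a * T lam k * (regU (m + 3) ^ a)⁻¹ = (T lam (k + a) : SpecialLinearGroup (Fin (m + 3)) F) :=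
  conj_zpow a k k lam (by rw [sub_self]; exact S_zero le_rfl (by omega))

section

variable {G : Subgroup (symplecticGroup (Fin (m + 3)) F)} {lam : F}

theorem pure_window (hu : uSp ∈ G) (h0 : levi (T lam 0) ∈ G) :
    levi (T lam 1) ∈ G ∧ ∀ i : ℕ, i ≤ m + 1 → levi (T lam (-(i : ℤ))) ∈ G := by
  constructor
  · have h := G.mul_mem (G.mul_mem hu h0) (G.inv_mem hu)
    rw [u_conj_levi (T_fix lam (by rw [neg_zero]; exact S_zero le_rfl (by omega)))] at h
    have e := T_shift (m := m) lam 0 1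
    rw [zpow_one, zero_add] at e
    rwa [e] at h
  · intro i
    induction i with
    | zero => intro _; rw [Nat.cast_zero, neg_zero]; exact h0
    | succ i ih =>
      intro hi
      have hfix := T_fix (m := m) lam (k := -((i + 1 : ℕ) : ℤ)) (by rw [neg_neg]; exact S_zero (by omega) (by omega))
      have e : uSp * levi (T lam (-((i + 1 : ℕ) : ℤ))) * (uSp : symplecticGroup (Fin (m + 3)) F)⁻¹ =
          levi (T lam (-(i : ℤ))) := by
        rw [u_conj_levi hfix]
        have e := T_shift (m := m) lam (-((i + 1 : ℕ) : ℤ)) 1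
        rw [zpow_one, show -((i + 1 : ℕ) : ℤ) + 1 = -(i : ℤ) by omega] at e
        rw [e]
      have h := G.mul_mem (G.mul_mem (G.inv_mem hu) (ih (by omega))) hu
      rw [← e] at h
      simpa [mul_assoc] using h

/-- The set of symmetric matrices in `G`. -/
def symSet (G : Subgroup (symplecticGroup (Fin (m + 3)) F)) : Set (Matrix (Fin (m + 3)) (Fin (m + 3)) F) :=
  {S | Sᵀ = S ∧ xS S ∈ G}

theorem symSet_add {S S' : Matrix (Fin (m + 3)) (Fin (m + 3)) F} (h : S ∈ symSet G) (h' : S' ∈ symSet G) :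
    S + S' ∈ symSet G :=
  ⟨by rw [transpose_add, h.1, h'.1], by rw [xS_add h.1 h'.1]; exact G.mul_mem h.2 h'.2⟩

theorem symSet_neg {S : Matrix (Fin (m + 3)) (Fin (m + 3)) F} (h : S ∈ symSet G) : -S ∈ symSet G :=
  ⟨by rw [transpose_neg, h.1], by rw [xS_neg h.1]; exact G.inv_mem h.2⟩

theorem symSet_conj {P : SpecialLinearGroup (Fin (m + 3)) F} (hP : levi P ∈ G)
    {S : Matrix (Fin (m + 3)) (Fin (m + 3)) F} (h : S ∈ symSet G) :
    (P : Matrix (Fin (m + 3)) (Fin (m + 3)) F) * S * (P : Matrix (Fin (m + 3)) (Fin (m + 3)) F)ᵀ ∈ symSet G :=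
  ⟨conj_symm h.1, by rw [← levi_conj P h.1]; exact G.mul_mem (G.mul_mem hP h.2) (G.inv_mem hP)⟩

theorem S0_eq : (S0 : Matrix (Fin (m + 3)) (Fin (m + 3)) F) =
    vecMulVec (Pi.single (Fin.last (m + 2)) 1) (Pi.single (Fin.last (m + 2)) 1) := by
  ext i j
  simp [S0, vecMulVec, Matrix.single_apply, Pi.single_apply, ite_and]
  split_ifs <;> grind

theorem S0_mem (hu : uSp ∈ G) (hA : levi (regU (m + 3)) ∈ G) : (S0 : Matrix (Fin (m + 3)) (Fin (m + 3)) F) ∈ symSet G :=
  ⟨S0_symm, (G.mul_mem_cancel_left hA).1 hu⟩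

theorem full_E_of_levi [Fintype F] (hu : uSp ∈ G) (hL : ∀ P, levi P ∈ G) (x : Fin (m + 3) → F) :
    Full G (Sum.elim x 0) := by
  classical
  have hS0 := S0_mem hu (hL _)
  have hel : Full G (Sum.elim (Pi.single (Fin.last (m + 2)) 1) (0 : Fin (m + 3) → F)) := by
    intro c
    rw [tr_eq_xS, ← S0_eq]
    have hsq : ∀ μ : F, μ ^ 2 • (S0 : Matrix (Fin (m + 3)) (Fin (m + 3)) F) ∈ symSet G := by
      intro μ
      by_cases hμ : μ = 0
      · rw [hμ, zero_pow two_ne_zero, zero_smul]
        exact ⟨transpose_zero, by rw [xS_zero]; exact G.one_mem⟩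
      let d : Fin (m + 3) → F := Function.update (Function.update 1 0 μ⁻¹) (Fin.last (m + 2)) μ
      have hd : (Matrix.diagonal d).det = 1 := by
        rw [det_diagonal]
        rw [Finset.prod_update_of_mem (Finset.mem_univ _), Finset.prod_update_of_mem (by simp [Fin.ext_iff])]
        simp [hμ]
      have h := symSet_conj (hL ⟨Matrix.diagonal d, hd⟩) hS0
      convert h using 1
      rw [S0_eq]
      show _ = Matrix.diagonal d * _ * (Matrix.diagonal d)ᵀ
      have e : Matrix.diagonal d *ᵥ Pi.single (Fin.last (m + 2)) 1 = μ • Pi.single (Fin.last (m + 2)) (1 : F) := by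
        rw [diagonal_mulVec_single]
        simp [d, ← Pi.single_smul]
      rw [mul_vecMulVec, vecMulVec_mul, vecMul_transpose, e, smul_vecMulVec, vecMulVec_smul, smul_smul, sq]
    suffices h : c • (S0 : Matrix (Fin (m + 3)) (Fin (m + 3)) F) ∈ symSet G from h.2
    by_cases h2 : (2 : F) = 0
    · obtain ⟨μ, rfl⟩ : ∃ μ, μ ^ 2 = c := by
        haveI : CharP F 2 := CharTwo.of_one_ne_zero_of_two_eq_zero one_ne_zero h2
        obtain ⟨r, hr⟩ := FiniteField.isSquare_of_char_two (F := F) (ringChar.eq F 2) c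
        exact ⟨r, by rw [hr, sq]⟩
      exact hsq μ
    · have e : c = ((c + 1) / 2) ^ 2 + -(((c - 1) / 2) ^ 2) := by field_simp; ring
      rw [e, add_smul, neg_smul]
      exact symSet_add (hsq _) (symSet_neg (hsq _))
  have hconj : ∀ (P : SpecialLinearGroup (Fin (m + 3)) F) (y : Fin (m + 3) → F), Full G (Sum.elim y 0) →
      Full G (Sum.elim ((P : Matrix (Fin (m + 3)) (Fin (m + 3)) F) *ᵥ y) 0) := by
    intro P y hy
    have := hy.conj (hL P)
    convert this using 1
    simp [val_levi, fromBlocks_mulVec]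
  have hlast : ∀ y : Fin (m + 3) → F, y (Fin.last (m + 2)) ≠ 0 → Full G (Sum.elim y 0) := by
    intro y hy
    set a : Fin (m + 3) → F := (y (Fin.last (m + 2)))⁻¹ • y - Pi.single (Fin.last (m + 2)) 1
    have ha : Pi.single (Fin.last (m + 2)) (1 : F) ⬝ᵥ a = 0 := by simp [a, hy]
    have h := (hconj (Known.tv a (Pi.single (Fin.last (m + 2)) 1)) _ hel).smul (y (Fin.last (m + 2)))
    convert h using 1
    rw [val_tv ha, add_mulVec, one_mulVec, vecMulVec_mulVec]
    funext i
    rcases i with i | i <;> simp [a, hy]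
  by_cases hx : x = 0
  · subst hx
    have h := hel.smul 0
    convert h using 1
    funext i; rcases i with i | i <;> simp
  by_cases hxl : x (Fin.last (m + 2)) = 0
  · obtain ⟨i, hi⟩ : ∃ i, x i ≠ 0 := Function.ne_iff.mp hx
    have hil : i ≠ Fin.last (m + 2) := fun h => hi (h ▸ hxl)
    set x' := x + x i • Pi.single (Fin.last (m + 2)) (1 : F) with hx'
    have h := hconj (SpecialLinearGroup.transvection (Ne.symm hil) (-1)) x' (hlast x' (by simp [hx', hxl, hi]))
    convert h using 2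
    show x = Matrix.transvection _ _ _ *ᵥ x'
    rw [Matrix.transvection, add_mulVec, one_mulVec]
    funext j
    simp [hx', Matrix.single_apply, mulVec, dotProduct, ite_and, Pi.single_apply, hil, Finset.sum_ite_eq]
    split_ifs <;> grind
  · exact hlast x hxl

theorem four_mats {w : F} (h2 : (2 : F) = 0) :
    ((T w 1 : SpecialLinearGroup (Fin 3) F) : Matrix (Fin 3) (Fin 3) F) =
      !![1, 0, 0; w, 1 + w, w; w, w, 1 + w] ∧
    ((T w 0 : SpecialLinearGroup (Fin 3) F) : Matrix (Fin 3) (Fin 3) F) =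
      !![1, 0, 0; 0, 1, 0; w, 0, 1] ∧
    ((T w (-1) : SpecialLinearGroup (Fin 3) F) : Matrix (Fin 3) (Fin 3) F) =
      !![1 + w, w, 0; w, 1 + w, 0; w, w, 1] := by
  have vp : ((T w 1 : SpecialLinearGroup (Fin 3) F) : Matrix (Fin 3) (Fin 3) F) =
      !![1, 0, 0; w, 1 + w, w; w, w, 1 + w] := by
    rw [val_T, show (1 : ℤ) = ((1 : ℕ) : ℤ) from rfl, zv_nat]
    have hf : (fv ((1 : ℕ) : ℤ) : Fin 3 → F) = ![1, -1, 1] := by
      funext i
      rw [fv, single_one_vecMul, Nat.cast_one, _root_.zpow_neg, zpow_one]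
      have e : (regU (0 + 3) : SpecialLinearGroup (Fin (0 + 3)) F)⁻¹ =
          ⟨!![1, -1, 1; 0, 1, -1; 0, 0, 1], by simp [det_fin_three]⟩ := by
        refine inv_eq_of_mul_eq_one_right (Subtype.ext ?_)
        show (regU (0 + 3) : SpecialLinearGroup (Fin (0 + 3)) F).1 * !![1, -1, 1; 0, 1, -1; 0, 0, 1] = 1
        ext i j
        fin_cases i <;> fin_cases j <;> simp [val_regU, shiftN, Matrix.mul_apply, Fin.sum_univ_three]
      rw [e]
      fin_cases i <;> simp
    rw [hf]
    ext i j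
    fin_cases i <;> fin_cases j <;> simp [vecMulVec] <;> grind
  have va : ((T w 0 : SpecialLinearGroup (Fin 3) F) : Matrix (Fin 3) (Fin 3) F) =
      !![1, 0, 0; 0, 1, 0; w, 0, 1] := by
    rw [T_eq]
    show Matrix.transvection _ _ _ = _
    ext i j
    fin_cases i <;> fin_cases j <;> simp [Matrix.transvection, Matrix.single_apply]
  have vb : ((T w (-1) : SpecialLinearGroup (Fin 3) F) : Matrix (Fin 3) (Fin 3) F) =
      !![1 + w, w, 0; w, 1 + w, 0; w, w, 1] := by
    rw [val_T, show (-1 : ℤ) = -((1 : ℕ) : ℤ) from rfl, zv_neg]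
    have hf : (fv (-((1 : ℕ) : ℤ)) : Fin 3 → F) = ![1, 1, 0] := by
      funext i
      rw [fv, single_one_vecMul, neg_neg, Nat.cast_one, zpow_one]
      fin_cases i <;> simp [val_regU, shiftN]
    rw [hf]
    ext i j
    fin_cases i <;> fin_cases j <;> simp [vecMulVec] <;> grind
  exact ⟨vp, va, vb⟩

theorem four_gens {G : Subgroup (symplecticGroup (Fin (0 + 3)) F)} {w : F} (hw : w ^ 2 = w + 1) (h2 : (2 : F) = 0)
    (hp : levi (T w 1) ∈ G) (ha : levi (T w 0) ∈ G) (hb : levi (T w (-1)) ∈ G) :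
    levi (regU 3 : SpecialLinearGroup (Fin 3) F) ∈ G ∧ ∃ ω : SpecialLinearGroup (Fin 3) F,
      (ω : Matrix (Fin 3) (Fin 3) F) = (w + 1) • 1 ∧ levi ω ∈ G := by
  obtain ⟨vp, va, vb⟩ := four_mats (w := w) h2
  set p : SpecialLinearGroup (Fin 3) F := T w 1
  set a : SpecialLinearGroup (Fin 3) F := T w 0
  set b : SpecialLinearGroup (Fin 3) F := T w (-1)
  have hxG : levi (p * a * b) ∈ G := by rw [map_mul, map_mul]; exact G.mul_mem (G.mul_mem hp ha) hb
  have vx : ((p * a * b : SpecialLinearGroup (Fin 3) F) : Matrix (Fin 3) (Fin 3) F) =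
      !![w + 1, w, 0; 1, w + 1, w; 0, 1, w + 1] := by
    simp only [val_mul, vp, va, vb]
    ext i j
    fin_cases i <;> fin_cases j <;> simp [Matrix.mul_apply, Fin.sum_univ_three] <;> (clear * - hw h2; grind)
  generalize hxdef : p * a * b = x₀ at hxG vx
  have vxx : ((x₀ * x₀ : SpecialLinearGroup (Fin 3) F) : Matrix (Fin 3) (Fin 3) F) =
      !![0, 0, w + 1; 0, w, 0; 1, 0, 0] := by
    simp only [val_mul, vx]
    ext i j
    fin_cases i <;> fin_cases j <;> simp [Matrix.mul_apply, Fin.sum_univ_three] <;> (clear * - hw h2; grind)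
  have vxa : ((x₀ * a : SpecialLinearGroup (Fin 3) F) : Matrix (Fin 3) (Fin 3) F) =
      !![w + 1, w, 0; w, w + 1, w; 1, 1, w + 1] := by
    simp only [val_mul, vx, va]
    ext i j
    fin_cases i <;> fin_cases j <;> simp [Matrix.mul_apply, Fin.sum_univ_three] <;> (clear * - hw h2; grind)
  have vap : ((a * p : SpecialLinearGroup (Fin 3) F) : Matrix (Fin 3) (Fin 3) F) =
      !![1, 0, 0; w, w + 1, w; 0, w, w + 1] := by
    simp only [val_mul, va, vp]
    ext i j
    fin_cases i <;> fin_cases j <;> simp [Matrix.mul_apply, Fin.sum_univ_three] <;> (clear * - hw h2; grind)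
  have hA : levi (regU 3 : SpecialLinearGroup (Fin 3) F) ∈ G := by
    have e : (regU 3 : SpecialLinearGroup (Fin 3) F) = x₀ * a * (x₀ * x₀) * (a * p) := by
      refine Subtype.ext ?_
      rw [val_mul, val_mul (x₀ * a), vxa, vxx, vap]
      ext i j
      fin_cases i <;> fin_cases j <;> simp [val_regU, shiftN, Matrix.mul_apply, Fin.sum_univ_three] <;> (clear * - hw h2; grind)
    rw [e]
    simp only [map_mul]
    exact G.mul_mem (G.mul_mem (G.mul_mem hxG ha) (G.mul_mem hxG hxG)) (G.mul_mem ha hp)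
  obtain ⟨ω, hω, hωG⟩ : ∃ ω : SpecialLinearGroup (Fin 3) F,
      (ω : Matrix (Fin 3) (Fin 3) F) = (w + 1) • 1 ∧ levi ω ∈ G := by
    refine ⟨x₀ * x₀ * (x₀ * x₀), ?_, ?_⟩
    · rw [val_mul, vxx]
      ext i j
      fin_cases i <;> fin_cases j <;> simp [Matrix.mul_apply, Fin.sum_univ_three] <;> (clear * - hw h2; grind)
    · simp only [map_mul]
      exact G.mul_mem (G.mul_mem hxG hxG) (G.mul_mem hxG hxG)
  exact ⟨hA, ω, hω, hωG⟩

theorem full_E_of_four [Fintype F] (hm : m = 0) {w : F} (hw : w ^ 2 = w + 1) (h2 : (2 : F) = 0)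
    (hcover : ∀ c : F, c = 0 ∨ c = 1 ∨ c = w ∨ c = w + 1) (hu : uSp ∈ G)
    (hp : levi (T w 1) ∈ G) (ha : levi (T w 0) ∈ G) (hb : levi (T w (-1)) ∈ G) (x : Fin (m + 3) → F) :
    Full G (Sum.elim x 0) := by
  subst hm
  obtain ⟨vp, va, vb⟩ := four_mats (w := w) h2
  obtain ⟨hA, ω, hω, hωG⟩ := four_gens hw h2 hp ha hb
  set p : SpecialLinearGroup (Fin 3) F := T w 1
  set b : SpecialLinearGroup (Fin 3) F := T w (-1)
  let V : Submodule F (Matrix (Fin (0 + 3)) (Fin (0 + 3)) F) :=
    { carrier := symSet G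
      zero_mem' := ⟨transpose_zero, by rw [xS_zero]; exact G.one_mem⟩
      add_mem' := symSet_add
      smul_mem' := fun c S hS => by
        have hww : w • S ∈ symSet G := by
          have h := symSet_conj hωG hS
          rw [hω, transpose_smul, transpose_one, Matrix.smul_mul, Matrix.one_mul, Matrix.mul_smul, Matrix.mul_one,
            smul_smul] at h
          convert h using 2
          linear_combination -hw + (-w - 1) * h2
        rcases hcover c with rfl | rfl | rfl | rfl
        · rw [zero_smul]; exact ⟨transpose_zero, by rw [xS_zero]; exact G.one_mem⟩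
        · rwa [one_smul]
        · exact hww
        · rw [add_smul, one_smul]; exact symSet_add hww hS }
  have hV0 : !![(0 : F), 0, 0; 0, 0, 0; 0, 0, 1] ∈ V := by
    have h : (S0 : Matrix (Fin 3) (Fin 3) F) ∈ V := S0_mem hu hA
    convert h using 1
    ext i j
    fin_cases i <;> fin_cases j <;> simp [S0, Matrix.single_apply]
  have hcj : ∀ {P : SpecialLinearGroup (Fin 3) F}, levi P ∈ G → ∀ {S S' : Matrix (Fin 3) (Fin 3) F}, S ∈ V →
      (P : Matrix (Fin 3) (Fin 3) F) * S * (P : Matrix (Fin 3) (Fin 3) F)ᵀ = S' → S' ∈ V := by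
    intro P hP S S' hS e
    exact e ▸ symSet_conj hP hS
  have vA : ((regU 3 : SpecialLinearGroup (Fin 3) F) : Matrix (Fin 3) (Fin 3) F) =
      !![1, 1, 0; 0, 1, 1; 0, 0, 1] := by
    ext i j; fin_cases i <;> fin_cases j <;> simp [val_regU, shiftN]
  have m1 : !![(0 : F), 0, 0; 0, 1, 1; 0, 1, 1] ∈ V := hcj hA hV0 (by
    rw [vA]; ext i j; fin_cases i <;> fin_cases j <;> simp [Matrix.mul_apply, Fin.sum_univ_three])
  have m2 : !![(0 : F), 0, 0; 0, w + 1, 1; 0, 1, w] ∈ V := hcj hp hV0 (by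
    rw [vp]; ext i j; fin_cases i <;> fin_cases j <;> simp [Matrix.mul_apply, Fin.sum_univ_three] <;> (clear * - hw h2; grind))
  have m11 : !![(0 : F), 0, 0; 0, 1, 0; 0, 0, 0] ∈ V := by
    have h := V.smul_mem (w + 1) (V.sub_mem (V.sub_mem m2 m1) (V.smul_mem (w + 1) hV0))
    convert h using 1
    ext i j
    simp only [Matrix.add_apply, Matrix.sub_apply, Matrix.smul_apply, smul_eq_mul]
    fin_cases i <;> fin_cases j <;>
      simp only [Matrix.of_apply, Matrix.cons_val', Matrix.cons_val_fin_one, Matrix.cons_val, Fin.zero_eta,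
        Fin.mk_one, Fin.reduceFinMk] <;> (clear * - hw h2; grind)
  have m12 : !![(0 : F), 0, 0; 0, 0, 1; 0, 1, 0] ∈ V := by
    have h := V.sub_mem (V.sub_mem m1 m11) hV0
    convert h using 1
    ext i j
    fin_cases i <;> fin_cases j <;> simp
  have mP : !![(1 : F), 1, 0; 1, 0, 0; 0, 0, 0] ∈ V := by
    have h := hcj (S' := !![(1 : F), 1, 0; 1, 1, 0; 0, 0, 0]) hA m11 (by
      rw [vA]; ext i j; fin_cases i <;> fin_cases j <;> simp [Matrix.mul_apply, Fin.sum_univ_three])
    have h' := V.sub_mem h m11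
    convert h' using 1
    ext i j
    fin_cases i <;> fin_cases j <;> simp
  have mQ : !![(0 : F), 1, 1; 1, 0, 0; 1, 0, 0] ∈ V := by
    have h := hcj (S' := !![(0 : F), 1, 1; 1, 0, 1; 1, 1, 0]) hA m12 (by
      rw [vA]; ext i j; fin_cases i <;> fin_cases j <;> simp [Matrix.mul_apply, Fin.sum_univ_three] <;> (clear * - hw h2; grind))
    have h' := V.sub_mem h m12
    convert h' using 1
    ext i j
    fin_cases i <;> fin_cases j <;> simp
  have mT : !![w + 1, 1, w + 1; 1, w, 1; w + 1, 1, w + 1] ∈ V := hcj hb m11 (by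
    rw [vb]; ext i j; fin_cases i <;> fin_cases j <;> simp [Matrix.mul_apply, Fin.sum_univ_three] <;> (clear * - hw h2; grind))
  have m02 : !![(0 : F), 0, 1; 0, 0, 0; 1, 0, 0] ∈ V := by
    have h := V.sub_mem (V.sub_mem (V.sub_mem (V.sub_mem (V.sub_mem mT (V.smul_mem w m11))
      (V.smul_mem (w + 1) hV0)) m12) (V.smul_mem (w + 1) mP)) (V.smul_mem w mQ)
    convert h using 1
    ext i j
    simp only [Matrix.add_apply, Matrix.sub_apply, Matrix.smul_apply, smul_eq_mul]
    fin_cases i <;> fin_cases j <;>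
      simp only [Matrix.of_apply, Matrix.cons_val', Matrix.cons_val_fin_one, Matrix.cons_val, Fin.zero_eta,
        Fin.mk_one, Fin.reduceFinMk] <;> (clear * - hw h2; grind)
  have m01 : !![(0 : F), 1, 0; 1, 0, 0; 0, 0, 0] ∈ V := by
    have h := V.sub_mem mQ m02
    convert h using 1
    ext i j
    fin_cases i <;> fin_cases j <;> simp
  have m00 : !![(1 : F), 0, 0; 0, 0, 0; 0, 0, 0] ∈ V := by
    have h := V.sub_mem mP m01
    convert h using 1
    ext i j
    fin_cases i <;> fin_cases j <;> simp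
  intro c
  rw [tr_eq_xS]
  have h : c • vecMulVec x x ∈ V := by
    refine V.smul_mem c ?_
    have e : vecMulVec x x = x 0 ^ 2 • !![(1 : F), 0, 0; 0, 0, 0; 0, 0, 0] + x 1 ^ 2 • !![(0 : F), 0, 0; 0, 1, 0; 0, 0, 0] +
        x 2 ^ 2 • !![(0 : F), 0, 0; 0, 0, 0; 0, 0, 1] + (x 0 * x 1) • !![(0 : F), 1, 0; 1, 0, 0; 0, 0, 0] +
        (x 0 * x 2) • !![(0 : F), 0, 1; 0, 0, 0; 1, 0, 0] + (x 1 * x 2) • !![(0 : F), 0, 0; 0, 0, 1; 0, 1, 0] := by
      ext i j
      simp only [vecMulVec_apply, Matrix.add_apply, Matrix.smul_apply, smul_eq_mul]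
      fin_cases i <;> fin_cases j <;>
        simp only [Matrix.of_apply, Matrix.cons_val', Matrix.cons_val_fin_one, Matrix.cons_val, Fin.zero_eta,
          Fin.mk_one, Fin.reduceFinMk, mul_zero, mul_one, add_zero, zero_add] <;> ring
    rw [e]
    exact V.add_mem (V.add_mem (V.add_mem (V.add_mem (V.add_mem (V.smul_mem _ m00) (V.smul_mem _ m11))
      (V.smul_mem _ hV0)) (V.smul_mem _ m01)) (V.smul_mem _ m02)) (V.smul_mem _ m12)
  exact h.2

end

theorem single_eq_vecMulVec (i j : Fin (m + 3)) :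
    Matrix.single i j (1 : F) = vecMulVec (Pi.single i 1) (Pi.single j 1) := by
  ext a b
  simp [vecMulVec, Matrix.single_apply, Pi.single_apply, ite_and]
  split_ifs <;> simp_all

/-- The generation theorem for `n ≥ 3`. -/
theorem exists_gen [Fintype F] :
    ∃ g h : symplecticGroup (Fin (m + 3)) F,
      Subgroup.closure ({uSp, g * uSp * g⁻¹, h * uSp * h⁻¹} : Set (symplecticGroup (Fin (m + 3)) F)) = ⊤ := by
  classical
  obtain ⟨ζ, hζ⟩ := IsCyclic.exists_generator (α := Fˣ)
  set lam : F := (ζ : F) with hlam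
  have hl : lam ≠ 0 := ζ.ne_zero
  set g : symplecticGroup (Fin (m + 3)) F := gSp (m := m + 1) lam hl with hg
  have h02 : (2 : Fin (m + 3)) ≠ 0 := by
    intro h
    have := congrArg Fin.val h
    simp [Fin.val_ofNat, Nat.mod_eq_of_lt (show 2 < m + 3 by omega)] at this
  set R : Matrix (Fin (m + 3)) (Fin (m + 3)) F := cross (m := m + 1) 0 2 with hR
  set A := (regU (m + 3) : SpecialLinearGroup (Fin (m + 3)) F).1 with hA
  have hRs : Rᵀ = R := cross_symm _ _
  set h : symplecticGroup (Fin (m + 3)) F := xS (A * R * Aᵀ) with hh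
  refine ⟨g, g * h, ?_⟩
  set G := Subgroup.closure ({uSp, g * uSp * g⁻¹, g * h * uSp * (g * h)⁻¹} : Set (symplecticGroup (Fin (m + 3)) F))
    with hG
  have hu : uSp ∈ G := Subgroup.subset_closure (by simp)
  have hv : g * uSp * g⁻¹ ∈ G := Subgroup.subset_closure (by simp)
  have h3 : g * h * uSp * (g * h)⁻¹ ∈ G := Subgroup.subset_closure (by simp)
  have hΔ : R - A * R * Aᵀ = (-1 : F) • cross (m := m + 1) 0 1 := by
    rw [hR, cross, mul_add, add_mul]
    have hcol : ∀ i j : Fin (m + 3), A * Matrix.single i j (1 : F) * Aᵀ =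
        vecMulVec (A *ᵥ Pi.single i 1) (A *ᵥ Pi.single j 1) := by
      intro i j
      rw [single_eq_vecMulVec i j]
      rw [mul_vecMulVec, vecMulVec_mul, vecMul_transpose]
    have hA0 : A *ᵥ Pi.single 0 1 = Pi.single 0 1 := by rw [hA]; exact regU_mulVec_zero
    have hA2 : A *ᵥ Pi.single 2 1 = Pi.single 2 1 + Pi.single 1 1 := by
      have e2 : (2 : Fin (m + 3)) = (⟨1, by omega⟩ : Fin (m + 2)).succ := Fin.ext (by
        simp [Fin.val_ofNat, Nat.mod_eq_of_lt (show 2 < m + 3 by omega)])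
      rw [hA, e2, regU_mulVec_succ]
      congr 1
    rw [hcol, hcol, hA0, hA2]
    simp only [cross, single_eq_vecMulVec, vecMulVec_add, add_vecMulVec, neg_smul, one_smul]
    abel
  have hT0 : levi (T lam 0) ∈ G := by
    have hm := G.mul_mem (G.inv_mem hv) h3
    have e : (g * uSp * g⁻¹)⁻¹ * (g * h * uSp * (g * h)⁻¹) = g * (uSp⁻¹ * (h * uSp * h⁻¹)) * g⁻¹ := by group
    rw [e, hh, conj_xS hRs, inv_mul_cancel_left, hΔ, hg, gSp_conj, neg_mul, one_mul, neg_neg] at hm
    rwa [T_eq]
  obtain ⟨hT1, hTn⟩ := pure_window hu hT0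
  have hE : ∀ x, Full G (Sum.elim x 0) := by
    by_cases hexc : m = 0 ∧ Fintype.card F = 4
    · obtain ⟨hm, h4⟩ := hexc
      have h2 : (2 : F) = 0 := by
        have := Nat.cast_card_eq_zero F
        rw [h4] at this
        have h' : (2 : F) * 2 = 0 := by rw [← this]; norm_num
        exact mul_self_eq_zero.1 h'
      have hord : orderOf ζ = 3 := by
        rw [orderOf_eq_card_of_forall_mem_zpowers hζ, Nat.card_units, Nat.card_eq_fintype_card, h4]
      have hne1 : lam ≠ 1 := by
        intro h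
        rw [show ζ = 1 from Units.ext h, orderOf_one] at hord
        omega
      have h3' : lam ^ 3 = 1 := by
        rw [hlam, ← Units.val_pow_eq_pow_val, ← hord, pow_orderOf_eq_one, Units.val_one]
      have hw : lam ^ 2 = lam + 1 := by
        have h := mul_left_cancel₀ (sub_ne_zero.2 hne1)
          (show (lam - 1) * (lam ^ 2 + lam + 1) = (lam - 1) * 0 by linear_combination h3')
        linear_combination h - (lam + 1) * h2
      have hcover : ∀ c : F, c = 0 ∨ c = 1 ∨ c = lam ∨ c = lam + 1 := by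
        intro c
        by_cases hc : c = 0
        · exact Or.inl hc
        obtain ⟨k, hk⟩ := (mem_powers_iff_mem_zpowers (x := ζ) (y := Units.mk0 c hc)).2 (hζ _)
        have hkc : lam ^ k = c := by simpa [hlam] using congrArg Units.val hk
        rw [← hkc, ← Nat.div_add_mod k 3, pow_add, pow_mul, h3', one_pow, one_mul]
        have : k % 3 < 3 := Nat.mod_lt _ (by norm_num)
        interval_cases k % 3 <;> simp [hw]
      exact full_E_of_four hm hw h2 hcover hu hT1 hT0
        (by simpa using hTn 1 (by omega))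
    · refine full_E_of_levi hu fun P => ?_
      set Hs := G.comap levi with hHs
      have hH : Hs.comap (MulAut.conj ((regU (m + 3) : SpecialLinearGroup (Fin (m + 3)) F) ^ (-((m + 1 : ℕ) : ℤ)))).toMonoidHom = ⊤ := by
        refine SLWindow.window_generates ζ hζ hexc fun k hk0 hk => ?_
        show levi (_ * T lam k * _⁻¹) ∈ G
        rw [T_shift]
        rcases eq_or_lt_of_le hk with e | hlt
        · rwa [e, show ((m + 2 : ℕ) : ℤ) + -((m + 1 : ℕ) : ℤ) = 1 by omega]
        · obtain ⟨i, hi⟩ : ∃ i : ℕ, k + -((m + 1 : ℕ) : ℤ) = -(i : ℤ) :=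
            ⟨(((m + 1 : ℕ) : ℤ) - k).toNat, by omega⟩
          rw [hi]
          exact hTn i (by omega)
      have hP := Subgroup.mem_top ((regU (m + 3) ^ (-((m + 1 : ℕ) : ℤ)))⁻¹ * P *
        (regU (m + 3) ^ (-((m + 1 : ℕ) : ℤ))) : SpecialLinearGroup (Fin (m + 3)) F)
      rw [← hH, Subgroup.mem_comap, MulEquiv.coe_toMonoidHom, MulAut.conj_apply] at hP
      simpa [hHs, mul_assoc] using hP
  obtain ⟨y, hy0, -, hy⟩ := outside (F := F) (m := m + 1) lam hl
  have hymem : y ∈ parts G hE := mem_parts hE hv _ (hE _) hy hy0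
  -- `parts` is stable under the contragredient action of `uSp`
  have hinvU : ∀ z ∈ parts G hE, ((regU (m + 3) : SpecialLinearGroup (Fin (m + 3)) F)⁻¹).1ᵀ *ᵥ z ∈ parts G hE := by
    intro z hz
    by_cases hz0 : ((regU (m + 3) : SpecialLinearGroup (Fin (m + 3)) F)⁻¹).1ᵀ *ᵥ z = 0
    · rw [hz0]; exact Submodule.zero_mem _
    exact parts_blockD hE (h := levi_aux _) S0_symm hu hz hz0
  have hTp : ∀ k : ℤ, levi (T lam k) ∈ G → ∀ z ∈ parts G hE, z ᵥ* (T lam k : SpecialLinearGroup (Fin (m + 3)) F).1 ∈ parts G hE := by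
    intro k hk z hz
    by_cases hz0 : z ᵥ* (T lam k : SpecialLinearGroup (Fin (m + 3)) F).1 = 0
    · rw [hz0]; exact Submodule.zero_mem _
    have hi : levi (T lam k)⁻¹ * xS (0 : Matrix (Fin (m + 3)) (Fin (m + 3)) F) ∈ G := by
      rw [xS_zero, mul_one, map_inv]; exact G.inv_mem hk
    have := parts_blockD hE (h := levi_aux (T lam k)⁻¹) transpose_zero hi hz
    rw [inv_inv, mulVec_transpose] at this
    exact this hz0
  refine eq_top_of_parts hE ?_
  -- stability under `N`, `z ↦ z ᵥ* N`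
  have hN : ∀ z ∈ parts G hE, z ᵥ* A ∈ parts G hE := by
    set f : (Fin (m + 3) → F) →ₗ[F] (Fin (m + 3) → F) :=
      Matrix.toLin' ((regU (m + 3) : SpecialLinearGroup (Fin (m + 3)) F)⁻¹).1ᵀ with hf
    have hinj : Function.Injective f := by
      refine Function.LeftInverse.injective (g := fun z => z ᵥ* A) fun z => ?_
      show (((regU (m + 3) : SpecialLinearGroup (Fin (m + 3)) F)⁻¹).1ᵀ *ᵥ z) ᵥ* A = z
      rw [mulVec_transpose, vecMul_vecMul, hA, val_inv_mul, vecMul_one]
    intro z hz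
    obtain ⟨z', hz'⟩ := (Finite.injective_iff_surjective (f := f.restrict (p := parts G hE) (q := parts G hE) hinvU)).1
      (fun a b hab => Subtype.ext (hinj (congrArg Subtype.val hab))) ⟨z, hz⟩
    have : ((regU (m + 3) : SpecialLinearGroup (Fin (m + 3)) F)⁻¹).1ᵀ *ᵥ (z' : Fin (m + 3) → F) = z := congrArg Subtype.val hz'
    rw [← this, mulVec_transpose, vecMul_vecMul, hA, val_inv_mul, vecMul_one]
    exact z'.2
  set P := parts G hE with hPdef
  -- the first functional
  have he0 : Pi.single (0 : Fin (m + 3)) (1 : F) ∈ P := by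
    -- some `z ∈ P` has `z (last) ≠ 0`
    obtain ⟨z, hz, hzl⟩ : ∃ z ∈ P, z (Fin.last (m + 2)) ≠ 0 := by
      by_contra hcon
      push Not at hcon
      have hj : ∀ i : ℕ, i ≤ m + 2 → ∀ z ∈ P, z ⟨m + 2 - i, by omega⟩ = 0 := by
        intro i
        induction i with
        | zero => intro _ z hz; exact hcon z hz
        | succ i ih =>
          intro hi z hz
          have h1 := ih (by omega) _ (hN z hz)
          have h2 := ih (by omega) z hz
          have e : (z ᵥ* A) ⟨m + 2 - i, by omega⟩ = z ⟨m + 2 - (i + 1), by omega⟩ + z ⟨m + 2 - i, by omega⟩ := by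
            show ∑ k, z k * A k _ = _
            rw [Fintype.sum_eq_add ⟨m + 2 - (i + 1), by omega⟩ ⟨m + 2 - i, by omega⟩ (by intro h; have := congrArg Fin.val h; simp at this; omega)]
            · simp [hA, val_regU, shiftN, Matrix.one_apply, Fin.ext_iff, show ¬ (m + 1 - i = m + 2 - i) by omega,
                show m + 1 - i + 1 = m + 2 - i by omega]
            · rintro k ⟨hk1, hk2⟩
              simp only [Ne, Fin.ext_iff] at hk1 hk2
              rw [hA, val_regU]
              simp [shiftN, Matrix.one_apply, Fin.ext_iff, hk2, show ¬ ((k : ℕ) + 1 = m + 2 - i) by omega]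
          rw [e, h2, add_zero] at h1
          exact h1
      exact hy0 (funext fun i => by
        have := hj (m + 2 - (i : ℕ)) (by omega) y hymem
        rw [Pi.zero_apply]
        convert this using 2
        ext; simp; omega)
    have h := P.sub_mem (hTp 0 hT0 z hz) hz
    have hne : lam * z (Fin.last (m + 2)) ≠ 0 := mul_ne_zero hl hzl
    refine (Submodule.smul_mem_iff _ hne).1 ?_
    convert h using 1
    rw [val_T, vecMul_add, vecMul_one, add_sub_cancel_left, vecMul_vecMulVec, fv_zero, dotProduct_smul, zv,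
      zpow_zero, val_one, one_mulVec, dotProduct_single, mul_one, smul_eq_mul]
  have hall : ∀ i : Fin (m + 3), Pi.single i (1 : F) ∈ P := by
    intro i
    induction i using Fin.induction with
    | zero => exact he0
    | succ j ih =>
      have h := hN _ ih
      rw [hA, vecMul_regU_castSucc] at h
      have h2 := P.sub_mem h ih
      rwa [add_sub_cancel_left] at h2
  rw [eq_top_iff]
  intro z _
  rw [pi_eq_sum_univ' z]
  exact Submodule.sum_mem _ fun i _ => P.smul_mem _ (hall i)

end Cfsg.Agent.Known.SpRegularBig
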