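import Cfsg.Agent.Known.SpRegular
import Cfsg.Agent.PSLTwoSub.DicksonGen

/-!
`Sp_4(F)`, `|F| > 2`, is generated by three conjugates of `uSp`.
-/

set_option autoImplicit false
set_option maxHeartbeats 1000000

namespace Cfsg.Agent.Known.SpRegularTwo

open Matrix SpSpan SpRegular

variable {F : Type*} [Field F]

/-- `!![a, b; b, c]`. -/
def sM (a b c : F) : Matrix (Fin 2) (Fin 2) F := !![a, b; b, c]

theorem sM_symm (a b c : F) : (sM a b c)ᵀ = sM a b c := by
  ext i j; fin_cases i <;> fin_cases j <;> simp [sM]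

theorem sM_add (a b c a' b' c' : F) : sM a b c + sM a' b' c' = sM (a + a') (b + b') (c + c') := by
  ext i j; fin_cases i <;> fin_cases j <;> simp [sM]

variable {G : Subgroup (symplecticGroup (Fin 2) F)}

/-- `xS (sM a b c) ∈ G`. -/
def In (G : Subgroup (symplecticGroup (Fin 2) F)) (a b c : F) : Prop := xS (sM a b c) ∈ G

theorem In.add {a b c a' b' c' : F} (h : In G a b c) (h' : In G a' b' c') : In G (a + a') (b + b') (c + c') := by
  show _ ∈ G
  rw [← sM_add, xS_add (sM_symm a b c) (sM_symm a' b' c')]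
  exact G.mul_mem h h'

theorem In.neg {a b c : F} (h : In G a b c) : In G (-a) (-b) (-c) := by
  show _ ∈ G
  have : sM (-a) (-b) (-c) = -sM a b c := by ext i j; fin_cases i <;> fin_cases j <;> simp [sM]
  rw [this, xS_neg (sM_symm a b c)]
  exact G.inv_mem h

theorem In.sub {a b c a' b' c' : F} (h : In G a b c) (h' : In G a' b' c') : In G (a - a') (b - b') (c - c') := by
  simpa [sub_eq_add_neg] using h.add h'.neg

theorem In.zero : In G 0 0 0 := by
  show _ ∈ G
  have : sM (0 : F) 0 0 = 0 := by ext i j; fin_cases i <;> fin_cases j <;> simp [sM]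
  rw [this, xS_zero]
  exact G.one_mem

/-- The lower transvection of `SL₂`. -/
abbrev low (a : F) : SpecialLinearGroup (Fin 2) F := SpecialLinearGroup.transvection (last_ne_zero (m := 0)) a

theorem val_low (a : F) : (low a : Matrix (Fin 2) (Fin 2) F) = !![1, 0; a, 1] := by
  show Matrix.transvection _ _ _ = _
  ext i j; fin_cases i <;> fin_cases j <;> simp [Matrix.transvection, Matrix.single_apply]

theorem val_up : ((regU 2 : SpecialLinearGroup (Fin 2) F) : Matrix (Fin 2) (Fin 2) F) = !![1, 1; 0, 1] := by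
  ext i j; fin_cases i <;> fin_cases j <;> simp [val_regU, shiftN]

theorem S0_two : (S0 : Matrix (Fin 2) (Fin 2) F) = sM 0 0 1 := by
  ext i j; fin_cases i <;> fin_cases j <;> simp [S0, sM, Matrix.single_apply]

theorem tr_fin_two (a b c d : F) : (!![a, b; c, d] : Matrix (Fin 2) (Fin 2) F)ᵀ = !![a, c; b, d] := by
  ext i j; fin_cases i <;> fin_cases j <;> simp

theorem neg_fin_two (a b c d : F) : -(!![a, b; c, d] : Matrix (Fin 2) (Fin 2) F) = !![-a, -b; -c, -d] := by
  ext i j; fin_cases i <;> fin_cases j <;> simp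

theorem add_fin_two (a b c d a' b' c' d' : F) :
    (!![a, b; c, d] : Matrix (Fin 2) (Fin 2) F) + !![a', b'; c', d'] = !![a + a', b + b'; c + c', d + d'] := by
  ext i j; fin_cases i <;> fin_cases j <;> simp

theorem sub_fin_two (a b c d a' b' c' d' : F) :
    (!![a, b; c, d] : Matrix (Fin 2) (Fin 2) F) - !![a', b'; c', d'] = !![a - a', b - b'; c - c', d - d'] := by
  ext i j; fin_cases i <;> fin_cases j <;> simp

theorem zero_fin_two : (0 : Matrix (Fin 2) (Fin 2) F) = !![0, 0; 0, 0] := by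
  ext i j; fin_cases i <;> fin_cases j <;> simp

theorem val_up_inv :
    ((regU 2 : SpecialLinearGroup (Fin 2) F)⁻¹).1ᵀ = !![1, 0; -1, 1] := by
  have : (regU 2 : SpecialLinearGroup (Fin 2) F)⁻¹ = ⟨!![1, -1; 0, 1], by simp [det_fin_two]⟩ := by
    refine inv_eq_of_mul_eq_one_right (Subtype.ext ?_)
    show (regU 2 : SpecialLinearGroup (Fin 2) F).1 * !![1, -1; 0, 1] = 1
    rw [val_up]
    ext i j; fin_cases i <;> fin_cases j <;> simp [Matrix.mul_apply, Fin.sum_univ_two]
  rw [this]
  ext i j; fin_cases i <;> fin_cases j <;> simp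

theorem val_uSp_two :
    ((uSp : symplecticGroup (Fin 2) F) : Matrix (Fin 2 ⊕ Fin 2) (Fin 2 ⊕ Fin 2) F) =
      fromBlocks !![1, 1; 0, 1] !![0, 1; 0, 1] !![0, 0; 0, 0] !![1, 0; -1, 1] := by
  rw [show ((uSp : symplecticGroup (Fin 2) F) : Matrix (Fin 2 ⊕ Fin 2) (Fin 2 ⊕ Fin 2) F) =
    fromBlocks (regU 2 : SpecialLinearGroup (Fin 2) F).1
      ((regU 2 : SpecialLinearGroup (Fin 2) F).1 * sM 0 0 1) 0
      ((regU 2 : SpecialLinearGroup (Fin 2) F)⁻¹).1ᵀ from by rw [← S0_two]; exact val_uSp (m := 0),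
    val_up, val_up_inv, sM, Matrix.mul_fin_two, ← zero_fin_two]
  simp

theorem val_gSp_two (c : F) (hc : c ≠ 0) :
    ((gSp (m := 0) c hc : symplecticGroup (Fin 2) F) : Matrix (Fin 2 ⊕ Fin 2) (Fin 2 ⊕ Fin 2) F) =
      fromBlocks !![0, 0; c, 0] !![0, -1; 0, 0] !![0, 1; 0, 0] !![0, 0; c⁻¹, 0] := by
  have p0 : (pi : Equiv.Perm (Fin (0 + 2))) 0 = 1 := pi_zero
  have p1 : (pi : Equiv.Perm (Fin (0 + 2))) 1 = 0 := pi_one
  rw [val_gSp, fromBlocks_inj]
  refine ⟨?_, ?_, ?_, ?_⟩ <;>
    (ext i j; fin_cases i <;> fin_cases j <;>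
      simp [Pm, E1, p0, p1, Matrix.mul_apply, Fin.sum_univ_two, Matrix.single_apply])

theorem conj_R (x y z : F) :
    sM x y z - (regU 2 : SpecialLinearGroup (Fin 2) F).1 * sM x y z * (regU 2 : SpecialLinearGroup (Fin 2) F).1ᵀ =
      sM (-(2 * y + z)) (-z) 0 := by
  rw [val_up, sM, sM, tr_fin_two, Matrix.mul_fin_two, Matrix.mul_fin_two, sub_fin_two]
  ext i j
  fin_cases i <;> fin_cases j <;> simp <;> ring

theorem cross_two (r : F) : r • (cross (m := 0) 0 1 : Matrix (Fin (0 + 2)) (Fin (0 + 2)) F) = sM 0 r 0 := by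
  ext i j
  fin_cases i <;> fin_cases j <;> simp [cross, sM, Matrix.single_apply]

theorem In.byLow {a b c lam : F} (hl : levi (low lam) ∈ G) (h : In G a b c) :
    In G a (b + lam * a) (c + 2 * lam * b + lam ^ 2 * a) := by
  show _ ∈ G
  have e : (low lam : Matrix (Fin 2) (Fin 2) F) * sM a b c * (low lam : Matrix (Fin 2) (Fin 2) F)ᵀ =
      sM a (b + lam * a) (c + 2 * lam * b + lam ^ 2 * a) := by
    rw [val_low]
    ext i j; fin_cases i <;> fin_cases j <;> simp [sM, Matrix.mul_apply, Fin.sum_univ_two] <;> ring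
  rw [← e, ← levi_conj _ (sM_symm a b c)]
  exact G.mul_mem (G.mul_mem hl h) (G.inv_mem hl)

theorem uSp_conj {S : Matrix (Fin 2) (Fin 2) F} (hS : Sᵀ = S) :
    (uSp : symplecticGroup (Fin 2) F) * xS S * (uSp : symplecticGroup (Fin 2) F)⁻¹ =
      xS ((regU 2 : SpecialLinearGroup (Fin 2) F).1 * S * (regU 2 : SpecialLinearGroup (Fin 2) F).1ᵀ) := by
  have hc : xS (S0 : Matrix (Fin 2) (Fin 2) F) * xS S = xS S * xS S0 := by
    rw [← xS_add S0_symm hS, ← xS_add hS S0_symm, add_comm S0 S]
  rw [uSp, _root_.mul_inv_rev, mul_assoc (levi _), hc, ← levi_conj _ hS]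
  simp [mul_assoc]

theorem In.up {a b c : F} (hu : (uSp : symplecticGroup (Fin 2) F) ∈ G) (h : In G a b c) :
    In G (a + 2 * b + c) (b + c) c := by
  show _ ∈ G
  have e : (regU 2 : SpecialLinearGroup (Fin 2) F).1 * sM a b c * (regU 2 : SpecialLinearGroup (Fin 2) F).1ᵀ =
      sM (a + 2 * b + c) (b + c) c := by
    rw [val_up]
    ext i j; fin_cases i <;> fin_cases j <;> simp [sM, Matrix.mul_apply, Fin.sum_univ_two] <;> ring
  rw [← e, ← uSp_conj (sM_symm a b c)]
  exact G.mul_mem (G.mul_mem hu h) (G.inv_mem hu)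

/-- An additive group stable under multiplication by a field generator. -/
theorem addSubgroup_eq_top [Finite F] (Z : AddSubgroup F) {ν a0 : F} (ha0 : a0 ∈ Z) (h0 : a0 ≠ 0)
    (hν : ∀ z ∈ Z, ν * z ∈ Z) (hgen : ∀ K : Subfield F, ν ∈ K → K = ⊤) (x : F) : x ∈ Z := by
  haveI := Fintype.ofFinite F
  set S : Set F := {k | ∀ z ∈ Z, k * z ∈ Z} with hS
  have hpow : ∀ k ∈ S, ∀ n : ℕ, k ^ n ∈ S := by
    intro k hk n
    induction n with
    | zero => intro z hz; rwa [pow_zero, one_mul]
    | succ n ih => intro z hz; rw [pow_succ', mul_assoc]; exact hk _ (ih z hz)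
  let K : Subfield F :=
    { carrier := S
      mul_mem' := fun {a b} ha hb z hz => by rw [mul_assoc]; exact ha _ (hb z hz)
      one_mem' := fun z hz => by rwa [one_mul]
      add_mem' := fun {a b} ha hb z hz => by rw [add_mul]; exact Z.add_mem (ha z hz) (hb z hz)
      zero_mem' := fun z _ => by rw [zero_mul]; exact Z.zero_mem
      neg_mem' := fun {a} ha z hz => by rw [neg_mul]; exact Z.neg_mem (ha z hz)
      inv_mem' := fun a ha => by
        by_cases ha0 : a = 0
        · rw [ha0, _root_.inv_zero, ← ha0]; exact ha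
        · have := hpow a ha (Fintype.card F - 2)
          rwa [eq_inv_of_mul_eq_one_left (show a ^ (Fintype.card F - 2) * a = 1 by
            rw [← pow_succ, show Fintype.card F - 2 + 1 = Fintype.card F - 1 by
              have := Fintype.one_lt_card (α := F); omega,
              FiniteField.pow_card_sub_one_eq_one a ha0])] at this }
  have h1 : x / a0 ∈ K := by rw [hgen K hν]; exact Subfield.mem_top _
  have := h1 a0 ha0
  rwa [div_mul_cancel₀ _ h0] at this

/-- Powers of a generator of `Fˣ` generate the field unless the exponent is large. -/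
theorem gen_pow [Fintype F] {ζ : Fˣ} (hζ : ∀ x : Fˣ, x ∈ Subgroup.zpowers ζ) {k : ℕ} (hk : 0 < k)
    (h : ∀ r : ℕ, 2 ≤ r → r * r ≤ Fintype.card F → Fintype.card F - 1 ≤ k * (r - 1) →
      (r : ℕ) ∣ Fintype.card F → Fintype.card F - 1 ∣ k * (r - 1) → False)
    (K : Subfield F) (hK : (ζ : F) ^ k ∈ K) : K = ⊤ := by
  classical
  by_contra hne
  haveI : Module.Finite K F := Module.Finite.of_finite
  have hr1 : Module.finrank K F ≠ 1 := by
    intro h1
    refine hne (eq_top_iff.2 fun z _ => ?_)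
    obtain ⟨c, hc⟩ := (finrank_eq_one_iff_of_nonzero' (1 : F) one_ne_zero).1 h1 z
    rw [← hc, Subfield.smul_def, smul_eq_mul, mul_one]
    exact c.2
  haveI := Fintype.ofFinite K
  have hpos : 0 < Module.finrank K F := Module.finrank_pos
  have hcard : Fintype.card K * Fintype.card K ≤ Fintype.card F := by
    rw [Module.card_eq_pow_finrank (K := K) (V := F), ← pow_two]
    exact Nat.pow_le_pow_right Fintype.card_pos (by omega)
  have hdiv : Fintype.card K ∣ Fintype.card F := by
    rw [Module.card_eq_pow_finrank (K := K) (V := F)]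
    exact dvd_pow_self _ (by omega)
  have h1 : ((ζ : F) ^ k) ^ (Fintype.card K - 1) = 1 := by
    have := congrArg Subtype.val (FiniteField.pow_card_sub_one_eq_one (⟨_, hK⟩ : K)
      fun h => pow_ne_zero k ζ.ne_zero (congrArg Subtype.val h))
    simpa using this
  have hord : orderOf ζ = Fintype.card F - 1 := by
    rw [orderOf_eq_card_of_forall_mem_zpowers hζ, Nat.card_units, Nat.card_eq_fintype_card]
  have hdvd : Fintype.card F - 1 ∣ k * (Fintype.card K - 1) := by
    rw [← hord]
    refine orderOf_dvd_of_pow_eq_one (Units.ext ?_)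
    rw [Units.val_pow_eq_pow_val, Units.val_one, pow_mul]
    exact h1
  have hk2 : 2 ≤ Fintype.card K := Fintype.one_lt_card
  exact h _ hk2 hcard (Nat.le_of_dvd (Nat.mul_pos hk (by omega)) hdvd) hdiv hdvd

theorem all_odd [Fintype F] (h2 : (2 : F) ≠ 0) {lam a0 : F} (hlam : lam ≠ 0)
    (hgen : ∀ K : Subfield F, lam ^ 2 ∈ K → K = ⊤)
    (hu : (uSp : symplecticGroup (Fin 2) F) ∈ G) (hl : levi (low lam) ∈ G) (ha0 : a0 ≠ 0)
    (h : In G a0 0 0) (a b c : F) : In G a b c := by
  let Z : AddSubgroup F :=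
    { carrier := {z | In G z 0 0}
      zero_mem' := In.zero
      add_mem' := fun {x y} hx hy => by
        have := In.add hx hy
        simp only [add_zero] at this
        exact this
      neg_mem' := fun {x} hx => by
        have := In.neg hx
        simp only [neg_zero] at this
        exact this }
  have hD : ∀ z : F, In G z 0 0 → In G 0 (lam * z) (lam ^ 2 * z) := fun z hz => by
    have h1 := (hz.byLow hl).sub hz
    simpa using h1
  have hC : ∀ z : F, In G z 0 0 → In G 0 0 (2 * lam ^ 2 * z) := fun z hz => by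
    have h1 := ((hD z hz).byLow hl).sub (hD z hz)
    convert h1 using 1 <;> ring
  have hA : ∀ z : F, In G 0 0 z → In G (2 * z) 0 0 := fun z hz => by
    have h1 := (hz.up hu).sub hz
    have h2 := (h1.up hu).sub h1
    convert h2 using 1 <;> ring
  have hall : ∀ z : F, In G z 0 0 := fun z => addSubgroup_eq_top Z (ν := 4 * lam ^ 2) h ha0
    (fun z hz => by
      have := hA _ (hC z hz)
      show In G _ 0 0
      convert this using 1
      ring)
    (fun K hK => hgen K (by
      have h4 : ((4 : ℕ) : F) ∈ K := natCast_mem K 4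
      have h4' : (4 : F) ≠ 0 := by
        rw [show (4 : F) = 2 ^ 2 by norm_num]
        exact pow_ne_zero 2 h2
      have := div_mem hK h4
      rwa [Nat.cast_ofNat, mul_div_cancel_left₀ _ h4'] at this)) z
  have h1 := hall a
  have h3 := hC _ (hall ((c - lam * b) / (2 * lam ^ 2)))
  have h5 := hD _ (hall (b / lam))
  have h6 := (h1.add h5).add h3
  convert h6 using 1 <;> first | (field_simp; ring) | ring | field_simp

theorem In.byLow' {a b c mu : F} {S : Matrix (Fin 2) (Fin 2) F} (hS : Sᵀ = S)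
    (hw : levi (low mu) * xS S ∈ G) (h : In G a b c) :
    In G a (b + mu * a) (c + 2 * mu * b + mu ^ 2 * a) := by
  show _ ∈ G
  have e : (low mu : Matrix (Fin 2) (Fin 2) F) * sM a b c * (low mu : Matrix (Fin 2) (Fin 2) F)ᵀ =
      sM a (b + mu * a) (c + 2 * mu * b + mu ^ 2 * a) := by
    rw [val_low]
    ext i j; fin_cases i <;> fin_cases j <;> simp [sM, Matrix.mul_apply, Fin.sum_univ_two] <;> ring
  rw [← e, ← levi_conj _ (sM_symm a b c)]
  have hh := G.mul_mem (G.mul_mem hw h) (G.inv_mem hw)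
  convert hh using 1
  have hc : xS S * xS (sM a b c) = xS (sM a b c) * xS S := by
    rw [← xS_add hS (sM_symm a b c), ← xS_add (sM_symm a b c) hS, add_comm S (sM a b c)]
  rw [_root_.mul_inv_rev, mul_assoc (levi _) (xS S), hc]
  simp [mul_assoc]

section CharTwo

variable [CharP F 2]

theorem B_all [Fintype F] {lam : F} (hgen : ∀ K : Subfield F, lam ^ 2 ∈ K → K = ⊤)
    (hu : (uSp : symplecticGroup (Fin 2) F) ∈ G) (hl : levi (low lam) ∈ G)
    (h1 : In G 1 1 0) (b : F) : In G b b 0 ∧ In G 0 (lam * b) (lam ^ 2 * b) := by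
  have h2 : (2 : F) = 0 := CharTwo.two_eq_zero
  let Z : AddSubgroup F :=
    { carrier := {z | In G z z 0}
      zero_mem' := In.zero
      add_mem' := fun {x y} hx hy => by
        have := In.add hx hy
        simp only [add_zero] at this
        exact this
      neg_mem' := fun {x} hx => by
        have := In.neg hx
        simp only [neg_zero] at this
        exact this }
  have hD : ∀ z : F, In G z z 0 → In G 0 (lam * z) (lam ^ 2 * z) := fun z hz => by
    have h3 := (hz.byLow hl).sub hz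
    convert h3 using 1 <;> simp [h2]
  have hall : ∀ z : F, In G z z 0 := fun z => addSubgroup_eq_top Z (ν := lam ^ 2) h1 one_ne_zero
    (fun z hz => by
      have h3 := ((hD z hz).up hu).sub (hD z hz)
      show In G _ _ 0
      convert h3 using 1 <;> simp [h2]) hgen z
  exact ⟨hall b, hD b (hall b)⟩

theorem all_even [Fintype F] {lam : F} (hlam : lam ≠ 0)
    (hB : ∀ b, In G b b 0 ∧ In G 0 (lam * b) (lam ^ 2 * b)) (hC : ∀ c, In G 0 0 c) (a b c : F) : In G a b c := by
  have h1 := (hB a).1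
  have h2 := (hB ((b - a) / lam)).2
  have h3 := hC (c - lam * (b - a))
  have h := (h1.add h2).add h3
  convert h using 1 <;> first | (field_simp; ring) | ring | field_simp

end CharTwo

theorem u_sq [CharP F 2] :
    (uSp : symplecticGroup (Fin 2) F) * uSp = xS (sM 1 1 0) := by
  have h2 : (2 : F) = 0 := CharTwo.two_eq_zero
  refine Subtype.ext ?_
  rw [Submonoid.coe_mul, val_uSp_two, val_xS (sM_symm 1 1 0), CharTwo.neg_eq]
  simp only [sM, fromBlocks_multiply, Matrix.mul_fin_two, Matrix.one_fin_two, zero_fin_two, add_fin_two, fromBlocks_inj]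
  refine ⟨?_, ?_, ?_, ?_⟩ <;> (ext i j; fin_cases i <;> fin_cases j <;> simp [CharTwo.add_self_eq_zero])

theorem u_cube (h3 : (3 : F) = 0) :
    (uSp : symplecticGroup (Fin 2) F) * uSp * uSp = xS (sM 2 0 0) := by
  refine Subtype.ext ?_
  rw [Submonoid.coe_mul, Submonoid.coe_mul, val_uSp_two, val_xS (sM_symm 2 0 0)]
  simp only [sM, fromBlocks_multiply, Matrix.mul_fin_two, Matrix.one_fin_two, zero_fin_two, add_fin_two, fromBlocks_inj]
  refine ⟨?_, ?_, ?_, ?_⟩ <;> (ext i j; fin_cases i <;> fin_cases j <;> simp [Matrix.mul_fin_two] <;> grind)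

theorem hE_of_all (h : ∀ a b c, In G a b c) (x : Fin 2 → F) : Full G (Sum.elim x 0) := by
  intro t
  rw [tr_eq_xS]
  have e : t • vecMulVec x x = sM (t * x 0 * x 0) (t * x 0 * x 1) (t * x 1 * x 1) := by
    ext i j; fin_cases i <;> fin_cases j <;> simp [sM, vecMulVec] <;> ring
  rw [e]
  exact h _ _ _

theorem finish {c : F} (hc : c ≠ 0) {G : Subgroup (symplecticGroup (Fin 2) F)}
    (hu : (uSp : symplecticGroup (Fin 2) F) ∈ G)
    (hv : gSp (m := 0) c hc * uSp * (gSp (m := 0) c hc)⁻¹ ∈ G) (h : ∀ a b d, In G a b d) : G = ⊤ := by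
  have hE := hE_of_all h
  obtain ⟨y, hy0, hy1, hy⟩ := outside (F := F) (m := 0) c hc
  have hymem : y ∈ parts G hE := mem_parts hE hv _ (hE _) hy hy0
  have h1 := hy1 rfl
  have e : ((regU 2 : SpecialLinearGroup (Fin 2) F)⁻¹).1ᵀ *ᵥ y = y - Pi.single 1 1 := by
    have : (regU 2 : SpecialLinearGroup (Fin 2) F)⁻¹ = ⟨!![1, -1; 0, 1], by simp [det_fin_two]⟩ := by
      refine inv_eq_of_mul_eq_one_right (Subtype.ext ?_)
      show (regU 2 : SpecialLinearGroup (Fin 2) F).1 * !![1, -1; 0, 1] = 1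
      rw [val_up]
      ext i j; fin_cases i <;> fin_cases j <;> simp [Matrix.mul_apply, Fin.sum_univ_two]
    rw [this]
    funext i
    fin_cases i <;> simp [mulVec, dotProduct, Fin.sum_univ_two, h1]
    ring
  have hy2 : y - Pi.single 1 1 ∈ parts G hE := by
    rw [← e]
    refine parts_blockD hE (h := levi_aux _) S0_symm hu hymem ?_
    rw [e]
    intro h0
    have := congrFun h0 0
    simp [h1] at this
  have he1 : Pi.single 1 1 ∈ parts G hE := by
    have := Submodule.sub_mem _ hymem hy2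
    rwa [sub_sub_cancel] at this
  refine eq_top_of_parts hE (eq_top_iff.2 fun z _ => ?_)
  have ez : z = z 0 • y + (z 1 - z 0 * y 1) • Pi.single 1 1 := by
    funext i
    fin_cases i <;> simp [h1]
  rw [ez]
  exact Submodule.add_mem _ (Submodule.smul_mem _ _ hymem) (Submodule.smul_mem _ _ he1)

/-- The third generator gives a transvection of the Levi subgroup. -/
theorem third {c r : F} (hc : c ≠ 0) {h : symplecticGroup (Fin 2) F}
    (hh : h * uSp * h⁻¹ = uSp * xS (r • cross 0 1))
    {G : Subgroup (symplecticGroup (Fin 2) F)}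
    (hv : gSp (m := 0) c hc * uSp * (gSp (m := 0) c hc)⁻¹ ∈ G)
    (h3 : gSp (m := 0) c hc * h * uSp * (gSp (m := 0) c hc * h)⁻¹ ∈ G) :
    levi (low (-(r * c))) ∈ G := by
  set g : symplecticGroup (Fin 2) F := gSp (m := 0) c hc with hg
  have hm := G.mul_mem (G.inv_mem hv) h3
  have e : (g * uSp * g⁻¹)⁻¹ * (g * h * uSp * (g * h)⁻¹) = g * (uSp⁻¹ * (h * uSp * h⁻¹)) * g⁻¹ := by group
  rw [e, hh, inv_mul_cancel_left, hg, gSp_conj] at hm
  exact hm

theorem exists_odd [Fintype F] (h2 : (2 : F) ≠ 0) :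
    ∃ g h : symplecticGroup (Fin 2) F,
      Subgroup.closure ({uSp, g * uSp * g⁻¹, h * uSp * h⁻¹} : Set (symplecticGroup (Fin 2) F)) = ⊤ := by
  classical
  obtain ⟨ζ, hζ⟩ := IsCyclic.exists_generator (α := Fˣ)
  obtain ⟨c, hc, hgen, hcase⟩ : ∃ c : F, c ≠ 0 ∧ (∀ K : Subfield F, c ^ 2 ∈ K → K = ⊤) ∧
      (Fintype.card F = 9 ∨ (Fintype.card F ≠ 9 ∧ ∃ μ : F, μ ≠ 0 ∧ c = μ ^ 2)) := by
    have hodd : ¬ 2 ∣ Fintype.card F := by
      obtain ⟨p, hcp, n, hp, hn⟩ := FiniteField.card' F
      haveI := hcp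
      intro hd
      rw [hn] at hd
      have := (Nat.prime_dvd_prime_iff_eq Nat.prime_two hp).1 (Nat.prime_two.dvd_of_dvd_pow hd)
      subst this
      exact h2 CharTwo.two_eq_zero
    by_cases h9 : Fintype.card F = 9
    · refine ⟨(ζ : F), ζ.ne_zero, gen_pow hζ two_pos fun r hr hrr hle hd _ => ?_, Or.inl h9⟩
      rw [h9] at hrr hle hd
      have : r ≤ 3 := by nlinarith
      interval_cases r <;> omega
    · refine ⟨(ζ : F) ^ 2, pow_ne_zero 2 ζ.ne_zero, fun K hK => ?_, Or.inr ⟨h9, (ζ : F), ζ.ne_zero, rfl⟩⟩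
      rw [← pow_mul] at hK
      refine gen_pow hζ (k := 2 * 2) (by norm_num) (fun r hr hrr hle hd hdd => ?_) K hK
      have hr4 : r ≤ 3 := by
        by_contra hlt
        have : 4 * r ≤ r * r := Nat.mul_le_mul_right r (by omega)
        omega
      interval_cases r
      · exact hodd hd
      · have : Fintype.card F ≤ 9 := by omega
        interval_cases hq : Fintype.card F <;> omega
  set R : Matrix (Fin 2) (Fin 2) F := sM 0 (-(1 / 2)) 1 with hR
  set A := (regU 2 : SpecialLinearGroup (Fin 2) F).1 with hA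
  have hh : xS (A * R * Aᵀ) * uSp * (xS (A * R * Aᵀ))⁻¹ = uSp * xS ((-1 : F) • cross 0 1) := by
    rw [conj_xS (sM_symm _ _ _)]
    congr 2
    refine (conj_R _ _ _).trans ((?_ : _ = sM (0 : F) (-1) 0).trans (cross_two (-1 : F)).symm)
    ext i j
    fin_cases i <;> fin_cases j <;> simp [sM]
    field_simp
    ring
  refine ⟨gSp (m := 0) c hc, gSp (m := 0) c hc * xS (A * R * Aᵀ), ?_⟩
  set G := Subgroup.closure ({uSp, gSp (m := 0) c hc * uSp * (gSp (m := 0) c hc)⁻¹,
    gSp (m := 0) c hc * xS (A * R * Aᵀ) * uSp * (gSp (m := 0) c hc * xS (A * R * Aᵀ))⁻¹} :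
      Set (symplecticGroup (Fin 2) F))
  have hu : (uSp : symplecticGroup (Fin 2) F) ∈ G := Subgroup.subset_closure (by simp)
  have hv : gSp (m := 0) c hc * uSp * (gSp (m := 0) c hc)⁻¹ ∈ G := Subgroup.subset_closure (by simp)
  have hl : levi (low c) ∈ G := by
    have := third hc hh hv (Subgroup.subset_closure (by simp))
    simpa using this
  refine finish hc hu hv ?_
  obtain ⟨a0, ha0, hIn⟩ : ∃ a0 : F, a0 ≠ 0 ∧ In G a0 0 0 := by
    rcases hcase with h9 | ⟨h9, μ, hμ, rfl⟩
    · have h3 : (3 : F) = 0 := by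
        have h := Nat.cast_card_eq_zero F
        rw [h9] at h
        have : (3 : F) * 3 = 0 := by rw [show (3 : F) * 3 = ((9 : ℕ) : F) by norm_num, h]
        exact mul_self_eq_zero.1 this
      refine ⟨2, h2, ?_⟩
      show _ ∈ G
      rw [← u_cube h3]
      exact G.mul_mem (G.mul_mem hu hu) hu
    · have hfix : (low (μ ^ 2) : Matrix (Fin 2) (Fin 2) F) *ᵥ Pi.single (Fin.last 1) 1 = Pi.single (Fin.last 1) 1 := by
        rw [val_low]
        ext i; fin_cases i <;> simp
      have hl2 : levi ((regU 2 : SpecialLinearGroup (Fin 2) F) * low (μ ^ 2) * (regU 2)⁻¹) ∈ G := by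
        rw [← u_conj_levi (m := 0) hfix]
        exact G.mul_mem (G.mul_mem hu hl) (G.inv_mem hu)
      let Qe : SpecialLinearGroup (Fin 2) F := ⟨!![μ, 0; -μ⁻¹, μ⁻¹], by simp [det_fin_two, hμ]⟩
      have hK : (G.comap levi).comap (MulAut.conj Qe⁻¹).toMonoidHom = ⊤ := by
        have hne : -μ ^ 4 ≠ 0 := neg_ne_zero.2 (pow_ne_zero 4 hμ)
        have hgen' : Subfield.closure ({-μ ^ 4} : Set F) = ⊤ := by
          refine hgen _ ?_
          rw [← pow_mul]
          have := neg_mem (Subfield.subset_closure (Set.mem_singleton (-μ ^ 4)))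
          rwa [neg_neg] at this
        rw [eq_top_iff, ← Cfsg.Agent.PSLTwoSub.closure_eq_top h2 hne hgen' (fun h => h9 h.1), Subgroup.closure_le]
        have eqe : ((Qe⁻¹)⁻¹ : SpecialLinearGroup (Fin 2) F) = Qe := inv_inv Qe
        rintro N (hN | hN)
        · show levi (Qe⁻¹ * N * (Qe⁻¹)⁻¹) ∈ G
          have e : Qe⁻¹ * N * (Qe⁻¹)⁻¹ = low (μ ^ 2) := by
            rw [eqe, mul_assoc, inv_mul_eq_iff_eq_mul]
            refine Subtype.ext ?_
            show (N : Matrix (Fin 2) (Fin 2) F) * Qe.1 = Qe.1 * (low (μ ^ 2) : Matrix (Fin 2) (Fin 2) F)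
            rw [hN, val_low]
            show _ * !![μ, 0; -μ⁻¹, μ⁻¹] = _
            ext i j
            fin_cases i <;> fin_cases j <;> simp [Qe, Matrix.mul_apply, Fin.sum_univ_two] <;> field_simp <;> ring
          rw [e]; exact hl
        · show levi (Qe⁻¹ * N * (Qe⁻¹)⁻¹) ∈ G
          have e : Qe⁻¹ * N * (Qe⁻¹)⁻¹ = regU 2 * low (μ ^ 2) * (regU 2)⁻¹ := by
            rw [eqe, eq_mul_inv_iff_mul_eq, mul_assoc, mul_assoc, inv_mul_eq_iff_eq_mul]
            refine Subtype.ext ?_
            show (N : Matrix (Fin 2) (Fin 2) F) * (Qe.1 * (regU 2 : SpecialLinearGroup (Fin 2) F).1) =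
              Qe.1 * ((regU 2 : SpecialLinearGroup (Fin 2) F).1 * (low (μ ^ 2) : Matrix (Fin 2) (Fin 2) F))
            rw [hN, val_low, val_up]
            ext i j
            fin_cases i <;> fin_cases j <;> simp [Qe, Matrix.mul_apply, Fin.sum_univ_two] <;> field_simp <;> ring
          rw [e]; exact hl2
      have hU : levi (regU 2 : SpecialLinearGroup (Fin 2) F) ∈ G := by
        have h := Subgroup.mem_top (Qe * regU 2 * Qe⁻¹ : SpecialLinearGroup (Fin 2) F)
        rw [← hK, Subgroup.mem_comap, MulEquiv.coe_toMonoidHom, MulAut.conj_apply] at h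
        simpa [mul_assoc] using h
      have h11 : In G 0 0 1 := by
        show _ ∈ G
        rw [← S0_two]
        exact (G.mul_mem_cancel_left hU).1 hu
      refine ⟨2, h2, ?_⟩
      have h1 := (h11.up hu).sub h11
      have h3 := (h1.up hu).sub h1
      convert h3 using 1 <;> ring
  exact all_odd h2 hc hgen hu hl ha0 hIn

theorem v_four {w : F} (hw : w ^ 2 = w + 1) (h2 : (2 : F) = 0) (hw0 : w ≠ 0) :
    ((gSp (m := 0) w hw0 * uSp * (gSp (m := 0) w hw0)⁻¹ : symplecticGroup (Fin 2) F) :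
      Matrix (Fin 2 ⊕ Fin 2) (Fin 2 ⊕ Fin 2) F) =
      fromBlocks !![1, 0; w, 1] !![0, w; w, 0] !![1, 0; 0, 0] !![1, 0; 0, 1] := by
  set g : symplecticGroup (Fin 2) F := gSp (m := 0) w hw0 with hg
  set V : Matrix (Fin 2 ⊕ Fin 2) (Fin 2 ⊕ Fin 2) F :=
    fromBlocks !![1, 0; w, 1] !![0, w; w, 0] !![1, 0; 0, 0] !![1, 0; 0, 1] with hV
  have hwi : w⁻¹ = w + 1 := inv_eq_of_mul_eq_one_right (by linear_combination hw + w * h2)
  have key : V * (g : Matrix (Fin 2 ⊕ Fin 2) (Fin 2 ⊕ Fin 2) F) =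
      ((g * uSp : symplecticGroup (Fin 2) F) : Matrix (Fin 2 ⊕ Fin 2) (Fin 2 ⊕ Fin 2) F) := by
    rw [Submonoid.coe_mul, hg, val_gSp_two, val_uSp_two, hV, hwi]
    simp only [zero_fin_two, add_fin_two, fromBlocks_multiply,
      Matrix.mul_fin_two, fromBlocks_inj]
    refine ⟨?_, ?_, ?_, ?_⟩ <;> (ext i j; fin_cases i <;> fin_cases j <;> simp [Matrix.mul_fin_two] <;> (clear * - hw h2; grind))
  rw [Submonoid.coe_mul, ← key, Matrix.mul_assoc, ← Submonoid.coe_mul, mul_inv_cancel, Submonoid.coe_one,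
    Matrix.mul_one]

theorem word_four {w : F} (hw : w ^ 2 = w + 1) (h2 : (2 : F) = 0) :
    fromBlocks !![1, 0; w, 1] !![0, w; w, 0] !![1, 0; 0, 0] !![1, 0; 0, 1] * fromBlocks 1 (sM 1 1 0) 0 1 *
        fromBlocks !![1, 0; w, 1] !![0, w; w, 0] !![1, 0; 0, 0] !![1, 0; 0, 1] * fromBlocks 1 (sM 1 1 0) 0 1 *
        fromBlocks !![1, 0; w, 1] !![0, w; w, 0] !![1, 0; 0, 0] !![1, 0; 0, 1] =
      (fromBlocks 1 (sM 1 1 w) 0 1 : Matrix (Fin 2 ⊕ Fin 2) (Fin 2 ⊕ Fin 2) F) := by
  have z2 : (0 : Matrix (Fin 2) (Fin 2) F) = !![0, 0; 0, 0] := by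
    ext i j; fin_cases i <;> fin_cases j <;> simp
  simp only [sM, z2, Matrix.one_fin_two, fromBlocks_multiply, Matrix.mul_fin_two, add_fin_two, fromBlocks_inj,
    mul_one, one_mul, mul_zero, zero_mul, add_zero, zero_add]
  refine ⟨?_, ?_, ?_, ?_⟩ <;> (ext i j; fin_cases i <;> fin_cases j <;> simp <;> grind)

theorem exists_even [Fintype F] [CharP F 2] (hq : Fintype.card F ≠ 2) :
    ∃ g h : symplecticGroup (Fin 2) F,
      Subgroup.closure ({uSp, g * uSp * g⁻¹, h * uSp * h⁻¹} : Set (symplecticGroup (Fin 2) F)) = ⊤ := by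
  classical
  have h2 : (2 : F) = 0 := CharTwo.two_eq_zero
  obtain ⟨ζ, hζ⟩ := IsCyclic.exists_generator (α := Fˣ)
  obtain ⟨N, -, hN⟩ := FiniteField.card F 2
  have hq2 : 2 ≤ (N : ℕ) := by
    by_contra hlt
    have := N.pos
    exact hq (by rw [hN, show (N : ℕ) = 1 by omega]; rfl)
  have hq4 : 4 ≤ Fintype.card F := by
    rw [hN]; exact le_trans (by norm_num) (Nat.pow_le_pow_right (by norm_num) hq2)
  have hq8 : Fintype.card F = 4 ∨ 8 ≤ Fintype.card F := by
    rcases eq_or_lt_of_le hq2 with e | hlt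
    · left; rw [hN, ← e]; rfl
    · right; rw [hN]; exact le_trans (by norm_num) (Nat.pow_le_pow_right (by norm_num) hlt)
  have hord : orderOf ζ = Fintype.card F - 1 := by
    rw [orderOf_eq_card_of_forall_mem_zpowers hζ, Nat.card_units, Nat.card_eq_fintype_card]
  set z : F := (ζ : F) with hz
  have hz0 : z ≠ 0 := ζ.ne_zero
  have hzpow : ∀ k : ℕ, z ^ k = 1 → Fintype.card F - 1 ∣ k := fun k hk => by
    rw [← hord]
    exact orderOf_dvd_of_pow_eq_one (Units.ext (by simpa [hz] using hk))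
  have hz1 : z ≠ 1 := fun h => by
    have := Nat.le_of_dvd one_pos (hzpow 1 (by rw [pow_one, h]))
    omega
  set r : F := z ^ 2 + z with hr
  have hr0 : r ≠ 0 := by
    intro h
    exact hz1 (mul_left_cancel₀ hz0 (by linear_combination h - z * h2))
  set c : F := z / r with hc'
  have hc : c ≠ 0 := div_ne_zero hz0 hr0
  set R : Matrix (Fin 2) (Fin 2) F := sM 0 0 (z ^ 2) with hR
  set A := (regU 2 : SpecialLinearGroup (Fin 2) F).1 with hA
  set B : SpecialLinearGroup (Fin 2) F := SpecialLinearGroup.transvection (show (0 : Fin 2) ≠ 1 by decide) z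
    with hB
  have vB : (B : Matrix (Fin 2) (Fin 2) F) = !![1, z; 0, 1] := by
    show Matrix.transvection _ _ _ = _
    ext i j; fin_cases i <;> fin_cases j <;> simp [Matrix.transvection, Matrix.single_apply]
  set h : symplecticGroup (Fin 2) F := xS (A * R * Aᵀ) * levi B with hh'
  have hh : h * uSp * h⁻¹ = uSp * xS (r • cross 0 1) := by
    have hcomm : (B : SpecialLinearGroup (Fin 2) F) * regU 2 = regU 2 * B := by
      refine Subtype.ext ?_
      show (B : Matrix (Fin 2) (Fin 2) F) * _ = _ * (B : Matrix (Fin 2) (Fin 2) F)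
      rw [vB]
      show _ * (regU 2 : SpecialLinearGroup (Fin 2) F).1 = (regU 2 : SpecialLinearGroup (Fin 2) F).1 * _
      rw [val_up]
      ext i j; fin_cases i <;> fin_cases j <;> simp [Matrix.mul_apply, Fin.sum_univ_two, add_comm]
    have hδ : (B : Matrix (Fin 2) (Fin 2) F) * S0 * (B : Matrix (Fin 2) (Fin 2) F)ᵀ =
        S0 + sM (z ^ 2) z 0 := by
      rw [vB, S0_two]
      ext i j; fin_cases i <;> fin_cases j <;> simp [sM, Matrix.mul_apply, Fin.sum_univ_two] <;> ring
    have hRs : Rᵀ = R := sM_symm _ _ _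
    have e1 : levi B * uSp * (levi B)⁻¹ = uSp * xS (sM (z ^ 2) z 0) := by
      have e : levi B * uSp * (levi B)⁻¹ = levi (regU 2) * (levi B * xS S0 * (levi B)⁻¹) := by
        rw [uSp, ← mul_assoc (levi B), ← map_mul, hcomm, map_mul]
        simp [mul_assoc]
      rw [e, levi_conj _ S0_symm, hδ, xS_add S0_symm (sM_symm _ _ _), uSp, mul_assoc]
    have hcm : ∀ {S S' : Matrix (Fin 2) (Fin 2) F}, Sᵀ = S → S'ᵀ = S' →
        xS S * xS S' = xS S' * xS S := fun {S S'} hS hS' => by
      rw [← xS_add hS hS', ← xS_add hS' hS, add_comm S S']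
    have hC : (A * R * Aᵀ)ᵀ = A * R * Aᵀ := conj_symm hRs
    calc h * uSp * h⁻¹ = xS (A * R * Aᵀ) * (levi B * uSp * (levi B)⁻¹) * (xS (A * R * Aᵀ))⁻¹ := by
          rw [hh']; group
      _ = (xS (A * R * Aᵀ) * uSp * (xS (A * R * Aᵀ))⁻¹) * xS (sM (z ^ 2) z 0) := by
          rw [e1, ← xS_neg hC]
          rw [show ∀ x y w t : symplecticGroup (Fin 2) F, x * (y * w) * t = x * y * (w * t) from
              fun x y w t => by simp only [mul_assoc],
            hcm (sM_symm _ _ _) (show (-(A * R * Aᵀ))ᵀ = -(A * R * Aᵀ) by rw [transpose_neg, hC])]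
          simp only [mul_assoc]
      _ = uSp * xS (r • cross 0 1) := by
          rw [conj_xS hRs, mul_assoc, ← xS_add (by rw [transpose_sub, hRs, hC]) (sM_symm _ _ _)]
          congr 2
          refine ((congrArg (· + sM (z ^ 2) z 0) (conj_R (0 : F) 0 (z ^ 2))).trans ?_).trans (cross_two r).symm
          show sM (-(2 * 0 + z ^ 2)) (-z ^ 2) 0 + sM (z ^ 2) z 0 = sM 0 r 0
          rw [sM_add, CharTwo.neg_eq, CharTwo.neg_eq, hr]
          congr 1
          · linear_combination z ^ 2 * h2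
          · simp
  refine ⟨gSp (m := 0) c hc, gSp (m := 0) c hc * h, ?_⟩
  set G := Subgroup.closure ({uSp, gSp (m := 0) c hc * uSp * (gSp (m := 0) c hc)⁻¹,
    gSp (m := 0) c hc * h * uSp * (gSp (m := 0) c hc * h)⁻¹} : Set (symplecticGroup (Fin 2) F))
  have hu : (uSp : symplecticGroup (Fin 2) F) ∈ G := Subgroup.subset_closure (by simp)
  have hv : gSp (m := 0) c hc * uSp * (gSp (m := 0) c hc)⁻¹ ∈ G := Subgroup.subset_closure (by simp)
  have hl : levi (low z) ∈ G := by
    have := third hc hh hv (Subgroup.subset_closure (by simp))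
    rwa [CharTwo.neg_eq, hc', mul_div_cancel₀ _ hr0] at this
  have hgen : ∀ K : Subfield F, z ^ 2 ∈ K → K = ⊤ := gen_pow hζ two_pos fun k hk hkk hle _ _ => by
    rcases Nat.lt_or_ge k 3 with h3 | h3
    · interval_cases k; omega
    · have : 3 * k ≤ k * k := Nat.mul_le_mul_right k h3
      omega
  have h1 : In G 1 1 0 := by
    show _ ∈ G
    rw [← u_sq]; exact G.mul_mem hu hu
  have hB := B_all hgen hu hl h1
  -- the square of the second generator
  have hw : levi (low c) * xS (sM 0 0 (c ^ 2)) ∈ G := by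
    have hsq := G.mul_mem hv hv
    convert hsq using 1
    have e : sM (1 : F) 1 0 = (1 : F) • cross (m := 0) 0 1 + (1 : F) • vecMulVec (Pi.single 0 1) (Pi.single 0 1) := by
      ext i j; fin_cases i <;> fin_cases j <;> simp [sM, cross, vecMulVec, Matrix.single_apply]
    have esymm : ((1 : F) • vecMulVec (Pi.single (0 : Fin 2) 1) (Pi.single 0 1))ᵀ =
        (1 : F) • vecMulVec (Pi.single (0 : Fin 2) (1 : F)) (Pi.single 0 1) := by
      rw [transpose_smul, transpose_vecMulVec]
    calc levi (low c) * xS (sM 0 0 (c ^ 2))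
        = gSp (m := 0) c hc * (uSp * uSp) * (gSp (m := 0) c hc)⁻¹ := by
          rw [u_sq, e, xS_add (by rw [transpose_smul, cross_symm]) esymm, ← conj_mul, gSp_conj, ← tr_eq_xS,
            tr_conj, gSp_mulVec_e, tr_eq_xS, one_mul, CharTwo.neg_eq]
          congr 2
          ext i j; fin_cases i <;> fin_cases j <;> simp [sM, vecMulVec, sq]
      _ = _ := by group
  refine finish hc hu hv (all_even hz0 hB ?_)
  rcases hq8 with h4 | h8
  · have hw3 : z ^ 3 = 1 := by
      have := FiniteField.pow_card_sub_one_eq_one z hz0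
      rwa [h4] at this
    have hww : z ^ 2 = z + 1 := by
      have h := mul_left_cancel₀ (sub_ne_zero.2 hz1)
        (show (z - 1) * (z ^ 2 + z + 1) = (z - 1) * 0 by linear_combination hw3)
      linear_combination h - (z + 1) * h2
    have hr1 : r = 1 := by rw [hr, hww]; linear_combination z * h2
    have hcz : c = z := by rw [hc', hr1, div_one]
    have hC1 : In G 0 0 (z + 1) := by
      show _ ∈ G
      have hm := G.mul_mem (G.inv_mem hl) hw
      rwa [hcz, inv_mul_cancel_left, hww] at hm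
    have hC2 : In G 0 0 z := by
      have hx : In G 1 1 z := by
        show _ ∈ G
        set v := gSp (m := 0) c hc * uSp * (gSp (m := 0) c hc)⁻¹ with hvdef
        have hm := G.mul_mem (G.mul_mem (G.mul_mem (G.mul_mem hv (G.mul_mem hu hu)) hv) (G.mul_mem hu hu)) hv
        convert hm using 1
        have vv : (v : Matrix (Fin 2 ⊕ Fin 2) (Fin 2 ⊕ Fin 2) F) =
            fromBlocks !![1, 0; z, 1] !![0, z; z, 0] !![1, 0; 0, 0] !![1, 0; 0, 1] := by
          have h' := v_four hww h2 hz0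
          rw [hvdef]
          simp only [hcz]
          exact h'
        refine Subtype.ext ?_
        rw [u_sq]
        simp only [Submonoid.coe_mul, vv, val_xS (sM_symm _ _ _)]
        exact (word_four hww h2).symm
      simpa using hx.sub h1
    intro d
    by_cases hd : d = 0
    · rw [hd]; exact In.zero
    obtain ⟨k, hk⟩ := (mem_powers_iff_mem_zpowers (x := ζ) (y := Units.mk0 d hd)).2 (hζ _)
    have hkd : z ^ k = d := by simpa [hz] using congrArg Units.val hk
    subst hkd
    rw [← Nat.div_add_mod k 3, pow_add, pow_mul, hw3, one_pow, one_mul]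
    have : k % 3 < 3 := Nat.mod_lt _ (by norm_num)
    interval_cases k % 3
    · have := hC1.sub hC2
      simpa using this
    · simpa using hC2
    · rw [hww]; exact hC1
  · have hr1 : r ≠ 1 := fun h => by
      have h3 : z ^ 3 = 1 := by linear_combination (z - 1) * h + (1 - z) * 0 + (z - 1) * h2
      have := Nat.le_of_dvd (by norm_num) (hzpow 3 h3)
      omega
    intro d
    have hne : z ^ 2 - c * z ≠ 0 := by
      intro h
      refine hr1 ?_
      have : z * (z - c) = 0 := by linear_combination h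
      have hzc : z = c := sub_eq_zero.1 ((mul_eq_zero.1 this).resolve_left hz0)
      rw [hc', eq_div_iff hr0] at hzc
      exact mul_left_cancel₀ hz0 (by linear_combination hzc)
    set b := d / (z ^ 2 - c * z) with hb
    have hD := (hB b).2
    have hD' := ((hB (z * b / c)).1.byLow' (sM_symm _ _ _) hw).sub (hB (z * b / c)).1
    have := hD.sub hD'
    convert this using 1 <;> rw [hb] <;> field_simp <;> grind

end Cfsg.Agent.Known.SpRegularTwo
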