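import Mathlib

/-!
Abelian Sylow subgroups of symmetric groups for an odd prime: products of disjoint `p`-cycles.
-/

set_option autoImplicit false

namespace Cfsg.Agent.Known

variable (p k r : ℕ)

/-- `k` cycles of length `p` and `r` further points. -/
abbrev Cycles : Type := (Fin k × ZMod p) ⊕ Fin r

variable {p k r}

/-- The translations of the cycles. -/
def cycleShift : (Fin k → Multiplicative (ZMod p)) →* Equiv.Perm (Cycles p k r) where
  toFun v := Equiv.sumCongr (Equiv.prodCongrRight fun i => Equiv.addRight (v i).toAdd) (Equiv.refl _)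
  map_one' := Equiv.ext fun x => by rcases x with ⟨i, z⟩ | x <;> simp
  map_mul' v w := Equiv.ext fun x => by
    rcases x with ⟨i, z⟩ | x <;> simp [add_comm, add_left_comm]

theorem cycleShift_inl (v : Fin k → Multiplicative (ZMod p)) (i : Fin k) (z : ZMod p) :
    (cycleShift v : Equiv.Perm (Cycles p k r)) (.inl (i, z)) = .inl (i, z + (v i).toAdd) := rfl

theorem cycleShift_injective :
    Function.Injective (cycleShift : (Fin k → Multiplicative (ZMod p)) →* Equiv.Perm (Cycles p k r)) := by
  intro v w h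
  funext i
  have h1 := congrArg (fun g : Equiv.Perm (Cycles p k r) => g (.inl (i, 0))) h
  simpa [cycleShift_inl] using h1

/-- Negation on the cycles in `S`. -/
def cycleNeg (S : Finset (Fin k)) : Equiv.Perm (Cycles p k r) :=
  Equiv.sumCongr (Equiv.prodCongrRight fun i => if i ∈ S then Equiv.neg (ZMod p) else Equiv.refl _)
    (Equiv.refl _)

theorem cycleNeg_mul_self (S : Finset (Fin k)) :
    (cycleNeg S : Equiv.Perm (Cycles p k r)) * cycleNeg S = 1 := by
  refine Equiv.ext ?_
  rintro (⟨i, z⟩ | x)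
  · by_cases h : i ∈ S <;> simp [cycleNeg, h]
  · rfl

theorem cycleNeg_conj (S : Finset (Fin k)) (v : Fin k → Multiplicative (ZMod p)) :
    (cycleNeg S : Equiv.Perm (Cycles p k r)) * cycleShift v =
      cycleShift (fun i => if i ∈ S then (v i)⁻¹ else v i) * cycleNeg S := by
  refine Equiv.ext ?_
  rintro (⟨i, z⟩ | x)
  · by_cases h : i ∈ S <;> simp [cycleNeg, cycleShift_inl, h, add_comm]
  · rfl

theorem sign_cycleNeg_pair [NeZero p] {i j : Fin k} (h : i ≠ j) :
    Equiv.Perm.sign (cycleNeg {i, j} : Equiv.Perm (Cycles p k r)) = 1 := by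
  rw [cycleNeg, Equiv.Perm.sign_sumCongr, Equiv.Perm.sign_prodCongrRight, Equiv.Perm.sign_refl,
    mul_one, ← Finset.prod_subset (Finset.subset_univ {i, j}) (fun x _ hx => by
      rw [if_neg hx, Equiv.Perm.sign_refl]),
    Finset.prod_pair h, if_pos (by simp), if_pos (by simp), Int.units_mul_self]

/-- If `k ≥ p` there is a non-abelian `p`-group of permutations. -/
theorem exists_noncomm_isPGroup [hp : Fact p.Prime] (hk : p ≤ k) :
    ∃ H : Subgroup (Equiv.Perm (Cycles p k r)), IsPGroup p H ∧
      ∃ x ∈ H, ∃ y ∈ H, x * y ≠ y * x := by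
  obtain ⟨σ, hσ⟩ := exists_prime_orderOf_dvd_card' (G := Equiv.Perm (Fin k)) p (by
    rw [Nat.card_eq_fintype_card, Fintype.card_perm, Fintype.card_fin]
    exact Nat.dvd_factorial hp.out.pos hk)
  obtain ⟨i, hi⟩ : ∃ i, σ i ≠ i := by
    by_contra h
    push Not at h
    have h1 : σ = 1 := Equiv.ext h
    rw [h1, orderOf_one] at hσ
    exact hp.out.one_lt.ne hσ
  let τ : Equiv.Perm (Cycles p k r) :=
    Equiv.sumCongr (Equiv.prodCongrLeft fun _ => σ) (Equiv.refl _)
  have hτ : ∀ n : ℕ, τ ^ n =
      Equiv.sumCongr (Equiv.prodCongrLeft fun _ => σ ^ n) (Equiv.refl _) := by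
    intro n
    induction n with
    | zero => exact Equiv.ext fun x => by rcases x with ⟨j, z⟩ | x <;> rfl
    | succ n ih =>
      rw [pow_succ, ih]
      exact Equiv.ext fun x => by rcases x with ⟨j, z⟩ | x <;> simp [τ, pow_succ]
  have hτp : τ ^ p = 1 := by
    rw [hτ, ← hσ, pow_orderOf_eq_one]
    exact Equiv.ext fun x => by rcases x with ⟨j, z⟩ | x <;> rfl
  let E : Subgroup (Equiv.Perm (Cycles p k r)) := (cycleShift).range
  have hconj : ∀ v, τ * cycleShift v = cycleShift (fun j => v (σ⁻¹ j)) * τ := by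
    intro v
    refine Equiv.ext ?_
    rintro (⟨j, z⟩ | x)
    · simp [τ, cycleShift_inl]
    · rfl
  have hE : IsPGroup p E := by
    rintro ⟨_, v, rfl⟩
    refine ⟨1, Subtype.ext ?_⟩
    rw [pow_one, Subgroup.coe_pow, ← map_pow, Subgroup.coe_one, ← map_one cycleShift]
    congr 1
    funext j
    rw [Pi.pow_apply, Pi.one_apply, ← Multiplicative.toAdd.injective.eq_iff, toAdd_pow, toAdd_one,
      nsmul_eq_mul, ZMod.natCast_self, zero_mul]
  have hZ : IsPGroup p (Subgroup.zpowers τ) := by
    rintro ⟨_, n, rfl⟩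
    refine ⟨1, Subtype.ext ?_⟩
    show (τ ^ n) ^ p ^ 1 = 1
    rw [pow_one, ← zpow_natCast, ← zpow_mul, mul_comm, zpow_mul, zpow_natCast, hτp, one_zpow]
  have hnorm : Subgroup.zpowers τ ≤ Subgroup.normalizer (E : Set (Equiv.Perm (Cycles p k r))) := by
    rw [Subgroup.zpowers_le, Subgroup.mem_normalizer_iff]
    intro g
    constructor
    · rintro ⟨v, rfl⟩
      exact ⟨fun j => v (σ⁻¹ j), by rw [hconj]; group⟩
    · rintro ⟨v, hv⟩
      refine ⟨fun j => v (σ j), ?_⟩
      have h1 := hconj (fun j => v (σ j))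
      rw [show (fun j => v (σ (σ⁻¹ j))) = v from funext fun j => by simp, hv] at h1
      calc cycleShift (fun j => v (σ j)) = τ⁻¹ * (τ * cycleShift (fun j => v (σ j))) := by group
        _ = g := by rw [h1]; group
  refine ⟨Subgroup.zpowers τ ⊔ E, hZ.to_sup_of_normal_right' hE hnorm,
    τ, Subgroup.mem_sup_left (Subgroup.mem_zpowers τ),
    cycleShift (Pi.mulSingle i (Multiplicative.ofAdd 1)), Subgroup.mem_sup_right ⟨_, rfl⟩,
    fun h => ?_⟩
  rw [hconj] at h
  have h1 := congrFun (cycleShift_injective (mul_right_cancel h)) i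
  rw [Pi.mulSingle_eq_same, Pi.mulSingle_eq_of_ne] at h1
  · simpa using congrArg Multiplicative.toAdd h1
  · exact fun h2 => hi (by simpa using (congrArg σ h2).symm)

/-- An abelian Sylow subgroup for an odd prime is generated by disjoint `p`-cycles. -/
theorem exists_cycle_model [hp : Fact p.Prime] (n : ℕ) (P : Sylow p (Equiv.Perm (Fin n)))
    (hP : IsMulCommutative (P : Subgroup (Equiv.Perm (Fin n)))) :
    ∃ (k r : ℕ) (e : Cycles p k r ≃ Fin n), r < p ∧ n = p * k + r ∧
      (P : Subgroup (Equiv.Perm (Fin n))) =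
        ((Equiv.permCongrHom e).toMonoidHom.comp cycleShift).range := by
  have hcardα : Fintype.card (Cycles p (n / p) (n % p)) = n := by
    simp only [Fintype.card_sum, Fintype.card_prod, ZMod.card, Fintype.card_fin]
    exact Nat.div_add_mod' n p
  let e₀ : Cycles p (n / p) (n % p) ≃ Fin n := Fintype.equivFinOfCardEq hcardα
  have hk : n / p < p := by
    by_contra hk
    obtain ⟨H, hH, x, hx, y, hy, hne⟩ := exists_noncomm_isPGroup (r := n % p) (not_lt.mp hk)
    obtain ⟨Q, hQ⟩ := (hH.map (Equiv.permCongrHom e₀).toMonoidHom).exists_le_sylow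
    obtain ⟨g, rfl⟩ := MulAction.exists_smul_eq (Equiv.Perm (Fin n)) P Q
    have hx' := hQ ⟨x, hx, rfl⟩
    have hy' := hQ ⟨y, hy, rfl⟩
    rw [Sylow.coe_subgroup_smul, Subgroup.mem_pointwise_smul_iff_inv_smul_mem] at hx' hy'
    have h1 := congrArg Subtype.val (hP.is_comm.comm ⟨_, hx'⟩ ⟨_, hy'⟩)
    simp only [MulAut.smul_def, Subgroup.coe_mul, ← map_mul, EmbeddingLike.apply_eq_iff_eq] at h1
    exact hne ((Equiv.permCongrHom e₀).injective h1)
  let T := (Equiv.permCongrHom e₀).toMonoidHom.comp
    (cycleShift (p := p) (k := n / p) (r := n % p))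
  have hTcard : Nat.card T.range = p ^ (n / p) := by
    rw [← Nat.card_congr (MonoidHom.ofInjective
      ((Equiv.permCongrHom e₀).injective.comp cycleShift_injective)).toEquiv]
    simp [Nat.card_eq_fintype_card]
  have hfac : (Nat.factorization n.factorial) p = n / p := by
    have h1 : padicValNat p (n / p).factorial = 0 :=
      padicValNat.eq_zero_of_not_dvd fun h => (hp.out.dvd_factorial.mp h).not_gt hk
    have h2 : padicValNat p n.factorial = n / p := by
      conv_lhs => rw [← Nat.div_add_mod n p]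
      rw [padicValNat_factorial_mul_add (n / p) (Nat.mod_lt _ hp.out.pos),
        padicValNat_factorial_mul, h1, zero_add]
    rw [Nat.factorization_def _ hp.out, h2]
  let P₀ : Sylow p (Equiv.Perm (Fin n)) := Sylow.ofCard T.range (by
    rw [hTcard, Nat.card_eq_fintype_card (α := Equiv.Perm (Fin n)), Fintype.card_perm,
      Fintype.card_fin, hfac])
  obtain ⟨g, hg⟩ := MulAction.exists_smul_eq (Equiv.Perm (Fin n)) P₀ P
  refine ⟨n / p, n % p, e₀.trans g, Nat.mod_lt _ hp.out.pos,
    (Nat.div_add_mod n p).symm, ?_⟩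
  rw [← hg, Sylow.coe_subgroup_smul]
  show T.range.map (MulAut.conj g).toMonoidHom = _
  rw [MonoidHom.map_range]
  congr 1

/-- An element of order two modulo the centralizer makes the automizer even. -/
theorem two_dvd_automizer {G : Type*} [Group G] [Finite G] (P : Subgroup G) {y : G}
    (hy : y ∈ Subgroup.normalizer (P : Set G)) (hy2 : y * y = 1)
    (hyc : y ∉ Subgroup.centralizer (P : Set G)) :
    2 ∣ ((Subgroup.centralizer (P : Set G)).subgroupOf (Subgroup.normalizer (P : Set G))).index := by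
  set N := Subgroup.normalizer (P : Set G)
  set C := (Subgroup.centralizer (P : Set G)).subgroupOf N
  have hnormal : C.Normal := by
    show ((Subgroup.centralizer (P : Set G)).subgroupOf N).Normal
    infer_instance
  have h2 : orderOf (QuotientGroup.mk ⟨y, hy⟩ : N ⧸ C) = 2 := by
    refine orderOf_eq_prime ?_ ?_
    · rw [← QuotientGroup.mk_pow]
      exact (QuotientGroup.eq_one_iff _).mpr (by
        rw [pow_two, show (⟨y, hy⟩ * ⟨y, hy⟩ : N) = 1 from Subtype.ext hy2]
        exact C.one_mem)
    · exact fun h => hyc ((QuotientGroup.eq_one_iff (N := C) (⟨y, hy⟩ : N)).mp h)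
  rw [← h2, Subgroup.index]
  exact orderOf_dvd_natCard _

/-- The negation of the cycles in `S` normalizes but does not centralize the translations. -/
theorem cycleNeg_mem_normalizer [hp : Fact p.Prime] (hp2 : p ≠ 2) {n : ℕ}
    (e : Cycles p k r ≃ Fin n) (S : Finset (Fin k)) (hS : S.Nonempty) :
    Equiv.permCongrHom e (cycleNeg S) ∈ Subgroup.normalizer
        (((Equiv.permCongrHom e).toMonoidHom.comp cycleShift).range : Set (Equiv.Perm (Fin n))) ∧
      Equiv.permCongrHom e (cycleNeg S) ∉ Subgroup.centralizer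
        (((Equiv.permCongrHom e).toMonoidHom.comp cycleShift).range : Set (Equiv.Perm (Fin n))) := by
  set y := Equiv.permCongrHom e (cycleNeg S : Equiv.Perm (Cycles p k r))
  have hinv : y⁻¹ = y := inv_eq_of_mul_eq_one_left (by
    rw [← map_mul, cycleNeg_mul_self, map_one])
  have hc : ∀ v, y * Equiv.permCongrHom e (cycleShift v) * y⁻¹ =
      Equiv.permCongrHom e (cycleShift (fun i => if i ∈ S then (v i)⁻¹ else v i)) := fun v => by
    rw [← map_mul, cycleNeg_conj, map_mul, mul_inv_cancel_right]
  constructor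
  · rw [Subgroup.mem_normalizer_iff]
    intro g
    constructor
    · rintro ⟨v, rfl⟩
      exact ⟨_, (hc v).symm⟩
    · rintro ⟨v, hv⟩
      refine ⟨fun i => if i ∈ S then (v i)⁻¹ else v i, ?_⟩
      show Equiv.permCongrHom e _ = _
      rw [← hc v, show Equiv.permCongrHom e (cycleShift v) = y * g * y⁻¹ from hv, hinv]
      have h1 : y * y = 1 := by rw [← map_mul, cycleNeg_mul_self, map_one]
      calc y * (y * g * y) * y = (y * y) * g * (y * y) := by group
        _ = g := by rw [h1, one_mul, mul_one]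
  · intro h
    obtain ⟨i, hi⟩ := hS
    let v : Fin k → Multiplicative (ZMod p) := fun _ => Multiplicative.ofAdd 1
    have h1 := Subgroup.mem_centralizer_iff.mp h (Equiv.permCongrHom e (cycleShift v)) ⟨v, rfl⟩
    have h2 := hc v
    rw [← h1, mul_inv_cancel_right] at h2
    have h3 := congrArg Multiplicative.toAdd
      (congrFun (cycleShift_injective ((Equiv.permCongrHom e).injective h2)) i)
    simp only [v, if_pos hi, toAdd_inv, toAdd_ofAdd] at h3
    have h4 : ((2 : ℕ) : ZMod p) = 0 := by push_cast; linear_combination h3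
    rw [ZMod.natCast_eq_zero_iff] at h4
    exact hp2 ((Nat.prime_dvd_prime_iff_eq hp.out Nat.prime_two).mp h4)

end Cfsg.Agent.Known
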